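import Mathlib

/-!
# Definitions for the class number bounds of `GL_n(q)` (helper40, CALL S2478)

Conjugacy classes of `GL_n(F)` are parametrised by multisets of pairs `(p, e)` (primary
decomposition of `F^n` as an `F[X]`-module); these are counted through sequences of monic
polynomials with nonzero constant term.
-/

set_option autoImplicit false

namespace Cfsg.Agent.Helper40.KGL

open Polynomial
open scoped DirectSum

universe u v

/-- Class data: a multiset of pairs (monic irreducible polynomial with nonzero constant term,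
exponent `≥ 1`) of total degree `n`. -/
def IsDat {F : Type u} [Field F] (n : ℕ) (M : Multiset (F[X] × ℕ)) : Prop :=
  (∀ x ∈ M, Irreducible x.1 ∧ x.1.Monic ∧ x.1.coeff 0 ≠ 0 ∧ 1 ≤ x.2) ∧
    (M.map fun x => x.2 * x.1.natDegree).sum = n

/-- Sequences `G 0, …, G (m-1)` of monic polynomials with nonzero constant term and
`∑ (j+1) · deg (G j) = n`. -/
def IsSeq {F : Type u} [Field F] (m n : ℕ) (G : Fin m → F[X]) : Prop :=
  (∀ j, (G j).Monic ∧ (G j).coeff 0 ≠ 0) ∧ ∑ j : Fin m, (j.val + 1) * (G j).natDegree = n

/-- The number of monic polynomials of degree `k` with nonzero constant term over a field with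
`q` elements. -/
def phi (q k : ℕ) : ℕ := if k = 0 then 1 else q ^ k - q ^ (k - 1)

/-- The number of sequences `IsSeq m n` over a field with `q` elements. -/
def cnt (q : ℕ) : ℕ → ℕ → ℕ
  | 0, n => if n = 0 then 1 else 0
  | m + 1, n => ∑ k ∈ Finset.range (n / (m + 1) + 1), phi q k * cnt q m (n - (m + 1) * k)

/-- Forces Lean to write the on-demand equation lemmas of `cnt` (`cnt.eq_1`, `cnt.eq_2`,
`cnt.eq_def`) in THIS file, so that files citing them do not each hold a copy. -/
theorem cnt_eqns_here (q : ℕ) : cnt q 0 0 = 1 := by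
  have _h1 := @cnt.eq_1
  have _h2 := @cnt.eq_2
  have _h3 := @cnt.eq_def
  simp [cnt]

/-- `φ` has a primary decomposition with data `M`. -/
def HasDecomp {F : Type u} [Field F] {V : Type v} [AddCommGroup V] [Module F V]
    (φ : Module.End F V) (M : Multiset (F[X] × ℕ)) : Prop :=
  ∃ (ι : Type u) (_ : Fintype ι) (p : ι → F[X]) (e : ι → ℕ),
    M = Finset.univ.val.map (fun i => (p i, e i)) ∧
    Nonempty (Module.AEval' φ ≃ₗ[F[X]] ⨁ i, F[X] ⧸ Submodule.span F[X] {p i ^ e i})

/-- The sequence of polynomials attached to class data: `G j = ∏ p` over the pairs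
`(p, j+1)` of `M`. -/
noncomputable def datSeq {F : Type u} [Field F] (n : ℕ) (M : Multiset (F[X] × ℕ)) :
    Fin n → F[X] :=
  fun j => ((M.filter (fun x => x.2 = j.val + 1)).map Prod.fst).prod

end Cfsg.Agent.Helper40.KGL
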