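import Mathlib
import Cfsg.Agent.Helper40.KGLDefs

/-!
# Definitions for the class number bounds of `SL_n(q)` (helper40, CALL S2479)
-/

set_option autoImplicit false

namespace Cfsg.Agent.Helper40.KSL

open Polynomial Cfsg.Agent.Helper40.KGL
open scoped DirectSum

universe u v

/-- The normalised constant term `(-1)^deg g * g(0)` (the determinant of the companion
matrix of a monic `g`). -/
noncomputable def nu {F : Type u} [Field F] (g : F[X]) : F := (-1) ^ g.natDegree * g.coeff 0

/-- The determinant attached to class data. -/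
noncomputable def detDat {F : Type u} [Field F] (M : Multiset (F[X] × ℕ)) : F :=
  (M.map fun x => nu x.1 ^ x.2).prod

/-- `gcd (q - 1, all exponents of the data)`. -/
def gamDat (q : ℕ) {F : Type u} [Field F] (M : Multiset (F[X] × ℕ)) : ℕ :=
  Nat.gcd (q - 1) (M.map Prod.snd).gcd

/-- The determinant attached to a sequence of polynomials. -/
noncomputable def detSeq {F : Type u} [Field F] {n : ℕ} (G : Fin n → F[X]) : F :=
  ∏ j : Fin n, nu (G j) ^ (j.val + 1)

/-- `gcd (q - 1, the j+1 with G j ≠ 1)`. -/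
noncomputable def gamSeq (q : ℕ) {F : Type u} [Field F] {n : ℕ} (G : Fin n → F[X]) : ℕ := by
  classical
  exact Nat.gcd (q - 1) ((Finset.univ.filter fun j : Fin n => G j ≠ 1).gcd fun j => j.val + 1)

/-- Scaling the constant coefficient of a non-constant polynomial by `l`. -/
noncomputable def scl {F : Type u} [Field F] (l : F) (g : F[X]) : F[X] :=
  if g.natDegree = 0 then g else g + C ((l - 1) * g.coeff 0)

/-- The torus action on sequences of polynomials. -/
noncomputable def act {F : Type u} [Field F] {n : ℕ} (l : Fin n → Fˣ) (G : Fin n → F[X]) :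
    Fin n → F[X] :=
  fun j => scl (l j : F) (G j)

/-- Multiplication by `h` on `F[X] / (f)`, as an `F`-linear map. -/
noncomputable def mulQ {F : Type u} [Field F] (f h : F[X]) :
    (F[X] ⧸ Submodule.span F[X] {f}) →ₗ[F] (F[X] ⧸ Submodule.span F[X] {f}) :=
  (LinearMap.lsmul F[X] (F[X] ⧸ Submodule.span F[X] {f}) h).restrictScalars F

/-- The bound `B(n, q) = cnt(n,n) + ∑_{c ∣ gcd(n, q-1), c ≥ 2} (c^2 - 1) cnt(n/c, n/c)` for
`(q - 1) k(SL_n(q))`. -/
def bnd (q n : ℕ) : ℕ :=
  cnt q n n + ∑ c ∈ (Nat.gcd n (q - 1)).divisors.filter (fun c => 2 ≤ c),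
    (c ^ 2 - 1) * cnt q (n / c) (n / c)

end Cfsg.Agent.Helper40.KSL
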