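import Mathlib
import Cfsg.Agent.Helper40.KGLDefs

set_option autoImplicit false

namespace Cfsg.Agent.Helper40.KGL

open Polynomial

universe u

theorem sum_filter_snd {α : Type*} (n : ℕ) (w : α × ℕ → ℕ) (M : Multiset (α × ℕ))
    (hM : ∀ x ∈ M, 1 ≤ x.2 ∧ x.2 ≤ n) :
    ∑ j : Fin n, ((M.filter (fun x => x.2 = j.val + 1)).map w).sum = (M.map w).sum := by
  induction M using Multiset.induction_on with
  | empty => simp
  | cons a M ih =>
    have ha := hM a (Multiset.mem_cons_self a M)
    have hM' : ∀ x ∈ M, 1 ≤ x.2 ∧ x.2 ≤ n := fun x hx => hM x (Multiset.mem_cons_of_mem hx)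
    have key : ∀ j : Fin n, ((Multiset.filter (fun x => x.2 = j.val + 1) (a ::ₘ M)).map w).sum =
        ((M.filter (fun x => x.2 = j.val + 1)).map w).sum + (if a.2 = j.val + 1 then w a else 0) := by
      intro j
      by_cases hj : a.2 = j.val + 1
      · rw [Multiset.filter_cons_of_pos (p := fun x : α × ℕ => x.2 = j.val + 1) M hj, Multiset.map_cons, Multiset.sum_cons, if_pos hj,
          add_comm]
      · rw [Multiset.filter_cons_of_neg (p := fun x : α × ℕ => x.2 = j.val + 1) M hj, if_neg hj, add_zero]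
    rw [Finset.sum_congr rfl (fun j _ => key j), Finset.sum_add_distrib, ih hM',
      Multiset.map_cons, Multiset.sum_cons, add_comm]
    congr 1
    rw [Finset.sum_eq_single (⟨a.2 - 1, by omega⟩ : Fin n)]
    · rw [if_pos (by simp; omega)]
    · intro j _ hj
      rw [if_neg]
      intro h
      apply hj
      apply Fin.ext
      simp only
      omega
    · intro h
      exact absurd (Finset.mem_univ _) h

theorem isDat_snd_le {F : Type u} [Field F] (n : ℕ) (M : Multiset (F[X] × ℕ)) (hM : IsDat n M) :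
    ∀ x ∈ M, 1 ≤ x.2 ∧ x.2 ≤ n := by
  intro x hx
  obtain ⟨hirr, -, -, h1⟩ := hM.1 x hx
  refine ⟨h1, ?_⟩
  have h2 : x.2 * x.1.natDegree ≤ (M.map fun x => x.2 * x.1.natDegree).sum :=
    Multiset.le_sum_of_mem (Multiset.mem_map_of_mem (fun x : F[X] × ℕ => x.2 * x.1.natDegree) hx)
  rw [hM.2] at h2
  have h3 : 0 < x.1.natDegree := Irreducible.natDegree_pos hirr
  calc x.2 = x.2 * 1 := (mul_one _).symm
    _ ≤ x.2 * x.1.natDegree := Nat.mul_le_mul_left _ h3
    _ ≤ n := h2

/-- PIECE P5a -/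
theorem datSeq_isSeq {F : Type u} [Field F] (n : ℕ) (M : Multiset (F[X] × ℕ)) (hM : IsDat n M) :
    IsSeq n n (datSeq n M) := by
  have hmon : ∀ j : Fin n, ∀ f ∈ (M.filter (fun x => x.2 = j.val + 1)).map Prod.fst,
      f.Monic ∧ f.coeff 0 ≠ 0 := by
    intro j f hf
    rw [Multiset.mem_map] at hf
    obtain ⟨x, hx, rfl⟩ := hf
    have hx' := (Multiset.mem_filter.mp hx).1
    exact ⟨(hM.1 x hx').2.1, (hM.1 x hx').2.2.1⟩
  refine ⟨fun j => ⟨?_, ?_⟩, ?_⟩
  · exact Polynomial.monic_multiset_prod_of_monic _ _ (fun x hx =>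
      (hM.1 x (Multiset.mem_filter.mp hx).1).2.1)
  · unfold datSeq
    rw [Polynomial.coeff_zero_multiset_prod]
    apply Multiset.prod_ne_zero
    intro h0
    rw [Multiset.mem_map] at h0
    obtain ⟨f, hf, hf0⟩ := h0
    exact (hmon j f hf).2 hf0
  · have hdeg : ∀ j : Fin n, (j.val + 1) * (datSeq n M j).natDegree =
        ((M.filter (fun x => x.2 = j.val + 1)).map (fun x => x.2 * x.1.natDegree)).sum := by
      intro j
      unfold datSeq
      rw [Polynomial.natDegree_multiset_prod_of_monic _ (fun f hf => (hmon j f hf).1),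
        Multiset.map_map, ← Multiset.sum_map_mul_left]
      congr 1
      apply Multiset.map_congr rfl
      intro x hx
      rw [(Multiset.mem_filter.mp hx).2]
      rfl
    rw [Finset.sum_congr rfl (fun j _ => hdeg j), sum_filter_snd n _ M (isDat_snd_le n M hM)]
    exact hM.2

end Cfsg.Agent.Helper40.KGL
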