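import Mathlib
import Cfsg.Prelude.Def_ParabolicCharacters

set_option autoImplicit false

namespace Cfsg.Agent.Helper40

open MulAction

section PairOrbits

variable {G : Type*} [Group G]

theorem card_fixedBy_prod (X Y : Type*) [MulAction G X] [MulAction G Y] (g : G) :
    Nat.card (fixedBy (X × Y) g) = Nat.card (fixedBy X g) * Nat.card (fixedBy Y g) := by
  rw [← Nat.card_prod]
  apply Nat.card_congr
  refine
    { toFun := fun z => (⟨z.1.1, (Prod.ext_iff.1 z.2).1⟩, ⟨z.1.2, (Prod.ext_iff.1 z.2).2⟩)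
      invFun := fun z => ⟨(z.1.1, z.2.1), Prod.ext z.1.2 z.2.2⟩
      left_inv := fun z => rfl
      right_inv := fun z => rfl }

/-- The number of orbits on pairs of cosets, through a complete double coset invariant. -/
theorem card_orbits_pairs (P Q : Subgroup G) {C : Type*} (c : G → C)
    (hinv : ∀ p ∈ P, ∀ q ∈ Q, ∀ g, c (p * g * q) = c g)
    (hcomp : ∀ g g', c g = c g' → ∃ p ∈ P, ∃ q ∈ Q, g' = p * g * q) :
    Nat.card (Quotient (orbitRel G ((G ⧸ P) × (G ⧸ Q)))) = Nat.card (Set.range c) := by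
  classical
  let Φ : (G ⧸ P) × (G ⧸ Q) → C := fun z => c ((z.1.out)⁻¹ * z.2.out)
  have hΦ : ∀ x y : G, Φ ((x : G ⧸ P), (y : G ⧸ Q)) = c (x⁻¹ * y) := by
    intro x y
    obtain ⟨p, hp⟩ := QuotientGroup.mk_out_eq_mul P x
    obtain ⟨q, hq⟩ := QuotientGroup.mk_out_eq_mul Q y
    change c (((x : G ⧸ P).out)⁻¹ * (y : G ⧸ Q).out) = _
    rw [hp, hq]
    have := hinv (p⁻¹ : P) (p⁻¹).2 q q.2 (x⁻¹ * y)
    rw [← this]
    congr 1
    simp only [mul_inv_rev, Subgroup.coe_inv]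
    group
  have hrel : ∀ z z' : (G ⧸ P) × (G ⧸ Q), (orbitRel G ((G ⧸ P) × (G ⧸ Q))).r z z' ↔ Φ z = Φ z' := by
    rintro ⟨a, b⟩ ⟨a', b'⟩
    induction a using QuotientGroup.induction_on with | _ x => ?_
    induction b using QuotientGroup.induction_on with | _ y => ?_
    induction a' using QuotientGroup.induction_on with | _ x' => ?_
    induction b' using QuotientGroup.induction_on with | _ y' => ?_
    rw [hΦ, hΦ]
    change ((x : G ⧸ P), (y : G ⧸ Q)) ∈ orbit G ((x' : G ⧸ P), (y' : G ⧸ Q)) ↔ _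
    rw [mem_orbit_iff]
    constructor
    · rintro ⟨g, hg⟩
      have h1 : ((g * x' : G) : G ⧸ P) = (x : G ⧸ P) := (Prod.ext_iff.1 hg).1
      have h2 : ((g * y' : G) : G ⧸ Q) = (y : G ⧸ Q) := (Prod.ext_iff.1 hg).2
      rw [QuotientGroup.eq] at h1 h2
      have := hinv _ h1 _ (Q.inv_mem h2) (x⁻¹ * y)
      rw [← this]
      congr 1
      group
    · intro h
      obtain ⟨p, hp, q, hq, hpq⟩ := hcomp _ _ h
      refine ⟨x * p⁻¹ * x'⁻¹, ?_⟩
      apply Prod.ext
      · change ((x * p⁻¹ * x'⁻¹ * x' : G) : G ⧸ P) = (x : G ⧸ P)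
        rw [QuotientGroup.eq]
        have : (x * p⁻¹ * x'⁻¹ * x')⁻¹ * x = p := by group
        rw [this]
        exact hp
      · change ((x * p⁻¹ * x'⁻¹ * y' : G) : G ⧸ Q) = (y : G ⧸ Q)
        rw [QuotientGroup.eq]
        have : (x * p⁻¹ * x'⁻¹ * y')⁻¹ * y = (x'⁻¹ * y')⁻¹ * p * (x⁻¹ * y) := by group
        rw [this, hpq]
        have : (p * (x⁻¹ * y) * q)⁻¹ * p * (x⁻¹ * y) = q⁻¹ := by group
        rw [this]
        exact Q.inv_mem hq
  have hset : orbitRel G ((G ⧸ P) × (G ⧸ Q)) = Setoid.ker Φ := by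
    ext z z'
    rw [Setoid.ker_def]
    exact hrel z z'
  have hrange : Set.range Φ = Set.range c := by
    ext t
    constructor
    · rintro ⟨z, rfl⟩
      exact ⟨_, rfl⟩
    · rintro ⟨g, rfl⟩
      refine ⟨(((1 : G) : G ⧸ P), (g : G ⧸ Q)), ?_⟩
      rw [hΦ]
      simp
  rw [← hrange]
  exact Nat.card_congr ((Quotient.congrRight (fun z z' => by rw [← hset])).trans
    (Setoid.quotientKerEquivRange Φ))

/-- Burnside: the sum of products of two coset fixed point characters. -/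
theorem sum_fixedPointCharacter_mul [Fintype G] (P Q : Subgroup G) {C : Type*} (c : G → C)
    (hinv : ∀ p ∈ P, ∀ q ∈ Q, ∀ g, c (p * g * q) = c g)
    (hcomp : ∀ g g', c g = c g' → ∃ p ∈ P, ∃ q ∈ Q, g' = p * g * q) :
    ∑ g : G, Cfsg.fixedPointCharacter P g * Cfsg.fixedPointCharacter Q g =
      (Nat.card G : ℂ) * (Nat.card (Set.range c) : ℂ) := by
  classical
  let _ : Fintype ((G ⧸ P) × (G ⧸ Q)) := Fintype.ofFinite _
  let _ : Fintype (Quotient (orbitRel G ((G ⧸ P) × (G ⧸ Q)))) := Fintype.ofFinite _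
  let _ : ∀ g : G, Fintype (fixedBy ((G ⧸ P) × (G ⧸ Q)) g) := fun g => Fintype.ofFinite _
  have hB := MulAction.sum_card_fixedBy_eq_card_orbits_mul_card_group G ((G ⧸ P) × (G ⧸ Q))
  simp only [← Nat.card_eq_fintype_card] at hB
  rw [card_orbits_pairs P Q c hinv hcomp] at hB
  have hB' := congrArg (fun k : ℕ => (k : ℂ)) hB
  simp only [Nat.cast_sum, Nat.cast_mul] at hB'
  rw [mul_comm, ← hB']
  apply Finset.sum_congr rfl
  intro g _
  rw [card_fixedBy_prod, Nat.cast_mul]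
  rfl

end PairOrbits

end Cfsg.Agent.Helper40
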