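import Mathlib
import Cfsg.Prelude.Def_LinearParabolics

/-!
# Orders of block triangular (parabolic) subgroups of `GL_n(q)` (helper40)
-/

set_option autoImplicit false

namespace Cfsg.Agent.Helper40

open Matrix Finset

section Count
variable (F : Type*) [Field F] {α : Type*} [LinearOrder α]

/-- The number of invertible block triangular matrices. -/
noncomputable def btCount {ι : Type*} [Fintype ι] [DecidableEq ι] (b : ι → α) : ℕ :=
  Nat.card {M : Matrix ι ι F // M.BlockTriangular b ∧ M.det ≠ 0}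

theorem btCount_reindex {ι κ : Type*} [Fintype ι] [DecidableEq ι] [Fintype κ] [DecidableEq κ]
    (e : κ ≃ ι) (b : ι → α) : btCount F b = btCount F (b ∘ e) := by
  unfold btCount
  apply Nat.card_congr
  refine Equiv.subtypeEquiv (Matrix.reindex e.symm e.symm) ?_
  intro M
  simp only [Matrix.reindex_apply, Equiv.symm_symm, Matrix.det_submatrix_equiv_self]
  refine and_congr ?_ Iff.rfl
  constructor
  · intro h i j hij
    exact h hij
  · intro h i j hij
    have := @h (e.symm i) (e.symm j) (by simpa using hij)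
    simpa using this

theorem btCount_sum {ι₁ ι₂ : Type*} [Fintype ι₁] [DecidableEq ι₁] [Fintype ι₂] [DecidableEq ι₂]
    (b : ι₁ ⊕ ι₂ → α) (h1 : ∀ i j : ι₁, b (Sum.inl i) = b (Sum.inl j))
    (h2 : ∀ (i : ι₁) (j : ι₂), b (Sum.inl i) < b (Sum.inr j)) :
    btCount F b = btCount F (b ∘ Sum.inl) * Nat.card F ^ (Fintype.card ι₁ * Fintype.card ι₂) *
      btCount F (b ∘ Sum.inr) := by
  unfold btCount
  let f : {A : Matrix ι₁ ι₁ F // A.BlockTriangular (b ∘ Sum.inl) ∧ A.det ≠ 0} × Matrix ι₁ ι₂ F ×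
      {D : Matrix ι₂ ι₂ F // D.BlockTriangular (b ∘ Sum.inr) ∧ D.det ≠ 0} →
      {M : Matrix (ι₁ ⊕ ι₂) (ι₁ ⊕ ι₂) F // M.BlockTriangular b ∧ M.det ≠ 0} := fun x =>
    ⟨fromBlocks x.1.1 x.2.1 0 x.2.2.1, by
      constructor
      · intro i j hij
        rcases i with i | i <;> rcases j with j | j
        · exact absurd hij (by rw [h1 j i]; exact lt_irrefl _)
        · exact absurd hij (not_lt.mpr (h2 i j).le)
        · rfl
        · exact x.2.2.2.1 hij
      · rw [Matrix.det_fromBlocks_zero₂₁]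
        exact mul_ne_zero x.1.2.2 x.2.2.2.2⟩
  have hf : Function.Bijective f := by
    constructor
    · rintro ⟨⟨A, hA⟩, B, ⟨D, hD⟩⟩ ⟨⟨A', hA'⟩, B', ⟨D', hD'⟩⟩ h
      have h' := congrArg Subtype.val h
      simp only [f] at h'
      rw [Matrix.fromBlocks_inj] at h'
      obtain ⟨rfl, rfl, -, rfl⟩ := h'
      rfl
    · rintro ⟨M, hM, hdet⟩
      have h21 : M.toBlocks₂₁ = 0 := by
        ext i j
        exact hM (h2 j i)
      have hMeq : M = fromBlocks M.toBlocks₁₁ M.toBlocks₁₂ 0 M.toBlocks₂₂ := by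
        rw [← h21, Matrix.fromBlocks_toBlocks]
      have hdet' : M.toBlocks₁₁.det * M.toBlocks₂₂.det ≠ 0 := by
        rw [← Matrix.det_fromBlocks_zero₂₁ M.toBlocks₁₁ M.toBlocks₁₂ M.toBlocks₂₂, ← hMeq]
        exact hdet
      refine ⟨⟨⟨M.toBlocks₁₁, ?_, left_ne_zero_of_mul hdet'⟩, M.toBlocks₁₂,
        ⟨M.toBlocks₂₂, ?_, right_ne_zero_of_mul hdet'⟩⟩, ?_⟩
      · intro i j hij
        exact hM hij
      · intro i j hij
        exact hM hij
      · apply Subtype.ext
        simp only [f]
        exact hMeq.symm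
  rw [← Nat.card_congr (Equiv.ofBijective f hf), Nat.card_prod, Nat.card_prod]
  have hB : Nat.card (Matrix ι₁ ι₂ F) = Nat.card F ^ (Fintype.card ι₁ * Fintype.card ι₂) := by
    change Nat.card (ι₁ → ι₂ → F) = _
    rw [Nat.card_fun, Nat.card_fun, Nat.card_eq_fintype_card (α := ι₁),
      Nat.card_eq_fintype_card (α := ι₂), ← pow_mul, mul_comm]
  rw [hB, mul_assoc]

theorem btCount_const [Fintype F] {ι : Type*} [Fintype ι] [DecidableEq ι] (b : ι → α)
    (h : ∀ i j, b i = b j) :
    btCount F b = ∏ i : Fin (Fintype.card ι), (Fintype.card F ^ Fintype.card ι - Fintype.card F ^ (i : ℕ)) := by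
  rw [btCount_reindex F (Fintype.equivFin ι).symm b, ← Matrix.card_GL_field]
  unfold btCount
  apply Nat.card_congr
  refine ⟨fun M => Matrix.GeneralLinearGroup.mkOfDetNeZero M.1 M.2.2,
    fun g => ⟨g.val, ?_, Matrix.GeneralLinearGroup.det_ne_zero g⟩, ?_, ?_⟩
  · intro i j hij
    simp only [Function.comp_apply] at hij
    rw [h _ ((Fintype.equivFin ι).symm i)] at hij
    exact absurd hij (lt_irrefl _)
  · intro M
    rfl
  · intro g
    apply Units.ext
    rfl

end Count

section Arith

/-- the q-factorial `[m]!`. -/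
def qfac (q m : ℕ) : ℕ := ∏ j ∈ range m, ∑ l ∈ range (j + 1), q ^ l

/-- `q^(m choose 2) (q-1)^m`. -/
def gfun (q m : ℕ) : ℕ := q ^ (∑ i ∈ range m, i) * (q - 1) ^ m

theorem gfun_add (q m₁ m₂ : ℕ) : gfun q (m₁ + m₂) = gfun q m₁ * q ^ (m₁ * m₂) * gfun q m₂ := by
  unfold gfun
  rw [Finset.sum_range_add, pow_add, pow_add]
  have : ∑ x ∈ range m₂, (m₁ + x) = m₁ * m₂ + ∑ x ∈ range m₂, x := by
    rw [Finset.sum_add_distrib]
    simp [mul_comm]
  rw [this, pow_add]
  ring

theorem geom_pred (q : ℕ) (hq : 1 ≤ q) (k : ℕ) : (q - 1) * ∑ l ∈ range k, q ^ l = q ^ k - 1 := by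
  have h1 : 1 ≤ q ^ k := Nat.one_le_pow _ _ hq
  zify [hq, h1]
  rw [mul_comm]
  exact geom_sum_mul (q : ℤ) k

theorem card_GL_eq (q m : ℕ) (hq : 1 ≤ q) :
    ∏ i : Fin m, (q ^ m - q ^ (i : ℕ)) = gfun q m * qfac q m := by
  rw [Fin.prod_univ_eq_prod_range (fun i => q ^ m - q ^ i) m]
  have h1 : ∀ i ∈ range m, q ^ m - q ^ i = q ^ i * ((q - 1) * ∑ l ∈ range (m - 1 - i + 1), q ^ l) := by
    intro i hi
    have him : i < m := Finset.mem_range.mp hi
    rw [geom_pred q hq, Nat.mul_sub, mul_one, ← pow_add]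
    congr 2
    omega
  rw [Finset.prod_congr rfl h1, Finset.prod_mul_distrib, Finset.prod_pow_eq_pow_sum,
    Finset.prod_mul_distrib, Finset.prod_const, Finset.card_range,
    Finset.prod_range_reflect (fun j => ∑ l ∈ range (j + 1), q ^ l) m]
  unfold gfun qfac
  ring

theorem gfun_pos (q m : ℕ) (hq : 2 ≤ q) : 0 < gfun q m := by
  unfold gfun
  exact Nat.mul_pos (Nat.pow_pos (by omega)) (Nat.pow_pos (by omega))

end Arith

section Main

universe u

theorem btCount_eq (F : Type*) [Field F] [Fintype F] {α : Type*} [LinearOrder α] :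
    ∀ (N : ℕ) {ι : Type u} [Fintype ι] [DecidableEq ι] (b : ι → α) (S : Finset α),
      Fintype.card ι = N → (∀ i, b i ∈ S) →
      btCount F b = gfun (Fintype.card F) N *
        ∏ a ∈ S, qfac (Fintype.card F) (Nat.card {i // b i = a}) := by
  intro N
  induction N using Nat.strong_induction_on with
  | _ N ih =>
  intro ι _ _ b S hN hS
  rcases isEmpty_or_nonempty ι with hι | hι
  · have hN0 : N = 0 := by
      rw [← hN]
      exact Fintype.card_eq_zero
    subst hN0
    have h1 : btCount F b = 1 := by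
      unfold btCount
      rw [Nat.card_eq_one_iff_unique]
      constructor
      · exact ⟨fun a b => Subtype.ext (Matrix.ext fun i => isEmptyElim i)⟩
      · exact ⟨⟨1, Matrix.blockTriangular_one, by simp⟩⟩
    rw [h1]
    simp [gfun, qfac]
  · have hne : (univ.image b).Nonempty := Finset.image_nonempty.mpr Finset.univ_nonempty
    set a₀ := (univ.image b).min' hne with ha₀
    have ha₀mem : a₀ ∈ univ.image b := Finset.min'_mem _ _
    obtain ⟨i₀, -, hi₀⟩ := Finset.mem_image.mp ha₀mem
    have ha₀le : ∀ i, a₀ ≤ b i := fun i =>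
      Finset.min'_le _ _ (Finset.mem_image_of_mem b (Finset.mem_univ i))
    let e := Equiv.sumCompl (fun i => b i = a₀)
    have h1 : ∀ i j : {i // b i = a₀}, (b ∘ e) (Sum.inl i) = (b ∘ e) (Sum.inl j) := by
      intro i j
      change b i.1 = b j.1
      rw [i.2, j.2]
    have h2 : ∀ (i : {i // b i = a₀}) (j : {i // ¬ b i = a₀}), (b ∘ e) (Sum.inl i) < (b ∘ e) (Sum.inr j) := by
      intro i j
      change b i.1 < b j.1
      rw [i.2]
      exact lt_of_le_of_ne (ha₀le j.1) (fun h => j.2 h.symm)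
    have hconst : ∀ i j : {i // b i = a₀}, ((b ∘ e) ∘ Sum.inl) i = ((b ∘ e) ∘ Sum.inl) j := h1
    have hcardsum : Fintype.card {i // b i = a₀} + Fintype.card {i // ¬ b i = a₀} = N := by
      rw [← hN, ← Fintype.card_sum]
      exact Fintype.card_congr e
    have hpos : 0 < Fintype.card {i // b i = a₀} := Fintype.card_pos_iff.mpr ⟨⟨i₀, hi₀⟩⟩
    have hlt : Fintype.card {i // ¬ b i = a₀} < N := by omega
    have hS' : ∀ j : {i // ¬ b i = a₀}, ((b ∘ e) ∘ Sum.inr) j ∈ S := fun j => hS j.1
    rw [btCount_reindex F e b, btCount_sum F (b ∘ e) h1 h2,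
      btCount_const F ((b ∘ e) ∘ Sum.inl) hconst, card_GL_eq _ _ Fintype.card_pos,
      ih (Fintype.card {i // ¬ b i = a₀}) hlt ((b ∘ e) ∘ Sum.inr) S rfl hS']
    have ha₀S : a₀ ∈ S := hi₀ ▸ hS i₀
    rw [← Finset.mul_prod_erase S _ ha₀S, ← Finset.mul_prod_erase S _ ha₀S]
    have hz : Nat.card {j : {i // ¬ b i = a₀} // ((b ∘ e) ∘ Sum.inr) j = a₀} = 0 := by
      rw [Nat.card_eq_zero]
      left
      exact ⟨fun j => j.1.2 j.2⟩
    have hrest : ∀ a ∈ S.erase a₀,
        qfac (Fintype.card F) (Nat.card {j : {i // ¬ b i = a₀} // ((b ∘ e) ∘ Sum.inr) j = a}) =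
          qfac (Fintype.card F) (Nat.card {i // b i = a}) := by
      intro a ha
      have hne' : a ≠ a₀ := Finset.ne_of_mem_erase ha
      congr 1
      apply Nat.card_congr
      exact ⟨fun j => ⟨j.1.1, j.2⟩, fun i => ⟨⟨i.1, fun h => hne' (i.2 ▸ h)⟩, i.2⟩,
        fun j => rfl, fun i => rfl⟩
    rw [hz, Finset.prod_congr rfl hrest, Nat.card_eq_fintype_card (α := {i // b i = a₀}), ← hcardsum,
      gfun_add, Nat.card_eq_fintype_card (α := F)]
    have hq0 : qfac (Fintype.card F) 0 = 1 := by simp [qfac]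
    rw [hq0]
    ring

end Main

section Label
variable {n : ℕ} (μ : Fin n → ℕ)

/-- partial sums `μ 0 + ⋯ + μ (a-1)`. -/
def psum (a : ℕ) : ℕ := ∑ k : Fin n, if k.val < a then μ k else 0

theorem psum_mono : Monotone (psum μ) := by
  intro a a' h
  unfold psum
  apply Finset.sum_le_sum
  intro k _
  by_cases h1 : k.val < a
  · have h2 : k.val < a' := lt_of_lt_of_le h1 h
    simp [h1, h2]
  · simp [h1]

theorem psum_zero : psum μ 0 = 0 := by
  simp [psum]

theorem psum_succ (a : Fin n) : psum μ (a.val + 1) = psum μ a.val + μ a := by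
  unfold psum
  have h : ∀ k : Fin n, (if k.val < a.val + 1 then μ k else 0) =
      (if k.val < a.val then μ k else 0) + (if k = a then μ k else 0) := by
    intro k
    by_cases h1 : k.val < a.val
    · have h2 : k ≠ a := fun h => by rw [h] at h1; exact lt_irrefl _ h1
      have h3 : k.val < a.val + 1 := by omega
      simp [h1, h2, h3]
    · by_cases h2 : k = a
      · subst h2
        simp
      · have h3 : ¬ k.val < a.val + 1 := by
          intro h3
          apply h2
          apply Fin.ext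
          omega
        simp [h1, h2, h3]
  rw [Finset.sum_congr rfl (fun k _ => h k), Finset.sum_add_distrib]
  simp

theorem psum_top : psum μ n = ∑ i, μ i := by
  unfold psum
  apply Finset.sum_congr rfl
  intro k _
  simp [k.2]

theorem filter_downclosed (p : ℕ → Prop) [DecidablePred p] (hp : ∀ j j', j' ≤ j → p j → p j') (m : ℕ) :
    (range m).filter p = range ((range m).filter p).card := by
  induction m with
  | zero => simp
  | succ m ih =>
    by_cases hm : p m
    · have : (range (m + 1)).filter p = range (m + 1) := by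
        apply Finset.filter_true_of_mem
        intro j hj
        exact hp m j (by have := Finset.mem_range.mp hj; omega) hm
      rw [this, Finset.card_range]
    · have : (range (m + 1)).filter p = (range m).filter p := by
        rw [Finset.range_add_one, Finset.filter_insert, if_neg hm]
      rw [this]
      exact ih

theorem compLabel_eq (i : Fin n) :
    Cfsg.compLabel μ i = ((range n).filter (fun j => psum μ (j + 1) ≤ i.val)).card := by
  unfold Cfsg.compLabel
  have h1 : ∀ j : Fin n, (∑ k ∈ Finset.univ.filter (fun k : Fin n => k ≤ j), μ k) = psum μ (j.val + 1) := by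
    intro j
    unfold psum
    rw [Finset.sum_filter]
    apply Finset.sum_congr rfl
    intro k _
    have : k ≤ j ↔ k.val < j.val + 1 := by
      rw [Fin.le_def]
      omega
    simp only [this]
  simp only [h1]
  rw [← Finset.card_map Fin.valEmbedding]
  congr 1
  ext j
  simp only [Finset.mem_map, Finset.mem_filter, Finset.mem_univ, true_and, Fin.valEmbedding_apply,
    Finset.mem_range]
  constructor
  · rintro ⟨k, hk, rfl⟩
    exact ⟨k.2, hk⟩
  · rintro ⟨hj, h⟩
    exact ⟨⟨j, hj⟩, h, rfl⟩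

theorem label_iff (i : Fin n) (j : ℕ) (hj : j < n) :
    psum μ (j + 1) ≤ i.val ↔ j < Cfsg.compLabel μ i := by
  have h := filter_downclosed (fun j => psum μ (j + 1) ≤ i.val)
    (fun j j' hjj h => le_trans (psum_mono μ (by omega)) h) n
  rw [compLabel_eq]
  have h2 : j ∈ (range n).filter (fun j => psum μ (j + 1) ≤ i.val) ↔
      j ∈ range ((range n).filter (fun j => psum μ (j + 1) ≤ i.val)).card := by
    rw [← h]
  simp only [Finset.mem_filter, Finset.mem_range] at h2
  rw [← h2]
  exact ⟨fun h => ⟨hj, h⟩, fun h => h.2⟩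

theorem label_le (i : Fin n) : Cfsg.compLabel μ i ≤ n := by
  rw [compLabel_eq]
  exact le_trans (Finset.card_filter_le _ _) (by rw [Finset.card_range])

theorem label_spec (hμ : ∑ i, μ i = n) (i : Fin n) :
    Cfsg.compLabel μ i < n ∧ psum μ (Cfsg.compLabel μ i) ≤ i.val ∧
      i.val < psum μ (Cfsg.compLabel μ i + 1) := by
  have hle := label_le μ i
  have hlt : Cfsg.compLabel μ i < n := by
    rcases Nat.lt_or_ge (Cfsg.compLabel μ i) n with h | h
    · exact h
    · exfalso
      have hn : 0 < n := Nat.lt_of_le_of_lt (Nat.zero_le _) i.2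
      have h1 := (label_iff μ i (n - 1) (by omega)).mpr (by omega)
      have h2 : n - 1 + 1 = n := by omega
      rw [h2, psum_top, hμ] at h1
      exact absurd i.2 (by omega)
  refine ⟨hlt, ?_, ?_⟩
  · rcases Nat.eq_zero_or_pos (Cfsg.compLabel μ i) with h | h
    · rw [h, psum_zero]
      exact Nat.zero_le _
    · have h1 := (label_iff μ i (Cfsg.compLabel μ i - 1) (by omega)).mpr (by omega)
      have h2 : Cfsg.compLabel μ i - 1 + 1 = Cfsg.compLabel μ i := by omega
      rw [h2] at h1
      exact h1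
  · have h1 := (label_iff μ i (Cfsg.compLabel μ i) hlt).not.mpr (lt_irrefl _)
    omega

theorem label_eq_iff (hμ : ∑ i, μ i = n) (i : Fin n) (a : ℕ) :
    Cfsg.compLabel μ i = a ↔ psum μ a ≤ i.val ∧ i.val < psum μ (a + 1) := by
  obtain ⟨h1, h2, h3⟩ := label_spec μ hμ i
  constructor
  · rintro rfl
    exact ⟨h2, h3⟩
  · rintro ⟨h4, h5⟩
    rcases Nat.lt_trichotomy (Cfsg.compLabel μ i) a with h | h | h
    · have := psum_mono μ (show Cfsg.compLabel μ i + 1 ≤ a by omega)
      omega
    · exact h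
    · have := psum_mono μ (show a + 1 ≤ Cfsg.compLabel μ i by omega)
      omega

theorem card_label_fiber (hμ : ∑ i, μ i = n) (a : Fin n) :
    Nat.card {i : Fin n // Cfsg.compLabel μ i = a.val} = μ a := by
  classical
  rw [Nat.card_eq_fintype_card, Fintype.card_subtype]
  have hle : psum μ (a.val + 1) ≤ n := by
    have := psum_mono μ (show a.val + 1 ≤ n by have := a.2; omega)
    rw [psum_top, hμ] at this
    exact this
  have h1 : (Finset.univ.filter (fun i : Fin n => Cfsg.compLabel μ i = a.val)).map Fin.valEmbedding =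
      Finset.Ico (psum μ a.val) (psum μ (a.val + 1)) := by
    ext j
    simp only [Finset.mem_map, Finset.mem_filter, Finset.mem_univ, true_and, Fin.valEmbedding_apply,
      Finset.mem_Ico]
    constructor
    · rintro ⟨k, hk, rfl⟩
      exact (label_eq_iff μ hμ k a.val).mp hk
    · rintro ⟨h2, h3⟩
      exact ⟨⟨j, by omega⟩, (label_eq_iff μ hμ ⟨j, by omega⟩ a.val).mpr ⟨h2, h3⟩, rfl⟩
  rw [← Finset.card_map Fin.valEmbedding, h1, Nat.card_Ico, psum_succ]
  omega

end Label

section Parabolic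
variable {F : Type*} [Field F] [Fintype F] {n : ℕ}

theorem card_parabolicGL (μ : Fin n → ℕ) (hμ : ∑ i, μ i = n) :
    Nat.card (Cfsg.parabolicGL n F μ) =
      gfun (Fintype.card F) n * ∏ i : Fin n, qfac (Fintype.card F) (μ i) := by
  have h1 : Nat.card (Cfsg.parabolicGL n F μ) = btCount F (Cfsg.compLabel μ) := by
    unfold btCount
    apply Nat.card_congr
    refine ⟨fun g => ⟨g.1.1, g.2, Matrix.GeneralLinearGroup.det_ne_zero g.1⟩,
      fun M => ⟨Matrix.GeneralLinearGroup.mkOfDetNeZero M.1 M.2.2, M.2.1⟩, ?_, ?_⟩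
    · intro g
      apply Subtype.ext
      apply Units.ext
      rfl
    · intro M
      rfl
  rw [h1, btCount_eq F n (Cfsg.compLabel μ) (range n) (Fintype.card_fin n)
    (fun i => Finset.mem_range.mpr (label_spec μ hμ i).1)]
  congr 1
  rw [← Fin.prod_univ_eq_prod_range (fun a => qfac (Fintype.card F) (Nat.card {i // Cfsg.compLabel μ i = a})) n]
  apply Finset.prod_congr rfl
  intro a _
  rw [card_label_fiber μ hμ a]

/-- `[GL_n(q) : P_μ] · ∏ [μ_i]! = [n]!`. -/
theorem index_parabolicGL (μ : Fin n → ℕ) (hμ : ∑ i, μ i = n) :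
    (Cfsg.parabolicGL n F μ).index * ∏ i : Fin n, qfac (Fintype.card F) (μ i) =
      qfac (Fintype.card F) n := by
  have h1 := Subgroup.card_mul_index (Cfsg.parabolicGL n F μ)
  rw [card_parabolicGL μ hμ, Matrix.card_GL_field, card_GL_eq _ _ Fintype.card_pos] at h1
  have hpos := gfun_pos (Fintype.card F) n Fintype.one_lt_card
  have h2 : gfun (Fintype.card F) n * ((Cfsg.parabolicGL n F μ).index * ∏ i : Fin n, qfac (Fintype.card F) (μ i)) =
      gfun (Fintype.card F) n * qfac (Fintype.card F) n := by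
    rw [← h1]
    ring
  exact Nat.eq_of_mul_eq_mul_left hpos h2

end Parabolic

end Cfsg.Agent.Helper40
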