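import Mathlib
import Cfsg.Prelude.Def_LinearParabolics
import Cfsg.Agent.Helper40.Parabolic
import Cfsg.Agent.Helper40.Bruhat
import Cfsg.Agent.Helper40.PairOrbits

set_option autoImplicit false

namespace Cfsg.Agent.Helper40

open scoped MatrixGroups
open Finset

section FlagPairs

variable {n : ℕ}

theorem label_mono (μ : Fin n → ℕ) : Monotone (Cfsg.compLabel μ) := by
  intro i j hij
  rw [compLabel_eq, compLabel_eq]
  apply Finset.card_le_card
  intro k hk
  simp only [Finset.mem_filter] at hk ⊢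
  exact ⟨hk.1, le_trans hk.2 hij⟩

theorem upper_le_parabolic (F : Type*) [Field F] (μ : Fin n → ℕ) :
    Cfsg.upperTriangularGL n F ≤ Cfsg.parabolicGL n F μ := by
  intro g hg i j hij
  apply hg
  by_contra h
  exact absurd (label_mono μ (not_lt.1 h)) (not_le.2 hij)

theorem eq_of_le_of_perm (f : Fin n → ℕ) (α β : Equiv.Perm (Fin n))
    (h : ∀ x, f (α x) ≤ f (β x)) : ∀ x, f (α x) = f (β x) := by
  by_contra hne
  push Not at hne
  obtain ⟨x₀, hx₀⟩ := hne
  have hlt : ∑ x, f (α x) < ∑ x, f (β x) :=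
    Finset.sum_lt_sum (fun x _ => h x) ⟨x₀, mem_univ _, lt_of_le_of_ne (h x₀) hx₀⟩
  rw [Equiv.sum_comp α f, Equiv.sum_comp β f] at hlt
  exact lt_irrefl _ hlt

theorem PmGL_mem_parabolic (F : Type*) [Field F] (μ : Fin n → ℕ) {τ : Equiv.Perm (Fin n)}
    (hτ : τ ∈ Cfsg.youngSubgroup μ) : (PmGL τ : GL (Fin n) F) ∈ Cfsg.parabolicGL n F μ := by
  intro i j hij
  change Pm F τ i j = 0
  rw [Pm_apply, if_neg]
  rintro rfl
  rw [hτ j] at hij
  exact lt_irrefl _ hij

/-- If a parabolic element carries one permutation matrix to another up to another parabolic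
element, the permutations lie in the same double coset of the Young subgroups. -/
theorem young_of_parabolic_eq {F : Type*} [Field F] (μ μ' : Fin n → ℕ) (p q : GL (Fin n) F)
    (hp : p ∈ Cfsg.parabolicGL n F μ) (hq : q ∈ Cfsg.parabolicGL n F μ')
    (w w' : Equiv.Perm (Fin n)) (h : p * PmGL w = PmGL w' * q) :
    ∃ τ ∈ Cfsg.youngSubgroup μ, ∃ σ ∈ Cfsg.youngSubgroup μ', w' = τ * w * σ := by
  classical
  have hE : ∀ i j, (p : Matrix (Fin n) (Fin n) F) i (w j) =
      (q : Matrix (Fin n) (Fin n) F) (w'⁻¹ i) j := by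
    intro i j
    have h1 := congrArg (fun x : GL (Fin n) F => (x : Matrix (Fin n) (Fin n) F) i j) h
    simp only [Units.val_mul, PmGL_coe] at h1
    rw [mul_Pm, Pm_mul] at h1
    exact h1
  have hdet : (p : Matrix (Fin n) (Fin n) F).det ≠ 0 := (Matrix.isUnits_det_units p).ne_zero
  obtain ⟨τ, hτ⟩ : ∃ τ : Equiv.Perm (Fin n), ∀ x, (p : Matrix (Fin n) (Fin n) F) (τ x) x ≠ 0 := by
    by_contra hno
    push Not at hno
    apply hdet
    rw [Matrix.det_apply]
    apply Finset.sum_eq_zero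
    intro τ _
    obtain ⟨x, hx⟩ := hno τ
    have h0 : ∏ i, (p : Matrix (Fin n) (Fin n) F) (τ i) i = 0 :=
      Finset.prod_eq_zero (mem_univ x) hx
    rw [h0, smul_zero]
  have h1 : ∀ x, Cfsg.compLabel μ (τ x) ≤ Cfsg.compLabel μ ((1 : Equiv.Perm (Fin n)) x) := by
    intro x
    by_contra hlt
    exact hτ x (hp (not_le.1 hlt))
  have h1' := eq_of_le_of_perm (Cfsg.compLabel μ) τ 1 h1
  have h2 : ∀ x, Cfsg.compLabel μ' ((w'⁻¹ * τ) x) ≤ Cfsg.compLabel μ' (w⁻¹ x) := by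
    intro x
    by_contra hlt
    have h3 := hq (not_le.1 hlt)
    rw [Equiv.Perm.mul_apply, ← hE] at h3
    simp only [Equiv.Perm.coe_inv, Equiv.apply_symm_apply] at h3
    exact hτ x h3
  have h2' := eq_of_le_of_perm (Cfsg.compLabel μ') (w'⁻¹ * τ) w⁻¹ h2
  refine ⟨τ, fun i => h1' i, (w'⁻¹ * τ * w)⁻¹, ?_, ?_⟩
  · apply (Cfsg.youngSubgroup μ').inv_mem
    intro j
    have h4 := h2' (w j)
    simpa using h4
  · group

/-- The block count matrix of a permutation with respect to two compositions. -/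
def blockCount (μ μ' : Fin n → ℕ) (w : Equiv.Perm (Fin n)) : ℕ × ℕ → ℕ :=
  fun ab => (univ.filter (fun j : Fin n => (Cfsg.compLabel μ (w j), Cfsg.compLabel μ' j) = ab)).card

theorem blockCount_mul (μ μ' : Fin n → ℕ) (τ : Equiv.Perm (Fin n)) (hτ : τ ∈ Cfsg.youngSubgroup μ)
    (σ : Equiv.Perm (Fin n)) (hσ : σ ∈ Cfsg.youngSubgroup μ') (w : Equiv.Perm (Fin n)) :
    blockCount μ μ' (τ * w * σ) = blockCount μ μ' w := by
  funext ab
  unfold blockCount
  apply Finset.card_bij (fun j _ => σ j)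
  · intro j hj
    simp only [mem_filter, mem_univ, true_and] at hj ⊢
    rw [← hj, hσ j]
    simp only [Equiv.Perm.mul_apply]
    rw [hτ (w (σ j))]
  · intro j _ j' _ hjj
    exact σ.injective hjj
  · intro j hj
    refine ⟨σ⁻¹ j, ?_, by simp⟩
    simp only [mem_filter, mem_univ, true_and] at hj ⊢
    rw [← hj]
    simp only [Equiv.Perm.mul_apply, Equiv.Perm.coe_inv, Equiv.apply_symm_apply]
    rw [hτ (w j)]
    have := hσ (σ⁻¹ j)
    simp only [Equiv.Perm.coe_inv, Equiv.apply_symm_apply] at this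
    rw [this]

theorem exists_young_of_blockCount_eq (μ μ' : Fin n → ℕ) (w w' : Equiv.Perm (Fin n))
    (h : blockCount μ μ' w = blockCount μ μ' w') :
    ∃ τ ∈ Cfsg.youngSubgroup μ, ∃ σ ∈ Cfsg.youngSubgroup μ', w' = τ * w * σ := by
  classical
  let f : Fin n → ℕ × ℕ := fun j => (Cfsg.compLabel μ (w j), Cfsg.compLabel μ' j)
  let f' : Fin n → ℕ × ℕ := fun j => (Cfsg.compLabel μ (w' j), Cfsg.compLabel μ' j)
  have hcard : ∀ c, Fintype.card {j // f j = c} = Fintype.card {j // f' j = c} := by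
    intro c
    rw [Fintype.card_subtype, Fintype.card_subtype]
    exact congrFun h c
  let e : ∀ c, {j // f j = c} ≃ {j // f' j = c} := fun c => Fintype.equivOfCardEq (hcard c)
  let σ : Equiv.Perm (Fin n) := Equiv.ofFiberEquiv e
  have hσ : ∀ j, f' (σ j) = f j := Equiv.ofFiberEquiv_map e
  refine ⟨w' * σ * w⁻¹, ?_, σ⁻¹, ?_, ?_⟩
  · intro y
    have h1 := congrArg Prod.fst (hσ (w⁻¹ y))
    simpa [f, f'] using h1
  · apply (Cfsg.youngSubgroup μ').inv_mem
    intro j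
    exact congrArg Prod.snd (hσ j)
  · group

/-- Inner product of two flag permutation characters of `GL_n` (times the group order). -/
theorem sum_parabolic_fpc {F : Type*} [Field F] [Fintype (GL (Fin n) F)] (μ μ' : Fin n → ℕ) :
    ∑ g : GL (Fin n) F, Cfsg.fixedPointCharacter (Cfsg.parabolicGL n F μ) g *
        Cfsg.fixedPointCharacter (Cfsg.parabolicGL n F μ') g =
      (Nat.card (GL (Fin n) F) : ℂ) * (Nat.card (Set.range (blockCount μ μ')) : ℂ) := by
  classical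
  have hB : ∀ g : GL (Fin n) F, ∃ w : Equiv.Perm (Fin n), ∃ b₁ ∈ Cfsg.upperTriangularGL n F,
      ∃ b₂ ∈ Cfsg.upperTriangularGL n F, g = b₁ * PmGL w * b₂ := by
    intro g
    obtain ⟨b₁, h₁, b₂, h₂, w, h⟩ := bruhat_GL g
    exact ⟨w, b₁, h₁, b₂, h₂, h⟩
  choose wf b₁ hb₁ b₂ hb₂ hg using hB
  have hBP := upper_le_parabolic F μ
  have hBQ := upper_le_parabolic F μ'
  have key : ∀ (p p' q q' : GL (Fin n) F) (w w' : Equiv.Perm (Fin n)),
      p ∈ Cfsg.parabolicGL n F μ → p' ∈ Cfsg.parabolicGL n F μ →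
      q ∈ Cfsg.parabolicGL n F μ' → q' ∈ Cfsg.parabolicGL n F μ' →
      p * PmGL w * q = p' * PmGL w' * q' → blockCount μ μ' w' = blockCount μ μ' w := by
    intro p p' q q' w w' hp hp' hq hq' h
    have h' : (p'⁻¹ * p) * PmGL w = PmGL w' * (q' * q⁻¹) := by
      have h1 : p'⁻¹ * (p * PmGL w * q) * q⁻¹ = p'⁻¹ * (p' * PmGL w' * q') * q⁻¹ := by rw [h]
      calc (p'⁻¹ * p) * PmGL w = p'⁻¹ * (p * PmGL w * q) * q⁻¹ := by group
        _ = p'⁻¹ * (p' * PmGL w' * q') * q⁻¹ := h1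
        _ = PmGL w' * (q' * q⁻¹) := by group
    obtain ⟨τ, hτ, σ, hσ, hw⟩ := young_of_parabolic_eq μ μ' _ _
      (mul_mem (inv_mem hp') hp) (mul_mem hq' (inv_mem hq)) w w' h'
    rw [hw, blockCount_mul μ μ' τ hτ σ hσ]
  have hrange : Set.range (fun g : GL (Fin n) F => blockCount μ μ' (wf g)) =
      Set.range (blockCount μ μ') := by
    ext t
    constructor
    · rintro ⟨g, rfl⟩
      exact ⟨wf g, rfl⟩
    · rintro ⟨w, rfl⟩
      refine ⟨PmGL w, ?_⟩
      refine key 1 (b₁ (PmGL w)) 1 (b₂ (PmGL w)) w (wf (PmGL w)) (one_mem _) (hBP (hb₁ _))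
        (one_mem _) (hBQ (hb₂ _)) ?_
      rw [← hg (PmGL w)]
      group
  rw [← hrange]
  apply sum_fixedPointCharacter_mul
  · intro p hp q hq g
    refine key (p * b₁ g) (b₁ (p * g * q)) (b₂ g * q) (b₂ (p * g * q)) (wf g) (wf (p * g * q))
      (mul_mem hp (hBP (hb₁ _))) (hBP (hb₁ _)) (mul_mem (hBQ (hb₂ _)) hq) (hBQ (hb₂ _)) ?_
    calc p * b₁ g * PmGL (wf g) * (b₂ g * q) = p * (b₁ g * PmGL (wf g) * b₂ g) * q := by group
      _ = p * g * q := by rw [← hg g]
      _ = _ := hg (p * g * q)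
  · intro g g' h
    obtain ⟨τ, hτ, σ, hσ, hw⟩ := exists_young_of_blockCount_eq μ μ' _ _ h
    refine ⟨b₁ g' * PmGL τ * (b₁ g)⁻¹, ?_, (b₂ g)⁻¹ * PmGL σ * b₂ g', ?_, ?_⟩
    · exact mul_mem (mul_mem (hBP (hb₁ _)) (PmGL_mem_parabolic F μ hτ)) (inv_mem (hBP (hb₁ _)))
    · exact mul_mem (mul_mem (inv_mem (hBQ (hb₂ _))) (PmGL_mem_parabolic F μ' hσ)) (hBQ (hb₂ _))
    · have hX : (PmGL (wf g) : GL (Fin n) F) = (b₁ g)⁻¹ * g * (b₂ g)⁻¹ := by
        have h1 := hg g
        calc (PmGL (wf g) : GL (Fin n) F)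
            = (b₁ g)⁻¹ * (b₁ g * PmGL (wf g) * b₂ g) * (b₂ g)⁻¹ := by group
          _ = _ := by rw [← h1]
      calc g' = b₁ g' * PmGL (wf g') * b₂ g' := hg g'
        _ = b₁ g' * (PmGL τ * PmGL (wf g) * PmGL σ) * b₂ g' := by rw [hw, map_mul, map_mul]
        _ = b₁ g' * (PmGL τ * ((b₁ g)⁻¹ * g * (b₂ g)⁻¹) * PmGL σ) * b₂ g' := by rw [hX]
        _ = _ := by group

/-- Inner product of two Young permutation characters of the symmetric group (times `n!`). -/
theorem sum_young_fpc (μ μ' : Fin n → ℕ) :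
    ∑ σ : Equiv.Perm (Fin n), Cfsg.fixedPointCharacter (Cfsg.youngSubgroup μ) σ *
        Cfsg.fixedPointCharacter (Cfsg.youngSubgroup μ') σ =
      (Nat.card (Equiv.Perm (Fin n)) : ℂ) * (Nat.card (Set.range (blockCount μ μ')) : ℂ) := by
  apply sum_fixedPointCharacter_mul
  · intro p hp q hq g
    exact blockCount_mul μ μ' p hp q hq g
  · intro g g' h
    exact exists_young_of_blockCount_eq μ μ' g g' h

end FlagPairs

end Cfsg.Agent.Helper40
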