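import Mathlib

set_option autoImplicit false

namespace Cfsg.Agent.Helper40

open Finset

section JT

variable (n : ℕ)

/-- The complete homogeneous symmetric polynomial of degree `a` in `n` variables. -/
noncomputable def hpoly (a : ℕ) : MvPolynomial (Fin n) ℤ :=
  ∑ l ∈ finsuppAntidiag (univ : Finset (Fin n)) a, MvPolynomial.monomial l 1

lemma hpoly_zero : hpoly n 0 = 1 := by
  simp [hpoly]

/-- The geometric series in `y_i t`. -/
noncomputable def geomSer (i : Fin n) : PowerSeries (MvPolynomial (Fin n) ℤ) :=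
  PowerSeries.mk (fun k => (MvPolynomial.X i) ^ k)

lemma geomSer_mul (i : Fin n) :
    geomSer n i * (1 - PowerSeries.C (MvPolynomial.X i) * PowerSeries.X) = 1 := by
  refine PowerSeries.ext fun k => ?_
  rw [mul_sub, mul_one, map_sub]
  cases k with
  | zero => simp [geomSer]
  | succ k =>
    rw [← mul_assoc, PowerSeries.coeff_succ_mul_X, PowerSeries.coeff_mul_C]
    simp [geomSer, pow_succ]

lemma prod_geomSer : ∏ i, geomSer n i = PowerSeries.mk (hpoly n) := by
  refine PowerSeries.ext fun a => ?_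
  rw [PowerSeries.coeff_prod, PowerSeries.coeff_mk, hpoly]
  apply Finset.sum_congr rfl
  intro l _
  simp only [geomSer, PowerSeries.coeff_mk]
  rw [MvPolynomial.monomial_eq, map_one, one_mul, Finsupp.prod_fintype]
  intro i
  simp

/-- The polynomial `∏_{i ≠ j} (1 - y_i t)`. -/
noncomputable def qpoly (j : Fin n) : Polynomial (MvPolynomial (Fin n) ℤ) :=
  ∏ i ∈ univ.erase j, (1 - Polynomial.C (MvPolynomial.X i) * Polynomial.X)

lemma qpoly_coeff_eq_zero (j : Fin n) (k : ℕ) (hk : n ≤ k) : (qpoly n j).coeff k = 0 := by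
  apply Polynomial.coeff_eq_zero_of_natDegree_lt
  have h1 : ∀ i : Fin n, (1 - Polynomial.C (MvPolynomial.X i) * Polynomial.X :
      Polynomial (MvPolynomial (Fin n) ℤ)).natDegree ≤ 1 := by
    intro i
    refine (Polynomial.natDegree_sub_le _ _).trans (max_le (by simp) ?_)
    exact (Polynomial.natDegree_C_mul_le _ _).trans Polynomial.natDegree_X_le
  calc (qpoly n j).natDegree
      ≤ ∑ i ∈ univ.erase j, (1 - Polynomial.C (MvPolynomial.X i) * Polynomial.X :
          Polynomial (MvPolynomial (Fin n) ℤ)).natDegree := Polynomial.natDegree_prod_le _ _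
    _ ≤ ∑ i ∈ univ.erase j, 1 := Finset.sum_le_sum (fun i _ => h1 i)
    _ = (univ.erase j).card := by simp
    _ < n := by
      rw [Finset.card_erase_of_mem (mem_univ j), Finset.card_univ, Fintype.card_fin]
      have := j.pos
      omega
    _ ≤ k := hk

lemma sum_qpoly_hpoly (j : Fin n) (a : ℕ) :
    ∑ p ∈ antidiagonal a, (qpoly n j).coeff p.1 * hpoly n p.2 = (MvPolynomial.X j) ^ a := by
  have h2 : ((qpoly n j : Polynomial (MvPolynomial (Fin n) ℤ)) :
        PowerSeries (MvPolynomial (Fin n) ℤ)) *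
      (1 - PowerSeries.C (MvPolynomial.X j) * PowerSeries.X) =
      ∏ i, (1 - PowerSeries.C (MvPolynomial.X i) * PowerSeries.X) := by
    rw [← Finset.prod_erase_mul _ _ (mem_univ j)]
    congr 1
    change Polynomial.coeToPowerSeries.ringHom (qpoly n j) = _
    rw [qpoly, map_prod]
    apply Finset.prod_congr rfl
    intro i _
    simp [Polynomial.coeToPowerSeries.ringHom]
  have h1 : (PowerSeries.mk (hpoly n)) * ((qpoly n j : Polynomial (MvPolynomial (Fin n) ℤ)) :
        PowerSeries (MvPolynomial (Fin n) ℤ)) *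
      (1 - PowerSeries.C (MvPolynomial.X j) * PowerSeries.X) = 1 := by
    rw [mul_assoc, h2, ← prod_geomSer, ← Finset.prod_mul_distrib]
    exact Finset.prod_eq_one (fun i _ => geomSer_mul n i)
  have h3 : (PowerSeries.mk (hpoly n)) * ((qpoly n j : Polynomial (MvPolynomial (Fin n) ℤ)) :
        PowerSeries (MvPolynomial (Fin n) ℤ)) = geomSer n j := by
    have h4 := geomSer_mul n j
    calc (PowerSeries.mk (hpoly n)) * ((qpoly n j : Polynomial (MvPolynomial (Fin n) ℤ)) :
          PowerSeries (MvPolynomial (Fin n) ℤ))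
        = (PowerSeries.mk (hpoly n)) * ((qpoly n j : Polynomial (MvPolynomial (Fin n) ℤ)) :
          PowerSeries (MvPolynomial (Fin n) ℤ)) *
          (geomSer n j * (1 - PowerSeries.C (MvPolynomial.X j) * PowerSeries.X)) := by
          rw [h4, mul_one]
      _ = ((PowerSeries.mk (hpoly n)) * ((qpoly n j : Polynomial (MvPolynomial (Fin n) ℤ)) :
          PowerSeries (MvPolynomial (Fin n) ℤ)) *
          (1 - PowerSeries.C (MvPolynomial.X j) * PowerSeries.X)) * geomSer n j := by ring
      _ = geomSer n j := by rw [h1, one_mul]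
  have h5 := congrArg (PowerSeries.coeff a) h3
  rw [mul_comm, PowerSeries.coeff_mul] at h5
  simp only [Polynomial.coeff_coe, PowerSeries.coeff_mk, geomSer] at h5
  exact h5

/-- The Jacobi–Trudi matrix `(h_{λ_i - k})`. -/
noncomputable def hMat (lam : Fin n → ℕ) : Matrix (Fin n) (Fin n) (MvPolynomial (Fin n) ℤ) :=
  Matrix.of fun i k => if (k : ℕ) ≤ lam i then hpoly n (lam i - k) else 0

/-- The matrix of coefficients of the `qpoly`. -/
noncomputable def eMat : Matrix (Fin n) (Fin n) (MvPolynomial (Fin n) ℤ) :=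
  Matrix.of fun k j => (qpoly n j).coeff k

/-- The alternant matrix `(y_j ^ λ_i)`. -/
noncomputable def aMat (lam : Fin n → ℕ) : Matrix (Fin n) (Fin n) (MvPolynomial (Fin n) ℤ) :=
  Matrix.of fun i j => (MvPolynomial.X j) ^ (lam i)

lemma hMat_mul_eMat (lam : Fin n → ℕ) : hMat n lam * eMat n = aMat n lam := by
  refine Matrix.ext fun i j => ?_
  rw [Matrix.mul_apply]
  simp only [hMat, eMat, aMat, Matrix.of_apply]
  rw [← sum_qpoly_hpoly n j (lam i), Finset.Nat.sum_antidiagonal_eq_sum_range_succ_mk,
    Fin.sum_univ_eq_sum_range (fun k => (if k ≤ lam i then hpoly n (lam i - k) else 0) *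
      (qpoly n j).coeff k) n]
  have e1 : ∑ k ∈ range n, (if k ≤ lam i then hpoly n (lam i - k) else 0) * (qpoly n j).coeff k =
      ∑ k ∈ (range n).filter (fun k => k ≤ lam i), (qpoly n j).coeff k * hpoly n (lam i - k) := by
    rw [Finset.sum_filter]
    apply Finset.sum_congr rfl
    intro k _
    split_ifs
    · rw [mul_comm]
    · rw [zero_mul]
  have e2 : ∑ k ∈ range (lam i + 1), (qpoly n j).coeff k * hpoly n (lam i - k) =
      ∑ k ∈ (range (lam i + 1)).filter (fun k => k < n),
        (qpoly n j).coeff k * hpoly n (lam i - k) := by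
    rw [Finset.sum_filter]
    apply Finset.sum_congr rfl
    intro k _
    split_ifs with hk
    · rfl
    · rw [qpoly_coeff_eq_zero n j k (not_lt.1 hk), zero_mul]
  rw [e1, e2]
  apply Finset.sum_congr _ (fun _ _ => rfl)
  ext k
  simp only [mem_filter, mem_range]
  omega

lemma det_hMat_id : (hMat n (fun i => (i : ℕ))).det = 1 := by
  rw [Matrix.det_of_isLowerTriangular]
  · simp [hMat, hpoly_zero]
  · intro i k hik
    have hik' : i < k := hik
    simp only [hMat, Matrix.of_apply]
    rw [if_neg]
    exact not_le.2 hik'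

/-- The bialternant formula. -/
theorem bialternant (lam : Fin n → ℕ) :
    (hMat n lam).det * (aMat n (fun i => (i : ℕ))).det = (aMat n lam).det := by
  have h1 : (eMat n).det = (aMat n (fun i => (i : ℕ))).det := by
    have h2 := congrArg Matrix.det (hMat_mul_eMat n (fun i => (i : ℕ)))
    rw [Matrix.det_mul, det_hMat_id, one_mul] at h2
    exact h2
  rw [← h1, ← Matrix.det_mul, hMat_mul_eMat]

lemma det_hMat (lam : Fin n → ℕ) :
    (hMat n lam).det = ∑ κ : Equiv.Perm (Fin n),
      if ∀ i, ((κ i : Fin n) : ℕ) ≤ lam i then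
        ((Equiv.Perm.sign κ : ℤ) : MvPolynomial (Fin n) ℤ) * ∏ i, hpoly n (lam i - (κ i : ℕ))
      else 0 := by
  rw [← Matrix.det_transpose, Matrix.det_apply']
  apply Finset.sum_congr rfl
  intro κ _
  simp only [Matrix.transpose_apply, hMat, Matrix.of_apply]
  split_ifs with h
  · congr 1
    apply Finset.prod_congr rfl
    intro i _
    rw [if_pos (h i)]
  · push Not at h
    obtain ⟨i, hi⟩ := h
    rw [Finset.prod_eq_zero (mem_univ i) (by rw [if_neg (not_le.2 hi)]), mul_zero]

lemma det_aMat (lam : Fin n → ℕ) :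
    (aMat n lam).det = ∑ σ : Equiv.Perm (Fin n),
      ((Equiv.Perm.sign σ : ℤ) : MvPolynomial (Fin n) ℤ) *
        MvPolynomial.monomial (Finsupp.equivFunOnFinite.symm (fun j => lam (σ j))) 1 := by
  rw [Matrix.det_apply']
  apply Finset.sum_congr rfl
  intro σ _
  congr 1
  simp only [aMat, Matrix.of_apply]
  rw [MvPolynomial.monomial_eq, map_one, one_mul, Finsupp.prod_fintype]
  · simp
  · intro i
    simp

/-- The number of contingency tables, as a coefficient of a product of `hpoly`. -/
noncomputable def ctCount (α β : Fin n → ℕ) : ℤ :=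
  MvPolynomial.coeff (Finsupp.equivFunOnFinite.symm β) (∏ i, hpoly n (α i))

lemma ctCount_eq_card (α β : Fin n → ℕ) :
    ctCount n α β = (((Fintype.piFinset (fun i => finsuppAntidiag (univ : Finset (Fin n)) (α i))).filter
      (fun g => ∑ i, g i = Finsupp.equivFunOnFinite.symm β)).card : ℤ) := by
  classical
  unfold ctCount hpoly
  rw [Finset.prod_univ_sum, MvPolynomial.coeff_sum]
  rw [Finset.card_filter, Nat.cast_sum]
  apply Finset.sum_congr rfl
  intro g _
  rw [← MvPolynomial.monomial_sum_one, MvPolynomial.coeff_monomial]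
  split_ifs <;> simp

lemma ctCount_ne_zero (α β : Fin n → ℕ) (h : ctCount n α β ≠ 0) : ∑ j, β j = ∑ i, α i := by
  classical
  rw [ctCount_eq_card] at h
  have h1 : ((Fintype.piFinset (fun i => finsuppAntidiag (univ : Finset (Fin n)) (α i))).filter
      (fun g => ∑ i, g i = Finsupp.equivFunOnFinite.symm β)).Nonempty := by
    rw [Finset.nonempty_iff_ne_empty]
    intro h0
    rw [h0] at h
    simp at h
  obtain ⟨g, hg⟩ := h1
  rw [Finset.mem_filter, Fintype.mem_piFinset] at hg
  obtain ⟨hg1, hg2⟩ := hg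
  have h3 : ∀ j, β j = ∑ i, g i j := by
    intro j
    have := congrArg (fun f : Fin n →₀ ℕ => f j) hg2
    simp only [Finsupp.coe_finsetSum, Finset.sum_apply, Finsupp.equivFunOnFinite_symm_apply_apply] at this
    exact this.symm
  have h4 : ∀ i, ∑ j, g i j = α i := by
    intro i
    exact (mem_finsuppAntidiag.1 (hg1 i)).1
  calc ∑ j, β j = ∑ j, ∑ i, g i j := Finset.sum_congr rfl (fun j _ => h3 j)
    _ = ∑ i, ∑ j, g i j := Finset.sum_comm
    _ = ∑ i, α i := Finset.sum_congr rfl (fun i _ => h4 i)

lemma coeff_det_aMat_mul (β : Fin n → ℕ) (P : MvPolynomial (Fin n) ℤ) :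
    MvPolynomial.coeff (Finsupp.equivFunOnFinite.symm β) ((aMat n (fun i => (i : ℕ))).det * P) =
      ∑ σ : Equiv.Perm (Fin n), if ∀ j, ((σ j : Fin n) : ℕ) ≤ β j then
        (Equiv.Perm.sign σ : ℤ) * MvPolynomial.coeff
          (Finsupp.equivFunOnFinite.symm (fun j => β j - (σ j : ℕ))) P else 0 := by
  classical
  rw [det_aMat, Finset.sum_mul, MvPolynomial.coeff_sum]
  apply Finset.sum_congr rfl
  intro σ _
  rw [← eq_intCast MvPolynomial.C, mul_assoc, MvPolynomial.coeff_C_mul,
    MvPolynomial.coeff_monomial_mul']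
  have hle : (Finsupp.equivFunOnFinite.symm (fun j => ((σ j : Fin n) : ℕ)) ≤
      Finsupp.equivFunOnFinite.symm β) ↔ ∀ j, ((σ j : Fin n) : ℕ) ≤ β j := by
    rw [Finsupp.le_def]
    simp
  by_cases hc : ∀ j, ((σ j : Fin n) : ℕ) ≤ β j
  · rw [if_pos hc, if_pos (hle.2 hc), one_mul]
    congr 2
    ext j
    simp
  · rw [if_neg hc, if_neg (fun h => hc (hle.1 h)), mul_zero]

lemma coeff_det_hMat (lam : Fin n → ℕ) (m : Fin n →₀ ℕ) :
    MvPolynomial.coeff m (hMat n lam).det = ∑ κ : Equiv.Perm (Fin n),
      if ∀ i, ((κ i : Fin n) : ℕ) ≤ lam i then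
        (Equiv.Perm.sign κ : ℤ) * MvPolynomial.coeff m (∏ i, hpoly n (lam i - (κ i : ℕ)))
      else 0 := by
  rw [det_hMat, MvPolynomial.coeff_sum]
  apply Finset.sum_congr rfl
  intro κ _
  split_ifs
  · rw [← eq_intCast MvPolynomial.C, MvPolynomial.coeff_C_mul]
  · simp

lemma coeff_det_aMat (lam lam' : Fin n → ℕ) (h : StrictMono lam) (h' : StrictMono lam') :
    MvPolynomial.coeff (Finsupp.equivFunOnFinite.symm lam') (aMat n lam).det =
      if lam = lam' then 1 else 0 := by
  classical
  rw [det_aMat, MvPolynomial.coeff_sum]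
  have key : ∀ σ : Equiv.Perm (Fin n),
      MvPolynomial.coeff (Finsupp.equivFunOnFinite.symm lam')
        (((Equiv.Perm.sign σ : ℤ) : MvPolynomial (Fin n) ℤ) *
          MvPolynomial.monomial (Finsupp.equivFunOnFinite.symm (fun j => lam (σ j))) 1) =
      if σ = 1 then (if lam = lam' then (1 : ℤ) else 0) else 0 := by
    intro σ
    rw [← eq_intCast MvPolynomial.C, MvPolynomial.coeff_C_mul, MvPolynomial.coeff_monomial]
    by_cases hσ : σ = 1
    · subst hσ
      by_cases hl : lam = lam'
      · subst hl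
        simp
      · rw [if_pos rfl, if_neg hl]
        have hne : ¬ (Finsupp.equivFunOnFinite.symm
            (fun j => lam ((1 : Equiv.Perm (Fin n)) j)) = Finsupp.equivFunOnFinite.symm lam') :=
          fun h0 => hl (Finsupp.equivFunOnFinite.symm.injective h0)
        rw [if_neg hne, mul_zero]
    · rw [if_neg hσ, if_neg, mul_zero]
      intro h0
      have h1 : (fun j => lam (σ j)) = lam' := Finsupp.equivFunOnFinite.symm.injective h0
      have hmono : StrictMono (σ : Fin n → Fin n) := by
        intro a b hab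
        have h2 : lam (σ a) < lam (σ b) := by
          have := h' hab
          rw [← h1] at this
          exact this
        exact h.lt_iff_lt.1 h2
      have h3 : (σ : Fin n → Fin n) = id := by
        apply (StrictMono.range_inj hmono strictMono_id).1
        rw [Set.range_id]
        exact σ.surjective.range_eq
      apply hσ
      ext x
      rw [h3]
      rfl
  rw [Finset.sum_congr rfl (fun σ _ => key σ)]
  simp

/-- Orthogonality of the Jacobi–Trudi alternating sums. -/
theorem jt_orthogonality (lam lam' : Fin n → ℕ) (h : StrictMono lam) (h' : StrictMono lam') :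
    (∑ σ : Equiv.Perm (Fin n), if ∀ j, ((σ j : Fin n) : ℕ) ≤ lam' j then
        (Equiv.Perm.sign σ : ℤ) * ∑ κ : Equiv.Perm (Fin n),
          (if ∀ i, ((κ i : Fin n) : ℕ) ≤ lam i then
            (Equiv.Perm.sign κ : ℤ) *
              ctCount n (fun i => lam i - (κ i : ℕ)) (fun j => lam' j - (σ j : ℕ))
          else 0) else 0) = if lam = lam' then 1 else 0 := by
  rw [← coeff_det_aMat n lam lam' h h', ← bialternant, mul_comm, coeff_det_aMat_mul]
  apply Finset.sum_congr rfl
  intro σ _
  split_ifs
  · rw [coeff_det_hMat]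
    rfl
  · rfl

/-- Some coefficient of the Jacobi–Trudi determinant is positive. -/
theorem jt_positive (lam : Fin n → ℕ) (h : StrictMono lam) :
    ∃ β : Fin n → ℕ, 0 < ∑ κ : Equiv.Perm (Fin n),
      (if ∀ i, ((κ i : Fin n) : ℕ) ≤ lam i then
        (Equiv.Perm.sign κ : ℤ) * ctCount n (fun i => lam i - (κ i : ℕ)) β else 0) := by
  classical
  let ev : MvPolynomial (Fin n) ℤ →+* ℤ := MvPolynomial.eval (fun j : Fin n => (2 : ℤ) ^ (j : ℕ))
  have hvand : ∀ l : Fin n → ℕ, StrictMono l → 0 < ev (aMat n l).det := by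
    intro l hl
    rw [RingHom.map_det]
    have h1 : ev.mapMatrix (aMat n l) = Matrix.vandermonde (fun i => (2 : ℤ) ^ (l i)) := by
      ext i j
      simp only [RingHom.mapMatrix_apply, Matrix.map_apply, aMat, Matrix.of_apply,
        Matrix.vandermonde_apply, ev, map_pow, MvPolynomial.eval_X]
      rw [← pow_mul, ← pow_mul, mul_comm]
    rw [h1, Matrix.det_vandermonde]
    apply Finset.prod_pos
    intro i _
    apply Finset.prod_pos
    intro j hj
    rw [Finset.mem_Ioi] at hj
    have : (2 : ℤ) ^ (l i) < 2 ^ (l j) := pow_lt_pow_right₀ (by norm_num) (hl hj)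
    linarith
  have h1 := hvand lam h
  have h2 := hvand (fun i => (i : ℕ)) (fun a b hab => hab)
  rw [← bialternant, map_mul] at h1
  have h3 : 0 < ev (hMat n lam).det := (mul_pos_iff_of_pos_right h2).1 h1
  have h4 : ∃ d : Fin n →₀ ℕ, 0 < MvPolynomial.coeff d (hMat n lam).det := by
    by_contra hno
    push Not at hno
    have h5 : ev (hMat n lam).det ≤ 0 := by
      change MvPolynomial.eval _ _ ≤ 0
      rw [MvPolynomial.eval_eq']
      apply Finset.sum_nonpos
      intro d _
      apply mul_nonpos_of_nonpos_of_nonneg (hno d)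
      apply Finset.prod_nonneg
      intro i _
      positivity
    linarith
  obtain ⟨d, hd⟩ := h4
  refine ⟨fun j => d j, ?_⟩
  rw [coeff_det_hMat] at hd
  have e : Finsupp.equivFunOnFinite.symm (fun j => d j) = d := by
    ext j
    simp
  simp only [ctCount, e]
  exact hd

end JT

end Cfsg.Agent.Helper40
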