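import Mathlib
import Cfsg.Agent.Helper40.FlagPairs
import Cfsg.Agent.Helper40.JacobiTrudi

set_option autoImplicit false

namespace Cfsg.Agent.Helper40

open Finset

section Contingency

variable {n : ℕ}

theorem exists_fun_card_fiber {K : Type*} [Fintype K] [DecidableEq K] (m : K → ℕ)
    (hm : ∑ k, m k = n) :
    ∃ φ : Fin n → K, ∀ k, (univ.filter (fun x => φ x = k)).card = m k := by
  have hcard : Fintype.card (Σ k : K, Fin (m k)) = n := by
    rw [Fintype.card_sigma]
    simpa using hm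
  let e : Fin n ≃ (Σ k : K, Fin (m k)) := (Fintype.equivFinOfCardEq hcard).symm
  refine ⟨fun x => (e x).1, fun k => ?_⟩
  rw [← Fintype.card_subtype]
  have e2 : {x : Fin n // (e x).1 = k} ≃ Fin (m k) :=
    (e.subtypeEquiv (p := fun x => (e x).1 = k) (q := fun t => t.1 = k)
      (fun x => Iff.rfl)).trans (Equiv.sigmaSubtype k)
  rw [Fintype.card_congr e2, Fintype.card_fin]

theorem exists_perm_of_card_fiber_eq {K : Type*} [DecidableEq K] (f f' : Fin n → K)
    (h : ∀ k, (univ.filter (fun x => f x = k)).card = (univ.filter (fun x => f' x = k)).card) :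
    ∃ σ : Equiv.Perm (Fin n), ∀ x, f' (σ x) = f x := by
  have hcard : ∀ c, Fintype.card {j // f j = c} = Fintype.card {j // f' j = c} := by
    intro c
    rw [Fintype.card_subtype, Fintype.card_subtype]
    exact h c
  exact ⟨Equiv.ofFiberEquiv (fun c => Fintype.equivOfCardEq (hcard c)),
    Equiv.ofFiberEquiv_map _⟩

theorem card_filter_label (μ : Fin n → ℕ) (hμ : ∑ i, μ i = n) (a : Fin n) :
    (univ.filter (fun x : Fin n => Cfsg.compLabel μ x = a.val)).card = μ a := by
  rw [← card_label_fiber μ hμ a, Nat.card_eq_fintype_card, Fintype.card_subtype]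

theorem label_lt (μ : Fin n → ℕ) (hμ : ∑ i, μ i = n) (x : Fin n) : Cfsg.compLabel μ x < n :=
  (label_spec μ hμ x).1

/-- The label as an element of `Fin n`. -/
def labFin (μ : Fin n → ℕ) (hμ : ∑ i, μ i = n) (x : Fin n) : Fin n :=
  ⟨Cfsg.compLabel μ x, label_lt μ hμ x⟩

theorem card_filter_labFin (μ : Fin n → ℕ) (hμ : ∑ i, μ i = n) (a : Fin n) :
    (univ.filter (fun x : Fin n => labFin μ hμ x = a)).card = μ a := by
  rw [← card_filter_label μ hμ a]
  congr 1
  ext x
  simp [labFin, Fin.ext_iff]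

theorem blockCount_labFin (μ μ' : Fin n → ℕ) (hμ : ∑ i, μ i = n) (hμ' : ∑ i, μ' i = n)
    (w : Equiv.Perm (Fin n)) (i j : Fin n) :
    blockCount μ μ' w (i.val, j.val) =
      (univ.filter (fun x : Fin n => (labFin μ hμ (w x), labFin μ' hμ' x) = (i, j))).card := by
  unfold blockCount
  congr 1
  ext x
  simp [labFin, Fin.ext_iff]

theorem blockCount_eq_zero (μ μ' : Fin n → ℕ) (hμ : ∑ i, μ i = n) (hμ' : ∑ i, μ' i = n)
    (w : Equiv.Perm (Fin n)) (a b : ℕ) (h : ¬ (a < n ∧ b < n)) : blockCount μ μ' w (a, b) = 0 := by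
  unfold blockCount
  rw [Finset.card_eq_zero, Finset.filter_eq_empty_iff]
  intro x _ hx
  apply h
  rw [Prod.ext_iff] at hx
  have h1 : Cfsg.compLabel μ (w x) = a := hx.1
  have h2 : Cfsg.compLabel μ' x = b := hx.2
  exact ⟨h1 ▸ label_lt μ hμ (w x), h2 ▸ label_lt μ' hμ' x⟩

theorem card_filter_snd {K L : Type*} [DecidableEq K] [DecidableEq L] [Fintype K]
    (φ : Fin n → K × L) (l : L) :
    (univ.filter (fun x => (φ x).2 = l)).card =
      ∑ k : K, (univ.filter (fun x => φ x = (k, l))).card := by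
  rw [Finset.card_eq_sum_card_fiberwise (f := fun x => (φ x).1) (t := univ)
    (fun x _ => mem_coe.2 (mem_univ _))]
  apply Finset.sum_congr rfl
  intro k _
  congr 1
  ext x
  simp [Prod.ext_iff, and_comm]

theorem card_filter_fst {K L : Type*} [DecidableEq K] [DecidableEq L] [Fintype L]
    (φ : Fin n → K × L) (k : K) :
    (univ.filter (fun x => (φ x).1 = k)).card =
      ∑ l : L, (univ.filter (fun x => φ x = (k, l))).card := by
  rw [Finset.card_eq_sum_card_fiberwise (f := fun x => (φ x).2) (t := univ)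
    (fun x _ => mem_coe.2 (mem_univ _))]
  apply Finset.sum_congr rfl
  intro l _
  congr 1
  ext x
  simp [Prod.ext_iff]

theorem blockCount_row (μ μ' : Fin n → ℕ) (hμ : ∑ i, μ i = n) (hμ' : ∑ i, μ' i = n)
    (w : Equiv.Perm (Fin n)) (i : Fin n) : ∑ j : Fin n, blockCount μ μ' w (i.val, j.val) = μ i := by
  have h1 := card_filter_fst (fun x : Fin n => (labFin μ hμ (w x), labFin μ' hμ' x)) i
  simp only [← blockCount_labFin] at h1
  rw [← h1, ← card_filter_labFin μ hμ i]
  apply Finset.card_bij (fun x _ => w x)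
  · intro x hx
    simpa using hx
  · intro x _ y _ hxy
    exact w.injective hxy
  · intro y hy
    refine ⟨w⁻¹ y, ?_, by simp⟩
    simpa using hy

theorem blockCount_col (μ μ' : Fin n → ℕ) (hμ : ∑ i, μ i = n) (hμ' : ∑ i, μ' i = n)
    (w : Equiv.Perm (Fin n)) (j : Fin n) : ∑ i : Fin n, blockCount μ μ' w (i.val, j.val) = μ' j := by
  have h1 := card_filter_snd (fun x : Fin n => (labFin μ hμ (w x), labFin μ' hμ' x)) j
  simp only [← blockCount_labFin] at h1
  rw [← h1, ← card_filter_labFin μ' hμ' j]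

theorem exists_perm_blockCount (μ μ' : Fin n → ℕ) (hμ : ∑ i, μ i = n) (hμ' : ∑ i, μ' i = n)
    (g : Fin n → Fin n → ℕ) (hrow : ∀ i, ∑ j, g i j = μ i) (hcol : ∀ j, ∑ i, g i j = μ' j) :
    ∃ w : Equiv.Perm (Fin n), ∀ i j : Fin n, blockCount μ μ' w (i.val, j.val) = g i j := by
  classical
  have hsum : ∑ k : Fin n × Fin n, g k.1 k.2 = n := by
    rw [Fintype.sum_prod_type]
    exact (Finset.sum_congr rfl (fun i _ => hrow i)).trans hμ
  obtain ⟨φ, hφ⟩ := exists_fun_card_fiber (fun k : Fin n × Fin n => g k.1 k.2) hsum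
  have hB : ∀ j, (univ.filter (fun x => (φ x).2 = j)).card =
      (univ.filter (fun x => labFin μ' hμ' x = j)).card := by
    intro j
    rw [card_filter_snd, card_filter_labFin, ← hcol j]
    exact Finset.sum_congr rfl (fun i _ => hφ (i, j))
  have hA : ∀ i, (univ.filter (fun x => (φ x).1 = i)).card =
      (univ.filter (fun x => labFin μ hμ x = i)).card := by
    intro i
    rw [card_filter_fst, card_filter_labFin, ← hrow i]
    exact Finset.sum_congr rfl (fun j _ => hφ (i, j))
  obtain ⟨σ, hσ⟩ := exists_perm_of_card_fiber_eq (fun x => (φ x).2) (labFin μ' hμ') hB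
  obtain ⟨τ, hτ⟩ := exists_perm_of_card_fiber_eq (fun x => (φ x).1) (labFin μ hμ) hA
  refine ⟨τ * σ⁻¹, fun i j => ?_⟩
  rw [blockCount_labFin μ μ' hμ hμ', ← hφ (i, j)]
  apply Finset.card_bij (fun y _ => σ⁻¹ y)
  · intro y hy
    simp only [mem_filter, mem_univ, true_and] at hy ⊢
    rw [← hy]
    apply Prod.ext
    · simp only [Equiv.Perm.mul_apply]
      exact (hτ (σ⁻¹ y)).symm
    · have := hσ (σ⁻¹ y)
      simp only [Equiv.Perm.coe_inv, Equiv.apply_symm_apply] at this
      simpa using this.symm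
  · intro y _ y' _ h
    exact σ⁻¹.injective h
  · intro x hx
    refine ⟨σ x, ?_, by simp⟩
    simp only [mem_filter, mem_univ, true_and] at hx ⊢
    rw [← hx]
    apply Prod.ext
    · simp only [Equiv.Perm.mul_apply, Equiv.Perm.coe_inv, Equiv.symm_apply_apply]
      exact hτ x
    · exact hσ x

/-- The number of double cosets of Young subgroups is the number of contingency tables. -/
theorem card_range_blockCount (μ μ' : Fin n → ℕ) (hμ : ∑ i, μ i = n) (hμ' : ∑ i, μ' i = n) :
    (Nat.card (Set.range (blockCount μ μ')) : ℤ) = ctCount n μ μ' := by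
  classical
  rw [ctCount_eq_card]
  congr 1
  let Θ : (ℕ × ℕ → ℕ) → (Fin n → Fin n →₀ ℕ) := fun t i =>
    Finsupp.equivFunOnFinite.symm (fun j : Fin n => t (i.val, j.val))
  have hinj : Set.InjOn Θ (Set.range (blockCount μ μ')) := by
    rintro _ ⟨w, rfl⟩ _ ⟨w', rfl⟩ h
    funext ⟨a, b⟩
    by_cases hab : a < n ∧ b < n
    · have h1 := congrArg (fun G : Fin n → Fin n →₀ ℕ => G ⟨a, hab.1⟩ ⟨b, hab.2⟩) h
      simpa [Θ] using h1
    · rw [blockCount_eq_zero μ μ' hμ hμ' w a b hab, blockCount_eq_zero μ μ' hμ hμ' w' a b hab]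
  rw [← Nat.card_image_of_injOn hinj]
  have himg : Θ '' Set.range (blockCount μ μ') =
      (↑((Fintype.piFinset (fun i => finsuppAntidiag (univ : Finset (Fin n)) (μ i))).filter
        (fun g => ∑ i, g i = Finsupp.equivFunOnFinite.symm μ')) : Set (Fin n → Fin n →₀ ℕ)) := by
    ext g
    simp only [Set.mem_image, Set.mem_range, exists_exists_eq_and, Finset.coe_filter,
      Set.mem_ofPred_eq, Fintype.mem_piFinset, mem_finsuppAntidiag]
    constructor
    · rintro ⟨w, rfl⟩
      refine ⟨fun i => ⟨?_, subset_univ _⟩, ?_⟩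
      · simpa [Θ] using blockCount_row μ μ' hμ hμ' w i
      · ext j
        simpa [Θ] using blockCount_col μ μ' hμ hμ' w j
    · rintro ⟨h1, h2⟩
      obtain ⟨w, hw⟩ := exists_perm_blockCount μ μ' hμ hμ' (fun i j => g i j)
        (fun i => (h1 i).1) (fun j => by
          have h3 := congrArg (fun f : Fin n →₀ ℕ => f j) h2
          simpa using h3)
      refine ⟨w, ?_⟩
      funext i
      ext j
      simpa [Θ] using hw i j
  rw [himg, Nat.card_coe_set_eq, Set.ncard_coe_finset]

end Contingency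

end Cfsg.Agent.Helper40
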