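import Cfsg.Agent.Helper52.DZA3a

set_option autoImplicit false

/-!
Piece A01 of CALL S4538 (helper40): dimension of the fixed space from the character (the first
statement is helper52's `fix_dim_sum`).
-/

namespace Cfsg.Agent.Helper40.DZA

open Cfsg.Agent.Helper40.DZ

variable {G : Type*} [Group G] [Finite G] {V : Type*} [AddCommGroup V] [Module ℂ V]
  [Module.Finite ℂ V]

/-- A0: dimension of the fixed space = average of the character. -/
theorem A0 (ρ : Representation ℂ G V) (H : Subgroup G) :
    (Nat.card H : ℂ) * (Module.finrank ℂ (fixS ρ (H : Set G)) : ℂ) =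
      ∑ᶠ h ∈ (H : Set G), ρ.character h :=
  Cfsg.Agent.Helper52.DZ.fix_dim_sum ρ H

/-- A1: if the character vanishes on `H ∖ {1}` then `|H| * dim V^H = dim V`. -/
theorem A1 (ρ : Representation ℂ G V) (H : Subgroup G)
    (h0 : ∀ h ∈ H, h ≠ 1 → ρ.character h = 0) :
    Nat.card H * Module.finrank ℂ (fixS ρ (H : Set G)) = Module.finrank ℂ V := by
  have h1 := A0 ρ H
  have h2 : ∑ᶠ h ∈ (H : Set G), ρ.character h = ∑ᶠ h ∈ ({1} : Set G), ρ.character h := by
    apply finsum_mem_inter_support_eq
    ext x
    simp only [Set.mem_inter_iff, SetLike.mem_coe, Function.mem_support, Set.mem_singleton_iff]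
    constructor
    · rintro ⟨hx, hne⟩
      refine ⟨?_, hne⟩
      by_contra hx1
      exact hne (h0 x hx hx1)
    · rintro ⟨rfl, hne⟩
      exact ⟨H.one_mem, hne⟩
  rw [h2, finsum_mem_singleton, Representation.char_one] at h1
  exact_mod_cast h1

end Cfsg.Agent.Helper40.DZA
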