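import Cfsg.Agent.S4538
import Cfsg.Agent.S0953

set_option autoImplicit false

/-!
Helper library (helper40): the number of `p`-blocks of `SL_n(F)`, `F` a finite field of
characteristic `p`, `n ≥ 2`: one block of defect zero and `gcd (n, q - 1)` blocks of full defect.
-/

namespace Cfsg.Agent.Helper40.DZBlk

open Cfsg.Agent.Helper40.DZ Cfsg.Agent.Helper44.PSLn Cfsg.Agent.Helper40.DZMain

/-- a Sylow `p`-subgroup is radical -/
theorem sylow_radical {G : Type*} [Group G] [Finite G] (p : ℕ) [Fact p.Prime] (P : Sylow p G) :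
    (Cfsg.pCore p (Subgroup.normalizer ((P : Subgroup G) : Set G))).map
      (Subgroup.normalizer ((P : Subgroup G) : Set G)).subtype = (P : Subgroup G) := by
  have hpg : IsPGroup p (Cfsg.pCore p (Subgroup.normalizer ((P : Subgroup G) : Set G))) :=
    Sylow.sSup_of_normal _ (fun _ hH => hH.2) (fun _ hH => hH.1)
  have hQ : IsPGroup p ((Cfsg.pCore p (Subgroup.normalizer ((P : Subgroup G) : Set G))).map
      (Subgroup.normalizer ((P : Subgroup G) : Set G)).subtype) := hpg.map _
  have hle : (P : Subgroup G) ≤ (Cfsg.pCore p (Subgroup.normalizer ((P : Subgroup G) : Set G))).map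
      (Subgroup.normalizer ((P : Subgroup G) : Set G)).subtype := by
    have h1 : ((P : Subgroup G).subgroupOf (Subgroup.normalizer ((P : Subgroup G) : Set G))) ≤
        Cfsg.pCore p (Subgroup.normalizer ((P : Subgroup G) : Set G)) := by
      apply le_sSup
      exact ⟨Subgroup.normal_in_normalizer, P.isPGroup'.comap_subtype⟩
    have h2 := Subgroup.map_mono (f := (Subgroup.normalizer ((P : Subgroup G) : Set G)).subtype) h1
    rwa [Subgroup.map_subgroupOf_eq_of_le Subgroup.le_normalizer] at h2
  exact P.is_maximal' hQ hle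

/-- a block has full defect iff a given Sylow `p`-subgroup is a defect group -/
theorem defect_full_iff {G : Type*} [Group G] [Finite G] (p : ℕ) [Fact p.Prime]
    (M : Ideal Cfsg.AlgInt) (hM : Cfsg.IsPModular p M) (P : Sylow p G)
    (B : Set (Cfsg.IrrCharacter G)) (hB : Cfsg.IsPBlock M B) :
    Cfsg.blockDefect p B = (Nat.card G).factorization p ↔
      Cfsg.IsDefectGroup p M B (P : Subgroup G) := by
  have hp : p.Prime := Fact.out
  classical
  haveI : Fintype G := Fintype.ofFinite G
  constructor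
  · intro h
    obtain ⟨D, hD⟩ := Cfsg.Agent.Helper16.exists_isDefectGroup (p := p) hM.2.1 hB
    have hcard := Cfsg.Agent.Helper77.card_of_isDefectGroup hM hB hD
    rw [h] at hcard
    have hDp : IsPGroup p D := IsPGroup.of_card hcard
    obtain ⟨Q, hQ⟩ := hDp.exists_le_sylow
    have hQD : D = (Q : Subgroup G) := by
      apply Subgroup.eq_of_le_of_card_ge hQ
      rw [hcard, Q.card_eq_multiplicity]
    obtain ⟨g, hg⟩ := MulAction.exists_smul_eq G Q P
    have h1 := Cfsg.Agent.Helper16.isDefectGroup_conj hD g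
    have h2 : (P : Subgroup G) = D.map (MulAut.conj g).toMonoidHom := by
      rw [← hg, hQD]
      rfl
    rw [h2]
    exact h1
  · intro h
    have hcard := Cfsg.Agent.Helper77.card_of_isDefectGroup hM hB h
    rw [P.card_eq_multiplicity] at hcard
    exact (Nat.pow_right_injective hp.two_le hcard).symm

/-- splitting a count along two exclusive alternatives -/
theorem card_split {α : Type*} [Finite α] (q r s : α → Prop) (h : ∀ x, q x → (r x ∨ s x))
    (hd : ∀ x, q x → r x → s x → False) :
    Nat.card {x // q x} = Nat.card {x // q x ∧ r x} + Nat.card {x // q x ∧ s x} := by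
  classical
  rw [← Nat.card_sum]
  apply Nat.card_congr
  refine (Equiv.subtypeEquivRight (fun x => ?_)).trans
    (subtypeOrEquiv (fun x => q x ∧ r x) (fun x => q x ∧ s x) ?_)
  · exact ⟨fun hq => (h x hq).imp (fun hr => ⟨hq, hr⟩) (fun hs => ⟨hq, hs⟩),
      fun h' => h'.elim (fun a => a.1) (fun a => a.1)⟩
  · rw [Pi.disjoint_iff]
    intro x
    rw [Prop.disjoint_iff]
    rintro ⟨⟨hq, hr⟩, -, hs⟩
    exact hd x hq hr hs

/-- if the `p`-regular elements centralizing a Sylow `p`-subgroup `P` are exactly the central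
elements, the `p`-regular classes of `N_G(P)` inside `C_G(P)` are as many as the centre -/
theorem card_classes_eq_card_center {G : Type*} [Group G] [Finite G] (p : ℕ) [Fact p.Prime]
    (P : Sylow p G)
    (hC : ∀ x ∈ Subgroup.centralizer ((P : Subgroup G) : Set G), ¬ p ∣ orderOf x →
      x ∈ Subgroup.center G)
    (hZ : ∀ z ∈ Subgroup.center G, ¬ p ∣ orderOf z) :
    Nat.card {C : ConjClasses (Subgroup.normalizer ((P : Subgroup G) : Set G)) //
      ∀ n : Subgroup.normalizer ((P : Subgroup G) : Set G), ConjClasses.mk n = C →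
        ¬ p ∣ orderOf n ∧ (n : G) ∈ Subgroup.centralizer ((P : Subgroup G) : Set G)} =
      Nat.card (Subgroup.center G) := by
  have hzN : ∀ z ∈ Subgroup.center G, z ∈ Subgroup.normalizer ((P : Subgroup G) : Set G) :=
    fun z hz => Subgroup.center_le_normalizer _ hz
  have hconj : ∀ (m : Subgroup.normalizer ((P : Subgroup G) : Set G)) (z : G)
      (hz : z ∈ Subgroup.center G),
      ConjClasses.mk m = ConjClasses.mk
        (⟨z, hzN z hz⟩ : Subgroup.normalizer ((P : Subgroup G) : Set G)) → (m : G) = z := by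
    intro m z hz h
    rw [ConjClasses.mk_eq_mk_iff_isConj] at h
    obtain ⟨c, hc⟩ := isConj_iff.mp h
    have h1 : (c : G) * (m : G) * (c : G)⁻¹ = z := by
      have := congrArg Subtype.val hc
      simpa using this
    have h2 : (c : G) * z = z * (c : G) := Subgroup.mem_center_iff.mp hz c
    calc (m : G) = (c : G)⁻¹ * ((c : G) * (m : G) * (c : G)⁻¹) * (c : G) := by group
      _ = (c : G)⁻¹ * (z * (c : G)) := by rw [h1, mul_assoc]
      _ = z := by rw [← h2, inv_mul_cancel_left]
  symm
  apply Nat.card_congr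
  refine Equiv.ofBijective (fun z => ⟨ConjClasses.mk
    (⟨z.1, hzN z.1 z.2⟩ : Subgroup.normalizer ((P : Subgroup G) : Set G)), fun m hm => ?_⟩)
    ⟨?_, ?_⟩
  · have h1 := hconj m z.1 z.2 hm
    constructor
    · rw [← Subgroup.orderOf_coe, h1]
      exact hZ z.1 z.2
    · rw [h1]
      exact Subgroup.center_le_centralizer _ z.2
  · intro z z' h
    have h' := congrArg Subtype.val h
    exact Subtype.ext (hconj ⟨z.1, hzN z.1 z.2⟩ z'.1 z'.2 h')
  · rintro ⟨C, hC'⟩
    obtain ⟨m, rfl⟩ := ConjClasses.mk_surjective C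
    obtain ⟨h1, h2⟩ := hC' m rfl
    rw [← Subgroup.orderOf_coe] at h1
    exact ⟨⟨m.1, hC _ h2 h1⟩, Subtype.ext rfl⟩

/-- the centre of `SL_n(F)` has `gcd (n, q - 1)` elements -/
theorem card_center_SL {F : Type*} [Field F] [Fintype F] (n : ℕ) (hn : 1 ≤ n) :
    Nat.card (Subgroup.center (Matrix.SpecialLinearGroup (Fin n) F)) =
      Nat.gcd n (Fintype.card F - 1) := by
  classical
  have e := Matrix.SpecialLinearGroup.center_equiv_rootsOfUnity (n := Fin n) (R := F)
  rw [Nat.card_congr e.toEquiv, Fintype.card_fin, max_eq_left hn]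
  have h1 : rootsOfUnity n F = (powMonoidHom n : Fˣ →* Fˣ).ker := by
    ext ζ
    rw [mem_rootsOfUnity, MonoidHom.mem_ker, powMonoidHom_apply]
  rw [h1, IsCyclic.card_powMonoidHom_ker, Nat.card_units, Nat.card_eq_fintype_card, Nat.gcd_comm]

/-- **The number of `p`-blocks of `SL_n(F)`** in the defining characteristic. -/
theorem blocks_SL {F : Type*} [Field F] [Fintype F] (n : ℕ) (hn : 2 ≤ n) (p : ℕ) [Fact p.Prime]
    [CharP F p] (M : Ideal Cfsg.AlgInt) (hM : Cfsg.IsPModular p M) :
    Nat.card {B : Set (Cfsg.IrrCharacter (Matrix.SpecialLinearGroup (Fin n) F)) //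
      Cfsg.IsPBlock M B} = Nat.gcd n (Fintype.card F - 1) + 1 := by
  classical
  have hp : p.Prime := Fact.out
  have hn0 : 0 < n := by omega
  obtain ⟨f, -, hqf⟩ := FiniteField.card F p
  have hf1 : 1 ≤ (f : ℕ) := f.pos
  have hPU : ((uniSyl p f hqf hf1 hn0 : Sylow p (Matrix.SpecialLinearGroup (Fin n) F)) :
      Subgroup (Matrix.SpecialLinearGroup (Fin n) F)) = UniS n F := uniSyl_coe p f hqf hf1 hn0
  obtain ⟨P, hP⟩ : ∃ P : Sylow p (Matrix.SpecialLinearGroup (Fin n) F),
      (P : Subgroup (Matrix.SpecialLinearGroup (Fin n) F)) = UniS n F := ⟨_, hPU⟩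
  obtain ⟨h1, h2⟩ := Cfsg.Agent.S4538.result (F := F) n hn p M hM
  have h3 := Cfsg.Agent.S0953.result p M hM P
  have hP1 : (P : Subgroup (Matrix.SpecialLinearGroup (Fin n) F)) ≠ ⊥ := by
    rw [hP]
    intro hbot
    have hj : 0 + 1 < n := by omega
    have h4 : xel 0 hj (1 : F) ∈ UniS n F := Cfsg.Agent.Helper40.DZP.xel_mem_UniS 0 hj 1
    rw [hbot, Subgroup.mem_bot] at h4
    have h5 := Cfsg.Agent.Helper40.DZP.xel_apply 0 hj (1 : F)
    rw [h4, Matrix.SpecialLinearGroup.coe_one, Matrix.one_apply_ne (ia_ne_ib 0 hj)] at h5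
    exact zero_ne_one h5
  have ha : (Nat.card (Matrix.SpecialLinearGroup (Fin n) F)).factorization p ≠ 0 := by
    intro h0
    have h4 := P.card_eq_multiplicity
    rw [h0, pow_zero] at h4
    exact hP1 (Subgroup.card_eq_one.mp h4)
  have hcenter := card_center_SL (F := F) n (by omega)
  have hZ : ∀ z ∈ Subgroup.center (Matrix.SpecialLinearGroup (Fin n) F), ¬ p ∣ orderOf z := by
    intro z hz hdvd
    have h4 : orderOf z ∣ Nat.card (Subgroup.center (Matrix.SpecialLinearGroup (Fin n) F)) := by
      have h := orderOf_dvd_natCard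
        (⟨z, hz⟩ : Subgroup.center (Matrix.SpecialLinearGroup (Fin n) F))
      rwa [Subgroup.orderOf_mk] at h
    rw [hcenter] at h4
    have h5 : p ∣ Fintype.card F - 1 := (hdvd.trans h4).trans (Nat.gcd_dvd_right _ _)
    have h6 : p ∣ Fintype.card F := by
      rw [hqf]
      exact dvd_pow_self p (by omega)
    have h7 : 1 ≤ Fintype.card F := Fintype.card_pos
    have h8 : p ∣ 1 := by
      have h := Nat.dvd_sub h6 h5
      rwa [Nat.sub_sub_self h7] at h
    exact hp.one_lt.ne' (Nat.dvd_one.mp h8)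
  have hC : ∀ x ∈ Subgroup.centralizer
      ((P : Subgroup (Matrix.SpecialLinearGroup (Fin n) F)) : Set (Matrix.SpecialLinearGroup (Fin n) F)),
      ¬ p ∣ orderOf x → x ∈ Subgroup.center (Matrix.SpecialLinearGroup (Fin n) F) := by
    intro x hx hreg
    refine radical_central p hn0 (P : Subgroup (Matrix.SpecialLinearGroup (Fin n) F)) P.isPGroup' hP1
      (sylow_radical p P) x ?_ hreg
    intro u hu
    rw [Subgroup.mem_centralizer_iff]
    intro y hy
    rw [Set.mem_singleton_iff] at hy
    subst hy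
    exact (Subgroup.mem_centralizer_iff.mp hx u hu).symm
  have hcount := card_classes_eq_card_center p P hC hZ
  have hsplit := card_split (α := Set (Cfsg.IrrCharacter (Matrix.SpecialLinearGroup (Fin n) F)))
    (fun B => Cfsg.IsPBlock M B) (fun B => Cfsg.blockDefect p B = 0)
    (fun B => Cfsg.IsDefectGroup p M B (P : Subgroup (Matrix.SpecialLinearGroup (Fin n) F)))
    (fun B hB => (h2 B hB).imp id (fun h => (defect_full_iff p M hM P B hB).mp h))
    (fun B hB h0 hD => ha (by rw [← (defect_full_iff p M hM P B hB).mpr hD, h0]))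
  rw [hsplit, h1, h3, hcount, hcenter, add_comm]

end Cfsg.Agent.Helper40.DZBlk
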