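import Cfsg.Agent.Helper40.DZDefs
import Cfsg.Prelude.Def_Solvable

set_option autoImplicit false

/-!
Pieces D2, D3, C4 of CALL S4538 (helper40): the rank-one elements of `SL_n(F)` through the block
embedding of `2 × 2` matrices at the positions `j, j + 1`; the Borel subgroup normalizes `U`.
-/

namespace Cfsg.Agent.Helper40.DZD

open Cfsg.Agent.Helper40.DZ Cfsg.Agent.Helper44.PSLn Matrix

universe u

section Mat

variable {n : ℕ} {F : Type u} [Field F]

local notation "SLn" => Matrix.SpecialLinearGroup (Fin n) F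

local notation:70 A:70 " ⬝ " B:71 =>
  @HMul.hMul _ _ _ Matrix.instHMulOfFintypeOfMulOfAddCommMonoid A B

/-- inclusion of the coordinates `j, j + 1` -/
def incM (j : ℕ) (hj : j + 1 < n) : Matrix (Fin n) (Fin 2) F :=
  Matrix.single (ia j hj) 0 1 + Matrix.single (ib j hj) 1 1

/-- projection to the coordinates `j, j + 1` -/
def prM (j : ℕ) (hj : j + 1 < n) : Matrix (Fin 2) (Fin n) F :=
  Matrix.single 0 (ia j hj) 1 + Matrix.single 1 (ib j hj) 1

theorem prM_incM (j : ℕ) (hj : j + 1 < n) :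
    prM j hj ⬝ incM j hj = (1 : Matrix (Fin 2) (Fin 2) F) := by
  unfold prM incM
  rw [Matrix.add_mul, Matrix.mul_add, Matrix.mul_add, Matrix.single_mul_single_same,
    Matrix.single_mul_single_same, Matrix.single_mul_single_of_ne _ _ _ _ (ia_ne_ib j hj),
    Matrix.single_mul_single_of_ne _ _ _ _ (ia_ne_ib j hj).symm]
  ext a b
  fin_cases a <;> fin_cases b <;> simp [Matrix.single_apply, Matrix.one_apply]

/-- the block embedding of `2 × 2` matrices at the positions `j, j + 1` -/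
def blk (j : ℕ) (hj : j + 1 < n) (M : Matrix (Fin 2) (Fin 2) F) : Matrix (Fin n) (Fin n) F :=
  1 + incM j hj ⬝ (M - 1) ⬝ prM j hj

theorem blk_mul (j : ℕ) (hj : j + 1 < n) (M N : Matrix (Fin 2) (Fin 2) F) :
    blk j hj (M * N) = blk j hj M * blk j hj N := by
  unfold blk
  have h := prM_incM (F := F) j hj
  have e : (1 + incM j hj ⬝ (M - 1) ⬝ prM j hj) ⬝ (1 + incM j hj ⬝ (N - 1) ⬝ prM j hj) =
      1 + incM j hj ⬝ (M - 1) ⬝ prM j hj + incM j hj ⬝ (N - 1) ⬝ prM j hj +
        incM j hj ⬝ ((M - 1) ⬝ (prM j hj ⬝ incM j hj) ⬝ (N - 1)) ⬝ prM j hj := by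
    simp only [Matrix.mul_add, Matrix.add_mul, Matrix.mul_one, Matrix.one_mul, Matrix.mul_assoc]
    abel
  rw [e, h, Matrix.mul_one]
  have e2 : M * N - 1 = (M - 1) + (N - 1) + (M - 1) * (N - 1) := by noncomm_ring
  rw [e2, Matrix.mul_add, Matrix.mul_add, Matrix.add_mul, Matrix.add_mul]
  abel

theorem blk_one (j : ℕ) (hj : j + 1 < n) : blk j hj (1 : Matrix (Fin 2) (Fin 2) F) = 1 := by
  unfold blk
  rw [sub_self, Matrix.mul_zero, Matrix.zero_mul, add_zero]

theorem inc_single_pr (j : ℕ) (hj : j + 1 < n) (c : F) :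
    incM j hj ⬝ Matrix.single 0 1 c ⬝ prM j hj = Matrix.single (ia j hj) (ib j hj) c ∧
    incM j hj ⬝ Matrix.single 1 0 c ⬝ prM j hj = Matrix.single (ib j hj) (ia j hj) c ∧
    incM j hj ⬝ Matrix.single 0 0 c ⬝ prM j hj = Matrix.single (ia j hj) (ia j hj) c ∧
    incM j hj ⬝ Matrix.single 1 1 c ⬝ prM j hj = Matrix.single (ib j hj) (ib j hj) c := by
  unfold incM prM
  refine ⟨?_, ?_, ?_, ?_⟩ <;>
  simp [Matrix.add_mul, Matrix.mul_add, Matrix.single_mul_single_same,
    Matrix.single_mul_single_of_ne]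

theorem blk_X (j : ℕ) (hj : j + 1 < n) (c : F) :
    ((xel j hj c : SLn) : Matrix (Fin n) (Fin n) F) = blk j hj !![1, c; 0, 1] := by
  unfold xel blk
  rw [Matrix.SpecialLinearGroup.transvection_coe]
  have e : (!![1, c; 0, 1] : Matrix (Fin 2) (Fin 2) F) - 1 = Matrix.single 0 1 c := by
    ext a b
    fin_cases a <;> fin_cases b <;> simp [Matrix.single_apply, Matrix.one_apply]
  rw [e, (inc_single_pr j hj c).1]

theorem blk_Y (j : ℕ) (hj : j + 1 < n) (c : F) :
    ((yel j hj c : SLn) : Matrix (Fin n) (Fin n) F) = blk j hj !![1, 0; c, 1] := by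
  unfold yel blk
  rw [Matrix.SpecialLinearGroup.transvection_coe]
  have e : (!![1, 0; c, 1] : Matrix (Fin 2) (Fin 2) F) - 1 = Matrix.single 1 0 c := by
    ext a b
    fin_cases a <;> fin_cases b <;> simp [Matrix.single_apply, Matrix.one_apply]
  rw [e, (inc_single_pr j hj c).2.1]

theorem blk_S (j : ℕ) (hj : j + 1 < n) :
    ((sdot j hj : SLn) : Matrix (Fin n) (Fin n) F) = blk j hj !![0, 1; -1, 0] := by
  unfold sdot
  rw [Matrix.SpecialLinearGroup.coe_mul, Matrix.SpecialLinearGroup.coe_mul, blk_X, blk_Y,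
    ← blk_mul, ← blk_mul]
  congr 1
  ext a b
  fin_cases a <;> fin_cases b <;> simp [Matrix.mul_apply, Fin.sum_univ_two]

theorem blk_H (j : ℕ) (hj : j + 1 < n) (c : F) (hc : c ≠ 0) :
    ((hel j hj c : SLn) : Matrix (Fin n) (Fin n) F) = blk j hj !![c, 0; 0, c⁻¹] := by
  have h1 : hel j hj c * sdot j hj = xel j hj c * yel j hj (-c⁻¹) * xel j hj c := by
    unfold hel
    rw [inv_mul_cancel_right]
  have h2 : ((hel j hj c : SLn) : Matrix (Fin n) (Fin n) F) *
      ((sdot j hj : SLn) : Matrix (Fin n) (Fin n) F) =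
      blk j hj !![c, 0; 0, c⁻¹] * ((sdot j hj : SLn) : Matrix (Fin n) (Fin n) F) := by
    rw [← Matrix.SpecialLinearGroup.coe_mul, h1, Matrix.SpecialLinearGroup.coe_mul,
      Matrix.SpecialLinearGroup.coe_mul, blk_X, blk_Y, blk_S, ← blk_mul, ← blk_mul, ← blk_mul]
    congr 1
    ext a b
    fin_cases a <;> fin_cases b <;> simp [Matrix.mul_apply, Fin.sum_univ_two, hc]
  have h3 : ((sdot j hj : SLn) : Matrix (Fin n) (Fin n) F) *
      (((sdot j hj)⁻¹ : SLn) : Matrix (Fin n) (Fin n) F) = 1 := by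
    rw [← Matrix.SpecialLinearGroup.coe_mul, mul_inv_cancel, Matrix.SpecialLinearGroup.coe_one]
  have h4 := congrArg (fun M => M * (((sdot j hj)⁻¹ : SLn) : Matrix (Fin n) (Fin n) F)) h2
  simp only [Matrix.mul_assoc, h3, Matrix.mul_one] at h4
  exact h4

/-- D2a: `h_j(c)` is diagonal. -/
theorem hel_coe (j : ℕ) (hj : j + 1 < n) (c : F) (hc : c ≠ 0) :
    ((hel j hj c : SLn) : Matrix (Fin n) (Fin n) F) =
      Matrix.diagonal (fun a => if a = ia j hj then c else if a = ib j hj then c⁻¹ else 1) := by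
  rw [blk_H j hj c hc]
  unfold blk
  have e : (!![c, 0; 0, c⁻¹] : Matrix (Fin 2) (Fin 2) F) - 1 =
      Matrix.single 0 0 (c - 1) + Matrix.single 1 1 (c⁻¹ - 1) := by
    ext a b
    fin_cases a <;> fin_cases b <;> simp [Matrix.single_apply, Matrix.one_apply]
  rw [e, Matrix.mul_add, Matrix.add_mul, (inc_single_pr j hj (c - 1)).2.2.1,
    (inc_single_pr j hj (c⁻¹ - 1)).2.2.2]
  have hne := ia_ne_ib j hj
  ext a b
  simp only [Matrix.add_apply, Matrix.one_apply, Matrix.single_apply, Matrix.diagonal_apply]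
  by_cases h1 : a = ia j hj
  · subst h1
    by_cases h3 : ia j hj = b
    · subst h3
      simp [hne.symm]
    · simp [hne.symm, h3]
  · by_cases h2 : a = ib j hj
    · subst h2
      by_cases h3 : ib j hj = b
      · subst h3
        simp [hne, hne.symm]
      · simp [hne, hne.symm, h3]
    · by_cases h3 : a = b
      · subst h3
        simp [h1, h2, Ne.symm h1, Ne.symm h2]
      · simp [h1, h2, h3, Ne.symm h1, Ne.symm h2]

/-- D2b -/
theorem hel_one (j : ℕ) (hj : j + 1 < n) : hel j hj (1 : F) = 1 := by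
  apply Subtype.ext
  rw [blk_H j hj 1 one_ne_zero, Matrix.SpecialLinearGroup.coe_one]
  have e : (!![1, 0; 0, (1 : F)⁻¹] : Matrix (Fin 2) (Fin 2) F) = 1 := by
    ext a b
    fin_cases a <;> fin_cases b <;> simp
  rw [e, blk_one]

/-- D2c -/
theorem hel_mem_borel (j : ℕ) (hj : j + 1 < n) (c : F) (hc : c ≠ 0) :
    hel j hj c ∈ borelSL n F := by
  change ((Matrix.SpecialLinearGroup.toGL (hel j hj c) : GL (Fin n) F) :
    Matrix (Fin n) (Fin n) F).BlockTriangular id
  change ((hel j hj c : SLn) : Matrix (Fin n) (Fin n) F).BlockTriangular id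
  rw [hel_coe j hj c hc]
  exact Matrix.blockTriangular_diagonal _

/-- D3a: the `SL_2` relation `ṡ x(c) ṡ = x(-c⁻¹) ṡ h(-c) x(-c⁻¹)`. -/
theorem sl2_rel (j : ℕ) (hj : j + 1 < n) (c : F) (hc : c ≠ 0) :
    sdot j hj * xel j hj c * sdot j hj =
      xel j hj (-c⁻¹) * sdot j hj * hel j hj (-c) * xel j hj (-c⁻¹) := by
  apply Subtype.ext
  simp only [Matrix.SpecialLinearGroup.coe_mul]
  rw [blk_X, blk_X, blk_S, blk_H j hj (-c) (neg_ne_zero.mpr hc)]
  simp only [← blk_mul]
  congr 1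
  ext a b
  fin_cases a <;> fin_cases b <;> simp [Matrix.mul_apply, Fin.sum_univ_two, hc] <;> field_simp

/-- D3b: `ṡ² = h(-1)`. -/
theorem sdot_sq (j : ℕ) (hj : j + 1 < n) : sdot j hj * sdot j hj = hel j hj (-1 : F) := by
  apply Subtype.ext
  simp only [Matrix.SpecialLinearGroup.coe_mul]
  rw [blk_S, blk_H j hj (-1) (neg_ne_zero.mpr one_ne_zero)]
  simp only [← blk_mul]
  congr 1
  ext a b
  fin_cases a <;> fin_cases b <;> simp [Matrix.mul_apply, Fin.sum_univ_two, inv_neg]

variable [Fintype F]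

/-- the diagonal entries of a product of upper triangular matrices -/
theorem diag_mul_of_upper {M N : Matrix (Fin n) (Fin n) F} (hM : M.BlockTriangular id)
    (hN : N.BlockTriangular id) (i : Fin n) : (M * N) i i = M i i * N i i := by
  rw [Matrix.mul_apply, Finset.sum_eq_single i]
  · intro k _ hki
    rcases lt_or_gt_of_ne hki with hk | hk
    · rw [hM hk, zero_mul]
    · rw [hN hk, mul_zero]
  · intro h
    exact absurd (Finset.mem_univ i) h

/-- C4a: the Borel subgroup normalizes `U`. -/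
theorem borel_conj_UniS : ∀ b ∈ borelSL n F, ∀ u ∈ UniS n F, b * u * b⁻¹ ∈ UniS n F := by
  intro b hb u hu
  have hb' : b⁻¹ ∈ borelSL n F := (borelSL n F).inv_mem hb
  have hB : ((b : SLn) : Matrix (Fin n) (Fin n) F).BlockTriangular id := hb
  have hB' : (((b⁻¹ : SLn)) : Matrix (Fin n) (Fin n) F).BlockTriangular id := hb'
  have hU : IsUni ((u : SLn) : Matrix (Fin n) (Fin n) F) := hu
  have hU1 : ((u : SLn) : Matrix (Fin n) (Fin n) F).BlockTriangular id :=
    fun i j hij => hU.1 i j hij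
  rw [mem_UniS]
  have hBU : (((b : SLn) : Matrix (Fin n) (Fin n) F) *
      ((u : SLn) : Matrix (Fin n) (Fin n) F)).BlockTriangular id :=
    Matrix.BlockTriangular.mul hB hU1
  refine ⟨fun i j hij => ?_, fun i => ?_⟩
  · rw [Matrix.SpecialLinearGroup.coe_mul, Matrix.SpecialLinearGroup.coe_mul]
    exact Matrix.BlockTriangular.mul hBU hB' hij
  · rw [Matrix.SpecialLinearGroup.coe_mul, Matrix.SpecialLinearGroup.coe_mul,
      diag_mul_of_upper hBU hB', diag_mul_of_upper hB hU1, hU.2, mul_one,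
      ← diag_mul_of_upper hB hB', ← Matrix.SpecialLinearGroup.coe_mul, mul_inv_cancel,
      Matrix.SpecialLinearGroup.coe_one, Matrix.one_apply_eq]

/-- C4b -/
theorem UniS_le_borel : UniS n F ≤ borelSL n F := by
  intro u hu
  have hU : IsUni ((u : SLn) : Matrix (Fin n) (Fin n) F) := hu
  change ((u : SLn) : Matrix (Fin n) (Fin n) F).BlockTriangular id
  exact fun i j hij => hU.1 i j hij

end Mat

end Cfsg.Agent.Helper40.DZD
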