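import Mathlib
import Cfsg.Prelude.Def_LinearParabolics
import Cfsg.Agent.Helper40.Contingency

set_option autoImplicit false

namespace Cfsg.Agent.Helper40

open scoped MatrixGroups
open Finset

section Unipotent

variable {n : ℕ}

theorem strictMono_shift (ν : Fin n → ℕ) (hν : Monotone ν) :
    StrictMono (fun i : Fin n => ν i + i.val) := by
  intro a b hab
  have h1 := hν hab.le
  have h2 : a.val < b.val := hab
  change ν a + a.val < ν b + b.val
  omega

theorem shift_injective (ν ν' : Fin n → ℕ) :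
    (fun i : Fin n => ν i + i.val) = (fun i : Fin n => ν' i + i.val) ↔ ν = ν' := by
  constructor
  · intro h
    funext i
    have := congrFun h i
    simpa using this
  · rintro rfl
    rfl

theorem sum_shift_sub (ν : Fin n → ℕ) (hsum : ∑ i, ν i = n) (κ : Equiv.Perm (Fin n))
    (hκ : ∀ i : Fin n, (κ i).val ≤ ν i + i.val) :
    ∑ i : Fin n, (ν i + i.val - (κ i).val) = n := by
  have h1 : ∑ i : Fin n, (ν i + i.val - (κ i).val) + ∑ i : Fin n, (κ i).val =
      ∑ i : Fin n, ν i + ∑ i : Fin n, i.val := by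
    rw [← Finset.sum_add_distrib, ← Finset.sum_add_distrib]
    apply Finset.sum_congr rfl
    intro i _
    exact Nat.sub_add_cancel (hκ i)
  have h2 : ∑ i : Fin n, (κ i).val = ∑ i : Fin n, i.val := Equiv.sum_comp κ (fun i => i.val)
  omega

/-- Orthogonality relations for the alternating sums of flag characters of `GL_n`. -/
theorem sum_unipotent_mul {F : Type*} [Field F] [Fintype (GL (Fin n) F)] (ν ν' : Fin n → ℕ)
    (hν : Monotone ν) (hsum : ∑ i, ν i = n) (hν' : Monotone ν') (hsum' : ∑ i, ν' i = n) :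
    ∑ g : GL (Fin n) F, Cfsg.unipotentCharacterGL n F ν g * Cfsg.unipotentCharacterGL n F ν' g =
      (Nat.card (GL (Fin n) F) : ℂ) * (if ν = ν' then 1 else 0) := by
  classical
  have hJ := jt_orthogonality n (fun i => ν i + i.val) (fun i => ν' i + i.val)
    (strictMono_shift ν hν) (strictMono_shift ν' hν')
  have hJ' := congrArg (Int.cast : ℤ → ℂ) hJ
  push_cast at hJ'
  simp only [shift_injective] at hJ'
  have hpair : ∀ κ σ : Equiv.Perm (Fin n), (∀ i : Fin n, (κ i).val ≤ ν i + i.val) →
      (∀ i : Fin n, (σ i).val ≤ ν' i + i.val) →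
      ∑ g : GL (Fin n) F,
        Cfsg.fixedPointCharacter (Cfsg.parabolicGL n F fun i => ν i + i.val - (κ i).val) g *
        Cfsg.fixedPointCharacter (Cfsg.parabolicGL n F fun i => ν' i + i.val - (σ i).val) g =
      (Nat.card (GL (Fin n) F) : ℂ) *
        ((ctCount n (fun i => ν i + i.val - (κ i).val) (fun i => ν' i + i.val - (σ i).val) : ℤ) : ℂ) := by
    intro κ σ hκ hσ
    rw [sum_parabolic_fpc, ← card_range_blockCount _ _ (sum_shift_sub ν hsum κ hκ)
      (sum_shift_sub ν' hsum' σ hσ)]
    simp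
  have hswap : ∀ (T : GL (Fin n) F → Equiv.Perm (Fin n) → Equiv.Perm (Fin n) → ℂ),
      ∑ g, ∑ κ, ∑ σ, T g κ σ = ∑ σ, ∑ κ, ∑ g, T g κ σ := by
    intro T
    calc ∑ g, ∑ κ, ∑ σ, T g κ σ = ∑ g, ∑ σ, ∑ κ, T g κ σ :=
          Finset.sum_congr rfl (fun g _ => Finset.sum_comm)
      _ = ∑ σ, ∑ g, ∑ κ, T g κ σ := Finset.sum_comm
      _ = ∑ σ, ∑ κ, ∑ g, T g κ σ := Finset.sum_congr rfl (fun σ _ => Finset.sum_comm)
  unfold Cfsg.unipotentCharacterGL
  simp only [Finset.sum_mul_sum]
  rw [hswap, ← hJ', Finset.mul_sum]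
  apply Finset.sum_congr rfl
  intro σ _
  by_cases hσ : ∀ i : Fin n, (σ i).val ≤ ν' i + i.val
  · rw [if_pos hσ, Finset.mul_sum, Finset.mul_sum]
    apply Finset.sum_congr rfl
    intro κ _
    by_cases hκ : ∀ i : Fin n, (κ i).val ≤ ν i + i.val
    · simp only [if_pos hσ, if_pos hκ]
      have h1 := hpair κ σ hκ hσ
      calc ∑ g : GL (Fin n) F,
            ((Equiv.Perm.sign κ : ℤ) : ℂ) *
              Cfsg.fixedPointCharacter (Cfsg.parabolicGL n F fun i => ν i + i.val - (κ i).val) g *
            (((Equiv.Perm.sign σ : ℤ) : ℂ) *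
              Cfsg.fixedPointCharacter (Cfsg.parabolicGL n F fun i => ν' i + i.val - (σ i).val) g)
          = ((Equiv.Perm.sign κ : ℤ) : ℂ) * ((Equiv.Perm.sign σ : ℤ) : ℂ) * ∑ g : GL (Fin n) F,
              Cfsg.fixedPointCharacter (Cfsg.parabolicGL n F fun i => ν i + i.val - (κ i).val) g *
              Cfsg.fixedPointCharacter (Cfsg.parabolicGL n F fun i => ν' i + i.val - (σ i).val) g := by
            rw [Finset.mul_sum]
            apply Finset.sum_congr rfl
            intro g _
            ring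
        _ = _ := by
            rw [h1]
            ring
    · simp only [if_neg hκ]
      simp
  · rw [if_neg hσ, mul_zero]
    apply Finset.sum_eq_zero
    intro κ _
    apply Finset.sum_eq_zero
    intro g _
    rw [if_neg hσ, mul_zero]

end Unipotent

end Cfsg.Agent.Helper40
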