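import Mathlib
import Cfsg.Prelude.Def_LinearParabolics
import Cfsg.Agent.Helper40.Unipotent
import Cfsg.Agent.Helper15.CharInner
import Cfsg.Agent.Helper15.PermChar

set_option autoImplicit false

namespace Cfsg.Agent.Helper40

open scoped MatrixGroups ComplexConjugate
open Finset

section Criterion

/-- A class function with integral multiplicities and norm one, having positive inner product
with some character, is an irreducible character. -/
theorem isIrr_of_int_norm_one {G : Type*} [Group G] [Fintype G] {θ π : G → ℂ}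
    (hcl : Cfsg.IsClassFunction G θ)
    (hint : ∀ χ : Cfsg.IrrCharacter G, ∃ z : ℤ, Cfsg.classInner θ χ = (z : ℂ))
    (hnorm : Cfsg.classInner θ θ = 1) (hπ : Cfsg.IsCharacter G π)
    (hpos : ∃ r : ℝ, 0 < r ∧ Cfsg.classInner θ π = (r : ℂ)) : Cfsg.IsIrrCharacter G θ := by
  classical
  have : Fintype (Cfsg.IrrCharacter G) := Fintype.ofFinite _
  choose z hz using hint
  have hm : ∀ χ : Cfsg.IrrCharacter G, ∃ m : ℕ, Cfsg.classInner π χ = (m : ℂ) :=
    fun χ => Cfsg.Agent.Helper15.inner_nat hπ (Cfsg.Agent.Helper15.isChar_of_irr χ.2)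
  choose m hm using hm
  have h1 := Cfsg.Agent.Helper15.classInner_eq_sum (θ := θ) (θ' := θ) hcl
  rw [hnorm] at h1
  have h2 : (1 : ℤ) = ∑ χ, z χ * z χ := by
    have h2' : ((1 : ℤ) : ℂ) = ((∑ χ, z χ * z χ : ℤ) : ℂ) := by
      push_cast
      rw [h1]
      apply Finset.sum_congr rfl
      intro χ _
      rw [hz χ, map_intCast]
    exact_mod_cast h2'
  have h3 := Cfsg.Agent.Helper15.classInner_eq_sum (θ := θ) (θ' := π) hcl
  obtain ⟨r, hr, hrπ⟩ := hpos
  have h4 : (r : ℂ) = ((∑ χ, z χ * (m χ : ℤ) : ℤ) : ℂ) := by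
    rw [← hrπ, h3]
    push_cast
    apply Finset.sum_congr rfl
    intro χ _
    rw [hz χ, hm χ, Complex.conj_natCast]
  have h5 : 0 < ∑ χ, z χ * (m χ : ℤ) := by
    have h6 : (r : ℂ) = (((∑ χ, z χ * (m χ : ℤ) : ℤ) : ℝ) : ℂ) := by
      rw [h4]
      push_cast
      rfl
    have h7 : r = ((∑ χ, z χ * (m χ : ℤ) : ℤ) : ℝ) := Complex.ofReal_injective h6
    rw [h7] at hr
    exact_mod_cast hr
  have hz0 : ∀ χ, 0 ≤ z χ := by
    by_contra hneg
    push Not at hneg
    obtain ⟨χ₀, hχ₀⟩ := hneg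
    have hothers : ∀ χ, χ ≠ χ₀ → z χ = 0 := by
      intro χ hχ
      by_contra hne
      have h8 : z χ₀ * z χ₀ + z χ * z χ ≤ ∑ χ, z χ * z χ := by
        rw [← Finset.sum_pair (f := fun χ => z χ * z χ) hχ.symm]
        apply Finset.sum_le_sum_of_subset_of_nonneg (Finset.subset_univ _)
        intro i _ _
        exact mul_self_nonneg _
      have h9 : 0 < z χ * z χ := mul_self_pos.2 hne
      have h10 : 0 < z χ₀ * z χ₀ := mul_self_pos.2 hχ₀.ne
      linarith
    have h11 : ∑ χ, z χ * (m χ : ℤ) = z χ₀ * (m χ₀ : ℤ) := by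
      rw [Finset.sum_eq_single χ₀]
      · intro χ _ hχ
        rw [hothers χ hχ, zero_mul]
      · intro h
        exact absurd (Finset.mem_univ _) h
    rw [h11] at h5
    have h12 : z χ₀ * (m χ₀ : ℤ) ≤ 0 :=
      mul_nonpos_of_nonpos_of_nonneg hχ₀.le (Int.natCast_nonneg _)
    linarith
  have hθ : Cfsg.IsCharacter G θ := by
    apply Cfsg.Agent.Helper3.isCharacter_of_classInner_nat θ hcl
    intro χ
    refine ⟨(z χ).toNat, ?_⟩
    rw [hz χ]
    have h13 := Int.toNat_of_nonneg (hz0 χ)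
    exact_mod_cast congrArg (Int.cast : ℤ → ℂ) h13.symm
  exact Cfsg.Agent.Helper15.isIrr_of_inner_one hθ hnorm

end Criterion

section FPC

variable {G : Type*} [Group G] [Fintype G]

theorem fpc_eq_indFun (P : Subgroup G) :
    Cfsg.fixedPointCharacter P = Cfsg.indFun P (fun _ => (1 : ℂ)) := by
  funext g
  rw [Cfsg.Agent.Helper15.indFun_one_eq_card_fixedBy]
  rfl

theorem fpc_isCharacter (P : Subgroup G) : Cfsg.IsCharacter G (Cfsg.fixedPointCharacter P) := by
  rw [fpc_eq_indFun]
  exact Cfsg.Agent.Helper3.isCharacter_indFun P _ Cfsg.Agent.Helper79.isCharacter_one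

omit [Fintype G] in
theorem fpc_conj (P : Subgroup G) (g : G) :
    conj (Cfsg.fixedPointCharacter P g) = Cfsg.fixedPointCharacter P g := by
  unfold Cfsg.fixedPointCharacter
  exact Complex.conj_natCast _

end FPC

section UnipotentIrr

variable {n : ℕ} {F : Type*} [Field F] [Fintype (GL (Fin n) F)]

omit [Fintype (GL (Fin n) F)] in
theorem unipotent_eq_sum (ν : Fin n → ℕ) :
    Cfsg.unipotentCharacterGL n F ν = ∑ κ : Equiv.Perm (Fin n),
      (if ∀ i : Fin n, (κ i).val ≤ ν i + i.val then ((Equiv.Perm.sign κ : ℤ) : ℂ) else 0) •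
        Cfsg.fixedPointCharacter (Cfsg.parabolicGL n F fun i => ν i + i.val - (κ i).val) := by
  funext g
  unfold Cfsg.unipotentCharacterGL
  rw [Finset.sum_apply]
  apply Finset.sum_congr rfl
  intro κ _
  simp only [Pi.smul_apply, smul_eq_mul]
  split_ifs <;> simp

theorem unipotent_isClassFunction (ν : Fin n → ℕ) :
    Cfsg.IsClassFunction (GL (Fin n) F) (Cfsg.unipotentCharacterGL n F ν) := by
  intro g h
  rw [unipotent_eq_sum]
  simp only [Finset.sum_apply, Pi.smul_apply]
  apply Finset.sum_congr rfl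
  intro κ _
  congr 1
  exact Cfsg.Agent.Helper79.isCharacter_isClassFunction (fpc_isCharacter _) g h

omit [Fintype (GL (Fin n) F)] in
theorem unipotent_conj (ν : Fin n → ℕ) (g : GL (Fin n) F) :
    conj (Cfsg.unipotentCharacterGL n F ν g) = Cfsg.unipotentCharacterGL n F ν g := by
  unfold Cfsg.unipotentCharacterGL
  rw [map_sum]
  apply Finset.sum_congr rfl
  intro κ _
  split_ifs
  · rw [map_mul, map_intCast, fpc_conj]
  · simp

theorem unipotent_inner_int (ν : Fin n → ℕ) (χ : Cfsg.IrrCharacter (GL (Fin n) F)) :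
    ∃ z : ℤ, Cfsg.classInner (Cfsg.unipotentCharacterGL n F ν) χ = (z : ℂ) := by
  classical
  have hm : ∀ κ : Equiv.Perm (Fin n), ∃ m : ℕ, Cfsg.classInner
      (Cfsg.fixedPointCharacter (Cfsg.parabolicGL n F fun i => ν i + i.val - (κ i).val))
      (χ : GL (Fin n) F → ℂ) = (m : ℂ) :=
    fun κ => Cfsg.Agent.Helper15.inner_nat (fpc_isCharacter _)
      (Cfsg.Agent.Helper15.isChar_of_irr χ.2)
  choose m hm using hm
  refine ⟨∑ κ : Equiv.Perm (Fin n),
    (if ∀ i : Fin n, (κ i).val ≤ ν i + i.val then (Equiv.Perm.sign κ : ℤ) else 0) * (m κ : ℤ), ?_⟩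
  rw [unipotent_eq_sum, Cfsg.Agent.Helper15.classInner_sum_left]
  push_cast
  apply Finset.sum_congr rfl
  intro κ _
  rw [Cfsg.Agent.Helper15.classInner_smul_left, hm κ]

theorem unipotent_norm (ν : Fin n → ℕ) (hmono : Monotone ν) (hsum : ∑ i, ν i = n) :
    Cfsg.classInner (Cfsg.unipotentCharacterGL n F ν) (Cfsg.unipotentCharacterGL n F ν) = 1 := by
  unfold Cfsg.classInner
  simp only [unipotent_conj]
  rw [sum_unipotent_mul ν ν hmono hsum hmono hsum, if_pos rfl, mul_one]
  have hG : (Nat.card (GL (Fin n) F) : ℂ) ≠ 0 := by exact_mod_cast Nat.card_pos.ne'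
  exact inv_mul_cancel₀ hG

theorem sum_unipotent_mul_fpc (ν β : Fin n → ℕ) (hsum : ∑ i, ν i = n) (hβ : ∑ i, β i = n) :
    ∑ g : GL (Fin n) F, Cfsg.unipotentCharacterGL n F ν g *
        Cfsg.fixedPointCharacter (Cfsg.parabolicGL n F β) g =
      (Nat.card (GL (Fin n) F) : ℂ) * ((∑ κ : Equiv.Perm (Fin n),
        (if ∀ i : Fin n, (κ i).val ≤ ν i + i.val then
          (Equiv.Perm.sign κ : ℤ) * ctCount n (fun i => ν i + i.val - (κ i).val) β else 0) : ℤ) : ℂ) := by
  classical
  unfold Cfsg.unipotentCharacterGL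
  simp only [Finset.sum_mul]
  rw [Finset.sum_comm]
  push_cast
  rw [Finset.mul_sum]
  apply Finset.sum_congr rfl
  intro κ _
  by_cases hκ : ∀ i : Fin n, (κ i).val ≤ ν i + i.val
  · simp only [if_pos hκ]
    have h1 : ∑ g : GL (Fin n) F,
        Cfsg.fixedPointCharacter (Cfsg.parabolicGL n F fun i => ν i + i.val - (κ i).val) g *
        Cfsg.fixedPointCharacter (Cfsg.parabolicGL n F β) g =
        (Nat.card (GL (Fin n) F) : ℂ) *
          ((ctCount n (fun i => ν i + i.val - (κ i).val) β : ℤ) : ℂ) := by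
      rw [sum_parabolic_fpc, ← card_range_blockCount _ _ (sum_shift_sub ν hsum κ hκ) hβ]
      simp
    calc ∑ g : GL (Fin n) F, ((Equiv.Perm.sign κ : ℤ) : ℂ) *
          Cfsg.fixedPointCharacter (Cfsg.parabolicGL n F fun i => ν i + i.val - (κ i).val) g *
          Cfsg.fixedPointCharacter (Cfsg.parabolicGL n F β) g
        = ((Equiv.Perm.sign κ : ℤ) : ℂ) * ∑ g : GL (Fin n) F,
          Cfsg.fixedPointCharacter (Cfsg.parabolicGL n F fun i => ν i + i.val - (κ i).val) g *
          Cfsg.fixedPointCharacter (Cfsg.parabolicGL n F β) g := by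
          rw [Finset.mul_sum]
          apply Finset.sum_congr rfl
          intro g _
          ring
      _ = _ := by
          rw [h1]
          ring
  · simp only [if_neg hκ]
    simp

/-- The alternating sums of flag characters of `GL_n` attached to partitions are irreducible. -/
theorem unipotent_isIrr (ν : Fin n → ℕ) (hmono : Monotone ν) (hsum : ∑ i, ν i = n) :
    Cfsg.IsIrrCharacter (GL (Fin n) F) (Cfsg.unipotentCharacterGL n F ν) := by
  classical
  obtain ⟨β, hβpos⟩ := jt_positive n (fun i => ν i + i.val) (strictMono_shift ν hmono)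
  have hβ : ∑ i, β i = n := by
    by_contra hne
    have h0 : ∑ κ : Equiv.Perm (Fin n),
        (if ∀ i : Fin n, ((κ i : Fin n) : ℕ) ≤ ν i + i.val then
          (Equiv.Perm.sign κ : ℤ) * ctCount n (fun i => ν i + i.val - (κ i : ℕ)) β else 0) = 0 := by
      apply Finset.sum_eq_zero
      intro κ _
      split_ifs with hκ
      · have h1 : ctCount n (fun i => ν i + i.val - (κ i : ℕ)) β = 0 := by
          by_contra h2
          have h3 := ctCount_ne_zero n _ _ h2
          rw [sum_shift_sub ν hsum κ hκ] at h3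
          exact hne h3
        rw [h1, mul_zero]
      · rfl
    rw [h0] at hβpos
    exact lt_irrefl _ hβpos
  refine isIrr_of_int_norm_one (π := Cfsg.fixedPointCharacter (Cfsg.parabolicGL n F β))
    (unipotent_isClassFunction ν) (unipotent_inner_int ν) (unipotent_norm ν hmono hsum)
    (fpc_isCharacter _) ?_
  refine ⟨((∑ κ : Equiv.Perm (Fin n),
        (if ∀ i : Fin n, (κ i).val ≤ ν i + i.val then
          (Equiv.Perm.sign κ : ℤ) * ctCount n (fun i => ν i + i.val - (κ i).val) β else 0) : ℤ) : ℝ),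
    by exact_mod_cast hβpos, ?_⟩
  unfold Cfsg.classInner
  simp only [fpc_conj]
  rw [sum_unipotent_mul_fpc ν β hsum hβ]
  have hG : (Nat.card (GL (Fin n) F) : ℂ) ≠ 0 := by exact_mod_cast Nat.card_pos.ne'
  rw [inv_mul_cancel_left₀ hG, Complex.ofReal_intCast]

end UnipotentIrr

end Cfsg.Agent.Helper40
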