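import Mathlib
import Cfsg.Agent.Helper40.UnipotentIrr
import Cfsg.Agent.Helper40.FlagPairs
import Cfsg.Agent.Helper79.Quotient
import Cfsg.Agent.Helper5.SLCard
import Cfsg.Agent.S0165
import Cfsg.Agent.S2424

set_option autoImplicit false

/-!
# The Steinberg character of `PSL_n(q)`

Restriction of the Steinberg character of `GL_n(q)` to `SL_n(q)` and deflation to `PSL_n(q)`.
-/

namespace Cfsg.Agent.Helper40.SteinbergPSL

open scoped MatrixGroups ComplexConjugate
open Finset Matrix

section Fix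

variable {n : ℕ} {F : Type*} [Field F]

/-- the diagonal matrix `diag(c, 1, …, 1)`. -/
noncomputable def dg (hn : 0 < n) (c : Fˣ) : GL (Fin n) F :=
  Matrix.GeneralLinearGroup.mkOfDetNeZero
    (Matrix.diagonal fun i : Fin n => if i = ⟨0, hn⟩ then (c : F) else 1)
    (by
      rw [Matrix.det_diagonal, Finset.prod_ite_eq' Finset.univ (⟨0, hn⟩ : Fin n) fun _ => (c : F)]
      simp)

theorem dg_det (hn : 0 < n) (c : Fˣ) : Matrix.GeneralLinearGroup.det (dg hn c) = c := by
  apply Units.ext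
  rw [Matrix.GeneralLinearGroup.val_det_apply]
  show (Matrix.diagonal fun i : Fin n => if i = ⟨0, hn⟩ then (c : F) else 1).det = c
  rw [Matrix.det_diagonal, Finset.prod_ite_eq' Finset.univ (⟨0, hn⟩ : Fin n) fun _ => (c : F)]
  simp

theorem dg_mem (hn : 0 < n) (c : Fˣ) : dg hn c ∈ Cfsg.upperTriangularGL n F :=
  Matrix.blockTriangular_diagonal _

theorem conj_dg_mem (hn : 0 < n) (c : Fˣ) (w : Equiv.Perm (Fin n)) :
    (PmGL w)⁻¹ * dg hn c * PmGL w ∈ Cfsg.upperTriangularGL n F := by
  show (((PmGL w)⁻¹ * dg hn c * PmGL w : GL (Fin n) F) :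
    Matrix (Fin n) (Fin n) F).BlockTriangular id
  have h1 : (((PmGL w)⁻¹ * dg hn c * PmGL w : GL (Fin n) F) : Matrix (Fin n) (Fin n) F) =
      Pm F w⁻¹ * ((Matrix.diagonal fun i : Fin n => if i = ⟨0, hn⟩ then (c : F) else 1) *
        Pm F w) := by
    rw [← map_inv]
    show Pm F w⁻¹ * (Matrix.diagonal fun i : Fin n => if i = ⟨0, hn⟩ then (c : F) else 1) *
      Pm F w = _
    rw [Matrix.mul_assoc]
  rw [h1]
  intro i j hij
  rw [Pm_mul, mul_Pm, inv_inv, Matrix.diagonal_apply, if_neg]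
  intro h
  have : i = j := w.injective h
  subst this
  exact lt_irrefl _ hij

/-- an element of prescribed determinant in the stabiliser of a pair of cosets of subgroups
containing the upper triangular group. -/
theorem exists_det_fixing (hn : 0 < n) (P Q : Subgroup (GL (Fin n) F))
    (hP : Cfsg.upperTriangularGL n F ≤ P) (hQ : Cfsg.upperTriangularGL n F ≤ Q)
    (x y : GL (Fin n) F) (c : Fˣ) :
    ∃ t : GL (Fin n) F, Matrix.GeneralLinearGroup.det t = c ∧ x⁻¹ * t * x ∈ P ∧
      y⁻¹ * t * y ∈ Q := by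
  obtain ⟨b₁, hb₁, b₂, hb₂, w, hw⟩ := bruhat_GL (x⁻¹ * y)
  have hy : y = x * (b₁ * PmGL w * b₂) := by rw [← hw]; group
  refine ⟨x * b₁ * dg hn c * b₁⁻¹ * x⁻¹, ?_, ?_, ?_⟩
  · simp only [map_mul, map_inv, dg_det]
    rw [mul_comm (Matrix.GeneralLinearGroup.det x * Matrix.GeneralLinearGroup.det b₁) c]
    group
  · have h1 : x⁻¹ * (x * b₁ * dg hn c * b₁⁻¹ * x⁻¹) * x = b₁ * dg hn c * b₁⁻¹ := by group
    rw [h1]
    exact P.mul_mem (P.mul_mem (hP hb₁) (hP (dg_mem hn c))) (P.inv_mem (hP hb₁))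
  · have h1 : y⁻¹ * (x * b₁ * dg hn c * b₁⁻¹ * x⁻¹) * y =
        b₂⁻¹ * ((PmGL w)⁻¹ * dg hn c * PmGL w) * b₂ := by
      rw [hy]; group
    rw [h1]
    exact Q.mul_mem (Q.mul_mem (Q.inv_mem (hQ hb₂)) (hQ (conj_dg_mem hn c w))) (hQ hb₂)

end Fix


section Sums

variable {n : ℕ} {F : Type*} [Field F] [Fintype F] [DecidableEq F]

/-- summing over `GL_n` through a section of the determinant. -/
theorem sum_GL_eq_sum_SL (t : Fˣ → GL (Fin n) F)
    (ht : ∀ c, Matrix.GeneralLinearGroup.det (t c) = c) (φ : GL (Fin n) F → ℂ) :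
    ∑ g : GL (Fin n) F, φ g =
      ∑ c : Fˣ, ∑ s : Matrix.SpecialLinearGroup (Fin n) F,
        φ (t c * Matrix.SpecialLinearGroup.toGL s) := by
  rw [← Fintype.sum_prod_type']
  symm
  refine Fintype.sum_bijective
    (fun x : Fˣ × Matrix.SpecialLinearGroup (Fin n) F =>
      t x.1 * Matrix.SpecialLinearGroup.toGL x.2) ⟨?_, ?_⟩ _ _ (fun _ => rfl)
  · rintro ⟨c, s⟩ ⟨c', s'⟩ h
    have hdet : ∀ s : Matrix.SpecialLinearGroup (Fin n) F,
        Matrix.GeneralLinearGroup.det (Matrix.SpecialLinearGroup.toGL s) = 1 := by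
      intro s
      apply Units.ext
      rw [Matrix.GeneralLinearGroup.val_det_apply]
      exact s.det_coe
    have h1 := congrArg Matrix.GeneralLinearGroup.det h
    simp only [map_mul, ht, hdet, mul_one] at h1
    subst h1
    have h2 : Matrix.SpecialLinearGroup.toGL s = Matrix.SpecialLinearGroup.toGL s' :=
      mul_left_cancel h
    rw [Matrix.SpecialLinearGroup.toGL_injective h2]
  · intro g
    have hd : (((t (Matrix.GeneralLinearGroup.det g))⁻¹ * g : GL (Fin n) F) :
        Matrix (Fin n) (Fin n) F).det = 1 := by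
      rw [← Matrix.GeneralLinearGroup.val_det_apply, map_mul, map_inv, ht, inv_mul_cancel]
      rfl
    refine ⟨(Matrix.GeneralLinearGroup.det g, ⟨_, hd⟩), ?_⟩
    apply Units.ext
    show ((t (Matrix.GeneralLinearGroup.det g) : GL (Fin n) F) : Matrix (Fin n) (Fin n) F) *
      (((t (Matrix.GeneralLinearGroup.det g))⁻¹ * g : GL (Fin n) F) :
        Matrix (Fin n) (Fin n) F) = g
    rw [← Units.val_mul, mul_inv_cancel_left]

/-- On `SL_n`, products of two flag characters sum to `1/(q-1)` of the sum over `GL_n`. -/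
theorem sum_SL_fpc (hn : 0 < n) (P Q : Subgroup (GL (Fin n) F))
    (hP : Cfsg.upperTriangularGL n F ≤ P) (hQ : Cfsg.upperTriangularGL n F ≤ Q) :
    ((Fintype.card F : ℂ) - 1) * ∑ s : Matrix.SpecialLinearGroup (Fin n) F,
        Cfsg.fixedPointCharacter P (Matrix.SpecialLinearGroup.toGL s) *
          Cfsg.fixedPointCharacter Q (Matrix.SpecialLinearGroup.toGL s) =
      ∑ g : GL (Fin n) F, Cfsg.fixedPointCharacter P g * Cfsg.fixedPointCharacter Q g := by
  classical
  let _ : Fintype ((GL (Fin n) F ⧸ P) × (GL (Fin n) F ⧸ Q)) := Fintype.ofFinite _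
  have hfix : ∀ g : GL (Fin n) F,
      Cfsg.fixedPointCharacter P g * Cfsg.fixedPointCharacter Q g =
        ∑ z : (GL (Fin n) F ⧸ P) × (GL (Fin n) F ⧸ Q), if g • z = z then (1 : ℂ) else 0 := by
    intro g
    unfold Cfsg.fixedPointCharacter
    rw [← Nat.cast_mul, ← card_fixedBy_prod, Finset.sum_boole]
    congr 1
    rw [Nat.card_eq_fintype_card, ← Fintype.card_subtype]
    rfl
  have hsec : ∀ z : (GL (Fin n) F ⧸ P) × (GL (Fin n) F ⧸ Q),
      ∃ t : Fˣ → GL (Fin n) F, (∀ c, Matrix.GeneralLinearGroup.det (t c) = c) ∧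
        ∀ c, t c • z = z := by
    rintro ⟨a, b⟩
    induction a using QuotientGroup.induction_on with
    | H x =>
    induction b using QuotientGroup.induction_on with
    | H y =>
    choose t ht using exists_det_fixing hn P Q hP hQ x y
    refine ⟨t, fun c => (ht c).1, fun c => ?_⟩
    apply Prod.ext
    · show ((t c * x : GL (Fin n) F) : GL (Fin n) F ⧸ P) = x
      rw [QuotientGroup.eq]
      have h1 : (t c * x)⁻¹ * x = (x⁻¹ * t c * x)⁻¹ := by group
      rw [h1]
      exact P.inv_mem (ht c).2.1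
    · show ((t c * y : GL (Fin n) F) : GL (Fin n) F ⧸ Q) = y
      rw [QuotientGroup.eq]
      have h1 : (t c * y)⁻¹ * y = (y⁻¹ * t c * y)⁻¹ := by group
      rw [h1]
      exact Q.inv_mem (ht c).2.2
  have hq : (Fintype.card Fˣ : ℂ) = (Fintype.card F : ℂ) - 1 := by
    rw [Fintype.card_units, Nat.cast_sub Fintype.card_pos, Nat.cast_one]
  calc ((Fintype.card F : ℂ) - 1) * ∑ s : Matrix.SpecialLinearGroup (Fin n) F,
        Cfsg.fixedPointCharacter P (Matrix.SpecialLinearGroup.toGL s) *
          Cfsg.fixedPointCharacter Q (Matrix.SpecialLinearGroup.toGL s)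
      = ((Fintype.card F : ℂ) - 1) * ∑ z : (GL (Fin n) F ⧸ P) × (GL (Fin n) F ⧸ Q),
          ∑ s : Matrix.SpecialLinearGroup (Fin n) F,
            if Matrix.SpecialLinearGroup.toGL s • z = z then (1 : ℂ) else 0 := by
        rw [Finset.sum_comm]
        congr 1
        exact Finset.sum_congr rfl fun s _ => hfix _
    _ = ∑ z : (GL (Fin n) F ⧸ P) × (GL (Fin n) F ⧸ Q), ∑ g : GL (Fin n) F,
          if g • z = z then (1 : ℂ) else 0 := by
        rw [Finset.mul_sum]
        apply Finset.sum_congr rfl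
        intro z _
        obtain ⟨t, ht, htz⟩ := hsec z
        rw [sum_GL_eq_sum_SL t ht]
        have h1 : ∀ c : Fˣ, ∑ s : Matrix.SpecialLinearGroup (Fin n) F,
            (if (t c * Matrix.SpecialLinearGroup.toGL s) • z = z then (1 : ℂ) else 0) =
            ∑ s : Matrix.SpecialLinearGroup (Fin n) F,
              if Matrix.SpecialLinearGroup.toGL s • z = z then (1 : ℂ) else 0 := by
          intro c
          apply Finset.sum_congr rfl
          intro s _
          have h2 : (t c * Matrix.SpecialLinearGroup.toGL s) • z = z ↔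
              Matrix.SpecialLinearGroup.toGL s • z = z := by
            rw [mul_smul]
            constructor
            · intro h
              have h3 := congrArg (fun w => (t c)⁻¹ • w) h
              simp only [inv_smul_smul] at h3
              rw [h3, inv_smul_eq_iff, htz c]
            · intro h
              rw [h, htz c]
          simp only [h2]
        rw [Finset.sum_congr rfl fun c _ => h1 c, Finset.sum_const, Finset.card_univ,
          nsmul_eq_mul, hq]
    _ = ∑ g : GL (Fin n) F, Cfsg.fixedPointCharacter P g * Cfsg.fixedPointCharacter Q g := by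
        rw [Finset.sum_comm]
        exact Finset.sum_congr rfl fun g _ => (hfix g).symm

end Sums


section Restrict

variable {n : ℕ} {F : Type*} [Field F] [Fintype F] [DecidableEq F]

theorem sum_sq_expand {K X : Type*} [Fintype K] [Fintype X] (a : K → ℂ) (f : K → X → ℂ) :
    ∑ x : X, (∑ κ, a κ * f κ x) * (∑ κ, a κ * f κ x) =
      ∑ κ, ∑ κ', a κ * a κ' * ∑ x, f κ x * f κ' x := by
  have h : ∀ x : X, (∑ κ, a κ * f κ x) * (∑ κ, a κ * f κ x) =
      ∑ κ, ∑ κ', a κ * a κ' * (f κ x * f κ' x) := by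
    intro x
    rw [Finset.sum_mul_sum]
    apply Finset.sum_congr rfl
    intro κ _
    apply Finset.sum_congr rfl
    intro κ' _
    ring
  rw [Finset.sum_congr rfl fun x _ => h x, Finset.sum_comm]
  apply Finset.sum_congr rfl
  intro κ _
  rw [Finset.sum_comm]
  apply Finset.sum_congr rfl
  intro κ' _
  rw [Finset.mul_sum]

/-- On `SL_n` the squares of a unipotent character sum to `1/(q-1)` of the sum over `GL_n`. -/
theorem sum_SL_unipotent (hn : 0 < n) (ν : Fin n → ℕ) :
    ((Fintype.card F : ℂ) - 1) * ∑ s : Matrix.SpecialLinearGroup (Fin n) F,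
        Cfsg.unipotentCharacterGL n F ν (Matrix.SpecialLinearGroup.toGL s) *
          Cfsg.unipotentCharacterGL n F ν (Matrix.SpecialLinearGroup.toGL s) =
      ∑ g : GL (Fin n) F, Cfsg.unipotentCharacterGL n F ν g *
        Cfsg.unipotentCharacterGL n F ν g := by
  have hS : ∀ g : GL (Fin n) F, Cfsg.unipotentCharacterGL n F ν g =
      ∑ κ : Equiv.Perm (Fin n),
        (if ∀ i : Fin n, (κ i).val ≤ ν i + i.val then ((Equiv.Perm.sign κ : ℤ) : ℂ) else 0) *
          Cfsg.fixedPointCharacter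
            (Cfsg.parabolicGL n F fun i => ν i + i.val - (κ i).val) g := by
    intro g
    rw [unipotent_eq_sum]
    simp only [Finset.sum_apply, Pi.smul_apply, smul_eq_mul]
  calc ((Fintype.card F : ℂ) - 1) * ∑ s : Matrix.SpecialLinearGroup (Fin n) F,
        Cfsg.unipotentCharacterGL n F ν (Matrix.SpecialLinearGroup.toGL s) *
          Cfsg.unipotentCharacterGL n F ν (Matrix.SpecialLinearGroup.toGL s)
      = ((Fintype.card F : ℂ) - 1) * ∑ κ : Equiv.Perm (Fin n), ∑ κ' : Equiv.Perm (Fin n),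
          (if ∀ i : Fin n, (κ i).val ≤ ν i + i.val then ((Equiv.Perm.sign κ : ℤ) : ℂ) else 0) *
          (if ∀ i : Fin n, (κ' i).val ≤ ν i + i.val then ((Equiv.Perm.sign κ' : ℤ) : ℂ) else 0) *
          ∑ s : Matrix.SpecialLinearGroup (Fin n) F,
            Cfsg.fixedPointCharacter (Cfsg.parabolicGL n F fun i => ν i + i.val - (κ i).val)
              (Matrix.SpecialLinearGroup.toGL s) *
            Cfsg.fixedPointCharacter (Cfsg.parabolicGL n F fun i => ν i + i.val - (κ' i).val)
              (Matrix.SpecialLinearGroup.toGL s) := by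
        simp only [hS]
        rw [sum_sq_expand]
    _ = ∑ κ : Equiv.Perm (Fin n), ∑ κ' : Equiv.Perm (Fin n),
          (if ∀ i : Fin n, (κ i).val ≤ ν i + i.val then ((Equiv.Perm.sign κ : ℤ) : ℂ) else 0) *
          (if ∀ i : Fin n, (κ' i).val ≤ ν i + i.val then ((Equiv.Perm.sign κ' : ℤ) : ℂ) else 0) *
          ∑ g : GL (Fin n) F,
            Cfsg.fixedPointCharacter (Cfsg.parabolicGL n F fun i => ν i + i.val - (κ i).val) g *
            Cfsg.fixedPointCharacter (Cfsg.parabolicGL n F fun i => ν i + i.val - (κ' i).val)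
              g := by
        rw [Finset.mul_sum]
        apply Finset.sum_congr rfl
        intro κ _
        rw [Finset.mul_sum]
        apply Finset.sum_congr rfl
        intro κ' _
        rw [← sum_SL_fpc hn _ _ (upper_le_parabolic F _) (upper_le_parabolic F _)]
        ring
    _ = ∑ g : GL (Fin n) F, Cfsg.unipotentCharacterGL n F ν g *
          Cfsg.unipotentCharacterGL n F ν g := by
        simp only [hS]
        rw [sum_sq_expand]

omit [DecidableEq F] in
theorem cast_card_SL (hn : 0 < n) :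
    (Nat.card (Matrix.SpecialLinearGroup (Fin n) F) : ℂ) * ((Fintype.card F : ℂ) - 1) =
      (Nat.card (GL (Fin n) F) : ℂ) := by
  have : Nonempty (Fin n) := ⟨⟨0, hn⟩⟩
  have h := Cfsg.Agent.Helper5.card_SL_mul (F := F) (Fin n)
  rw [← h, Nat.cast_mul, Nat.cast_sub Fintype.card_pos, Nat.cast_one]

/-- The restriction of a unipotent character of `GL_n(q)` to `SL_n(q)` has norm one. -/
theorem norm_SL (hn : 0 < n) (ν : Fin n → ℕ) (hmono : Monotone ν) (hsum : ∑ i, ν i = n) :
    Cfsg.classInner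
      (fun s : Matrix.SpecialLinearGroup (Fin n) F =>
        Cfsg.unipotentCharacterGL n F ν (Matrix.SpecialLinearGroup.toGL s))
      (fun s : Matrix.SpecialLinearGroup (Fin n) F =>
        Cfsg.unipotentCharacterGL n F ν (Matrix.SpecialLinearGroup.toGL s)) = 1 := by
  unfold Cfsg.classInner
  simp only [unipotent_conj]
  have h1 := sum_SL_unipotent (F := F) hn ν
  rw [sum_unipotent_mul ν ν hmono hsum hmono hsum, if_pos rfl, mul_one] at h1
  have h2 := cast_card_SL (F := F) hn
  have hS : (Nat.card (Matrix.SpecialLinearGroup (Fin n) F) : ℂ) ≠ 0 := by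
    exact_mod_cast Nat.card_pos.ne'
  have hG : (Nat.card (GL (Fin n) F) : ℂ) ≠ 0 := by
    exact_mod_cast Nat.card_pos.ne'
  have hq : ((Fintype.card F : ℂ) - 1) ≠ 0 := by
    intro h0
    rw [h0, mul_zero] at h2
    exact hG h2.symm
  have h3 : ∑ s : Matrix.SpecialLinearGroup (Fin n) F,
      Cfsg.unipotentCharacterGL n F ν (Matrix.SpecialLinearGroup.toGL s) *
        Cfsg.unipotentCharacterGL n F ν (Matrix.SpecialLinearGroup.toGL s) =
      (Nat.card (Matrix.SpecialLinearGroup (Fin n) F) : ℂ) := by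
    apply mul_left_cancel₀ hq
    rw [h1, ← h2, mul_comm]
  rw [h3, inv_mul_cancel₀ hS]

/-- Unipotent characters of `GL_n(q)` restrict irreducibly to `SL_n(q)`. -/
theorem restrict_isIrr (hn : 0 < n) (ν : Fin n → ℕ) (hmono : Monotone ν)
    (hsum : ∑ i, ν i = n) :
    Cfsg.IsIrrCharacter (Matrix.SpecialLinearGroup (Fin n) F)
      (fun s => Cfsg.unipotentCharacterGL n F ν (Matrix.SpecialLinearGroup.toGL s)) :=
  Cfsg.Agent.Helper15.isIrr_of_inner_one
    (Cfsg.Agent.Helper79.isCharacter_comp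
      (Cfsg.Agent.Helper79.isCharacter_of_irr (unipotent_isIrr ν hmono hsum))
      Matrix.SpecialLinearGroup.toGL)
    (norm_SL hn ν hmono hsum)

omit [Fintype F] [DecidableEq F] in
theorem fpc_central (P : Subgroup (GL (Fin n) F)) (hP : Cfsg.upperTriangularGL n F ≤ P)
    (z : Matrix.SpecialLinearGroup (Fin n) F)
    (hz : z ∈ Subgroup.center (Matrix.SpecialLinearGroup (Fin n) F)) :
    Cfsg.fixedPointCharacter P (Matrix.SpecialLinearGroup.toGL z) =
      Cfsg.fixedPointCharacter P 1 := by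
  obtain ⟨r, -, hr⟩ := Matrix.SpecialLinearGroup.mem_center_iff.1 hz
  have hzP : Matrix.SpecialLinearGroup.toGL z ∈ P := by
    apply hP
    show ((Matrix.SpecialLinearGroup.toGL z : GL (Fin n) F) :
      Matrix (Fin n) (Fin n) F).BlockTriangular id
    have : ((Matrix.SpecialLinearGroup.toGL z : GL (Fin n) F) : Matrix (Fin n) (Fin n) F) =
        Matrix.diagonal fun _ => r := by
      rw [← Matrix.scalar_apply, hr]
      rfl
    rw [this]
    exact Matrix.blockTriangular_diagonal _
  have hcomm : ∀ x : GL (Fin n) F,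
      Matrix.SpecialLinearGroup.toGL z * x = x * Matrix.SpecialLinearGroup.toGL z := by
    intro x
    apply Units.ext
    show ((Matrix.SpecialLinearGroup.toGL z : GL (Fin n) F) : Matrix (Fin n) (Fin n) F) *
      (x : Matrix (Fin n) (Fin n) F) = (x : Matrix (Fin n) (Fin n) F) *
        ((Matrix.SpecialLinearGroup.toGL z : GL (Fin n) F) : Matrix (Fin n) (Fin n) F)
    have : ((Matrix.SpecialLinearGroup.toGL z : GL (Fin n) F) : Matrix (Fin n) (Fin n) F) =
        Matrix.scalar (Fin n) r := by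
      rw [hr]
      rfl
    rw [this]
    exact Matrix.scalar_comm r (fun r' => mul_comm r r') _
  unfold Cfsg.fixedPointCharacter
  congr 2
  have hset : MulAction.fixedBy (GL (Fin n) F ⧸ P) (Matrix.SpecialLinearGroup.toGL z) =
      MulAction.fixedBy (GL (Fin n) F ⧸ P) (1 : GL (Fin n) F) := by
    ext a
    simp only [MulAction.mem_fixedBy, one_smul, iff_true]
    induction a using QuotientGroup.induction_on with
    | H x =>
    show ((Matrix.SpecialLinearGroup.toGL z * x : GL (Fin n) F) : GL (Fin n) F ⧸ P) = x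
    rw [QuotientGroup.eq, hcomm x]
    have h1 : (x * Matrix.SpecialLinearGroup.toGL z)⁻¹ * x =
        (Matrix.SpecialLinearGroup.toGL z)⁻¹ := by group
    rw [h1]
    exact P.inv_mem hzP
  rw [hset]

omit [Fintype F] [DecidableEq F] in
theorem unipotent_central (ν : Fin n → ℕ) (z : Matrix.SpecialLinearGroup (Fin n) F)
    (hz : z ∈ Subgroup.center (Matrix.SpecialLinearGroup (Fin n) F)) :
    Cfsg.unipotentCharacterGL n F ν (Matrix.SpecialLinearGroup.toGL z) =
      Cfsg.unipotentCharacterGL n F ν 1 := by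
  unfold Cfsg.unipotentCharacterGL
  apply Finset.sum_congr rfl
  intro κ _
  split_ifs
  · rw [fpc_central _ (upper_le_parabolic F _) z hz]
  · rfl

end Restrict


section Degree

/-- the geometric sums `1 + Q + ⋯ + Q^k`. -/
noncomputable def xs (Q : ℂ) (k : ℕ) : ℂ := ∑ l ∈ range (k + 1), Q ^ l

theorem xs_succ (Q : ℂ) (k : ℕ) : xs Q (k + 1) = 1 + Q * xs Q k := by
  unfold xs
  rw [Finset.sum_range_succ', Finset.mul_sum, pow_zero, add_comm]
  congr 1
  apply Finset.sum_congr rfl
  intro l _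
  rw [pow_succ']

theorem xs_zero (Q : ℂ) : xs Q 0 = 1 := by simp [xs]

theorem card_Ioi_sum (n : ℕ) : ∑ i : Fin n, (Finset.Ioi i).card = ∑ t ∈ range n, t := by
  simp only [Fin.card_Ioi]
  rw [Fin.sum_univ_eq_sum_range (fun i => n - 1 - i) n, Finset.sum_range_reflect (fun t => t) n]

/-- the Vandermonde product of the geometric sums. -/
theorem vand (Q : ℂ) (n : ℕ) :
    ∏ i : Fin n, ∏ j ∈ Finset.Ioi i, (xs Q j.val - xs Q i.val) =
      Q ^ (∑ m ∈ range n, (m + ∑ t ∈ range m, t)) *
        ∏ m ∈ range n, ∏ j ∈ range m, xs Q j := by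
  induction n with
  | zero => simp
  | succ n ih =>
    rw [Fin.prod_univ_succ, Fin.prod_Ioi_zero]
    have h1 : ∀ i : Fin n, ∏ j ∈ Finset.Ioi i.succ, (xs Q j.val - xs Q i.succ.val) =
        ∏ j ∈ Finset.Ioi i, (Q * (xs Q j.val - xs Q i.val)) := by
      intro i
      rw [Fin.prod_Ioi_succ]
      apply Finset.prod_congr rfl
      intro j _
      simp only [Fin.val_succ]
      rw [xs_succ, xs_succ]
      ring
    have h2 : ∀ j : Fin n, xs Q j.succ.val - xs Q (0 : Fin (n + 1)).val = Q * xs Q j.val := by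
      intro j
      simp only [Fin.val_succ, Fin.val_zero]
      rw [xs_succ, xs_zero]
      ring
    rw [Finset.prod_congr rfl fun j _ => h2 j, Finset.prod_congr rfl fun i _ => h1 i]
    simp only [Finset.prod_mul_distrib, Finset.prod_const, Finset.card_univ, Fintype.card_fin]
    rw [ih, Finset.prod_pow_eq_pow_sum, card_Ioi_sum, Finset.sum_range_succ,
      Finset.prod_range_succ, Fin.prod_univ_eq_prod_range (fun j => xs Q j) n, pow_add, pow_add]
    ring

theorem prod_fact_shift (f : ℕ → ℂ) (n : ℕ) :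
    ∏ i ∈ range n, ∏ j ∈ range (i + 1), f j =
      (∏ m ∈ range n, ∏ j ∈ range m, f j) * ∏ j ∈ range n, f j := by
  induction n with
  | zero => simp
  | succ n ih =>
    rw [Finset.prod_range_succ, ih, Finset.prod_range_succ (fun m => ∏ j ∈ range m, f j)]

/-- The Steinberg character of `GL_n(q)` has degree `q^(n(n-1)/2)`. -/
theorem steinberg_degree {F : Type*} [Field F] [Fintype F] (n : ℕ) :
    Cfsg.unipotentCharacterGL n F (fun _ => 1) 1 =
      (Fintype.card F : ℂ) ^ (∑ t ∈ range n, t) := by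
  have h := Cfsg.Agent.S2424.result (F := F) (q := Fintype.card F) rfl (fun _ : Fin n => 1)
    monotone_const (by simp)
  have hx : ∀ k : ℕ, ((∑ l ∈ range (k + 1), Fintype.card F ^ l : ℕ) : ℂ) =
      xs (Fintype.card F : ℂ) k := by
    intro k
    unfold xs
    push_cast
    rfl
  have hIoi : ∀ i : Fin n, Finset.univ.filter (fun j : Fin n => i < j) = Finset.Ioi i := by
    intro i
    exact Finset.filter_lt_eq_Ioi
  simp only [add_comm 1, hx, hIoi] at h
  rw [vand, ← Cfsg.Agent.S2424.sum_tri n,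
    Fin.prod_univ_eq_prod_range (fun i => ∏ j ∈ range (i + 1), xs (Fintype.card F : ℂ) j) n,
    prod_fact_shift, Finset.sum_add_distrib, pow_add] at h
  have hq : (Fintype.card F : ℂ) ≠ 0 := by
    exact_mod_cast Fintype.card_pos.ne'
  have hxs : ∀ k : ℕ, xs (Fintype.card F : ℂ) k ≠ 0 := by
    intro k
    rw [← hx k]
    have : 0 < ∑ l ∈ range (k + 1), Fintype.card F ^ l := by
      rw [Finset.sum_range_succ']
      have : 0 < Fintype.card F ^ 0 := by simp
      omega
    exact_mod_cast this.ne'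
  have hA : (Fintype.card F : ℂ) ^ (∑ k ∈ range n, ∑ t ∈ range k, t) ≠ 0 := pow_ne_zero _ hq
  have hP1 : ∏ m ∈ range n, ∏ j ∈ range m, xs (Fintype.card F : ℂ) j ≠ 0 :=
    Finset.prod_ne_zero_iff.2 fun m _ => Finset.prod_ne_zero_iff.2 fun j _ => hxs j
  have hP2 : ∏ j ∈ range n, xs (Fintype.card F : ℂ) j ≠ 0 :=
    Finset.prod_ne_zero_iff.2 fun j _ => hxs j
  have h' : Cfsg.unipotentCharacterGL n F (fun _ => 1) 1 *
      ((Fintype.card F : ℂ) ^ (∑ k ∈ range n, ∑ t ∈ range k, t) *
        ((∏ m ∈ range n, ∏ j ∈ range m, xs (Fintype.card F : ℂ) j) *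
          ∏ j ∈ range n, xs (Fintype.card F : ℂ) j)) =
      (Fintype.card F : ℂ) ^ (∑ t ∈ range n, t) *
      ((Fintype.card F : ℂ) ^ (∑ k ∈ range n, ∑ t ∈ range k, t) *
        ((∏ m ∈ range n, ∏ j ∈ range m, xs (Fintype.card F : ℂ) j) *
          ∏ j ∈ range n, xs (Fintype.card F : ℂ) j)) := by
    rw [← mul_assoc, h]
    ring
  exact mul_right_cancel₀ (mul_ne_zero hA (mul_ne_zero hP1 hP2)) h'

end Degree


section Final

variable {F : Type*} [Field F] [Fintype F]

theorem not_dvd_qfac (p : ℕ) (hp : p.Prime) (q : ℕ) (hq : p ∣ q) (n : ℕ) : ¬ p ∣ qfac q n := by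
  unfold qfac
  rw [Prime.dvd_finsetProd_iff hp.prime]
  rintro ⟨j, -, hj⟩
  rw [Finset.sum_range_succ', pow_zero] at hj
  have h1 : p ∣ ∑ l ∈ range j, q ^ (l + 1) := by
    apply Finset.dvd_sum
    intro l _
    exact dvd_trans hq (dvd_pow_self q (by omega))
  have h2 : p ∣ 1 := (Nat.dvd_add_right h1).1 hj
  exact hp.one_lt.ne' (Nat.dvd_one.1 h2)

/-- `|PSL_n(q)| = q^(n(n-1)/2) m'` with `m'` prime to the characteristic. -/
theorem card_PSL_factor (p : ℕ) [Fact p.Prime] [CharP F p] (n : ℕ) (hn : 0 < n) :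
    ∃ m' : ℕ, Nat.card (Matrix.ProjectiveSpecialLinearGroup (Fin n) F) =
      Fintype.card F ^ (∑ t ∈ range n, t) * m' ∧ ¬ p ∣ m' := by
  classical
  have hp : p.Prime := Fact.out
  have : Nonempty (Fin n) := ⟨⟨0, hn⟩⟩
  obtain ⟨f, -, hqf⟩ := FiniteField.card F p
  have hq1 : 1 ≤ Fintype.card F := Fintype.card_pos
  have hpq : p ∣ Fintype.card F := by
    rw [hqf]; exact dvd_pow_self p f.ne_zero
  have hpq1 : ¬ p ∣ Fintype.card F - 1 := by
    intro h
    have h2 : p ∣ 1 := by
      have h3 := (Nat.dvd_sub hpq h)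
      rwa [Nat.sub_sub_self hq1] at h3
    exact hp.one_lt.ne' (Nat.dvd_one.1 h2)
  have h1 := Cfsg.Agent.Helper5.card_SL_mul (F := F) (Fin n)
  have h2 : Nat.card (GL (Fin n) F) =
      Fintype.card F ^ (∑ t ∈ range n, t) * ((Fintype.card F - 1) ^ n * qfac (Fintype.card F) n) := by
    rw [Matrix.card_GL_field, card_GL_eq _ _ hq1, gfun, mul_assoc]
  have h3 := Subgroup.card_eq_card_quotient_mul_card_subgroup
    (Subgroup.center (Matrix.SpecialLinearGroup (Fin n) F))
  have h4 : Nat.card (Subgroup.center (Matrix.SpecialLinearGroup (Fin n) F)) ∣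
      Fintype.card F - 1 := by
    have h4a : Nat.card (Subgroup.center (Matrix.SpecialLinearGroup (Fin n) F)) =
        Nat.card (rootsOfUnity (max (Fintype.card (Fin n)) 1) F) :=
      Nat.card_congr (Matrix.SpecialLinearGroup.center_equiv_rootsOfUnity (n := Fin n)
        (R := F)).toEquiv
    have h4b : Nat.card (rootsOfUnity (max (Fintype.card (Fin n)) 1) F) ∣ Nat.card Fˣ :=
      Subgroup.card_subgroup_dvd_card _
    have h4c : Nat.card Fˣ = Fintype.card F - 1 := by
      rw [Nat.card_eq_fintype_card, Fintype.card_units]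
    rw [h4a, ← h4c]
    exact h4b
  have h5 : Nat.card (Matrix.ProjectiveSpecialLinearGroup (Fin n) F) *
      (Nat.card (Subgroup.center (Matrix.SpecialLinearGroup (Fin n) F)) *
        (Fintype.card F - 1)) =
      Fintype.card F ^ (∑ t ∈ range n, t) * ((Fintype.card F - 1) ^ n * qfac (Fintype.card F) n) := by
    rw [← h2, ← h1, h3, mul_assoc]
  have hc' : ¬ p ∣ Nat.card (Subgroup.center (Matrix.SpecialLinearGroup (Fin n) F)) *
      (Fintype.card F - 1) := by
    intro h
    rcases (Nat.Prime.dvd_mul hp).1 h with h | h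
    · exact hpq1 (dvd_trans h h4)
    · exact hpq1 h
  have hc : ¬ p ∣ (Fintype.card F - 1) ^ n * qfac (Fintype.card F) n := by
    intro h
    rcases (Nat.Prime.dvd_mul hp).1 h with h | h
    · exact hpq1 (hp.dvd_of_dvd_pow h)
    · exact not_dvd_qfac p hp _ hpq n h
  have hcop : Nat.Coprime (Fintype.card F ^ (∑ t ∈ range n, t))
      (Nat.card (Subgroup.center (Matrix.SpecialLinearGroup (Fin n) F)) *
        (Fintype.card F - 1)) := by
    have hcop0 : Nat.Coprime (p ^ (f : ℕ))
        (Nat.card (Subgroup.center (Matrix.SpecialLinearGroup (Fin n) F)) *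
          (Fintype.card F - 1)) :=
      Nat.Coprime.pow_left _ ((Nat.Prime.coprime_iff_not_dvd hp).2 hc')
    rw [← hqf] at hcop0
    exact Nat.Coprime.pow_left _ hcop0
  have hdvd : Fintype.card F ^ (∑ t ∈ range n, t) ∣
      Nat.card (Matrix.ProjectiveSpecialLinearGroup (Fin n) F) :=
    hcop.dvd_of_dvd_mul_right (Dvd.intro _ h5.symm)
  obtain ⟨m', hm'⟩ := hdvd
  refine ⟨m', hm', fun hpm => hc ?_⟩
  rw [hm', mul_assoc] at h5
  have h6 := Nat.eq_of_mul_eq_mul_left (Nat.pow_pos (by omega)) h5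
  rw [← h6]
  exact dvd_mul_of_dvd_left hpm _

/-- The Steinberg character of `PSL_n(q)`. -/
theorem steinberg_PSL (p : ℕ) [Fact p.Prime] [CharP F p] (n : ℕ) (hn : 2 ≤ n) :
    ∃ χ : Matrix.ProjectiveSpecialLinearGroup (Fin n) F → ℂ,
      Cfsg.IsIrrCharacter (Matrix.ProjectiveSpecialLinearGroup (Fin n) F) χ ∧
      ∀ P : Sylow p (Matrix.ProjectiveSpecialLinearGroup (Fin n) F), χ 1 = Nat.card P ∧
        ∀ x : Matrix.ProjectiveSpecialLinearGroup (Fin n) F, x ∈ P → x ≠ 1 → χ x = 0 := by
  classical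
  have hp : p.Prime := Fact.out
  have hn0 : 0 < n := by omega
  have hirr := restrict_isIrr (F := F) hn0 (fun _ => 1) monotone_const (by simp)
  obtain ⟨ψ, hψ, hψθ⟩ := Cfsg.Agent.Helper79.exists_irr_deflation
    (Subgroup.center (Matrix.SpecialLinearGroup (Fin n) F)) hirr
    (fun z hz => by rw [unipotent_central _ z hz, map_one])
  refine ⟨ψ, hψ, fun P => ?_⟩
  obtain ⟨m', hm', hpm'⟩ := card_PSL_factor (F := F) p n hn0
  obtain ⟨f, -, hqf⟩ := FiniteField.card F p
  have hψ1 : ψ 1 = (Fintype.card F : ℂ) ^ (∑ t ∈ range n, t) := by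
    have h := hψθ 1
    rw [map_one, steinberg_degree] at h
    exact h
  have hm0 : m' ≠ 0 := by
    rintro rfl
    exact hpm' (dvd_zero p)
  have hfac : (Nat.card (Matrix.ProjectiveSpecialLinearGroup (Fin n) F)).factorization p =
      (f : ℕ) * ∑ t ∈ range n, t := by
    rw [hm', hqf, ← pow_mul, Nat.factorization_mul (pow_ne_zero _ hp.ne_zero) hm0,
      Nat.Prime.factorization_pow hp, Finsupp.add_apply, Finsupp.single_eq_same,
      Nat.factorization_eq_zero_of_not_dvd hpm', add_zero]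
  have hcardP : Nat.card P = Fintype.card F ^ (∑ t ∈ range n, t) := by
    rw [Sylow.card_eq_multiplicity, hfac, hqf, pow_mul]
  refine ⟨by rw [hψ1, hcardP]; push_cast; rfl, fun x hx hx1 => ?_⟩
  obtain ⟨m, ρ, hρ, hχ⟩ := hψ
  have hm : m = Fintype.card F ^ (∑ t ∈ range n, t) := by
    have h := Representation.char_one ρ
    rw [hχ, hψ1, Module.finrank_fin_fun] at h
    exact_mod_cast h.symm
  have hpx : p ∣ orderOf x := by
    obtain ⟨k, hk⟩ := P.isPGroup' ⟨x, hx⟩
    have hk' : x ^ (p ^ k) = 1 := by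
      have := congrArg Subtype.val hk
      simpa using this
    obtain ⟨j, -, hjo⟩ := (Nat.dvd_prime_pow hp).1 (orderOf_dvd_of_pow_eq_one hk')
    have hj0 : j ≠ 0 := by
      rintro rfl
      rw [pow_zero, orderOf_eq_one_iff] at hjo
      exact hx1 hjo
    rw [hjo]
    exact dvd_pow_self p hj0
  have hcard : Nat.card (Matrix.ProjectiveSpecialLinearGroup (Fin n) F) =
      p ^ ((f : ℕ) * ∑ t ∈ range n, t) * m' := by
    rw [hm', hqf, ← pow_mul]
  have h0 := Cfsg.Agent.S0165.result ρ p ((f : ℕ) * ∑ t ∈ range n, t) hp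
    (by rw [hcard]; exact dvd_mul_right _ _)
    (by
      rw [hcard, pow_succ]
      intro h
      exact hpm' (Nat.dvd_of_mul_dvd_mul_left (Nat.pow_pos hp.pos) h))
    (by rw [Module.finrank_fin_fun, hm, hqf, ← pow_mul])
    x hpx
  rw [← hχ]
  exact h0

end Final

end Cfsg.Agent.Helper40.SteinbergPSL
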