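import Cfsg.Agent.Helper40.DZR4b
import Cfsg.Agent.Helper40.SteinbergPSL
import Cfsg.Agent.Helper75.InnerLin
import Cfsg.Agent.Helper81.CharBasic
import Cfsg.Agent.Helper80.CharIrr

set_option autoImplicit false
namespace Cfsg.Agent.Helper40.DZMain

open Cfsg.Agent.Helper40.DZ Cfsg.Agent.Helper44.PSLn Matrix Cfsg.Agent.Helper40.DZP Cfsg.Agent.Helper40.DZR13 Cfsg.Agent.Helper40.DZR2 Cfsg.Agent.Helper40.DZR4b
open scoped ComplexConjugate

universe u

/-- conjugate-linearity of `classInner` in a signed sum of real-valued functions -/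
theorem classInner_sum_ite {G : Type*} [Group G] [Fintype G] {ι : Type*} [Fintype ι]
    (φ : G → ℂ) (P : ι → Prop) [DecidablePred P] (a : ι → ℤ) (f : ι → G → ℂ) :
    Cfsg.classInner φ (fun g => ∑ i, if P i then (a i : ℂ) * f i g else 0) =
      ∑ i, if P i then (a i : ℂ) * Cfsg.classInner φ (f i) else 0 := by
  unfold Cfsg.classInner
  have h1 : ∀ g : G, φ g * conj (∑ i, if P i then (a i : ℂ) * f i g else 0) =
      ∑ i, if P i then (a i : ℂ) * (φ g * conj (f i g)) else 0 := by
    intro g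
    rw [map_sum, Finset.mul_sum]
    apply Finset.sum_congr rfl
    intro i _
    split_ifs
    · rw [map_mul, map_intCast]; ring
    · rw [map_zero, mul_zero]
  simp only [h1]
  rw [Finset.sum_comm, Finset.mul_sum]
  apply Finset.sum_congr rfl
  intro i _
  split_ifs
  · rw [← Finset.mul_sum]; ring
  · simp

section

variable {n : ℕ} {F : Type u} [Field F] [Fintype F]

local notation "SLn" => Matrix.SpecialLinearGroup (Fin n) F

variable {V : Type*} [AddCommGroup V] [Module ℂ V] [Module.Finite ℂ V]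

theorem fixS_borel (ρ : Representation ℂ SLn V) (hirr : ρ.IsIrreducible)
    (hvan : ∀ u ∈ UniS n F, u ≠ 1 → ρ.character u = 0) :
    fixS ρ ((borelSL n F : Subgroup SLn) : Set SLn) =
      fixS ρ ((UniS n F : Subgroup SLn) : Set SLn) := by
  apply le_antisymm
  · intro x hx
    exact (mem_fixS _ _ _).2 fun g hg => (mem_fixS _ _ _).1 hx g (UniS_le_borel hg)
  · intro x hx
    have h1 : x ∈ fixS ρ (((UniS n F : Subgroup SLn) : Set SLn) ∪
        {g | ∃ (j : ℕ) (hj : j + 1 < n) (c : F), c ≠ 0 ∧ g = hel j hj c}) := by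
      refine (mem_fixS _ _ _).2 fun g hg => ?_
      rcases hg with hg | ⟨j, hj, c, hc, rfl⟩
      · exact (mem_fixS _ _ _).1 hx g hg
      · exact (local_main ρ hirr hvan j hj x hx).1 c hc
    rw [← fixS_closure] at h1
    exact (mem_fixS _ _ _).2 fun g hg => (mem_fixS _ _ _).1 h1 g (borel_le_closure hg)

theorem borelSL_le_parSL (μ : Fin n → ℕ) : borelSL n F ≤ parSL n F μ :=
  Subgroup.comap_mono (borel_le_par μ)

theorem fixS_par_bot (ρ : Representation ℂ SLn V) (hirr : ρ.IsIrreducible)
    (hvan : ∀ u ∈ UniS n F, u ≠ 1 → ρ.character u = 0) (κ : Equiv.Perm (Fin n))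
    (hκ : ∀ i : Fin n, (κ i).val ≤ 1 + i.val) (hne : κ ≠ 1) :
    fixS ρ ((parSL n F (fun i => 1 + i.val - (κ i).val) : Subgroup SLn) : Set SLn) = ⊥ := by
  rw [eq_bot_iff]
  intro x hx
  obtain ⟨j, hj, hs⟩ := sdot_mem_par (F := F) κ hκ hne
  have hxU : x ∈ fixS ρ ((UniS n F : Subgroup SLn) : Set SLn) :=
    (mem_fixS _ _ _).2 fun g hg =>
      (mem_fixS _ _ _).1 hx g (borelSL_le_parSL _ (UniS_le_borel hg))
  have h2 := (local_main ρ hirr hvan j hj x hxU).2
  have h3 : ∀ c : F, ρ (xel j hj c * sdot j hj) x = x := by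
    intro c
    rw [map_mul, Module.End.mul_apply, (mem_fixS _ _ _).1 hx _ hs,
      (mem_fixS _ _ _).1 hxU _ (xel_mem_UniS j hj c)]
  simp only [h3, Finset.sum_const, Finset.card_univ] at h2
  have h4 : ((Fintype.card F : ℂ) + 1) • x = 0 := by
    rw [add_smul, one_smul, ← Nat.cast_smul_eq_nsmul ℂ] at *
    rw [h2, neg_add_cancel]
  have h5 : ((Fintype.card F : ℂ) + 1) ≠ 0 := by
    have : ((Fintype.card F : ℂ) + 1) = ((Fintype.card F + 1 : ℕ) : ℂ) := by push_cast; rfl
    rw [this]
    exact Nat.cast_ne_zero.2 (Nat.succ_ne_zero _)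
  exact (Submodule.mem_bot ℂ).2 ((smul_eq_zero.1 h4).resolve_left h5)

end

section

variable {n : ℕ} {F : Type u} [Field F] [Fintype F]

local notation "SLn" => Matrix.SpecialLinearGroup (Fin n) F

/-- **Uniqueness of the Steinberg character**: an irreducible character of `SL_n(q)` vanishing
on the nontrivial upper unitriangular matrices is the Steinberg character. -/
theorem st_unique (hn : 0 < n) {d : ℕ} (ρ : Representation ℂ SLn (Fin d → ℂ))
    (hirr : ρ.IsIrreducible) (hvan : ∀ u ∈ UniS n F, u ≠ 1 → ρ.character u = 0) :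
    ρ.character = stSL n F := by
  classical
  by_contra hne
  have hχ : Cfsg.IsIrrCharacter SLn ρ.character := ⟨d, ρ, hirr, rfl⟩
  have hSt : Cfsg.IsIrrCharacter SLn (stSL n F) :=
    Cfsg.Agent.Helper40.SteinbergPSL.restrict_isIrr hn (fun _ => 1) monotone_const (by simp)
  have h0 := Cfsg.Agent.Helper75.classInner_irr_of_ne hχ hSt hne
  have hd : 0 < d := by
    have h := Cfsg.Agent.Helper81.charDegree_pos (⟨ρ.character, hχ⟩ : Cfsg.IrrCharacter SLn)
    rwa [Cfsg.Agent.Helper80.charDegree_rep_character] at h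
  have hA1 := A1 ρ (UniS n F) hvan
  rw [Module.finrank_fin_fun] at hA1
  have hm : Module.finrank ℂ (fixS ρ ((UniS n F : Subgroup SLn) : Set SLn)) ≠ 0 := by
    intro h
    rw [h, mul_zero] at hA1
    omega
  have hterm : ∀ κ : Equiv.Perm (Fin n),
      Cfsg.classInner ρ.character (fun s : SLn => Cfsg.fixedPointCharacter
        (Cfsg.parabolicGL n F fun i => 1 + i.val - (κ i).val)
        (Matrix.SpecialLinearGroup.toGL s)) =
      (Module.finrank ℂ (fixS ρ
        ((parSL n F (fun i => 1 + i.val - (κ i).val) : Subgroup SLn) : Set SLn)) : ℂ) := by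
    intro κ
    have h1 : (fun s : SLn => Cfsg.fixedPointCharacter
        (Cfsg.parabolicGL n F fun i => 1 + i.val - (κ i).val)
        (Matrix.SpecialLinearGroup.toGL s)) =
        Cfsg.fixedPointCharacter (parSL n F (fun i => 1 + i.val - (κ i).val)) := by
      funext s
      exact fpc_SL hn _ (borel_le_par _) s
    rw [h1, A3a]
  have key : Cfsg.classInner ρ.character (stSL n F) =
      (Module.finrank ℂ (fixS ρ ((UniS n F : Subgroup SLn) : Set SLn)) : ℂ) := by
    have h1 := classInner_sum_ite (G := SLn) (ι := Equiv.Perm (Fin n)) ρ.character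
      (fun κ => ∀ i : Fin n, (κ i).val ≤ 1 + i.val)
      (fun κ => (Equiv.Perm.sign κ : ℤ))
      (fun κ s => Cfsg.fixedPointCharacter
        (Cfsg.parabolicGL n F fun i => 1 + i.val - (κ i).val)
        (Matrix.SpecialLinearGroup.toGL s))
    have h2 : (stSL n F) = (fun s : SLn => ∑ κ : Equiv.Perm (Fin n),
        if (∀ i : Fin n, (κ i).val ≤ 1 + i.val) then
          (((Equiv.Perm.sign κ : ℤ)) : ℂ) * Cfsg.fixedPointCharacter
            (Cfsg.parabolicGL n F fun i => 1 + i.val - (κ i).val)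
            (Matrix.SpecialLinearGroup.toGL s) else 0) := by
      funext s
      unfold stSL Cfsg.unipotentCharacterGL
      apply Finset.sum_congr rfl
      intro κ _
      congr 1
    rw [h2, h1]
    simp only [hterm]
    rw [Finset.sum_eq_single (1 : Equiv.Perm (Fin n))]
    · rw [if_pos (by intro i; simp), Equiv.Perm.sign_one]
      rw [par_one, fixS_borel ρ hirr hvan]
      simp
    · intro κ _ hκ1
      split_ifs with hc
      · rw [fixS_par_bot ρ hirr hvan κ hc hκ1, finrank_bot]
        simp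
      · rfl
    · intro h
      exact absurd (Finset.mem_univ _) h
  rw [key] at h0
  exact hm (by exact_mod_cast h0)

/-- **The radical lemma**: a nontrivial radical `p`-subgroup of `SL_n(F)` is centralized by no
non-central `p`-regular element. -/
theorem radical_central (p : ℕ) [Fact p.Prime] [CharP F p] (hn : 0 < n) (D : Subgroup SLn)
    (hD : IsPGroup p D) (hD1 : D ≠ ⊥)
    (hrad : (Cfsg.pCore p (Subgroup.normalizer (D : Set SLn))).map
      (Subgroup.normalizer (D : Set SLn)).subtype = D)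
    (x : SLn) (hx : D ≤ Subgroup.centralizer ({x} : Set SLn)) (hreg : ¬ p ∣ orderOf x) :
    x ∈ Subgroup.center SLn := by
  have hW0 := LA2 p hn D hD
  have hW1 : fixVec D ≠ ⊤ := fun h => hD1 (LA7a D h)
  obtain ⟨Q, hQ, hQp⟩ := LA3 p (fixVec D)
  have hQD : Q ≤ D := LA1 p D hrad Q hQp (fun g hg y hy => by
    have h1 : y ∈ qSet (fixVec D) := by rw [← hQ]; exact hy
    have h2 := LA3b D g hg y h1
    rw [← hQ] at h2
    exact h2)
  obtain ⟨c, hc⟩ := LA5 (fixVec D) hW0 hW1 x (fun g hg => by
    have hgD : g ∈ D := hQD (by rw [← SetLike.mem_coe, hQ]; exact hg)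
    have h1 := Subgroup.mem_centralizer_iff.mp (hx hgD) x rfl
    exact h1.symm)
  exact LA6 p x hreg c hc

end

end Cfsg.Agent.Helper40.DZMain
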