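import Cfsg.Agent.Helper40.DZDefs
import Cfsg.Prelude.Def_Solvable
import Cfsg.Agent.Helper12.DZG1a
import Cfsg.Agent.Helper12.DZG1b
import Cfsg.Agent.Helper33.DZAV
import Cfsg.Agent.Helper40.DZA1
import Cfsg.Agent.Helper40.DZD23
import Cfsg.Agent.Helper52.DZA3a
import Cfsg.Agent.Helper52.DZLA7a
import Cfsg.Agent.Helper52.DZQ3
import Cfsg.Agent.Helper57.DZQ2
import Cfsg.Agent.Helper59.DZA3b
import Cfsg.Agent.Helper59.DZLA5
import Cfsg.Agent.Helper59.DZLA6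
import Cfsg.Agent.Helper70.DZC3
import Cfsg.Agent.Helper70.DZLA1
import Cfsg.Agent.Helper70.DZLA2
import Cfsg.Agent.Helper70.DZLA3
import Cfsg.Agent.Helper70.DZQ1
import Cfsg.Agent.Helper70.DZR4a
import Cfsg.Agent.Helper91.DZC1
import Cfsg.Agent.Helper91.DZC2
import Cfsg.Agent.Helper91.DZD1
import Cfsg.Agent.Helper91.DZX1

set_option autoImplicit false

/-!
The pieces of CALL S4538 (helper40), collected under one namespace: every theorem here is
proved in the file of the seat that landed it.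
-/

namespace Cfsg.Agent.Helper40.DZP

open Cfsg.Agent.Helper40.DZ Cfsg.Agent.Helper44.PSLn Matrix

universe u

/-! ## General pieces (pure Mathlib + `fixS`, `avgL`) -/

section General

variable {G : Type*} [Group G] [Finite G] {V : Type*} [AddCommGroup V] [Module ℂ V]
  [Module.Finite ℂ V]

/-- A0: dimension of the fixed space = average of the character. -/
theorem A0 (ρ : Representation ℂ G V) (H : Subgroup G) :
    (Nat.card H : ℂ) * (Module.finrank ℂ (fixS ρ (H : Set G)) : ℂ) =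
      ∑ᶠ h ∈ (H : Set G), ρ.character h :=
  Cfsg.Agent.Helper40.DZA.A0 ρ H

/-- A1: if the character vanishes on `H ∖ {1}` then `|H| * dim V^H = dim V`. -/
theorem A1 (ρ : Representation ℂ G V) (H : Subgroup G)
    (h0 : ∀ h ∈ H, h ≠ 1 → ρ.character h = 0) :
    Nat.card H * Module.finrank ℂ (fixS ρ (H : Set G)) = Module.finrank ℂ V :=
  Cfsg.Agent.Helper40.DZA.A1 ρ H h0

/-- A3a: Frobenius reciprocity for a permutation character. -/
theorem A3a [Fintype G] (ρ : Representation ℂ G V) (H : Subgroup G) :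
    Cfsg.classInner ρ.character (Cfsg.fixedPointCharacter H) =
      (Module.finrank ℂ (fixS ρ (H : Set G)) : ℂ) :=
  Cfsg.Agent.Helper52.DZ.A3a ρ H

/-- R2a1: the average lies in the fixed space. -/
theorem avgL_mem (ρ : Representation ℂ G V) (H : Subgroup G) (v : V) :
    avgL ρ H v ∈ fixS ρ (H : Set G) :=
  Cfsg.Agent.Helper33.DZ.avgL_mem ρ H v

/-- R2a2: the average is the identity on the fixed space. -/
theorem avgL_of_mem (ρ : Representation ℂ G V) (H : Subgroup G) {v : V}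
    (hv : v ∈ fixS ρ (H : Set G)) : avgL ρ H v = v :=
  Cfsg.Agent.Helper33.DZ.avgL_of_mem ρ H hv

/-- R2a3: the average commutes with elements normalizing `H`. -/
theorem avgL_conj (ρ : Representation ℂ G V) (H : Subgroup G) (g : G)
    (hg : ∀ h ∈ H, g * h * g⁻¹ ∈ H) (v : V) : avgL ρ H (ρ g v) = ρ g (avgL ρ H v) :=
  Cfsg.Agent.Helper33.DZ.avgL_conj ρ H g hg v



/-- R4a: abstract kernel computation.  If `Y` has dimension `|ι| * dim E`, is spanned by `E` and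
the `A c E`, and `∑ c, A c` preserves `E`, then every relation `x₀ + ∑ c, A c (f c) = 0` with
`x₀, f c ∈ E` has `f` constant. -/
theorem R4a {ι : Type*} [Fintype ι] (E Y : Submodule ℂ V) (A : ι → V →ₗ[ℂ] V)
    (hdim : Module.finrank ℂ Y = Fintype.card ι * Module.finrank ℂ E)
    (hsurj : ∀ y ∈ Y, ∃ x₀ ∈ E, ∃ f : ι → V, (∀ c, f c ∈ E) ∧ y = x₀ + ∑ c, A c (f c))
    (hAY : ∀ c, ∀ x ∈ E, A c x ∈ Y) (hEY : E ≤ Y)
    (hT : ∀ x ∈ E, ∑ c, A c x ∈ E)
    (x₀ : V) (hx₀ : x₀ ∈ E) (f : ι → V) (hf : ∀ c, f c ∈ E)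
    (h0 : x₀ + ∑ c, A c (f c) = 0) : ∀ c d, f c = f d :=
  Cfsg.Agent.Helper70.DZ.R4a E Y A hdim hsurj hAY hEY hT x₀ hx₀ f hf h0

end General

/-- LA1: a `p`-subgroup normalized by `N_G(D)` lies in a radical `p`-subgroup `D`. -/
theorem LA1 {G : Type*} [Group G] [Finite G] (p : ℕ) [Fact p.Prime] (D : Subgroup G)
    (hrad : (Cfsg.pCore p (Subgroup.normalizer (D : Set G))).map
      (Subgroup.normalizer (D : Set G)).subtype = D)
    (Q : Subgroup G) (hQ : IsPGroup p Q)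
    (hnorm : ∀ g ∈ Subgroup.normalizer (D : Set G), ∀ x ∈ Q, g * x * g⁻¹ ∈ Q) : Q ≤ D :=
  Cfsg.Agent.Helper70.DZ.LA1 p D hrad Q hQ hnorm

/-! ## Matrix pieces in `SL_n(F)` -/

section Mat

variable {n : ℕ} {F : Type u} [Field F]

local notation "SLn" => Matrix.SpecialLinearGroup (Fin n) F

/-- D1: the entries of `ṡ_j`. -/
theorem sdot_apply (j : ℕ) (hj : j + 1 < n) (a b : Fin n) :
    ((sdot j hj : SLn) : Matrix (Fin n) (Fin n) F) a b =
      if a = ia j hj ∧ b = ib j hj then 1 else if a = ib j hj ∧ b = ia j hj then -1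
      else if a = b ∧ a ≠ ia j hj ∧ a ≠ ib j hj then 1 else 0 :=
  Cfsg.Agent.Helper91.DZ.sdot_apply j hj a b

/-- D2a: `h_j(c)` is diagonal. -/
theorem hel_coe (j : ℕ) (hj : j + 1 < n) (c : F) (hc : c ≠ 0) :
    ((hel j hj c : SLn) : Matrix (Fin n) (Fin n) F) =
      Matrix.diagonal (fun a => if a = ia j hj then c else if a = ib j hj then c⁻¹ else 1) :=
  Cfsg.Agent.Helper40.DZD.hel_coe j hj c hc

/-- D2b -/
theorem hel_one (j : ℕ) (hj : j + 1 < n) : hel j hj (1 : F) = 1 :=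
  Cfsg.Agent.Helper40.DZD.hel_one j hj

/-- D2c -/
theorem hel_mem_borel (j : ℕ) (hj : j + 1 < n) (c : F) (hc : c ≠ 0) :
    hel j hj c ∈ borelSL n F :=
  Cfsg.Agent.Helper40.DZD.hel_mem_borel j hj c hc

/-- D3a: the `SL_2` relation `ṡ x(c) ṡ = x(-c⁻¹) ṡ h(-c) x(-c⁻¹)`. -/
theorem sl2_rel (j : ℕ) (hj : j + 1 < n) (c : F) (hc : c ≠ 0) :
    sdot j hj * xel j hj c * sdot j hj =
      xel j hj (-c⁻¹) * sdot j hj * hel j hj (-c) * xel j hj (-c⁻¹) :=
  Cfsg.Agent.Helper40.DZD.sl2_rel j hj c hc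

/-- D3b: `ṡ² = h(-1)`. -/
theorem sdot_sq (j : ℕ) (hj : j + 1 < n) : sdot j hj * sdot j hj = hel j hj (-1 : F) :=
  Cfsg.Agent.Helper40.DZD.sdot_sq j hj

/-- X1a -/
theorem xel_add (j : ℕ) (hj : j + 1 < n) (c d : F) :
    xel j hj (c + d) = xel j hj c * xel j hj d :=
  Cfsg.Agent.Helper91.DZ.xel_add j hj c d

/-- X1b -/
theorem xel_zero (j : ℕ) (hj : j + 1 < n) : xel j hj (0 : F) = 1 :=
  Cfsg.Agent.Helper91.DZ.xel_zero j hj

/-- X1c -/
theorem xel_apply (j : ℕ) (hj : j + 1 < n) (c : F) :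
    ((xel j hj c : SLn) : Matrix (Fin n) (Fin n) F) (ia j hj) (ib j hj) = c :=
  Cfsg.Agent.Helper91.DZ.xel_apply j hj c

variable [Fintype F]

/-- X1d -/
theorem xel_mem_UniS (j : ℕ) (hj : j + 1 < n) (c : F) : xel j hj c ∈ UniS n F :=
  Cfsg.Agent.Helper91.DZ.xel_mem_UniS j hj c

/-- C1: `U ∩ ṡ U ṡ⁻¹` consists of the unitriangular matrices with zero `(j, j+1)` entry. -/
theorem mem_uRad_iff (j : ℕ) (hj : j + 1 < n) (g : SLn) :
    g ∈ uRad n F j hj ↔
      g ∈ UniS n F ∧ (g : Matrix (Fin n) (Fin n) F) (ia j hj) (ib j hj) = 0 :=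
  Cfsg.Agent.Helper91.DZ.mem_uRad_iff j hj g

/-- C2a: `x_j(c)` normalizes `uRad`. -/
theorem uRad_conj_xel (j : ℕ) (hj : j + 1 < n) (c : F) :
    ∀ u ∈ uRad n F j hj, xel j hj c * u * (xel j hj c)⁻¹ ∈ uRad n F j hj :=
  Cfsg.Agent.Helper91.DZ.uRad_conj_xel j hj c

/-- C2b: `ṡ_j` normalizes `uRad`. -/
theorem uRad_conj_sdot (j : ℕ) (hj : j + 1 < n) :
    ∀ u ∈ uRad n F j hj, sdot j hj * u * (sdot j hj)⁻¹ ∈ uRad n F j hj :=
  Cfsg.Agent.Helper91.DZ.uRad_conj_sdot j hj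

/-- C3a: `U = uRad · U_α`. -/
theorem uni_factor (j : ℕ) (hj : j + 1 < n) :
    ∀ u ∈ UniS n F, ∃ u' ∈ uRad n F j hj, ∃ c : F, u = u' * xel j hj c :=
  Cfsg.Agent.Helper70.DZ.uni_factor j hj

/-- C3b: `uRad` has index `q` in `U`. -/
theorem card_uRad (j : ℕ) (hj : j + 1 < n) :
    Nat.card (uRad n F j hj) * Fintype.card F = Nat.card (UniS n F) :=
  Cfsg.Agent.Helper70.DZ.card_uRad j hj

/-- C4a: the Borel subgroup normalizes `U`. -/
theorem borel_conj_UniS : ∀ b ∈ borelSL n F, ∀ u ∈ UniS n F, b * u * b⁻¹ ∈ UniS n F :=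
  Cfsg.Agent.Helper40.DZD.borel_conj_UniS

/-- C4b -/
theorem UniS_le_borel : UniS n F ≤ borelSL n F :=
  Cfsg.Agent.Helper40.DZD.UniS_le_borel

/-- G1a: Bruhat decomposition of `SL_n(F)` with a monomial middle term. -/
theorem bruhat_SL (g : SLn) : ∃ u ∈ UniS n F, ∃ b ∈ borelSL n F, ∃ m : SLn,
    ∃ w : Equiv.Perm (Fin n), ∃ t : Fin n → F, (∀ i, t i ≠ 0) ∧ g = u * m * b ∧
      ∀ a b', (m : Matrix (Fin n) (Fin n) F) a b' = if a = w b' then t b' else 0 :=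
  Cfsg.Agent.Helper12.DZ.bruhat_SL g

/-- G1b: Bruhat decomposition adapted to the minimal parabolic `P_j`. -/
theorem bruhat_min (j : ℕ) (hj : j + 1 < n) (g : SLn) :
    ∃ u ∈ UniS n F, ∃ b ∈ borelSL n F, ∃ m : SLn,
      (g = u * m * b ∨ g = u * sdot j hj * m * b) ∧
        ∀ c : F, m⁻¹ * xel j hj c * m ∈ UniS n F :=
  Cfsg.Agent.Helper12.DZ.bruhat_min j hj g

/-- Q1: the Borel subgroup is generated by `U` and the `h_j(c)`. -/
theorem borel_le_closure :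
    borelSL n F ≤ Subgroup.closure (((UniS n F : Subgroup SLn) : Set SLn) ∪
      {g | ∃ (j : ℕ) (hj : j + 1 < n) (c : F), c ≠ 0 ∧ g = hel j hj c}) :=
  Cfsg.Agent.Helper70.DZ.borel_le_closure

/-- Q2: a composition `i ↦ 1 + i - κ i` with `κ ≠ 1` has two adjacent positions in one block. -/
theorem sdot_mem_par (κ : Equiv.Perm (Fin n)) (hκ : ∀ i : Fin n, (κ i).val ≤ 1 + i.val)
    (hne : κ ≠ 1) :
    ∃ (j : ℕ) (hj : j + 1 < n), sdot j hj ∈ parSL n F (fun i => 1 + i.val - (κ i).val) :=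
  Cfsg.Agent.Helper57.DZ.sdot_mem_par κ hκ hne

/-- Q3a: the parabolic of the composition `(1, …, 1)` is the Borel subgroup. -/
theorem par_one :
    parSL n F (fun i => 1 + i.val - ((1 : Equiv.Perm (Fin n)) i).val) = borelSL n F :=
  Cfsg.Agent.Helper52.DZ.par_one

/-- Q3b: every standard parabolic contains the Borel subgroup. -/
theorem borel_le_par (μ : Fin n → ℕ) :
    Cfsg.upperTriangularGL n F ≤ Cfsg.parabolicGL n F μ :=
  Cfsg.Agent.Helper52.DZ.borel_le_par μ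

/-- A3b: the permutation character of `GL_n` on `GL_n / P` restricted to `SL_n` is the
permutation character of `SL_n` on `SL_n / (P ∩ SL_n)`. -/
theorem fpc_SL (hn : 0 < n) (P : Subgroup (GL (Fin n) F)) (hP : Cfsg.upperTriangularGL n F ≤ P)
    (s : SLn) :
    Cfsg.fixedPointCharacter P (Matrix.SpecialLinearGroup.toGL s) =
      Cfsg.fixedPointCharacter (P.comap Matrix.SpecialLinearGroup.toGL) s :=
  Cfsg.Agent.Helper59.DZ.fpc_SL hn P hP s

/-! ## The radical-subgroup lemma -/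

/-- LA2: a `p`-subgroup of `SL_n(F)` (characteristic `p`) fixes a nonzero vector. -/
theorem LA2 (p : ℕ) [Fact p.Prime] [CharP F p] (hn : 0 < n) (D : Subgroup SLn)
    (hD : IsPGroup p D) : fixVec D ≠ ⊥ :=
  Cfsg.Agent.Helper70.DZ.LA2 p hn D hD

/-- LA3: `qSet W` is a `p`-subgroup. -/
theorem LA3 (p : ℕ) [Fact p.Prime] [CharP F p] (W : Submodule F (Fin n → F)) :
    ∃ Q : Subgroup SLn, (Q : Set SLn) = qSet W ∧ IsPGroup p Q :=
  Cfsg.Agent.Helper70.DZ.LA3 p W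

/-- LA3b: `qSet (fixVec D)` is normalized by the normalizer of `D`. -/
theorem LA3b (D : Subgroup SLn) :
    ∀ g ∈ Subgroup.normalizer (D : Set SLn), ∀ x ∈ qSet (fixVec D), g * x * g⁻¹ ∈ qSet (fixVec D) :=
  Cfsg.Agent.Helper70.DZ.LA3b D

/-- LA5: an element commuting with `qSet W` (`W ≠ ⊥, ⊤`) satisfies `(x - c)² = 0`. -/
theorem LA5 (W : Submodule F (Fin n → F)) (hW0 : W ≠ ⊥) (hW1 : W ≠ ⊤) (x : SLn)
    (hx : ∀ g ∈ qSet W, g * x = x * g) :
    ∃ c : F, ((x : Matrix (Fin n) (Fin n) F) - c • (1 : Matrix (Fin n) (Fin n) F)) *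
      ((x : Matrix (Fin n) (Fin n) F) - c • (1 : Matrix (Fin n) (Fin n) F)) = 0 :=
  Cfsg.Agent.Helper59.DZ.LA5 W hW0 hW1 x hx

/-- LA6: a `p`-regular element with `(x - c)² = 0` is central. -/
theorem LA6 (p : ℕ) [Fact p.Prime] [CharP F p] (x : SLn) (hreg : ¬ p ∣ orderOf x) (c : F)
    (hc : ((x : Matrix (Fin n) (Fin n) F) - c • (1 : Matrix (Fin n) (Fin n) F)) *
      ((x : Matrix (Fin n) (Fin n) F) - c • (1 : Matrix (Fin n) (Fin n) F)) = 0) :
    x ∈ Subgroup.center SLn :=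
  Cfsg.Agent.Helper59.DZ.LA6 p x hreg c hc

/-- LA7a: a subgroup fixing every vector is trivial. -/
theorem LA7a (D : Subgroup SLn) (h : fixVec D = ⊤) : D = ⊥ :=
  Cfsg.Agent.Helper52.DZ.LA7a D h

/-! ## Representation pieces -/

variable {V : Type*} [AddCommGroup V] [Module ℂ V] [Module.Finite ℂ V]







end Mat

end Cfsg.Agent.Helper40.DZP
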