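import Cfsg.Agent.Helper40.DZP

set_option autoImplicit false

namespace Cfsg.Agent.Helper40.DZR13

open Cfsg.Agent.Helper40.DZ Cfsg.Agent.Helper44.PSLn Matrix Cfsg.Agent.Helper40.DZP

universe u

section General

variable {G : Type*} [Group G] [Finite G] {V : Type*} [AddCommGroup V] [Module ℂ V]
  [Module.Finite ℂ V]

/-- R2c: an irreducible representation is spanned by the orbit of any nonzero vector. -/
theorem irr_span (ρ : Representation ℂ G V) (hirr : ρ.IsIrreducible) {x : V} (hx : x ≠ 0)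
    (v : V) : v ∈ Submodule.span ℂ (Set.range fun g : G => ρ g x) := by
  let W : Subrepresentation ρ :=
    { toSubmodule := Submodule.span ℂ (Set.range fun g : G => ρ g x)
      apply_mem_toSubmodule := by
        intro g w hw
        refine Submodule.span_induction (p := fun w _ => ρ g w ∈
          Submodule.span ℂ (Set.range fun g : G => ρ g x)) ?_ ?_ ?_ ?_ hw
        · rintro _ ⟨h, rfl⟩
          apply Submodule.subset_span
          refine ⟨g * h, ?_⟩
          simp only [map_mul, Module.End.mul_apply]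
        · rw [map_zero]; exact Submodule.zero_mem _
        · intro a b _ _ ha hb
          rw [map_add]; exact Submodule.add_mem _ ha hb
        · intro a w _ hw
          rw [map_smul]; exact Submodule.smul_mem _ a hw }
  have hxW : x ∈ W.toSubmodule := by
    apply Submodule.subset_span
    exact ⟨1, by simp⟩
  have hs : IsSimpleOrder (Subrepresentation ρ) := hirr
  rcases eq_bot_or_eq_top W with h | h
  · exfalso
    have h1 : x ∈ (⊥ : Subrepresentation ρ).toSubmodule := h ▸ hxW
    have h2 : x ∈ (⊥ : Submodule ℂ V) := h1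
    exact hx ((Submodule.mem_bot ℂ).1 h2)
  · have h1 : v ∈ (⊤ : Subrepresentation ρ).toSubmodule := by
      show v ∈ (⊤ : Submodule ℂ V)
      exact Submodule.mem_top
    rw [← h] at h1
    exact h1

/-- Q1b: fixed space of a generated subgroup. -/
theorem fixS_closure (ρ : Representation ℂ G V) (A : Set G) :
    fixS ρ (Subgroup.closure A : Set G) = fixS ρ A := by
  apply le_antisymm
  · intro v hv
    exact (mem_fixS _ _ _).2 fun g hg => (mem_fixS _ _ _).1 hv g (Subgroup.subset_closure hg)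
  · intro v hv
    refine (mem_fixS _ _ _).2 fun g hg => ?_
    refine Subgroup.closure_induction (p := fun g _ => ρ g v = v) ?_ ?_ ?_ ?_ hg
    · intro a ha
      exact (mem_fixS _ _ _).1 hv a ha
    · simp
    · intro a b _ _ ha hb
      rw [map_mul, Module.End.mul_apply, hb, ha]
    · intro a _ ha
      have h1 : ρ a⁻¹ (ρ a v) = v := by
        rw [← Module.End.mul_apply, ← map_mul, inv_mul_cancel, map_one, Module.End.one_apply]
      rw [ha] at h1
      exact h1

end General

variable {n : ℕ} {F : Type u} [Field F] [Fintype F]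

local notation "SLn" => Matrix.SpecialLinearGroup (Fin n) F

variable {V : Type*} [AddCommGroup V] [Module ℂ V] [Module.Finite ℂ V]

/-- R1: `V^U` is stable under the Borel subgroup. -/
theorem borel_stable (ρ : Representation ℂ SLn V) :
    ∀ b ∈ borelSL n F, ∀ x ∈ fixS ρ ((UniS n F : Subgroup SLn) : Set SLn),
      ρ b x ∈ fixS ρ ((UniS n F : Subgroup SLn) : Set SLn) := by
  intro b hb x hx
  refine (mem_fixS _ _ _).2 fun u hu => ?_
  have h1 : u * b = b * (b⁻¹ * u * b⁻¹⁻¹) := by group
  have h2 : b⁻¹ * u * b⁻¹⁻¹ ∈ UniS n F :=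
    borel_conj_UniS b⁻¹ ((borelSL n F).inv_mem hb) u hu
  rw [← Module.End.mul_apply, ← map_mul, h1, map_mul, Module.End.mul_apply,
    (mem_fixS _ _ _).1 hx _ h2]

/-- a vector fixed by `uRad` and by the `x_j(c)` is fixed by `U` -/
theorem fix_of_fix (ρ : Representation ℂ SLn V) (j : ℕ) (hj : j + 1 < n) {v : V}
    (h1 : v ∈ fixS ρ ((uRad n F j hj : Subgroup SLn) : Set SLn))
    (h2 : ∀ c : F, ρ (xel j hj c) v = v) :
    v ∈ fixS ρ ((UniS n F : Subgroup SLn) : Set SLn) := by
  refine (mem_fixS _ _ _).2 fun u hu => ?_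
  obtain ⟨u', hu', c, rfl⟩ := uni_factor j hj u hu
  rw [map_mul, Module.End.mul_apply, h2, (mem_fixS _ _ _).1 h1 u' hu']

/-- R2b: the `uRad`-average of a `U_α`-fixed vector is `U`-fixed. -/
theorem avg_uRad_fix (ρ : Representation ℂ SLn V) (j : ℕ) (hj : j + 1 < n) {v : V}
    (hv : ∀ c : F, ρ (xel j hj c) v = v) :
    avgL ρ (uRad n F j hj) v ∈ fixS ρ ((UniS n F : Subgroup SLn) : Set SLn) := by
  apply fix_of_fix ρ j hj (avgL_mem ρ _ v)
  intro c
  rw [← avgL_conj ρ (uRad n F j hj) (xel j hj c) (uRad_conj_xel j hj c) v, hv]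

/-- conjugation by `g⁻¹` preserves a finite subgroup preserved by conjugation by `g` -/
theorem conj_inv_mem {G : Type*} [Group G] (H : Subgroup G) [Finite H] (g : G)
    (hg : ∀ h ∈ H, g * h * g⁻¹ ∈ H) : ∀ h ∈ H, g⁻¹ * h * g ∈ H := by
  intro h hh
  let φ : H → H := fun k => ⟨g * k * g⁻¹, hg k k.2⟩
  have hinj : Function.Injective φ := by
    intro a b hab
    have := congrArg Subtype.val hab
    simp only [φ] at this
    exact Subtype.ext (by simpa using this)
  obtain ⟨k, hk⟩ := (Finite.injective_iff_surjective.mp hinj) ⟨h, hh⟩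
  have hk' : g * k * g⁻¹ = h := congrArg Subtype.val hk
  rw [← hk']
  have : g⁻¹ * (g * ↑k * g⁻¹) * g = k := by group
  rw [this]
  exact k.2

/-- R3a: `ρ(x_j(c) ṡ_j)` maps `V^U` into `V^{uRad}`. -/
theorem xs_mem_Y (ρ : Representation ℂ SLn V) (j : ℕ) (hj : j + 1 < n) (c : F) :
    ∀ x ∈ fixS ρ ((UniS n F : Subgroup SLn) : Set SLn),
      ρ (xel j hj c * sdot j hj) x ∈ fixS ρ ((uRad n F j hj : Subgroup SLn) : Set SLn) := by
  intro x hx
  have hle : uRad n F j hj ≤ UniS n F := by
    unfold uRad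
    exact inf_le_left
  have hnorm : ∀ h ∈ uRad n F j hj,
      xel j hj c * sdot j hj * h * (xel j hj c * sdot j hj)⁻¹ ∈ uRad n F j hj := by
    intro h hh
    have h2 : xel j hj c * sdot j hj * h * (xel j hj c * sdot j hj)⁻¹ =
        xel j hj c * (sdot j hj * h * (sdot j hj)⁻¹) * (xel j hj c)⁻¹ := by group
    rw [h2]
    exact uRad_conj_xel j hj c _ (uRad_conj_sdot j hj h hh)
  refine (mem_fixS _ _ _).2 fun u hu => ?_
  have h1 := conj_inv_mem (uRad n F j hj) _ hnorm u hu
  have h3 : u * (xel j hj c * sdot j hj) = (xel j hj c * sdot j hj) *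
      ((xel j hj c * sdot j hj)⁻¹ * u * (xel j hj c * sdot j hj)) := by group
  rw [← Module.End.mul_apply, ← map_mul, h3, map_mul, Module.End.mul_apply,
    (mem_fixS _ _ _).1 hx _ (hle h1)]

/-- R3b: `∑ c, ρ(x_j(c) ṡ_j)` maps `V^U` into itself. -/
theorem T_mem (ρ : Representation ℂ SLn V) (j : ℕ) (hj : j + 1 < n) :
    ∀ x ∈ fixS ρ ((UniS n F : Subgroup SLn) : Set SLn),
      ∑ c : F, ρ (xel j hj c * sdot j hj) x ∈ fixS ρ ((UniS n F : Subgroup SLn) : Set SLn) := by
  intro x hx
  apply fix_of_fix ρ j hj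
  · exact Submodule.sum_mem _ fun c _ => xs_mem_Y ρ j hj c x hx
  · intro d
    rw [map_sum]
    have h1 : ∀ c : F, ρ (xel j hj d) (ρ (xel j hj c * sdot j hj) x) =
        ρ (xel j hj (d + c) * sdot j hj) x := by
      intro c
      rw [← Module.End.mul_apply, ← map_mul, ← mul_assoc, ← xel_add]
    simp only [h1]
    exact Fintype.sum_equiv (Equiv.addLeft d) _ _ (fun c => rfl)

end Cfsg.Agent.Helper40.DZR13
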