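import Cfsg.Agent.Helper40.DZR13

set_option autoImplicit false

namespace Cfsg.Agent.Helper40.DZR2

open Cfsg.Agent.Helper40.DZ Cfsg.Agent.Helper44.PSLn Matrix Cfsg.Agent.Helper40.DZP Cfsg.Agent.Helper40.DZR13

universe u

variable {n : ℕ} {F : Type u} [Field F] [Fintype F]

local notation "SLn" => Matrix.SpecialLinearGroup (Fin n) F

variable {V : Type*} [AddCommGroup V] [Module ℂ V] [Module.Finite ℂ V]

/-- R2: `V^{uRad}` is spanned by `V^U` and the `ρ(x_j(c) ṡ_j) V^U` (irreducible `ρ`). -/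
theorem gen (ρ : Representation ℂ SLn V) (hirr : ρ.IsIrreducible) (j : ℕ) (hj : j + 1 < n)
    (hE : ∃ x ∈ fixS ρ ((UniS n F : Subgroup SLn) : Set SLn), x ≠ 0) :
    ∀ y ∈ fixS ρ ((uRad n F j hj : Subgroup SLn) : Set SLn),
      ∃ x₀ ∈ fixS ρ ((UniS n F : Subgroup SLn) : Set SLn), ∃ f : F → V,
        (∀ c, f c ∈ fixS ρ ((UniS n F : Subgroup SLn) : Set SLn)) ∧
          y = x₀ + ∑ c : F, ρ (xel j hj c * sdot j hj) (f c) := by
  classical
  obtain ⟨z, hzE, hz⟩ := hE
  set E := fixS ρ ((UniS n F : Subgroup SLn) : Set SLn) with hEdef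
  set R := uRad n F j hj with hR
  -- the predicate
  let Pred : V → Prop := fun y => ∃ x₀ ∈ E, ∃ f : F → V,
    (∀ c, f c ∈ E) ∧ y = x₀ + ∑ c : F, ρ (xel j hj c * sdot j hj) (f c)
  have hP0 : Pred 0 := ⟨0, E.zero_mem, fun _ => 0, fun _ => E.zero_mem, by simp⟩
  have hPadd : ∀ y₁ y₂, Pred y₁ → Pred y₂ → Pred (y₁ + y₂) := by
    rintro y₁ y₂ ⟨a₁, ha₁, f₁, hf₁, rfl⟩ ⟨a₂, ha₂, f₂, hf₂, rfl⟩
    refine ⟨a₁ + a₂, E.add_mem ha₁ ha₂, fun c => f₁ c + f₂ c,
      fun c => E.add_mem (hf₁ c) (hf₂ c), ?_⟩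
    simp only [map_add, Finset.sum_add_distrib]
    abel
  have hPsmul : ∀ (a : ℂ) y, Pred y → Pred (a • y) := by
    rintro a y ⟨a₁, ha₁, f₁, hf₁, rfl⟩
    refine ⟨a • a₁, E.smul_mem a ha₁, fun c => a • f₁ c, fun c => E.smul_mem a (hf₁ c), ?_⟩
    simp only [map_smul, smul_add, Finset.smul_sum]
  -- averaging absorbs `uRad` on the left
  have habs : ∀ u' ∈ R, ∀ w : V, avgL ρ R (ρ u' w) = avgL ρ R w := by
    intro u' hu' w
    rw [avgL_conj ρ R u' (fun h hh => R.mul_mem (R.mul_mem hu' hh) (R.inv_mem hu')) w]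
    exact (mem_fixS _ _ _).1 (avgL_mem ρ R w) u' hu'
  -- the core claim
  have hcore : ∀ g : SLn, Pred (avgL ρ R (ρ g z)) := by
    intro g
    obtain ⟨u, hu, b, hb, m, hcase, hm⟩ := bruhat_min j hj g
    obtain ⟨u', hu', c, rfl⟩ := uni_factor j hj u hu
    have hx₁ : ρ b z ∈ E := borel_stable ρ b hb z hzE
    set v : V := ρ m (ρ b z) with hv
    have hvfix : ∀ d : F, ρ (xel j hj d) v = v := by
      intro d
      have h1 : xel j hj d * m = m * (m⁻¹ * xel j hj d * m) := by group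
      rw [hv, ← Module.End.mul_apply, ← map_mul, h1, map_mul, Module.End.mul_apply,
        (mem_fixS _ _ _).1 hx₁ _ (hm d)]
    have havg : avgL ρ R v ∈ E := avg_uRad_fix ρ j hj hvfix
    rcases hcase with rfl | rfl
    · have h1 : ρ (u' * xel j hj c * m * b) z = ρ u' v := by
        rw [hv]
        simp only [map_mul, Module.End.mul_apply]
        rw [← hv, hvfix]
      rw [h1, habs u' hu']
      exact ⟨avgL ρ R v, havg, fun _ => 0, fun _ => E.zero_mem, by simp⟩
    · have h1 : ρ (u' * xel j hj c * sdot j hj * m * b) z =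
          ρ u' (ρ (xel j hj c * sdot j hj) v) := by
        rw [hv]
        simp only [map_mul, Module.End.mul_apply]
      have hnorm : ∀ h ∈ R, xel j hj c * sdot j hj * h * (xel j hj c * sdot j hj)⁻¹ ∈ R := by
        intro h hh
        have h2 : xel j hj c * sdot j hj * h * (xel j hj c * sdot j hj)⁻¹ =
            xel j hj c * (sdot j hj * h * (sdot j hj)⁻¹) * (xel j hj c)⁻¹ := by group
        rw [h2]
        exact uRad_conj_xel j hj c _ (uRad_conj_sdot j hj h hh)
      rw [h1, habs u' hu', avgL_conj ρ R _ hnorm v]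
      refine ⟨0, E.zero_mem, fun d => if d = c then avgL ρ R v else 0, fun d => ?_, ?_⟩
      · by_cases hd : d = c
        · simp only [hd, if_true]; exact havg
        · simp only [hd, if_false]; exact E.zero_mem
      · rw [zero_add, Finset.sum_eq_single c]
        · simp
        · intro d _ hd
          simp [hd]
        · intro h
          exact absurd (Finset.mem_univ _) h
  intro y hy
  have hy1 : avgL ρ R y = y := avgL_of_mem ρ R hy
  have hy2 := irr_span ρ hirr hz y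
  rw [← hy1]
  refine Submodule.span_induction (p := fun w _ => Pred (avgL ρ R w)) ?_ ?_ ?_ ?_ hy2
  · rintro _ ⟨g, rfl⟩
    exact hcore g
  · rw [map_zero]; exact hP0
  · intro a b _ _ ha hb
    rw [map_add]; exact hPadd _ _ ha hb
  · intro a w _ hw
    rw [map_smul]; exact hPsmul a _ hw

end Cfsg.Agent.Helper40.DZR2
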