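import Cfsg.Agent.Helper40.DZR2

set_option autoImplicit false

namespace Cfsg.Agent.Helper40.DZR4b

open Cfsg.Agent.Helper40.DZ Cfsg.Agent.Helper44.PSLn Matrix Cfsg.Agent.Helper40.DZP Cfsg.Agent.Helper40.DZR13 Cfsg.Agent.Helper40.DZR2

universe u

variable {n : ℕ} {F : Type u} [Field F] [Fintype F]

local notation "SLn" => Matrix.SpecialLinearGroup (Fin n) F

variable {V : Type*} [AddCommGroup V] [Module ℂ V] [Module.Finite ℂ V]

/-- R4b: the local theorem at the minimal parabolic `P_j`. -/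
theorem local_main (ρ : Representation ℂ SLn V) (hirr : ρ.IsIrreducible)
    (hvan : ∀ u ∈ UniS n F, u ≠ 1 → ρ.character u = 0) (j : ℕ) (hj : j + 1 < n) :
    ∀ x ∈ fixS ρ ((UniS n F : Subgroup SLn) : Set SLn),
      (∀ c : F, c ≠ 0 → ρ (hel j hj c) x = x) ∧
        ∑ c : F, ρ (xel j hj c * sdot j hj) x = -x := by
  classical
  intro x hx
  by_cases hx0 : x = 0
  · subst hx0
    simp
  have hEne : ∃ x ∈ fixS ρ ((UniS n F : Subgroup SLn) : Set SLn), x ≠ 0 := ⟨x, hx, hx0⟩
  have hle : uRad n F j hj ≤ UniS n F := by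
    unfold uRad
    exact inf_le_left
  -- dimensions
  have hdim : Module.finrank ℂ (fixS ρ ((uRad n F j hj : Subgroup SLn) : Set SLn)) =
      Fintype.card F * Module.finrank ℂ (fixS ρ ((UniS n F : Subgroup SLn) : Set SLn)) := by
    have h1 := A1 ρ (UniS n F) hvan
    have h2 := A1 ρ (uRad n F j hj) (fun h hh hne => hvan h (hle hh) hne)
    have h3 := card_uRad (F := F) j hj
    have hpos : 0 < Nat.card (uRad n F j hj) := Nat.card_pos
    rw [← h3, mul_assoc, ← h2] at h1
    exact (Nat.eq_of_mul_eq_mul_left hpos h1).symm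
  have hEY : fixS ρ ((UniS n F : Subgroup SLn) : Set SLn) ≤
      fixS ρ ((uRad n F j hj : Subgroup SLn) : Set SLn) := by
    intro v hv
    exact (mem_fixS _ _ _).2 fun g hg => (mem_fixS _ _ _).1 hv g (hle hg)
  set A : F → V →ₗ[ℂ] V := fun c => ρ (xel j hj c * sdot j hj) with hA
  have hconst := R4a (fixS ρ ((UniS n F : Subgroup SLn) : Set SLn))
    (fixS ρ ((uRad n F j hj : Subgroup SLn) : Set SLn)) A hdim
    (gen ρ hirr j hj hEne) (fun c y hy => xs_mem_Y ρ j hj c y hy) hEY (T_mem ρ j hj)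
  -- `x` is fixed by the `x_j(c)`
  have hxfix : ∀ c : F, ρ (xel j hj c) x = x := fun c =>
    (mem_fixS _ _ _).1 hx _ (xel_mem_UniS j hj c)
  have hhel : ∀ c : F, c ≠ 0 →
      ρ (hel j hj c) x ∈ fixS ρ ((UniS n F : Subgroup SLn) : Set SLn) := fun c hc =>
    borel_stable ρ _ (hel_mem_borel j hj c hc) x hx
  set x' : V := ∑ c : F, A c x with hx'
  have hx'E : x' ∈ fixS ρ ((UniS n F : Subgroup SLn) : Set SLn) := T_mem ρ j hj x hx
  set f : F → V := fun r => if r = 0 then -x' else ρ (hel j hj r⁻¹) x with hf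
  have hfE : ∀ r, f r ∈ fixS ρ ((UniS n F : Subgroup SLn) : Set SLn) := by
    intro r
    rw [hf]
    by_cases hr : r = 0
    · simp only [hr, if_true]
      exact neg_mem hx'E
    · simp only [hr, if_false]
      exact hhel _ (inv_ne_zero hr)
  have hm1 : (-1 : F) ≠ 0 := neg_ne_zero.2 one_ne_zero
  -- the relation
  have hrel : ρ (hel j hj (-1)) x + ∑ r : F, A r (f r) = 0 := by
    -- `ρ(ṡ) x'` computed in two ways
    have hs1 : ρ (sdot j hj) x' = A 0 x' := by
      rw [hA]
      simp only [xel_zero, one_mul]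
    have hs2 : ρ (sdot j hj) x' = ρ (hel j hj (-1)) x +
        ∑ c ∈ (Finset.univ : Finset F).erase 0, A (-c⁻¹) (ρ (hel j hj (-c)) x) := by
      rw [hx', map_sum, ← Finset.add_sum_erase Finset.univ _ (Finset.mem_univ (0 : F))]
      congr 1
      · rw [hA]
        simp only [xel_zero, one_mul]
        rw [← Module.End.mul_apply, ← map_mul, sdot_sq]
      · apply Finset.sum_congr rfl
        intro c hc
        have hc0 : c ≠ 0 := Finset.ne_of_mem_erase hc
        rw [hA]
        simp only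
        rw [← Module.End.mul_apply, ← map_mul, ← mul_assoc, sl2_rel j hj c hc0, map_mul,
          map_mul, Module.End.mul_apply, Module.End.mul_apply, hxfix]
    have hs3 : ∑ r : F, A r (f r) = A 0 (-x') +
        ∑ r ∈ (Finset.univ : Finset F).erase 0, A r (ρ (hel j hj r⁻¹) x) := by
      rw [← Finset.add_sum_erase Finset.univ _ (Finset.mem_univ (0 : F))]
      congr 1
      · rw [hf]; simp
      · apply Finset.sum_congr rfl
        intro r hr
        have hr0 : r ≠ 0 := Finset.ne_of_mem_erase hr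
        rw [hf]
        simp only [hr0, if_false]
    have hs4 : ∑ c ∈ (Finset.univ : Finset F).erase 0, A (-c⁻¹) (ρ (hel j hj (-c)) x) =
        ∑ r ∈ (Finset.univ : Finset F).erase 0, A r (ρ (hel j hj r⁻¹) x) := by
      refine Finset.sum_nbij' (fun c => -c⁻¹) (fun r => -r⁻¹) ?_ ?_ ?_ ?_ ?_
      · intro c hc
        have hc0 : c ≠ 0 := Finset.ne_of_mem_erase hc
        exact Finset.mem_erase.2 ⟨neg_ne_zero.2 (inv_ne_zero hc0), Finset.mem_univ _⟩
      · intro r hr
        have hr0 : r ≠ 0 := Finset.ne_of_mem_erase hr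
        exact Finset.mem_erase.2 ⟨neg_ne_zero.2 (inv_ne_zero hr0), Finset.mem_univ _⟩
      · intro c _
        simp [inv_neg]
      · intro r _
        simp [inv_neg]
      · intro c _
        simp [inv_neg]
    rw [hs3, map_neg, ← hs1, hs2, hs4]
    abel
  have hc := hconst _ (borel_stable ρ _ (hel_mem_borel j hj (-1) hm1) x hx) f hfE hrel
  have h1 : f 1 = x := by
    rw [hf]
    simp only [one_ne_zero, if_false, inv_one, hel_one, map_one, Module.End.one_apply]
  have h0 : f 0 = -x' := by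
    rw [hf]; simp
  have hx'x : x' = -x := by
    have := hc 1 0
    rw [h1, h0] at this
    rw [this, neg_neg]
  refine ⟨fun c hc0 => ?_, hx'x⟩
  have h2 := hc c⁻¹ 0
  rw [h0, hx'x, neg_neg] at h2
  rw [hf] at h2
  simp only [inv_ne_zero hc0, if_false, inv_inv] at h2
  exact h2

end Cfsg.Agent.Helper40.DZR4b
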