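import Mathlib
import Cfsg.Agent.Helper40.KGLDefs

set_option autoImplicit false

namespace Cfsg.Agent.Helper40.KGL

open Polynomial

universe u

/-- PIECE P2 -/
theorem exists_gl_charpoly {F : Type u} [Field F] {n : ℕ} (f : F[X]) (hm : f.Monic)
    (hd : f.natDegree = n) (h0 : f.coeff 0 ≠ 0) :
    ∃ g : GL (Fin n) F, (g : Matrix (Fin n) (Fin n) F).charpoly = f := by
  classical
  subst hd
  let pb := AdjoinRoot.powerBasis' hm
  have hdim : pb.dim = f.natDegree := rfl
  let A : Matrix (Fin f.natDegree) (Fin f.natDegree) F := Algebra.leftMulMatrix pb.basis pb.gen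
  have hA : A.charpoly = f := by
    show (Algebra.leftMulMatrix pb.basis pb.gen).charpoly = f
    rw [charpoly_leftMulMatrix]
    exact AdjoinRoot.minpoly_powerBasis_gen_of_monic hm
  have hdet : A.det ≠ 0 := by
    rw [Matrix.det_eq_sign_charpoly_coeff, hA]
    exact mul_ne_zero (pow_ne_zero _ (by norm_num)) h0
  exact ⟨Matrix.GeneralLinearGroup.mkOfDetNeZero A hdet, hA⟩

end Cfsg.Agent.Helper40.KGL
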