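import Mathlib
import Cfsg.Agent.Helper40.KGLDefs

set_option autoImplicit false

namespace Cfsg.Agent.Helper40.KGL

open Polynomial
open scoped DirectSum

universe u

/-- PIECE P7b -/
theorem directSum_equiv_of_equiv {F : Type u} [Field F] {ι ι' : Type u}
    (p : ι → F[X]) (e : ι → ℕ) (p' : ι' → F[X]) (e' : ι' → ℕ) (σ : ι ≃ ι')
    (h : ∀ i, (p' (σ i), e' (σ i)) = (p i, e i)) :
    Nonempty ((⨁ i, F[X] ⧸ Submodule.span F[X] {p i ^ e i}) ≃ₗ[F[X]]
      (⨁ i, F[X] ⧸ Submodule.span F[X] {p' i ^ e' i})) := by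
  have hp : p = fun i => p' (σ i) := funext fun i => (congrArg Prod.fst (h i)).symm
  have he : e = fun i => e' (σ i) := funext fun i => (congrArg Prod.snd (h i)).symm
  subst hp he
  exact ⟨(DirectSum.lequivCongrLeft F[X] σ.symm
    (M := fun k => F[X] ⧸ Submodule.span F[X] {p' k ^ e' k})).symm⟩

end Cfsg.Agent.Helper40.KGL
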