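import Mathlib
import Cfsg.Agent.Helper40.KGLDefs
import Cfsg.Agent.Helper40.KGLP2
import Cfsg.Agent.Helper40.KGLP5a
import Cfsg.Agent.Helper40.KGLP7b
import Cfsg.Agent.Helper53.KGLP1
import Cfsg.Agent.Helper53.KGLP3
import Cfsg.Agent.Helper67.KGLP6a
import Cfsg.Agent.Helper67.KGLP6b
import Cfsg.Agent.Helper78.KGLP7a
import Cfsg.Agent.Helper88.KGLP6c
import Cfsg.Agent.Helper88.KGLP8

/-!
# Class number bounds for `GL_n(q)` (helper40, S2478): assembly

`q^n - q^(n-1) ≤ k(GL_n(q)) ≤ q^n`.  Pieces: P1, P3 (helper53), P6a, P6b (helper67),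
P7a (helper78), P6c, P8 (helper88), P2, P5a, P7b (helper40); P4 and P5b (helper58) enter
`upper_of` as hypotheses.
-/

set_option autoImplicit false

namespace Cfsg.Agent.Helper40.KGL

open Polynomial
open scoped DirectSum

universe u

/-- existence of class data for an element of `GL_n(F)` -/
theorem exists_dat {F : Type u} [Field F] {n : ℕ} (g : GL (Fin n) F) :
    ∃ M : Multiset (F[X] × ℕ), IsDat n M ∧
      HasDecomp (Matrix.toLin' (g : Matrix (Fin n) (Fin n) F)) M := by
  obtain ⟨ι, hι, p, e, hpe, hiso⟩ := Cfsg.Agent.Helper67.exists_normalized_decomp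
    (Matrix.toLin' (g : Matrix (Fin n) (Fin n) F))
  have hinj : Function.Injective (Matrix.toLin' (g : Matrix (Fin n) (Fin n) F)) := by
    intro v w hvw
    have h1 : Matrix.toLin' ((g⁻¹ : GL (Fin n) F) : Matrix (Fin n) (Fin n) F)
        (Matrix.toLin' (g : Matrix (Fin n) (Fin n) F) v) =
        Matrix.toLin' ((g⁻¹ : GL (Fin n) F) : Matrix (Fin n) (Fin n) F)
        (Matrix.toLin' (g : Matrix (Fin n) (Fin n) F) w) := by rw [hvw]
    rw [← LinearMap.comp_apply, ← LinearMap.comp_apply, ← Matrix.toLin'_mul, ← Units.val_mul,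
      inv_mul_cancel, Units.val_one, Matrix.toLin'_one] at h1
    exact h1
  have h0 := Cfsg.Agent.Helper88.coeff_zero_ne_of_injective _ hinj p e
    (fun i => ⟨(hpe i).1, (hpe i).2.2⟩) hiso
  have hsum := Cfsg.Agent.Helper67.sum_deg_eq_finrank _ p e (fun i => (hpe i).2.1) hiso
  rw [Module.finrank_fin_fun] at hsum
  refine ⟨Finset.univ.val.map (fun i => (p i, e i)), ⟨?_, ?_⟩, ι, hι, p, e, rfl, hiso⟩
  · intro x hx
    rw [Multiset.mem_map] at hx
    obtain ⟨i, -, rfl⟩ := hx
    exact ⟨(hpe i).1, (hpe i).2.1, h0 i, (hpe i).2.2⟩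
  · rw [Multiset.map_map]
    exact hsum

/-- The upper bound `k(GL_n(q)) ≤ q^n`, given the counting of sequences (P4) and the
injectivity of `datSeq` (P5b). -/
theorem upper_of {F : Type u} [Field F] [Fintype F]
    (hP4 : ∀ m n : ℕ, Finite {G : Fin m → F[X] // IsSeq m n G} ∧
      Nat.card {G : Fin m → F[X] // IsSeq m n G} ≤ cnt (Fintype.card F) m n)
    (hP5b : ∀ (n : ℕ) (M M' : Multiset (F[X] × ℕ)), IsDat n M → IsDat n M' →
      datSeq n M = datSeq n M' → M = M')
    (n : ℕ) (hn : 1 ≤ n) :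
    Nat.card (ConjClasses (GL (Fin n) F)) ≤ Fintype.card F ^ n := by
  classical
  have hrep : ∀ C : ConjClasses (GL (Fin n) F), ∃ g : GL (Fin n) F, ConjClasses.mk g = C :=
    fun C => ConjClasses.exists_rep C
  choose rep hrepC using hrep
  have hdat := fun C => exists_dat (rep C)
  choose M hM hdec using hdat
  have hfin : Finite {G : Fin n → F[X] // IsSeq n n G} := (hP4 n n).1
  let f : ConjClasses (GL (Fin n) F) → {G : Fin n → F[X] // IsSeq n n G} :=
    fun C => ⟨datSeq n (M C), datSeq_isSeq n (M C) (hM C)⟩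
  have hinj : Function.Injective f := by
    intro C C' h
    have h1 : datSeq n (M C) = datSeq n (M C') := congrArg Subtype.val h
    have h2 : M C = M C' := hP5b n _ _ (hM C) (hM C') h1
    obtain ⟨ι, _, p, e, hMe, ⟨ψ⟩⟩ := hdec C
    obtain ⟨ι', _, p', e', hMe', ⟨ψ'⟩⟩ := hdec C'
    obtain ⟨σ, hσ⟩ := Cfsg.Agent.Helper78.exists_equiv_of_map_eq
      (fun i => (p i, e i)) (fun i => (p' i, e' i)) (by rw [← hMe, ← hMe', h2])
    obtain ⟨θ⟩ := directSum_equiv_of_equiv p e p' e' σ hσ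
    have hc : IsConj (rep C) (rep C') :=
      Cfsg.Agent.Helper88.isConj_of_aeval_equiv _ _ ⟨ψ.trans (θ.trans ψ'.symm)⟩
    rw [← hrepC C, ← hrepC C']
    exact ConjClasses.mk_eq_mk_iff_isConj.mpr hc
  have h3 := Nat.card_le_card_of_injective f hinj
  have h4 := (hP4 n n).2
  have h5 := Cfsg.Agent.Helper53.cnt_bound (Fintype.card F) Fintype.one_lt_card n n hn
  have hq : 0 < Fintype.card F ^ n := pow_pos Fintype.card_pos n
  have h6 : Fintype.card F ^ n * cnt (Fintype.card F) n n ≤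
      Fintype.card F ^ n * Fintype.card F ^ n := by
    rw [← pow_add]
    omega
  have h7 : cnt (Fintype.card F) n n ≤ Fintype.card F ^ n := Nat.le_of_mul_le_mul_left h6 hq
  omega

/-- The lower bound `q^n - q^(n-1) ≤ k(GL_n(q))`. -/
theorem lower {F : Type u} [Field F] [Fintype F] (n : ℕ) (hn : 1 ≤ n) :
    Fintype.card F ^ n - Fintype.card F ^ (n - 1) ≤ Nat.card (ConjClasses (GL (Fin n) F)) := by
  classical
  have h1 := Cfsg.Agent.Helper53.card_good_natDegree (F := F) n
  rw [phi, if_neg (by omega)] at h1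
  rw [← h1]
  have hex : ∀ f : {g : F[X] // g.Monic ∧ g.coeff 0 ≠ 0 ∧ g.natDegree = n},
      ∃ g : GL (Fin n) F, (g : Matrix (Fin n) (Fin n) F).charpoly = f.1 :=
    fun f => exists_gl_charpoly f.1 f.2.1 f.2.2.2 f.2.2.1
  choose gl hgl using hex
  apply Nat.card_le_card_of_injective (fun f => ConjClasses.mk (gl f))
  intro f f' h
  have hc : IsConj (gl f) (gl f') := ConjClasses.mk_eq_mk_iff_isConj.mp h
  obtain ⟨c, hc⟩ := isConj_iff.mp hc
  apply Subtype.ext
  rw [← hgl f, ← hgl f', ← hc]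
  simp only [Units.val_mul]
  rw [Matrix.coe_units_inv]
  exact (Matrix.charpoly_units_conj c _).symm

end Cfsg.Agent.Helper40.KGL
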