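import Mathlib
import Cfsg.Agent.Helper40.KGLDefs
import Cfsg.Agent.Helper40.KSLDefs

/-!
# Definitions for the class number bounds of `PSL_n(q)` (helper40, CALL S2480)
-/

set_option autoImplicit false

namespace Cfsg.Agent.Helper40.KPSL

open Polynomial Cfsg.Agent.Helper40.KGL Cfsg.Agent.Helper40.KSL

universe u

/-- `G_j = H_j(X^o)` for `j < m`, and `1` otherwise. -/
noncomputable def expSeq {F : Type u} [Field F] (o n : ℕ) {m : ℕ} (H : Fin m → F[X]) :
    Fin n → F[X] :=
  fun j => if h : j.val < m then Polynomial.expand F o (H ⟨j.val, h⟩) else 1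

/-- `∑ min(k, e)` over the pairs `(a, e)` of `M` with first component `a`. -/
noncomputable def minSum {α : Type u} (M : Multiset (α × ℕ)) (a : α) (k : ℕ) : ℕ := by
  classical
  exact ((M.filter fun x => x.1 = a).map fun x => min k x.2).sum

end Cfsg.Agent.Helper40.KPSL
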