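import Mathlib
import Cfsg.Agent.Helper40.KGLDefs
import Cfsg.Agent.Helper40.KSLDefs
import Cfsg.Agent.Helper40.KPSLDefs

/-!
# CALL S2480, PIECE V11 (helper40): the polynomial sequence of `g` is invariant under
`scaleRoots ζ` when `ζ g` is conjugate to `g`.
-/

set_option autoImplicit false

namespace Cfsg.Agent.Helper40.KPSL

open Polynomial Cfsg.Agent.Helper40.KGL Cfsg.Agent.Helper40.KSL
open scoped DirectSum
open Classical

universe u

/-- `minSum` vanishes at a polynomial that is not a first component of `M`. -/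
theorem minSum_eq_zero_of_not_mem {α : Type u} (M : Multiset (α × ℕ)) (b : α) (k : ℕ)
    (hb : ∀ x ∈ M, x.1 ≠ b) : minSum M b k = 0 := by
  unfold minSum
  have h : M.filter (fun x => x.1 = b) = 0 := by
    rw [Multiset.filter_eq_nil]
    intro x hx hxb
    exact hb x hx hxb
  rw [h]
  simp

/-- PIECE V11 -/
theorem datSeq_scaleRoots_eq {F : Type u} [Field F] {n : ℕ}
    (hV4 : ∀ (φ : Module.End F (Fin n → F)) (M : Multiset (F[X] × ℕ)), IsDat n M →
      HasDecomp φ M → ∀ (p : F[X]), Irreducible p → p.Monic → ∀ k : ℕ,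
      Module.finrank F (LinearMap.ker (Polynomial.aeval φ (p ^ k))) = p.natDegree * minSum M p k)
    (hV5 : ∀ (ζ : Fˣ) (p : F[X]), Irreducible p → Irreducible (p.scaleRoots (ζ : F)))
    (hV6 : ∀ (φ : Module.End F (Fin n → F)) (ζ : Fˣ) (p : F[X]) (k : ℕ),
      Module.finrank F
          (LinearMap.ker (Polynomial.aeval ((ζ : F) • φ) ((p.scaleRoots (ζ : F)) ^ k))) =
        Module.finrank F (LinearMap.ker (Polynomial.aeval φ (p ^ k))))
    (hV7 : ∀ (g g' : GL (Fin n) F), IsConj g g' → ∀ f : F[X],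
      Module.finrank F (LinearMap.ker
          (Polynomial.aeval (Matrix.toLin' (g : Matrix (Fin n) (Fin n) F)) f)) =
        Module.finrank F (LinearMap.ker
          (Polynomial.aeval (Matrix.toLin' (g' : Matrix (Fin n) (Fin n) F)) f)))
    (hV8 : ∀ (τ : Equiv.Perm F[X]) (M : Multiset (F[X] × ℕ)), (∀ x ∈ M, 1 ≤ x.2) →
      (∀ (a : F[X]) (k : ℕ), minSum M (τ a) k = minSum M a k) →
      M.map (fun x => (τ x.1, x.2)) = M)
    (hV9 : ∀ (ζ : F) (M : Multiset (F[X] × ℕ)) (j : Fin n),
      datSeq n (M.map (fun x => (x.1.scaleRoots ζ, x.2))) j = (datSeq n M j).scaleRoots ζ)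
    (g g' : GL (Fin n) F) (ζ : Fˣ)
    (hg' : (g' : Matrix (Fin n) (Fin n) F) = (ζ : F) • (g : Matrix (Fin n) (Fin n) F))
    (hc : IsConj g' g) (M : Multiset (F[X] × ℕ)) (hM : IsDat n M)
    (hdec : HasDecomp (Matrix.toLin' (g : Matrix (Fin n) (Fin n) F)) M) (j : Fin n) :
    (datSeq n M j).scaleRoots (ζ : F) = datSeq n M j := by
  let τ : Equiv.Perm F[X] :=
    { toFun := fun p => p.scaleRoots (ζ : F)
      invFun := fun p => p.scaleRoots ((ζ⁻¹ : Fˣ) : F)
      left_inv := fun p => by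
        show (p.scaleRoots (ζ : F)).scaleRoots ((ζ⁻¹ : Fˣ) : F) = p
        rw [← Polynomial.scaleRoots_mul, ← Units.val_mul, mul_inv_cancel, Units.val_one,
          Polynomial.scaleRoots_one]
      right_inv := fun p => by
        show (p.scaleRoots ((ζ⁻¹ : Fˣ) : F)).scaleRoots (ζ : F) = p
        rw [← Polynomial.scaleRoots_mul, ← Units.val_mul, inv_mul_cancel, Units.val_one,
          Polynomial.scaleRoots_one] }
  have hτ : ∀ p : F[X], τ p = p.scaleRoots (ζ : F) := fun p => rfl
  have hφ' : Matrix.toLin' (g' : Matrix (Fin n) (Fin n) F) =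
      (ζ : F) • Matrix.toLin' (g : Matrix (Fin n) (Fin n) F) := by
    rw [hg', map_smul]
  have hclaim : ∀ (a : F[X]) (k : ℕ), minSum M (τ a) k = minSum M a k := by
    intro a k
    by_cases ha : a.Monic ∧ Irreducible a
    · obtain ⟨ham, hai⟩ := ha
      have hτm : (τ a).Monic := (Polynomial.monic_scaleRoots_iff _).mpr ham
      have hτi : Irreducible (τ a) := hV5 ζ a hai
      have hdeg : (τ a).natDegree = a.natDegree := Polynomial.natDegree_scaleRoots a _
      have hpos : 0 < a.natDegree := hai.natDegree_pos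
      have e1 := hV4 _ M hM hdec (τ a) hτi hτm k
      have e2 := hV7 g' g hc ((τ a) ^ k)
      have e3 := hV6 (Matrix.toLin' (g : Matrix (Fin n) (Fin n) F)) ζ a k
      have e4 := hV4 _ M hM hdec a hai ham k
      rw [hφ'] at e2
      have h5 : (τ a).natDegree * minSum M (τ a) k = a.natDegree * minSum M a k := by
        rw [← e1, ← e2, ← e4]
        exact e3
      rw [hdeg] at h5
      exact Nat.eq_of_mul_eq_mul_left hpos h5
    · have hτa : ¬ ((τ a).Monic ∧ Irreducible (τ a)) := by
        rintro ⟨hm, hi⟩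
        apply ha
        have h1 : (τ a).scaleRoots ((ζ⁻¹ : Fˣ) : F) = a := τ.symm_apply_apply a
        refine ⟨(Polynomial.monic_scaleRoots_iff _).mp hm, ?_⟩
        rw [← h1]
        exact hV5 ζ⁻¹ _ hi
      have h0 : ∀ b : F[X], ¬ (b.Monic ∧ Irreducible b) → minSum M b k = 0 := by
        intro b hb
        apply minSum_eq_zero_of_not_mem
        intro x hx hxb
        apply hb
        have h2 := hM.1 x hx
        rw [← hxb]
        exact ⟨h2.2.1, h2.1⟩
      rw [h0 _ hτa, h0 _ ha]
  have hmap := hV8 τ M (fun x hx => (hM.1 x hx).2.2.2) hclaim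
  have h9 := hV9 (ζ : F) M j
  have hfun : (fun x : F[X] × ℕ => (τ x.1, x.2)) = fun x => (x.1.scaleRoots (ζ : F), x.2) := rfl
  rw [hfun] at hmap
  rw [hmap] at h9
  exact h9.symm

end Cfsg.Agent.Helper40.KPSL
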