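import Mathlib
import Cfsg.Agent.Helper40.KGLDefs
import Cfsg.Agent.Helper40.KSLDefs
import Cfsg.Agent.Helper40.KPSLDefs

/-!
# CALL S2480, PIECE W2 (helper40): a sequence of expansions is an `expSeq`.
-/

set_option autoImplicit false

namespace Cfsg.Agent.Helper40.KPSL

open Polynomial Cfsg.Agent.Helper40.KGL Cfsg.Agent.Helper40.KSL
open scoped DirectSum
open Classical

universe u

/-- PIECE W2 -/
theorem exists_expSeq {F : Type u} [Field F] (o m : ℕ) (ho : 1 ≤ o) (G : Fin (o * m) → F[X])
    (hG : IsSeq (o * m) (o * m) G)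
    (hexp : ∀ j, ∃ h : F[X], h.Monic ∧ h.coeff 0 ≠ 0 ∧ G j = Polynomial.expand F o h) :
    ∃ H : Fin m → F[X], IsSeq m m H ∧ G = expSeq o (o * m) H := by
  choose h hm h0 hGj using hexp
  have hmle : m ≤ o * m := Nat.le_mul_of_pos_left m ho
  have hdeg : ∀ j, (G j).natDegree = (h j).natDegree * o := by
    intro j
    rw [hGj j, natDegree_expand]
  have hone : ∀ j : Fin (o * m), m ≤ j.val → h j = 1 := by
    intro j hj
    have h1 : (j.val + 1) * (G j).natDegree ≤ o * m := by
      have h7 := Finset.single_le_sum (f := fun j : Fin (o * m) => (j.val + 1) * (G j).natDegree)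
        (fun i _ => Nat.zero_le _) (Finset.mem_univ j)
      exact h7.trans (le_of_eq hG.2)
    rw [hdeg j] at h1
    have h2 : (h j).natDegree = 0 := by
      by_contra hne
      have h3 : 1 ≤ (h j).natDegree := Nat.one_le_iff_ne_zero.mpr hne
      have h4 : (j.val + 1) * o ≤ (j.val + 1) * ((h j).natDegree * o) :=
        Nat.mul_le_mul_left _ (Nat.le_mul_of_pos_left o h3)
      have h5 : o * (j.val + 1) ≤ o * m := by
        rw [mul_comm o (j.val + 1)]
        exact h4.trans h1
      have h6 := Nat.le_of_mul_le_mul_left h5 ho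
      omega
    exact (hm j).natDegree_eq_zero.mp h2
  refine ⟨fun i => h ⟨i.val, lt_of_lt_of_le i.2 hmle⟩, ⟨fun i => ⟨hm _, h0 _⟩, ?_⟩, ?_⟩
  · -- the degree sum
    have hsum := hG.2
    let f : ℕ → ℕ := fun i => if hi : i < o * m then (i + 1) * (h ⟨i, hi⟩).natDegree else 0
    have e1 : ∑ j : Fin (o * m), (j.val + 1) * (G j).natDegree =
        o * ∑ i ∈ Finset.range (o * m), f i := by
      rw [← Fin.sum_univ_eq_sum_range, Finset.mul_sum]
      apply Finset.sum_congr rfl
      intro j _
      rw [hdeg j]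
      simp only [f, dif_pos j.2]
      ring
    have e2 : ∑ i ∈ Finset.range (o * m), f i = ∑ i ∈ Finset.range m, f i := by
      symm
      apply Finset.sum_subset
      · intro i hi
        rw [Finset.mem_range] at hi ⊢
        omega
      · intro i hi hi'
        rw [Finset.mem_range] at hi hi'
        simp only [f, dif_pos hi]
        rw [hone ⟨i, hi⟩ (by simpa using hi'), natDegree_one, mul_zero]
    have e3 : ∑ i ∈ Finset.range m, f i =
        ∑ i : Fin m, (i.val + 1) * (h ⟨i.val, lt_of_lt_of_le i.2 hmle⟩).natDegree := by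
      rw [← Fin.sum_univ_eq_sum_range]
      apply Finset.sum_congr rfl
      intro i _
      simp only [f, dif_pos (lt_of_lt_of_le i.2 hmle)]
    rw [e1, e2, e3] at hsum
    exact Nat.eq_of_mul_eq_mul_left ho hsum
  · funext j
    unfold expSeq
    by_cases hj : j.val < m
    · rw [dif_pos hj, hGj j]
    · rw [dif_neg hj, hGj j, hone j (by omega), map_one]

end Cfsg.Agent.Helper40.KPSL
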