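import Mathlib
import Cfsg.Agent.Helper40.KGLDefs
import Cfsg.Agent.Helper40.KSLDefs

/-!
# CALL S2479, PIECE L1 (helper40): the number of monic polynomials of degree `n ≥ 1` with
normalised constant term `1` over a finite field with `q` elements is `q^(n-1)`.
-/

set_option autoImplicit false

namespace Cfsg.Agent.Helper40.KSL

open Polynomial Cfsg.Agent.Helper40.KGL
open scoped DirectSum

universe u

/-- PIECE L1 -/
theorem card_monic_nu_one {F : Type u} [Field F] [Fintype F] (n : ℕ) (hn : 1 ≤ n) :
    Nat.card {f : F[X] // f.Monic ∧ f.natDegree = n ∧ nu f = 1} = Fintype.card F ^ (n - 1) := by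
  classical
  obtain ⟨j, rfl⟩ : ∃ j, n = j + 1 := ⟨n - 1, by omega⟩
  let e : {p : F[X] // p.Monic ∧ p.natDegree = j + 1} ≃ (Fin (j + 1) → F) :=
    (monicEquivDegreeLT (j + 1)).trans (degreeLTEquiv F (j + 1)).toEquiv
  have he : ∀ p : {p : F[X] // p.Monic ∧ p.natDegree = j + 1}, e p 0 = p.1.coeff 0 := by
    rintro ⟨p, hp, hd⟩
    show (p.eraseLead).coeff ((0 : Fin (j + 1)) : ℕ) = p.coeff 0
    rw [Fin.val_zero]
    exact eraseLead_coeff_of_ne _ (by omega)
  have hnu : ∀ f : F[X], f.natDegree = j + 1 → (nu f = 1 ↔ f.coeff 0 = (-1) ^ (j + 1)) := by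
    intro f hd
    unfold nu
    rw [hd]
    constructor
    · intro h
      have h2 : ((-1 : F)) ^ (j + 1) * ((-1) ^ (j + 1) * f.coeff 0) = (-1) ^ (j + 1) * 1 := by
        rw [h]
      rw [← mul_assoc, ← mul_pow, neg_one_mul, neg_neg, one_pow, one_mul, mul_one] at h2
      exact h2
    · intro h
      rw [h, ← mul_pow, neg_one_mul, neg_neg, one_pow]
  let e1 : {f : F[X] // f.Monic ∧ f.natDegree = j + 1 ∧ nu f = 1} ≃
      {c : Fin (j + 1) → F // c 0 = (-1) ^ (j + 1)} :=
    { toFun := fun g => ⟨e ⟨g.1, g.2.1, g.2.2.1⟩, by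
        rw [he]; exact (hnu g.1 g.2.2.1).mp g.2.2.2⟩
      invFun := fun c => ⟨(e.symm c.1).1, (e.symm c.1).2.1, (e.symm c.1).2.2, by
          have h := he (e.symm c.1)
          rw [Equiv.apply_symm_apply] at h
          exact (hnu _ (e.symm c.1).2.2).mpr (by rw [← h]; exact c.2)⟩
      left_inv := fun g => by
        apply Subtype.ext
        simp
      right_inv := fun c => by
        apply Subtype.ext
        simp }
  let e2 : {c : Fin (j + 1) → F // c 0 = (-1) ^ (j + 1)} ≃ (Fin j → F) :=
    { toFun := fun c => fun i => c.1 i.succ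
      invFun := fun d => ⟨Fin.cons ((-1) ^ (j + 1)) d, by simp⟩
      left_inv := fun c => by
        apply Subtype.ext
        funext i
        refine Fin.cases ?_ (fun i => ?_) i
        · simp [c.2]
        · simp
      right_inv := fun d => by
        funext i
        simp }
  rw [Nat.card_congr (e1.trans e2), Nat.card_eq_fintype_card]
  simp

end Cfsg.Agent.Helper40.KSL
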