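import Mathlib
import Cfsg.Agent.Helper40.KGLDefs
import Cfsg.Agent.Helper40.KSLDefs
import Cfsg.Agent.Helper40.KGLMain
import Cfsg.Agent.Helper58.KGLP4
import Cfsg.Agent.Helper58.KGLP5b
import Cfsg.Agent.Helper40.KSLL1
import Cfsg.Agent.Helper19.KSLB14b
import Cfsg.Agent.Helper20.KSLB5
import Cfsg.Agent.Helper20.KSLB9
import Cfsg.Agent.Helper20.KSLB10
import Cfsg.Agent.Helper37.KSLB16
import Cfsg.Agent.Helper37.KSLB17
import Cfsg.Agent.Helper37.KSLB8a
import Cfsg.Agent.Helper46.KSLB4
import Cfsg.Agent.Helper46.KSLB8b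
import Cfsg.Agent.Helper65.KSLL2
import Cfsg.Agent.Helper91.KSLB1
import Cfsg.Agent.Helper91.KSLB11a
import Cfsg.Agent.Helper91.KSLB11b
import Cfsg.Agent.Helper91.KSLB11c
import Cfsg.Agent.Helper92.KSLB12
import Cfsg.Agent.Helper92.KSLB13
import Cfsg.Agent.Helper92.KSLB14a
import Cfsg.Agent.Helper92.KSLB2
import Cfsg.Agent.Helper92.KSLB8c
import Cfsg.Agent.Helper93.KSLB6

/-!
# Class number bounds for `SL_n(q)` (helper40, S2479): assembly

`q^(n-1) < k(SL_n(q))`, `2 k ≤ 5 q^(n-1)`, and `k ≤ q^(n-1) + 3 q^(n-2)` for `n ≥ 3`.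
Pieces of CALL S2479 by helper19, helper20, helper37, helper46, helper65, helper91, helper92,
helper93 and helper40, on top of the `GL_n` machinery of S2478.
-/

set_option autoImplicit false

namespace Cfsg.Agent.Helper40.KSL

open Polynomial Cfsg.Agent.Helper40.KGL
open scoped DirectSum
open Classical

universe u

/-- The determinant of an element of `GL_n(F)` in terms of its class data. -/
theorem det_eq_detDat {F : Type u} [Field F] {n : ℕ} (g : GL (Fin n) F)
    (M : Multiset (F[X] × ℕ)) (hM : IsDat n M)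
    (hdec : HasDecomp (Matrix.toLin' (g : Matrix (Fin n) (Fin n) F)) M) :
    (g : Matrix (Fin n) (Fin n) F).det = detDat M := by
  obtain ⟨ι, _, p, e, hMe, ⟨ψ⟩⟩ := hdec
  have hp : ∀ i, (p i).Monic := by
    intro i
    have h := hM.1 (p i, e i) (by rw [hMe]; exact Multiset.mem_map_of_mem _ (Finset.mem_univ_val i))
    exact h.2.1
  rw [Cfsg.Agent.Helper46.det_eq_prod_det_mulQ g p e hp ψ, detDat, hMe, Multiset.map_map,
    ← Finset.prod_eq_multiset_prod]
  apply Finset.prod_congr rfl
  intro i _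
  rw [Cfsg.Agent.Helper37.det_mulQ_X _ ((hp i).pow _), Cfsg.Agent.Helper92.nu_pow _ (hp i)]
  rfl

/-- Elements of `GL_n(F)` with the same class data are conjugate. -/
theorem isConj_of_hasDecomp {F : Type u} [Field F] {n : ℕ} (g g' : GL (Fin n) F)
    (M : Multiset (F[X] × ℕ))
    (hdec : HasDecomp (Matrix.toLin' (g : Matrix (Fin n) (Fin n) F)) M)
    (hdec' : HasDecomp (Matrix.toLin' (g' : Matrix (Fin n) (Fin n) F)) M) :
    IsConj g g' := by
  obtain ⟨ι, _, p, e, hMe, ⟨ψ⟩⟩ := hdec
  obtain ⟨ι', _, p', e', hMe', ⟨ψ'⟩⟩ := hdec'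
  obtain ⟨σ, hσ⟩ := Cfsg.Agent.Helper78.exists_equiv_of_map_eq
    (fun i => (p i, e i)) (fun i => (p' i, e' i)) (by rw [← hMe, ← hMe'])
  obtain ⟨θ⟩ := directSum_equiv_of_equiv p e p' e' σ hσ
  exact Cfsg.Agent.Helper88.isConj_of_aeval_equiv _ _ ⟨ψ.trans (θ.trans ψ'.symm)⟩

/-- A chosen representative of a conjugacy class of `SL_n(F)`. -/
noncomputable def slRep {F : Type u} [Field F] {n : ℕ}
    (C : ConjClasses (Matrix.SpecialLinearGroup (Fin n) F)) :
    Matrix.SpecialLinearGroup (Fin n) F :=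
  Classical.choose (ConjClasses.exists_rep C)

theorem mk_slRep {F : Type u} [Field F] {n : ℕ}
    (C : ConjClasses (Matrix.SpecialLinearGroup (Fin n) F)) : ConjClasses.mk (slRep C) = C :=
  Classical.choose_spec (ConjClasses.exists_rep C)

/-- Chosen class data of (the representative of) a conjugacy class of `SL_n(F)`. -/
noncomputable def slDat {F : Type u} [Field F] {n : ℕ}
    (C : ConjClasses (Matrix.SpecialLinearGroup (Fin n) F)) : Multiset (F[X] × ℕ) :=
  Classical.choose (exists_dat (Matrix.SpecialLinearGroup.toGL (slRep C)))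

theorem slDat_isDat {F : Type u} [Field F] {n : ℕ}
    (C : ConjClasses (Matrix.SpecialLinearGroup (Fin n) F)) : IsDat n (slDat C) :=
  (Classical.choose_spec (exists_dat (Matrix.SpecialLinearGroup.toGL (slRep C)))).1

theorem slDat_hasDecomp {F : Type u} [Field F] {n : ℕ}
    (C : ConjClasses (Matrix.SpecialLinearGroup (Fin n) F)) :
    HasDecomp (Matrix.toLin'
      ((Matrix.SpecialLinearGroup.toGL (slRep C) : GL (Fin n) F) : Matrix (Fin n) (Fin n) F))
      (slDat C) :=
  (Classical.choose_spec (exists_dat (Matrix.SpecialLinearGroup.toGL (slRep C)))).2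

/-- The sequence of polynomials attached to a conjugacy class of `SL_n(F)`. -/
noncomputable def slSeq {F : Type u} [Field F] {n : ℕ}
    (C : ConjClasses (Matrix.SpecialLinearGroup (Fin n) F)) : Fin n → F[X] :=
  datSeq n (slDat C)

theorem slSeq_isSeq {F : Type u} [Field F] {n : ℕ}
    (C : ConjClasses (Matrix.SpecialLinearGroup (Fin n) F)) : IsSeq n n (slSeq C) :=
  datSeq_isSeq n (slDat C) (slDat_isDat C)

/-- The fibres of `slSeq`: at most `γ(G)` classes, and none unless `det G = 1`. -/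
theorem card_slSeq_fiber_le {F : Type u} [Field F] [Fintype F] (n : ℕ) (hn : 1 ≤ n)
    [Fintype (ConjClasses (Matrix.SpecialLinearGroup (Fin n) F))] (G : Fin n → F[X]) :
    (Finset.univ.filter fun C : ConjClasses (Matrix.SpecialLinearGroup (Fin n) F) =>
      slSeq C = G).card ≤ (if detSeq G = 1 then gamSeq (Fintype.card F) G else 0) := by
  classical
  by_cases hne : (Finset.univ.filter fun C : ConjClasses (Matrix.SpecialLinearGroup (Fin n) F) =>
      slSeq C = G).Nonempty
  · obtain ⟨C₀, hC₀⟩ := hne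
    rw [Finset.mem_filter] at hC₀
    have hG0 : datSeq n (slDat C₀) = G := hC₀.2
    have hdet : detSeq G = 1 := by
      rw [← hG0, Cfsg.Agent.Helper20.detSeq_datSeq n (slDat C₀) (slDat_isDat C₀),
        ← det_eq_detDat _ (slDat C₀) (slDat_isDat C₀) (slDat_hasDecomp C₀)]
      exact (slRep C₀).2
    rw [if_pos hdet]
    have hfib := Cfsg.Agent.Helper37.fiber_le_gamDat hn (Cfsg.Agent.Helper91.sl_fiber_le hn) Cfsg.Agent.Helper92.index_le_gcd
      (fun g ι _ p e hp ψ i₀ h hh => Cfsg.Agent.Helper46.exists_gl_centralizing g p e hp ψ i₀ h hh)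
      (Cfsg.Agent.Helper20.exists_coprime_det_pow Cfsg.Agent.Helper93.det_mulQ_pow) (slRep C₀) (slDat C₀) (slDat_isDat C₀)
      (slDat_hasDecomp C₀)
    rw [← Cfsg.Agent.Helper20.gamSeq_datSeq _ n (slDat C₀) (slDat_isDat C₀), hG0] at hfib
    refine le_trans ?_ hfib
    rw [← Fintype.card_coe, ← Nat.card_eq_fintype_card]
    refine Nat.card_le_card_of_injective
      (fun C : {C // C ∈ Finset.univ.filter
        fun C : ConjClasses (Matrix.SpecialLinearGroup (Fin n) F) => slSeq C = G} =>
          ⟨C.1, ?_⟩) ?_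
    · have hC : datSeq n (slDat C.1) = G := (Finset.mem_filter.mp C.2).2
      have h2 : slDat C.1 = slDat C₀ :=
        Cfsg.Agent.Helper58.datSeq_inj n _ _ (slDat_isDat C.1) (slDat_isDat C₀)
          (hC.trans hG0.symm)
      have hc : IsConj (Matrix.SpecialLinearGroup.toGL (slRep C.1))
          (Matrix.SpecialLinearGroup.toGL (slRep C₀)) :=
        isConj_of_hasDecomp _ _ (slDat C₀) (h2 ▸ slDat_hasDecomp C.1) (slDat_hasDecomp C₀)
      rw [← mk_slRep C.1]
      exact ConjClasses.mk_eq_mk_iff_isConj.mpr hc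
    · intro C C' h
      have h' := congrArg Subtype.val h
      exact Subtype.ext h'
  · rw [Finset.not_nonempty_iff_eq_empty] at hne
    rw [hne]
    simp

/-- `k(SL_n(q)) ≤ ∑_{G, det G = 1} γ(G)`. -/
theorem card_sl_le_sum {F : Type u} [Field F] [Fintype F] (n : ℕ) (hn : 1 ≤ n)
    (S : Finset (Fin n → F[X])) (hS : ∀ G, G ∈ S ↔ IsSeq n n G) :
    Nat.card (ConjClasses (Matrix.SpecialLinearGroup (Fin n) F)) ≤
      ∑ G ∈ S, (if detSeq G = 1 then gamSeq (Fintype.card F) G else 0) := by
  classical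
  letI : Fintype (ConjClasses (Matrix.SpecialLinearGroup (Fin n) F)) := Fintype.ofFinite _
  rw [Nat.card_eq_fintype_card, ← Finset.card_univ,
    Finset.card_eq_sum_card_fiberwise (f := slSeq) (t := S)
      (fun C _ => (hS _).mpr (slSeq_isSeq C))]
  exact Finset.sum_le_sum fun G _ => card_slSeq_fiber_le n hn G

/-- `(q - 1) k(SL_n(q)) ≤ bnd q n`. -/
theorem upper {F : Type u} [Field F] [Fintype F] (n : ℕ) (hn : 1 ≤ n) :
    (Fintype.card F - 1) * Nat.card (ConjClasses (Matrix.SpecialLinearGroup (Fin n) F)) ≤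
      bnd (Fintype.card F) n := by
  classical
  have hP4 := fun m n : ℕ =>
    Cfsg.Agent.Helper58.card_seq_le (F := F) Cfsg.Agent.Helper53.card_good_natDegree m n
  have hfin : Finite {G : Fin n → F[X] // IsSeq n n G} := (hP4 n n).1
  have hfin' : Set.Finite {G : Fin n → F[X] | IsSeq n n G} := hfin
  let S : Finset (Fin n → F[X]) := hfin'.toFinset
  have hS : ∀ G, G ∈ S ↔ IsSeq n n G := fun G => by simp [S]
  have h1 := card_sl_le_sum n hn S hS
  have h2 := Cfsg.Agent.Helper91.torus_count n hn (fun l G hG => Cfsg.Agent.Helper91.act_props _ n l G hG)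
    (fun T hT δ => Cfsg.Agent.Helper91.card_fiber_le n T hT δ) S hS
  have h3 := Cfsg.Agent.Helper37.sum_gamSeq_sq_le n hn (fun m => hP4 m m)
    (fun G hG => Cfsg.Agent.Helper92.gamSeq_sq_le _ n Fintype.one_lt_card hn G hG)
    (fun c hc hcn S hS => Cfsg.Agent.Helper92.card_scaled_le n c hc hcn (hP4 _ _).1 S hS) S hS
  exact (Nat.mul_le_mul_left _ h1).trans (h2.trans h3)

/-- `q^(n-1) < k(SL_n(q))`. -/
theorem lower {F : Type u} [Field F] [Fintype F] (n : ℕ) (hn : 2 ≤ n) :
    Fintype.card F ^ (n - 1) <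
      Nat.card (ConjClasses (Matrix.SpecialLinearGroup (Fin n) F)) := by
  classical
  have h1 := card_monic_nu_one (F := F) n (by omega)
  have hPfin : Finite {f : F[X] // f.Monic ∧ f.natDegree = n ∧ nu f = 1} := by
    apply Nat.finite_of_card_ne_zero
    rw [h1]
    exact (pow_pos Fintype.card_pos _).ne'
  have hex : ∀ f : {f : F[X] // f.Monic ∧ f.natDegree = n ∧ nu f = 1},
      ∃ g : Matrix.SpecialLinearGroup (Fin n) F,
        (g : Matrix (Fin n) (Fin n) F).charpoly = f.1 ∧ g ≠ 1 :=
    fun f => Cfsg.Agent.Helper65.exists_sl_charpoly hn f.1 f.2.1 f.2.2.1 f.2.2.2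
  choose gl hgl hne using hex
  have hinj : Function.Injective
      (fun o : Option {f : F[X] // f.Monic ∧ f.natDegree = n ∧ nu f = 1} =>
        (Option.elim o (ConjClasses.mk (1 : Matrix.SpecialLinearGroup (Fin n) F))
          (fun f => ConjClasses.mk (gl f)))) := by
    intro o o' h
    rcases o with _ | f <;> rcases o' with _ | f'
    · rfl
    · exfalso
      have hc : IsConj (1 : Matrix.SpecialLinearGroup (Fin n) F) (gl f') :=
        ConjClasses.mk_eq_mk_iff_isConj.mp h
      exact hne f' (isConj_one_right.mp hc)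
    · exfalso
      have hc : IsConj (gl f) (1 : Matrix.SpecialLinearGroup (Fin n) F) :=
        ConjClasses.mk_eq_mk_iff_isConj.mp h
      exact hne f (isConj_one_left.mp hc)
    · have hc : IsConj (gl f) (gl f') := ConjClasses.mk_eq_mk_iff_isConj.mp h
      obtain ⟨c, hc⟩ := isConj_iff.mp hc
      congr 1
      apply Subtype.ext
      rw [← hgl f, ← hgl f', ← hc]
      have h3 : (Matrix.SpecialLinearGroup.toGL (c * gl f * c⁻¹) : GL (Fin n) F) =
          Matrix.SpecialLinearGroup.toGL c * Matrix.SpecialLinearGroup.toGL (gl f) *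
            (Matrix.SpecialLinearGroup.toGL c)⁻¹ := by
        rw [map_mul, map_mul, map_inv]
      have h4 := congrArg (fun x : GL (Fin n) F => (x : Matrix (Fin n) (Fin n) F).charpoly) h3
      simp only [Units.val_mul] at h4
      rw [Matrix.coe_units_inv, Matrix.charpoly_units_conj] at h4
      exact h4.symm
  have h2 := Nat.card_le_card_of_injective _ hinj
  rw [Finite.card_option, h1] at h2
  omega

/-- The class number bounds of `SL_n(q)`. -/
theorem main {F : Type u} [Field F] [Fintype F] (n : ℕ) (hn : 2 ≤ n) :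
    Fintype.card F ^ (n - 1) <
        Nat.card (ConjClasses (Matrix.SpecialLinearGroup (Fin n) F)) ∧
      2 * Nat.card (ConjClasses (Matrix.SpecialLinearGroup (Fin n) F)) ≤
        5 * Fintype.card F ^ (n - 1) ∧
      (3 ≤ n → Nat.card (ConjClasses (Matrix.SpecialLinearGroup (Fin n) F)) ≤
        Fintype.card F ^ (n - 1) + 3 * Fintype.card F ^ (n - 2)) := by
  have hq2 : 2 ≤ Fintype.card F := Fintype.one_lt_card
  have hup := upper (F := F) n (by omega)
  have hcnt : ∀ m : ℕ, 1 ≤ m → cnt (Fintype.card F) m m + 1 ≤ Fintype.card F ^ m := by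
    intro m hm
    have h5 := Cfsg.Agent.Helper53.cnt_bound (Fintype.card F) hq2 m m hm
    have hpos : 0 < Fintype.card F ^ m := pow_pos (by omega) m
    have h6 : Fintype.card F ^ m * (cnt (Fintype.card F) m m + 1) ≤
        Fintype.card F ^ m * Fintype.card F ^ m := by
      rw [← pow_add, mul_add, mul_one]
      exact h5
    exact Nat.le_of_mul_le_mul_left h6 hpos
  obtain ⟨hb3, hb2⟩ := Cfsg.Agent.Helper19.bnd_le hq2 (fun n hn => Cfsg.Agent.Helper92.numeric_ge_four _ n hq2 hn) hcnt
  have hqpos : 0 < Fintype.card F - 1 := by omega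
  have key3 : 3 ≤ n → Nat.card (ConjClasses (Matrix.SpecialLinearGroup (Fin n) F)) ≤
      Fintype.card F ^ (n - 1) + 3 * Fintype.card F ^ (n - 2) := by
    intro h3
    exact Nat.le_of_mul_le_mul_left (hup.trans (hb3 n h3)) hqpos
  refine ⟨lower n hn, ?_, key3⟩
  by_cases h3 : 3 ≤ n
  · have h := key3 h3
    have hpow : Fintype.card F ^ (n - 1) = Fintype.card F * Fintype.card F ^ (n - 2) := by
      rw [← pow_succ']
      congr 1
      omega
    have h7 : 2 * Fintype.card F ^ (n - 2) ≤ Fintype.card F ^ (n - 1) := by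
      rw [hpow]
      exact Nat.mul_le_mul_right _ hq2
    omega
  · have h2 : n = 2 := by omega
    subst h2
    have h8 : (Fintype.card F - 1) *
        (2 * Nat.card (ConjClasses (Matrix.SpecialLinearGroup (Fin 2) F))) ≤
        (Fintype.card F - 1) * (5 * Fintype.card F ^ (2 - 1)) := by
      have h9 : 2 * ((Fintype.card F - 1) *
          Nat.card (ConjClasses (Matrix.SpecialLinearGroup (Fin 2) F))) ≤
          2 * bnd (Fintype.card F) 2 := Nat.mul_le_mul_left _ hup
      calc (Fintype.card F - 1) *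
            (2 * Nat.card (ConjClasses (Matrix.SpecialLinearGroup (Fin 2) F)))
          = 2 * ((Fintype.card F - 1) *
            Nat.card (ConjClasses (Matrix.SpecialLinearGroup (Fin 2) F))) := by ring
        _ ≤ 2 * bnd (Fintype.card F) 2 := h9
        _ ≤ 5 * ((Fintype.card F - 1) * Fintype.card F) := hb2
        _ = (Fintype.card F - 1) * (5 * Fintype.card F ^ (2 - 1)) := by
          norm_num
          ring
    exact Nat.le_of_mul_le_mul_left h8 hqpos

end Cfsg.Agent.Helper40.KSL
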