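import Mathlib
import Cfsg.Agent.Helper40.KGLDefs
import Cfsg.Agent.Helper40.KSLDefs
import Cfsg.Agent.Helper40.KPSLDefs
import Cfsg.Agent.Helper40.KSLMain
import Cfsg.Agent.Helper40.KPSLV11
import Cfsg.Agent.Helper40.KPSLW2
import Cfsg.Agent.Helper66.KPSLQ1
import Cfsg.Agent.Helper80.KPSLQ2a
import Cfsg.Agent.Helper80.KPSLQ2b
import Cfsg.Agent.Helper9.KPSLV1
import Cfsg.Agent.Helper41.KPSLV2
import Cfsg.Agent.Helper9.KPSLV3
import Cfsg.Agent.Helper76.KPSLV4
import Cfsg.Agent.Helper41.KPSLV5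
import Cfsg.Agent.Helper41.KPSLV6
import Cfsg.Agent.Helper9.KPSLV7
import Cfsg.Agent.Helper41.KPSLV8
import Cfsg.Agent.Helper41.KPSLV9
import Cfsg.Agent.Helper41.KPSLV10
import Cfsg.Agent.Helper93.KPSLW1
import Cfsg.Agent.Helper53.KPSLW3
import Cfsg.Agent.Helper80.KPSLW6

/-!
# Class number bounds for `PSL_n(q)` (helper40, S2480): assembly

`q^(n-1) ≤ d k(PSL_n(q)) ≤ q^(n-1) + 5 q^(n-2)`, `d = gcd(n, q - 1)`.
Pieces of CALL S2480 by helper9, helper41, helper53, helper66, helper76, helper80, helper93 and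
helper40, on top of the `GL_n`/`SL_n` machinery of S2478/S2479.
-/

set_option autoImplicit false

namespace Cfsg.Agent.Helper40.KPSL

open Polynomial Cfsg.Agent.Helper40.KGL Cfsg.Agent.Helper40.KSL
open scoped DirectSum
open Classical

universe u

/-- The sequence of a class fixed by the central element `ζ • 1` is an expansion. -/
theorem exists_expSeq_of_fixed {F : Type u} [Field F] [Fintype F] (ζ : Fˣ) (m : ℕ)
    (z : Matrix.SpecialLinearGroup (Fin (orderOf ζ * m)) F)
    (hz : (z : Matrix (Fin (orderOf ζ * m)) (Fin (orderOf ζ * m)) F) =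
      (ζ : F) • (1 : Matrix (Fin (orderOf ζ * m)) (Fin (orderOf ζ * m)) F))
    (C : ConjClasses (Matrix.SpecialLinearGroup (Fin (orderOf ζ * m)) F))
    (hC : ∃ g, ConjClasses.mk g = C ∧ IsConj (z * g) g) :
    ∃ H : Fin m → F[X], IsSeq m m H ∧ slSeq C = expSeq (orderOf ζ) (orderOf ζ * m) H := by
  have ho : 1 ≤ orderOf ζ := orderOf_pos ζ
  have hcentral : ∀ g : Matrix.SpecialLinearGroup (Fin (orderOf ζ * m)) F, z * g = g * z := by
    intro g
    apply Subtype.ext
    rw [Matrix.SpecialLinearGroup.coe_mul, Matrix.SpecialLinearGroup.coe_mul, hz,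
      Matrix.smul_mul, Matrix.mul_smul, Matrix.one_mul, Matrix.mul_one]
  obtain ⟨g, hg, hconj⟩ := hC
  have h1 : IsConj g (slRep C) := by
    rw [← ConjClasses.mk_eq_mk_iff_isConj, hg, mk_slRep]
  have h2 : IsConj (z * g) (z * slRep C) := by
    obtain ⟨x, hx⟩ := isConj_iff.mp h1
    refine isConj_iff.mpr ⟨x, ?_⟩
    rw [← hx, ← mul_assoc, ← mul_assoc, ← hcentral x, mul_assoc z, mul_assoc z]
  have h3 : IsConj (z * slRep C) (slRep C) := h2.symm.trans (hconj.trans h1)
  have h4 : IsConj (Matrix.SpecialLinearGroup.toGL (z * slRep C))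
      (Matrix.SpecialLinearGroup.toGL (slRep C)) :=
    MonoidHom.map_isConj Matrix.SpecialLinearGroup.toGL h3
  have h5 : ((Matrix.SpecialLinearGroup.toGL (z * slRep C) :
      GL (Fin (orderOf ζ * m)) F) : Matrix (Fin (orderOf ζ * m)) (Fin (orderOf ζ * m)) F) =
      (ζ : F) • ((Matrix.SpecialLinearGroup.toGL (slRep C) :
      GL (Fin (orderOf ζ * m)) F) : Matrix (Fin (orderOf ζ * m)) (Fin (orderOf ζ * m)) F) := by
    rw [Matrix.SpecialLinearGroup.coe_GL_coe_matrix, Matrix.SpecialLinearGroup.coe_GL_coe_matrix,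
      Matrix.SpecialLinearGroup.coe_mul, hz, Matrix.smul_mul, Matrix.one_mul]
  have hexp : ∀ j, ∃ h : F[X], h.Monic ∧ h.coeff 0 ≠ 0 ∧
      slSeq C j = Polynomial.expand F (orderOf ζ) h := by
    intro j
    have hV4 : ∀ (φ : Module.End F (Fin (orderOf ζ * m) → F)) (M : Multiset (F[X] × ℕ)),
        IsDat (orderOf ζ * m) M → HasDecomp φ M → ∀ (p : F[X]), Irreducible p → p.Monic →
        ∀ k : ℕ, Module.finrank F (LinearMap.ker (Polynomial.aeval φ (p ^ k))) =
          p.natDegree * minSum M p k := by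
      intro φ M hM hdec p hp hpm k
      exact Cfsg.Agent.Helper76.finrank_ker_aeval_pow Cfsg.Agent.Helper9.finrank_ker_mulQ_pow Cfsg.Agent.Helper41.ker_mulQ_eq_bot
        (fun φ ι _ p e hp ψ h => Cfsg.Agent.Helper9.finrank_ker_aeval_eq_sum φ p e hp ψ h)
        φ (orderOf ζ * m) M hM hdec p hp hpm k
    have hV6 : ∀ (φ : Module.End F (Fin (orderOf ζ * m) → F)) (ζ : Fˣ) (p : F[X]) (k : ℕ),
        Module.finrank F
            (LinearMap.ker (Polynomial.aeval ((ζ : F) • φ) ((p.scaleRoots (ζ : F)) ^ k))) =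
          Module.finrank F (LinearMap.ker (Polynomial.aeval φ (p ^ k))) :=
      fun φ ζ p k => Cfsg.Agent.Helper41.finrank_ker_aeval_scaleRoots φ ζ p k
    have hV9 : ∀ (ζ' : F) (M : Multiset (F[X] × ℕ)) (j : Fin (orderOf ζ * m)),
        datSeq (orderOf ζ * m) (M.map (fun x => (x.1.scaleRoots ζ', x.2))) j =
          (datSeq (orderOf ζ * m) M j).scaleRoots ζ' :=
      fun ζ' M j => Cfsg.Agent.Helper41.datSeq_map_scaleRoots _ ζ' M j
    have hinv : (datSeq (orderOf ζ * m) (slDat C) j).scaleRoots (ζ : F) =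
        datSeq (orderOf ζ * m) (slDat C) j :=
      datSeq_scaleRoots_eq hV4 Cfsg.Agent.Helper41.irreducible_scaleRoots hV6
        Cfsg.Agent.Helper9.finrank_ker_aeval_of_isConj Cfsg.Agent.Helper41.map_eq_of_minSum_eq hV9
        (Matrix.SpecialLinearGroup.toGL (slRep C)) (Matrix.SpecialLinearGroup.toGL (z * slRep C))
        ζ h5 h4 (slDat C) (slDat_isDat C) (slDat_hasDecomp C) j
    exact Cfsg.Agent.Helper41.exists_expand_of_scaleRoots_eq ζ _ ((slSeq_isSeq C).1 j).1 ((slSeq_isSeq C).1 j).2 hinv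
  exact exists_expSeq (orderOf ζ) m ho (slSeq C) (slSeq_isSeq C) hexp

/-- The number of classes of `SL_n(q)` fixed by the central element `ζ • 1`, `n = o m`. -/
theorem card_fixed_le {F : Type u} [Field F] [Fintype F] (ζ : Fˣ) (m : ℕ) (hm : 1 ≤ m)
    (z : Matrix.SpecialLinearGroup (Fin (orderOf ζ * m)) F)
    (hz : (z : Matrix (Fin (orderOf ζ * m)) (Fin (orderOf ζ * m)) F) =
      (ζ : F) • (1 : Matrix (Fin (orderOf ζ * m)) (Fin (orderOf ζ * m)) F))
    (S : Finset (Fin m → F[X])) (hS : ∀ H, H ∈ S ↔ IsSeq m m H) :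
    Nat.card {C : ConjClasses (Matrix.SpecialLinearGroup (Fin (orderOf ζ * m)) F) //
        ∃ g, ConjClasses.mk g = C ∧ IsConj (z * g) g} ≤
      ∑ H ∈ S, (if detSeq H = (-1) ^ ((orderOf ζ - 1) * m)
        then gamSeq (Fintype.card F) H else 0) := by
  have ho : 1 ≤ orderOf ζ := orderOf_pos ζ
  have hn : 1 ≤ orderOf ζ * m := Nat.mul_pos ho hm
  letI : Fintype (ConjClasses (Matrix.SpecialLinearGroup (Fin (orderOf ζ * m)) F)) :=
    Fintype.ofFinite _
  have hex := fun C : {C : ConjClasses (Matrix.SpecialLinearGroup (Fin (orderOf ζ * m)) F) //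
      ∃ g, ConjClasses.mk g = C ∧ IsConj (z * g) g} =>
    exists_expSeq_of_fixed ζ m z hz C.1 C.2
  choose Ψ hΨseq hΨeq using hex
  rw [Nat.card_eq_fintype_card, ← Finset.card_univ,
    Finset.card_eq_sum_card_fiberwise (f := Ψ) (t := S) (fun C _ => (hS _).mpr (hΨseq C))]
  apply Finset.sum_le_sum
  intro H hH
  have hHseq : IsSeq m m H := (hS H).mp hH
  obtain ⟨-, hgam, hdet⟩ := Cfsg.Agent.Helper93.expSeq_props (Fintype.card F) (orderOf ζ) m ho H hHseq
  have hfib := card_slSeq_fiber_le (orderOf ζ * m) hn (expSeq (orderOf ζ) (orderOf ζ * m) H)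
  rw [hgam, hdet] at hfib
  have hle : (Finset.univ.filter fun C : {C : ConjClasses
      (Matrix.SpecialLinearGroup (Fin (orderOf ζ * m)) F) //
      ∃ g, ConjClasses.mk g = C ∧ IsConj (z * g) g} => Ψ C = H).card ≤
      (Finset.univ.filter fun C : ConjClasses
        (Matrix.SpecialLinearGroup (Fin (orderOf ζ * m)) F) =>
        slSeq C = expSeq (orderOf ζ) (orderOf ζ * m) H).card := by
    apply Finset.card_le_card_of_injOn (fun C => C.1)
    · intro C hC
      have hC' := (Finset.mem_filter.mp (Finset.mem_coe.mp hC)).2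
      rw [Finset.mem_coe, Finset.mem_filter]
      exact ⟨Finset.mem_univ _, by rw [hΨeq C, hC']⟩
    · intro C _ C' _ h
      exact Subtype.ext h
  refine hle.trans (hfib.trans ?_)
  have hsq : ((-1 : F) ^ ((orderOf ζ - 1) * m)) * ((-1 : F) ^ ((orderOf ζ - 1) * m)) = 1 := by
    rw [← mul_pow]
    norm_num
  by_cases hd : detSeq H = (-1) ^ ((orderOf ζ - 1) * m)
  · rw [if_pos hd, hd, if_pos hsq]
  · rw [if_neg hd, if_neg]
    intro h
    apply hd
    have h6 : ((-1 : F) ^ ((orderOf ζ - 1) * m)) * ((-1 : F) ^ ((orderOf ζ - 1) * m) * detSeq H) =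
        (-1 : F) ^ ((orderOf ζ - 1) * m) * 1 := by rw [h]
    rw [← mul_assoc, hsq, one_mul, mul_one] at h6
    exact h6

/-- `(q - 1) · #(fixed classes) ≤ bnd q m`. -/
theorem fixed_bound {F : Type u} [Field F] [Fintype F] (ζ : Fˣ) (m : ℕ) (hm : 1 ≤ m)
    (z : Matrix.SpecialLinearGroup (Fin (orderOf ζ * m)) F)
    (hz : (z : Matrix (Fin (orderOf ζ * m)) (Fin (orderOf ζ * m)) F) =
      (ζ : F) • (1 : Matrix (Fin (orderOf ζ * m)) (Fin (orderOf ζ * m)) F)) :
    (Fintype.card F - 1) *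
      Nat.card {C : ConjClasses (Matrix.SpecialLinearGroup (Fin (orderOf ζ * m)) F) //
        ∃ g, ConjClasses.mk g = C ∧ IsConj (z * g) g} ≤ bnd (Fintype.card F) m := by
  have hP4 := fun m n : ℕ =>
    Cfsg.Agent.Helper58.card_seq_le (F := F) Cfsg.Agent.Helper53.card_good_natDegree m n
  have hfin : Finite {G : Fin m → F[X] // IsSeq m m G} := (hP4 m m).1
  have hfin' : Set.Finite {G : Fin m → F[X] | IsSeq m m G} := hfin
  let S : Finset (Fin m → F[X]) := hfin'.toFinset
  have hS : ∀ G, G ∈ S ↔ IsSeq m m G := fun G => by simp [S]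
  have h1 := card_fixed_le ζ m hm z hz S hS
  have h2 := Cfsg.Agent.Helper53.torus_count_gen m hm (fun l G hG => Cfsg.Agent.Helper91.act_props _ m l G hG)
    (fun T hT δ => Cfsg.Agent.Helper91.card_fiber_le m T hT δ) S hS
    ((-1 : F) ^ ((orderOf ζ - 1) * m))
  have h3 := Cfsg.Agent.Helper37.sum_gamSeq_sq_le m hm (fun m => hP4 m m)
    (fun G hG => Cfsg.Agent.Helper92.gamSeq_sq_le _ m Fintype.one_lt_card hm G hG)
    (fun c hc hcn S hS => Cfsg.Agent.Helper92.card_scaled_le m c hc hcn (hP4 _ _).1 S hS) S hS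
  exact (Nat.mul_le_mul_left _ h1).trans (h2.trans h3)

/-- The bound for a nontrivial central element. -/
theorem fixed_bound' {F : Type u} [Field F] [Fintype F] (n : ℕ) (hn : 1 ≤ n)
    (z : Matrix.SpecialLinearGroup (Fin n) F)
    (hz : z ∈ Subgroup.center (Matrix.SpecialLinearGroup (Fin n) F)) (hz1 : z ≠ 1) :
    ∃ o : ℕ, 2 ≤ o ∧ o ∣ n ∧ (Fintype.card F - 1) *
      Nat.card {C : ConjClasses (Matrix.SpecialLinearGroup (Fin n) F) //
        ∃ g, ConjClasses.mk g = C ∧ IsConj (z * g) g} ≤ bnd (Fintype.card F) (n / o) := by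
  obtain ⟨ζ, hζn, hzζ, hζ1⟩ := Cfsg.Agent.Helper80.center_sl_scalar hn z hz
  have ho : 1 ≤ orderOf ζ := orderOf_pos ζ
  have hdvd : orderOf ζ ∣ n := orderOf_dvd_of_pow_eq_one hζn
  have ho2 : 2 ≤ orderOf ζ := by
    rcases Nat.lt_or_ge (orderOf ζ) 2 with h | h
    · exfalso
      have h1 : orderOf ζ = 1 := by omega
      exact hz1 (hζ1 (orderOf_eq_one_iff.mp h1))
    · exact h
  refine ⟨orderOf ζ, ho2, hdvd, ?_⟩
  obtain ⟨m, rfl⟩ := hdvd
  have hm : 1 ≤ m := by
    rcases Nat.eq_zero_or_pos m with h | h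
    · subst h
      simp at hn
    · exact h
  rw [Nat.mul_div_cancel_left m (by omega)]
  exact fixed_bound ζ m hm z hzζ

/-- The class number bounds of `PSL_n(q)`. -/
theorem main {F : Type u} [Field F] [Fintype F] (n : ℕ) (hn : 2 ≤ n) :
    Fintype.card F ^ (n - 1) ≤ Nat.gcd n (Fintype.card F - 1) *
        Nat.card (ConjClasses (Matrix.ProjectiveSpecialLinearGroup (Fin n) F)) ∧
      Nat.gcd n (Fintype.card F - 1) *
        Nat.card (ConjClasses (Matrix.ProjectiveSpecialLinearGroup (Fin n) F)) ≤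
        Fintype.card F ^ (n - 1) + 5 * Fintype.card F ^ (n - 2) := by
  have hq2 : 2 ≤ Fintype.card F := Fintype.one_lt_card
  have hqpos : 0 < Fintype.card F - 1 := by omega
  letI : Fintype (Subgroup.center (Matrix.SpecialLinearGroup (Fin n) F)) := Fintype.ofFinite _
  have hB := Cfsg.Agent.Helper66.card_mul_card_conjClasses_quotient
    (Subgroup.center (Matrix.SpecialLinearGroup (Fin n) F)) le_rfl
  rw [Cfsg.Agent.Helper80.card_center_sl n (by omega)] at hB
  have hcard : Fintype.card (Subgroup.center (Matrix.SpecialLinearGroup (Fin n) F)) =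
      Nat.gcd n (Fintype.card F - 1) := by
    rw [← Nat.card_eq_fintype_card, Cfsg.Agent.Helper80.card_center_sl n (by omega)]
  -- the term of `z = 1`
  have hone : Nat.card {C : ConjClasses (Matrix.SpecialLinearGroup (Fin n) F) //
      ∃ g, ConjClasses.mk g = C ∧
        IsConj (((1 : Subgroup.center (Matrix.SpecialLinearGroup (Fin n) F)) :
          Matrix.SpecialLinearGroup (Fin n) F) * g) g} =
      Nat.card (ConjClasses (Matrix.SpecialLinearGroup (Fin n) F)) := by
    apply Nat.card_congr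
    refine (Equiv.subtypeUnivEquiv ?_)
    intro C
    obtain ⟨g, hg⟩ := ConjClasses.exists_rep C
    refine ⟨g, hg, ?_⟩
    rw [Subgroup.coe_one, one_mul]
  have hsplit := Finset.add_sum_erase Finset.univ
    (fun z : Subgroup.center (Matrix.SpecialLinearGroup (Fin n) F) =>
      Nat.card {C : ConjClasses (Matrix.SpecialLinearGroup (Fin n) F) //
        ∃ g, ConjClasses.mk g = C ∧ IsConj ((z : Matrix.SpecialLinearGroup (Fin n) F) * g) g})
    (Finset.mem_univ (1 : Subgroup.center (Matrix.SpecialLinearGroup (Fin n) F)))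
  rw [hone] at hsplit
  rw [← hsplit] at hB
  constructor
  · have hl := (Cfsg.Agent.Helper40.KSL.main (F := F) n hn).1
    rw [hB]
    omega
  · -- upper bound
    have hex : ∀ z : Subgroup.center (Matrix.SpecialLinearGroup (Fin n) F),
        z ∈ Finset.univ.erase (1 : Subgroup.center (Matrix.SpecialLinearGroup (Fin n) F)) →
        ∃ o : ℕ, 2 ≤ o ∧ o ∣ n ∧ (Fintype.card F - 1) *
          Nat.card {C : ConjClasses (Matrix.SpecialLinearGroup (Fin n) F) //
            ∃ g, ConjClasses.mk g = C ∧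
              IsConj ((z : Matrix.SpecialLinearGroup (Fin n) F) * g) g} ≤
          bnd (Fintype.card F) (n / o) := by
      intro z hz
      have hz1 : (z : Matrix.SpecialLinearGroup (Fin n) F) ≠ 1 := by
        intro h
        exact (Finset.mem_erase.mp hz).1 (Subtype.ext h)
      exact fixed_bound' n (by omega) z.1 z.2 hz1
    have hex' : ∀ z : Subgroup.center (Matrix.SpecialLinearGroup (Fin n) F),
        ∃ o : ℕ, z ∈ Finset.univ.erase
          (1 : Subgroup.center (Matrix.SpecialLinearGroup (Fin n) F)) →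
        (2 ≤ o ∧ o ∣ n ∧ (Fintype.card F - 1) *
          Nat.card {C : ConjClasses (Matrix.SpecialLinearGroup (Fin n) F) //
            ∃ g, ConjClasses.mk g = C ∧
              IsConj ((z : Matrix.SpecialLinearGroup (Fin n) F) * g) g} ≤
          bnd (Fintype.card F) (n / o)) := by
      intro z
      by_cases hz : z ∈ Finset.univ.erase
          (1 : Subgroup.center (Matrix.SpecialLinearGroup (Fin n) F))
      · obtain ⟨o, ho⟩ := hex z hz
        exact ⟨o, fun _ => ho⟩
      · exact ⟨0, fun h => absurd h hz⟩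
    choose o ho using hex'
    have hcnt : ∀ m : ℕ, 1 ≤ m → cnt (Fintype.card F) m m + 1 ≤ Fintype.card F ^ m := by
      intro m hm
      have h5 := Cfsg.Agent.Helper53.cnt_bound (Fintype.card F) hq2 m m hm
      have hpos : 0 < Fintype.card F ^ m := pow_pos (by omega) m
      have h6 : Fintype.card F ^ m * (cnt (Fintype.card F) m m + 1) ≤
          Fintype.card F ^ m * Fintype.card F ^ m := by
        rw [← pow_add, mul_add, mul_one]
        exact h5
      exact Nat.le_of_mul_le_mul_left h6 hpos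
    have hb3 := (Cfsg.Agent.Helper19.bnd_le hq2
      (fun n hn => Cfsg.Agent.Helper92.numeric_ge_four _ n hq2 hn) hcnt).1
    have hnum := Cfsg.Agent.Helper80.final_numeric (Fintype.card F) n hq2 hn hb3
      (Finset.univ.erase (1 : Subgroup.center (Matrix.SpecialLinearGroup (Fin n) F))) o
      (by rw [Finset.card_erase_of_mem (Finset.mem_univ _), Finset.card_univ, hcard]
          have : 0 < Nat.gcd n (Fintype.card F - 1) := Nat.gcd_pos_of_pos_left _ (by omega)
          omega)
      (fun z hz => ⟨(ho z hz).1, (ho z hz).2.1⟩)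
    have hup := Cfsg.Agent.Helper40.KSL.upper (F := F) n (by omega)
    have hsum : (Fintype.card F - 1) *
        ∑ z ∈ Finset.univ.erase (1 : Subgroup.center (Matrix.SpecialLinearGroup (Fin n) F)),
          Nat.card {C : ConjClasses (Matrix.SpecialLinearGroup (Fin n) F) //
            ∃ g, ConjClasses.mk g = C ∧
              IsConj ((z : Matrix.SpecialLinearGroup (Fin n) F) * g) g} ≤
        ∑ z ∈ Finset.univ.erase (1 : Subgroup.center (Matrix.SpecialLinearGroup (Fin n) F)),
          bnd (Fintype.card F) (n / o z) := by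
      rw [Finset.mul_sum]
      exact Finset.sum_le_sum fun z hz => (ho z hz).2.2
    have hfinal : (Fintype.card F - 1) * (Nat.gcd n (Fintype.card F - 1) *
        Nat.card (ConjClasses (Matrix.ProjectiveSpecialLinearGroup (Fin n) F))) ≤
        (Fintype.card F - 1) * (Fintype.card F ^ (n - 1) + 5 * Fintype.card F ^ (n - 2)) := by
      rw [hB, mul_add]
      exact (add_le_add hup hsum).trans hnum
    exact Nat.le_of_mul_le_mul_left hfinal hqpos

end Cfsg.Agent.Helper40.KPSL
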