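import Mathlib

set_option autoImplicit false

/-!
# Arithmetic behind the novelty analysis for `PGL₂(q)`

Pure statements on natural numbers used by `Helper40/PGLNov.lean`.
-/

namespace Cfsg.Agent.Helper40.PGLNovA

/-- `p^m - 1 ∣ p^n - 1` forces `m ∣ n`. -/
theorem dvd_of_pow_sub_one_dvd (p m n : ℕ) (hp : 2 ≤ p) (_hm : 1 ≤ m)
    (h : p ^ m - 1 ∣ p ^ n - 1) : m ∣ n := by
  have hg := Nat.pow_sub_one_gcd_pow_sub_one p m n
  rw [Nat.gcd_eq_left h] at hg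
  have h1 : 1 ≤ p ^ m := Nat.one_le_pow _ _ (by omega)
  have h2 : 1 ≤ p ^ Nat.gcd m n := Nat.one_le_pow _ _ (by omega)
  have h3 : p ^ m = p ^ Nat.gcd m n := by omega
  have h4 : m = Nat.gcd m n := Nat.pow_right_injective hp h3
  rw [h4]
  exact Nat.gcd_dvd_right m n

theorem prod_mod_eight (q : ℕ) (h8 : q % 8 = 3 ∨ q % 8 = 5) : (q * (q - 1)) % 8 ≠ 0 := by
  have h1 : 1 ≤ q := by omega
  obtain ⟨m, rfl⟩ : ∃ m, q = m + 1 := ⟨q - 1, by omega⟩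
  simp only [Nat.add_sub_cancel]
  rw [Nat.mul_mod]
  rcases h8 with h | h
  · have h2 : m % 8 = 2 := by omega
    rw [h, h2]; decide
  · have h2 : m % 8 = 4 := by omega
    rw [h, h2]; decide

/-! ### `M ∩ L` of Borel type: `2a = q(q-1)` -/

theorem p1_q2 (q a : ℕ) (h5 : 5 ≤ q) (ha : 2 * a = q * (q - 1)) (hlt : a < q - 1) : False := by
  obtain ⟨m, rfl⟩ : ∃ m, q = m + 1 := ⟨q - 1, by omega⟩
  simp only [Nat.add_sub_cancel] at ha hlt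
  nlinarith

theorem p1_q3 (q a : ℕ) (h5 : 5 ≤ q) (ha : 2 * a = q * (q - 1)) (hlt : a < q + 1) : False := by
  obtain ⟨m, rfl⟩ : ∃ m, q = m + 1 := ⟨q - 1, by omega⟩
  simp only [Nat.add_sub_cancel] at ha
  nlinarith

theorem p1_q4 (q q₁ a : ℕ) (h5 : 5 ≤ q) (hq : q = q₁ ^ 2) (ha : 2 * a = q * (q - 1))
    (hlt : a < q₁ * (q₁ ^ 2 - 1)) : False := by
  subst hq
  have h3 : 3 ≤ q₁ := by
    by_contra hc
    have : q₁ ≤ 2 := by omega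
    nlinarith
  obtain ⟨u, hu⟩ : ∃ u, q₁ ^ 2 = u + 1 := ⟨q₁ ^ 2 - 1, by omega⟩
  rw [hu] at ha
  simp only [hu, Nat.add_sub_cancel] at ha hlt
  have hu4 : 4 ≤ u := by omega
  have h1 : (u + 1) * u < 2 * (q₁ * u) := by omega
  have h2 : u + 1 < 2 * q₁ := by
    by_contra hc
    push Not at hc
    nlinarith
  nlinarith

theorem cube_le_pow (q₁ r' : ℕ) (hr : 3 ≤ r') (h1 : 1 ≤ q₁) : q₁ ^ 3 ≤ q₁ ^ r' :=
  Nat.pow_le_pow_right h1 hr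

theorem kk_le_cube (q₁ : ℕ) : q₁ * (q₁ ^ 2 - 1) ≤ q₁ ^ 3 := by
  have : q₁ ^ 2 - 1 ≤ q₁ ^ 2 := Nat.sub_le _ _
  calc q₁ * (q₁ ^ 2 - 1) ≤ q₁ * q₁ ^ 2 := Nat.mul_le_mul_left _ this
    _ = q₁ ^ 3 := by ring

theorem p1_q5 (q q₁ r' a b : ℕ) (h5 : 5 ≤ q) (hr : 3 ≤ r') (hq : q = q₁ ^ r')
    (ha : 2 * a = q * (q - 1)) (hb : 2 * b = q₁ * (q₁ ^ 2 - 1)) (hlt : a < b) : False := by
  have h1 : 1 ≤ q₁ := by
    rcases Nat.eq_zero_or_pos q₁ with h | h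
    · subst h
      rw [zero_pow (by omega)] at hq
      omega
    · exact h
  have h2 : q₁ ^ 3 ≤ q := hq ▸ cube_le_pow q₁ r' hr h1
  have h3 := kk_le_cube q₁
  obtain ⟨m, rfl⟩ : ∃ m, q = m + 1 := ⟨q - 1, by omega⟩
  simp only [Nat.add_sub_cancel] at ha
  nlinarith

theorem p1_q6 (q a : ℕ) (h5 : 5 ≤ q) (h10 : q % 10 = 1 ∨ q % 10 = 9) (ha : 2 * a = q * (q - 1))
    (hlt : a < 60) (hdvd : a ∣ 60) : False := by
  have hq : q ≤ 11 := by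
    by_contra hc
    push Not at hc
    obtain ⟨m, rfl⟩ : ∃ m, q = m + 1 := ⟨q - 1, by omega⟩
    simp only [Nat.add_sub_cancel] at ha
    nlinarith
  obtain ⟨c, hc⟩ := hdvd
  have hq' : q = 9 ∨ q = 11 := by omega
  rcases hq' with rfl | rfl
  · have : a = 36 := by omega
    subst this; omega
  · have : a = 55 := by omega
    subst this; omega

theorem p1_q7 (q a : ℕ) (h5 : 5 ≤ q) (h8 : q % 8 = 3 ∨ q % 8 = 5) (ha : 2 * a = q * (q - 1))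
    (hlt : a < 12) (hdvd : a ∣ 12) : False := by
  have hq : q ≤ 5 := by
    by_contra hc
    push Not at hc
    obtain ⟨m, rfl⟩ : ∃ m, q = m + 1 := ⟨q - 1, by omega⟩
    simp only [Nat.add_sub_cancel] at ha
    nlinarith
  obtain ⟨c, hc⟩ := hdvd
  have hq' : q = 5 := by omega
  subst hq'
  have : a = 10 := by omega
  subst this; omega

theorem p1_q8 (q a : ℕ) (h5 : 5 ≤ q) (h7 : q ≠ 7) (h8 : q % 8 = 1 ∨ q % 8 = 7)
    (ha : 2 * a = q * (q - 1)) (hlt : a < 24) : False := by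
  have hq : q ≤ 7 := by
    by_contra hc
    push Not at hc
    obtain ⟨m, rfl⟩ : ∃ m, q = m + 1 := ⟨q - 1, by omega⟩
    simp only [Nat.add_sub_cancel] at ha
    nlinarith
  interval_cases q <;> omega

/-! ### `M ∩ L` dihedral of order `q - 1` with an element of order `(q-1)/2` -/

theorem p2_q1 (q b : ℕ) (h5 : 5 ≤ q) (hodd : Odd q) (hb : 2 * b = q * (q - 1))
    (hdvd : q - 1 ∣ b) : False := by
  obtain ⟨c, rfl⟩ := hdvd
  obtain ⟨m, rfl⟩ : ∃ m, q = m + 1 := ⟨q - 1, by omega⟩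
  simp only [Nat.add_sub_cancel] at hb
  have hm : 0 < m := by omega
  have h1 : m * (2 * c) = m * (m + 1) := by nlinarith
  have h2 : 2 * c = m + 1 := Nat.eq_of_mul_eq_mul_left hm h1
  obtain ⟨k, hk⟩ := hodd
  omega

theorem p2_q3 (q : ℕ) (h5 : 5 ≤ q) (hdvd : q - 1 ∣ q + 1) : False := by
  have h1 : q - 1 ∣ (q + 1) - (q - 1) := Nat.dvd_sub hdvd (dvd_refl _)
  have h2 : (q + 1) - (q - 1) = 2 := by omega
  rw [h2] at h1
  have := Nat.le_of_dvd (by norm_num) h1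
  omega

theorem p2_q4 (q q₁ : ℕ) (h5 : 5 ≤ q) (hodd : Odd q) (h9 : q ≠ 9) (hq : q = q₁ ^ 2)
    (hord : (q - 1) / 2 ≤ q₁ + 1) : False := by
  have h1 : q ≤ 2 * q₁ + 4 := by omega
  have h2 : q₁ ≤ 3 := by
    by_contra hc
    push Not at hc
    nlinarith
  obtain ⟨k, hk⟩ := hodd
  interval_cases q₁ <;> omega

theorem p2_q5 (q q₁ r' : ℕ) (h5 : 5 ≤ q) (hodd : Odd q) (hr : 3 ≤ r') (hq : q = q₁ ^ r')
    (hord : (q - 1) / 2 ≤ q₁ + 1) : False := by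
  have h1 : q ≤ 2 * q₁ + 4 := by omega
  have hq1 : 1 ≤ q₁ := by
    rcases Nat.eq_zero_or_pos q₁ with h | h
    · subst h
      rw [zero_pow (by omega)] at hq
      omega
    · exact h
  have h2 : q₁ ^ 3 ≤ q := hq ▸ cube_le_pow q₁ r' hr hq1
  have h3 : q₁ ≤ 2 := by
    by_contra hc
    push Not at hc
    have : 3 ^ 3 ≤ q₁ ^ 3 := Nat.pow_le_pow_left hc 3
    nlinarith [Nat.pow_le_pow_left hc 2]
  interval_cases q₁
  · rw [one_pow] at hq; omega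
  · have : Even (2 ^ r') := (Nat.even_pow.mpr ⟨even_two, by omega⟩)
    rw [← hq] at this
    exact (Nat.not_even_iff_odd.mpr hodd) this

theorem p2_q6 (q : ℕ) (h5 : 5 ≤ q) (h9 : q ≠ 9) (h11 : q ≠ 11) (h10 : q % 10 = 1 ∨ q % 10 = 9)
    (hord : (q - 1) / 2 ≤ 5) : False := by omega

theorem p2_q7 (q : ℕ) (h5 : 5 ≤ q) (hq5 : q ≠ 5) (h8 : q % 8 = 3 ∨ q % 8 = 5)
    (hord : (q - 1) / 2 ≤ 3) : False := by omega

theorem p2_q8 (q : ℕ) (h5 : 5 ≤ q) (h7 : q ≠ 7) (h9 : q ≠ 9) (h8 : q % 8 = 1 ∨ q % 8 = 7)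
    (hord : (q - 1) / 2 ≤ 4) : False := by omega

/-! ### `M ∩ L` dihedral of order `q + 1` with an element of order `(q+1)/2` -/

theorem p3_q1 (q b : ℕ) (h5 : 5 ≤ q) (hb : 2 * b = q * (q - 1)) (hdvd : q + 1 ∣ b) : False := by
  have h1 : q + 1 ∣ q * (q - 1) := hb ▸ Dvd.dvd.mul_left hdvd 2
  obtain ⟨m, rfl⟩ : ∃ m, q = m + 2 := ⟨q - 2, by omega⟩
  have h2 : (m + 2) * (m + 2 - 1) = (m + 2 + 1) * m + 2 := by
    have : m + 2 - 1 = m + 1 := by omega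
    rw [this]; ring
  rw [h2] at h1
  have h3 : m + 2 + 1 ∣ 2 := (Nat.dvd_add_right (Dvd.intro _ rfl)).mp h1
  have := Nat.le_of_dvd (by norm_num) h3
  omega

theorem p3_q4 (q q₁ b : ℕ) (h5 : 5 ≤ q) (hq : q = q₁ ^ 2) (hb : b = q₁ * (q₁ ^ 2 - 1))
    (hdvd : q + 1 ∣ b) : False := by
  subst hq
  have h3 : 3 ≤ q₁ := by
    by_contra hc
    have : q₁ ≤ 2 := by omega
    nlinarith
  have h1 : q₁ * (q₁ ^ 2 + 1) = b + 2 * q₁ := by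
    rw [hb]
    have : 1 ≤ q₁ ^ 2 := Nat.one_le_pow _ _ (by omega)
    obtain ⟨u, hu⟩ : ∃ u, q₁ ^ 2 = u + 1 := ⟨q₁ ^ 2 - 1, by omega⟩
    rw [hu]; simp only [Nat.add_sub_cancel]; ring
  have h2 : q₁ ^ 2 + 1 ∣ b + 2 * q₁ := h1 ▸ Dvd.intro_left _ rfl
  have h4 : q₁ ^ 2 + 1 ∣ 2 * q₁ := (Nat.dvd_add_right hdvd).mp h2
  have := Nat.le_of_dvd (by omega) h4
  nlinarith

theorem p3_q5 (q q₁ r' b : ℕ) (h5 : 5 ≤ q) (hr : 3 ≤ r') (hq : q = q₁ ^ r')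
    (hb : 2 * b = q₁ * (q₁ ^ 2 - 1)) (hlt : q + 1 < b) : False := by
  have h1 : 1 ≤ q₁ := by
    rcases Nat.eq_zero_or_pos q₁ with h | h
    · subst h
      rw [zero_pow (by omega)] at hq
      omega
    · exact h
  have h2 : q₁ ^ 3 ≤ q := hq ▸ cube_le_pow q₁ r' hr h1
  have h3 := kk_le_cube q₁
  omega

theorem p3_q6 (q : ℕ) (h5 : 5 ≤ q) (h9 : q ≠ 9) (h10 : q % 10 = 1 ∨ q % 10 = 9)
    (hord : (q + 1) / 2 ≤ 5) : False := by omega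

theorem p3_q7 (q : ℕ) (h5 : 5 ≤ q) (hodd : Odd q) (hord : (q + 1) / 2 ≤ 3) : q = 5 := by
  obtain ⟨k, hk⟩ := hodd
  omega

theorem p3_q8 (q : ℕ) (h5 : 5 ≤ q) (h7 : q ≠ 7) (h8 : q % 8 = 1 ∨ q % 8 = 7)
    (hord : (q + 1) / 2 ≤ 4) : False := by omega

/-! ### `M ∩ L ≅ A₄`, `q` prime, `q ≡ ±3 (mod 8)` -/

theorem p4_q1 (q b : ℕ) (h8 : q % 8 = 3 ∨ q % 8 = 5) (hb : 2 * b = q * (q - 1))
    (hdvd : 12 ∣ b) : False := by
  obtain ⟨c, rfl⟩ := hdvd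
  have := prod_mod_eight q h8
  omega

theorem not_prime_pow (q q₁ r' : ℕ) (hr : 2 ≤ r') (hq : q = q₁ ^ r') (hp : q.Prime) : False := by
  have hd : q₁ ∣ q := hq ▸ dvd_pow_self q₁ (by omega)
  rcases (Nat.dvd_prime hp).mp hd with h | h
  · subst h
    rw [one_pow] at hq
    exact Nat.not_prime_one (hq ▸ hp)
  · have h2 : 2 ≤ q₁ := h ▸ hp.two_le
    have : q₁ ^ 1 < q₁ ^ r' := Nat.pow_lt_pow_right (by omega) (by omega)
    rw [pow_one] at this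
    omega

theorem p4_q6 (q : ℕ) (h8 : q % 8 = 3 ∨ q % 8 = 5) (h10 : q % 10 = 1 ∨ q % 10 = 9) :
    q % 40 ∈ ({11, 19, 21, 29} : Finset ℕ) := by
  simp only [Finset.mem_insert, Finset.mem_singleton]
  omega

/-! ### `M ∩ L ≅ PSL₂(q₀)`, `q = q₀^r`, `r` an odd prime -/

theorem succ_dvd_succ_pow (q₀ r : ℕ) (hr : Odd r) : q₀ + 1 ∣ q₀ ^ r + 1 := by
  have := Odd.nat_add_dvd_pow_add_pow q₀ 1 hr
  simpa using this

theorem succ_dvd_kk (q₀ : ℕ) : q₀ + 1 ∣ q₀ * (q₀ ^ 2 - 1) := by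
  rcases Nat.eq_zero_or_pos q₀ with h | h
  · subst h; simp
  · have : q₀ ^ 2 - 1 = (q₀ + 1) * (q₀ - 1) := by
      obtain ⟨m, rfl⟩ : ∃ m, q₀ = m + 1 := ⟨q₀ - 1, by omega⟩
      simp only [Nat.add_sub_cancel]
      have : (m + 1) ^ 2 = (m + 1 + 1) * m + 1 := by ring
      rw [this, Nat.add_sub_cancel]
    rw [this]
    exact Dvd.dvd.mul_left (Dvd.intro _ rfl) _

theorem p5_q1 (q q₀ r a b : ℕ) (h5 : 5 ≤ q) (hr : Odd r) (hq : q = q₀ ^ r)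
    (ha : 2 * a = q₀ * (q₀ ^ 2 - 1)) (hb : 2 * b = q * (q - 1)) (hdvd : a ∣ b) : False := by
  have h1 : q₀ + 1 ∣ q + 1 := hq ▸ succ_dvd_succ_pow q₀ r hr
  have h2 : q₀ + 1 ∣ 2 * a := ha ▸ succ_dvd_kk q₀
  have h3 : q₀ + 1 ∣ q * (q - 1) := hb ▸ h2.trans (Nat.mul_dvd_mul_left 2 hdvd)
  obtain ⟨m, hm⟩ : ∃ m, q = m + 2 := ⟨q - 2, by omega⟩
  have h4 : q * (q - 1) = (q + 1) * m + 2 := by
    rw [hm]
    have : m + 2 - 1 = m + 1 := by omega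
    rw [this]; ring
  rw [h4] at h3
  have h5' : q₀ + 1 ∣ 2 := (Nat.dvd_add_right (h1.mul_right m)).mp h3
  have h6 := Nat.le_of_dvd (by norm_num) h5'
  have h7 : q₀ ≤ 1 := by omega
  have h8 : q ≤ 1 := by
    rw [hq]
    interval_cases q₀
    · rcases Nat.eq_zero_or_pos r with h | h
      · subst h; simp
      · rw [zero_pow (by omega)]; omega
    · simp
  omega

theorem q0_small (q q₀ r : ℕ) (h5 : 5 ≤ q) (hodd : Odd q) (hr1 : 1 ≤ r) (hq : q = q₀ ^ r)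
    (h2 : q₀ ∣ 2) : False := by
  have h6 := Nat.le_of_dvd (by norm_num) h2
  interval_cases q₀
  · rw [zero_pow (by omega)] at hq; omega
  · rw [one_pow] at hq; omega
  · have : Even (2 ^ r) := (Nat.even_pow.mpr ⟨even_two, by omega⟩)
    rw [← hq] at this
    exact (Nat.not_even_iff_odd.mpr hodd) this

theorem p5_q2 (q q₀ r a b : ℕ) (h5 : 5 ≤ q) (hodd : Odd q) (hr1 : 1 ≤ r) (hq : q = q₀ ^ r)
    (ha : 2 * a = q₀ * (q₀ ^ 2 - 1)) (hb : b = q - 1) (hdvd : a ∣ b) : False := by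
  have h1 : q₀ ∣ 2 * a := ha ▸ Dvd.intro _ rfl
  have h2 : q₀ ∣ 2 * b := h1.trans (Nat.mul_dvd_mul_left 2 hdvd)
  have h3 : q₀ ∣ q := hq ▸ dvd_pow_self q₀ (by omega)
  have h4 : 2 * q = 2 * b + 2 := by omega
  have h5' : q₀ ∣ 2 * b + 2 := h4 ▸ h3.mul_left 2
  have h6 : q₀ ∣ 2 := (Nat.dvd_add_right h2).mp h5'
  exact q0_small q q₀ r h5 hodd hr1 hq h6

theorem p5_q3 (q q₀ r a b : ℕ) (h5 : 5 ≤ q) (hodd : Odd q) (hr1 : 1 ≤ r) (hq : q = q₀ ^ r)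
    (ha : 2 * a = q₀ * (q₀ ^ 2 - 1)) (hb : b = q + 1) (hdvd : a ∣ b) : False := by
  have h1 : q₀ ∣ 2 * a := ha ▸ Dvd.intro _ rfl
  have h2 : q₀ ∣ 2 * b := h1.trans (Nat.mul_dvd_mul_left 2 hdvd)
  have h3 : q₀ ∣ q := hq ▸ dvd_pow_self q₀ (by omega)
  have h4 : 2 * b = 2 * q + 2 := by omega
  rw [h4] at h2
  have h6 : q₀ ∣ 2 := (Nat.dvd_add_right (h3.mul_left 2)).mp h2
  exact q0_small q q₀ r h5 hodd hr1 hq h6

theorem p5_q4 (q q₀ q₁ r a b : ℕ) (h5 : 5 ≤ q) (hodd : Odd q) (hr : Odd r) (hq : q = q₀ ^ r)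
    (hq1 : q = q₁ ^ 2) (ha : 2 * a = q₀ * (q₀ ^ 2 - 1)) (hb : b = q₁ * (q₁ ^ 2 - 1))
    (hdvd : a ∣ b) : False := by
  have hr1 : 1 ≤ r := by obtain ⟨k, hk⟩ := hr; omega
  have h1 : q₀ + 1 ∣ q + 1 := hq ▸ succ_dvd_succ_pow q₀ r hr
  have h2 : q₀ + 1 ∣ 2 * a := ha ▸ succ_dvd_kk q₀
  have h3 : q₀ + 1 ∣ 2 * b := h2.trans (Nat.mul_dvd_mul_left 2 hdvd)
  have hb' : 2 * b = q₁ * (2 * (q - 1)) := by rw [hb, ← hq1]; ring
  rw [hb'] at h3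
  have hcop : Nat.Coprime (q₀ + 1) q₁ := by
    have hc1 : Nat.Coprime (q₀ + 1) (q₀ ^ r) := Nat.Coprime.pow_right r (by simp)
    have hd : q₁ ∣ q₀ ^ r := by rw [← hq, hq1]; exact dvd_pow_self q₁ (by norm_num)
    exact Nat.Coprime.coprime_dvd_right hd hc1
  have h4 : q₀ + 1 ∣ 2 * (q - 1) := hcop.dvd_of_dvd_mul_left h3
  have h5' : 2 * (q + 1) = 2 * (q - 1) + 4 := by omega
  have h6 : q₀ + 1 ∣ 2 * (q - 1) + 4 := h5' ▸ h1.mul_left 2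
  have h7 : q₀ + 1 ∣ 4 := (Nat.dvd_add_right h4).mp h6
  have h8 := Nat.le_of_dvd (by norm_num) h7
  have h8' : q₀ ≤ 3 := by omega
  have h9 : q₀ = 3 := by
    interval_cases q₀
    · rw [zero_pow (by omega)] at hq; omega
    · rw [one_pow] at hq; omega
    · exfalso
      have : Even (2 ^ r) := (Nat.even_pow.mpr ⟨even_two, by omega⟩)
      rw [← hq] at this
      exact (Nat.not_even_iff_odd.mpr hodd) this
    · rfl
  subst h9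
  have h10 : padicValNat 3 q = r := by
    rw [hq]; exact padicValNat.prime_pow r
  have h11 : padicValNat 3 q = 2 * padicValNat 3 q₁ := by
    rw [hq1]
    exact padicValNat.pow q₁ 2
  obtain ⟨k, hk⟩ := hr
  omega

theorem p5_q5 (p α β r r' a b : ℕ) (hp : p.Prime) (hr : r.Prime) (hr' : r'.Prime)
    (hα : 1 ≤ α) (hαβ : α * r = β * r')
    (ha : 2 * a = p ^ α * ((p ^ α) ^ 2 - 1)) (hb : 2 * b = p ^ β * ((p ^ β) ^ 2 - 1))
    (hdvd : a ∣ b) (hlt : a < b) : False := by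
  have h2 : 2 ≤ p := hp.two_le
  have h1 : p ^ α * ((p ^ α) ^ 2 - 1) ∣ p ^ β * ((p ^ β) ^ 2 - 1) := by
    rw [← ha, ← hb]; exact Nat.mul_dvd_mul_left 2 hdvd
  have h3 : (p ^ α) ^ 2 - 1 ∣ p ^ β * ((p ^ β) ^ 2 - 1) := (Dvd.intro_left _ rfl).trans h1
  have hcop : Nat.Coprime ((p ^ α) ^ 2 - 1) (p ^ β) := by
    apply Nat.Coprime.pow_right
    rw [Nat.coprime_comm, Nat.Prime.coprime_iff_not_dvd hp]
    intro hd
    have hd2 : p ∣ (p ^ α) ^ 2 := by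
      rw [← pow_mul]; exact dvd_pow_self p (by omega)
    have h1' : 1 ≤ (p ^ α) ^ 2 := Nat.one_le_pow _ _ (Nat.pow_pos (by omega))
    have : p ∣ (p ^ α) ^ 2 - ((p ^ α) ^ 2 - 1) := Nat.dvd_sub hd2 hd
    have h4 : (p ^ α) ^ 2 - ((p ^ α) ^ 2 - 1) = 1 := by omega
    rw [h4] at this
    have := Nat.le_of_dvd (by norm_num) this
    omega
  have h4 : (p ^ α) ^ 2 - 1 ∣ (p ^ β) ^ 2 - 1 := hcop.dvd_of_dvd_mul_left h3
  rw [← pow_mul, ← pow_mul] at h4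
  have h5 : α * 2 ∣ β * 2 := dvd_of_pow_sub_one_dvd p (α * 2) (β * 2) h2 (by omega) h4
  have h6 : α ∣ β := by
    obtain ⟨c, hc⟩ := h5
    exact ⟨c, by nlinarith⟩
  obtain ⟨c, rfl⟩ := h6
  have h7 : r = c * r' := by
    have : α * r = α * (c * r') := by rw [hαβ]; ring
    exact Nat.eq_of_mul_eq_mul_left (by omega) this
  have h8 : r' ∣ r := ⟨c, by rw [h7]; ring⟩
  have h9 : r' = r := (Nat.prime_dvd_prime_iff_eq hr' hr).mp h8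
  have h10 : c = 1 := by
    rw [h9] at h7
    have hrpos : 0 < r := hr.pos
    nlinarith
  subst h10
  rw [mul_one] at hb
  omega

theorem pow_exp_one (p α r : ℕ) (hp : p.Prime) (hr : 2 ≤ r) (hα : 1 ≤ α)
    (h : p ^ (α * r) = p) : False := by
  have h1 : p ^ (α * r) = p ^ 1 := by rw [h, pow_one]
  have h2 := Nat.pow_right_injective hp.two_le h1
  nlinarith

theorem pow_exp_two (p α r : ℕ) (hp : p.Prime) (hr : 3 ≤ r) (hα : 1 ≤ α)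
    (h : p ^ (α * r) = p ^ 2) : False := by
  have h2 := Nat.pow_right_injective hp.two_le h
  nlinarith

end Cfsg.Agent.Helper40.PGLNovA
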