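import Mathlib
import Cfsg.Agent.Helper40.PSL2Klein

/-!
# Conjugacy classes of Klein four-subgroups of `PSL₂(q)`, `q` odd (helper40)

The normaliser of a Klein four-subgroup of `PSL₂(q)` has order at most `24`
(`card_normalizer_le`); with the count `12 · #{Klein four-subgroups} = |PSL₂(q)|` and the
existence of `S₄` for `q ≡ ±1 (mod 8)` this gives one class for `q ≡ ±3 (mod 8)` and two classes
for `q ≡ ±1 (mod 8)`.
-/

set_option autoImplicit false

namespace Cfsg.Agent.Helper40.PSL2Klein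

open Matrix Cfsg.Agent.Helper44 Cfsg.Agent.Helper40 Cfsg.Agent.Helper42.SL2

universe u v

section general

variable {P : Type u} [Group P]

/-- The conjugation action on subgroups. -/
@[reducible] def cjAction (P : Type u) [Group P] : MulAction P (Subgroup P) where
  smul g V := V.map (MulAut.conj g).toMonoidHom
  one_smul V := by
    show V.map (MulAut.conj (1 : P)).toMonoidHom = V
    rw [map_one]
    exact Subgroup.map_id V
  mul_smul g h V := by
    show V.map (MulAut.conj (g * h)).toMonoidHom =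
      (V.map (MulAut.conj h).toMonoidHom).map (MulAut.conj g).toMonoidHom
    rw [Subgroup.map_map, map_mul]
    rfl

/-- The class of a subgroup. -/
def cls (V : Subgroup P) : Set (Subgroup P) :=
  {W | ∃ g : P, W = V.map (MulAut.conj g).toMonoidHom}

theorem mem_cj (V : Subgroup P) (g x : P) :
    x ∈ V.map (MulAut.conj g).toMonoidHom ↔ g⁻¹ * x * g ∈ V := by
  rw [Subgroup.mem_map]
  constructor
  · rintro ⟨y, hy, rfl⟩
    have : g⁻¹ * (MulAut.conj g).toMonoidHom y * g = y := by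
      show g⁻¹ * (g * y * g⁻¹) * g = y
      group
    rw [this]
    exact hy
  · intro h
    refine ⟨g⁻¹ * x * g, h, ?_⟩
    show g * (g⁻¹ * x * g) * g⁻¹ = x
    group

theorem cls_card [Finite P] (V : Subgroup P) :
    (cls V).ncard * Nat.card (Subgroup.normalizer (V : Set P)) = Nat.card P := by
  classical
  let _ := cjAction P
  let _ : Fintype P := Fintype.ofFinite P
  let _ : Fintype (MulAction.orbit P V) := Fintype.ofFinite _
  let _ : Fintype (MulAction.stabilizer P V) := Fintype.ofFinite _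
  have h := MulAction.card_orbit_mul_card_stabilizer_eq_card_group P V
  have h1 : MulAction.orbit P V = cls V := by
    ext W
    constructor
    · rintro ⟨g, rfl⟩
      exact ⟨g, rfl⟩
    · rintro ⟨g, rfl⟩
      exact ⟨g, rfl⟩
  have h2 : MulAction.stabilizer P V = Subgroup.normalizer (V : Set P) := by
    ext g
    rw [MulAction.mem_stabilizer_iff, Subgroup.mem_normalizer_iff_map_conj_eq]
    rfl
  rw [← Nat.card_eq_fintype_card, ← Nat.card_eq_fintype_card, ← Nat.card_eq_fintype_card,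
    Nat.card_coe_set_eq, h1, h2] at h
  exact h

theorem cls_isKleinFour (V : Subgroup P) (hV : IsKleinFour V) (W : Subgroup P) (hW : W ∈ cls V) :
    IsKleinFour W := by
  obtain ⟨g, rfl⟩ := hW
  have e : V ≃* V.map (MulAut.conj g).toMonoidHom :=
    V.equivMapOfInjective _ (MulAut.conj g).injective
  exact ⟨by rw [← Nat.card_congr e.toEquiv]; exact hV.card_four,
    by rw [← Monoid.exponent_eq_of_mulEquiv e]; exact hV.exponent_two⟩

theorem cls_disjoint (V W : Subgroup P) (h : W ∉ cls V) : Disjoint (cls V) (cls W) := by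
  rw [Set.disjoint_left]
  rintro U ⟨g, hg⟩ ⟨k, hk⟩
  apply h
  refine ⟨k⁻¹ * g, ?_⟩
  ext x
  rw [mem_cj]
  have h1 : x ∈ W ↔ k * x * k⁻¹ ∈ U := by
    rw [hk, mem_cj]
    have : k⁻¹ * (k * x * k⁻¹) * k = x := by group
    rw [this]
  rw [h1, hg, mem_cj]
  have : g⁻¹ * (k * x * k⁻¹) * g = (k⁻¹ * g)⁻¹ * x * (k⁻¹ * g) := by group
  rw [this]

theorem self_mem_cls (V : Subgroup P) : V ∈ cls V := by
  refine ⟨1, ?_⟩
  ext x
  rw [mem_cj]
  simp

theorem kpair_of_mem (V : Subgroup P) (hV : IsKleinFour V) (x y : V) (hx : x ≠ 1) (hy : y ≠ 1)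
    (hxy : x ≠ y) : KPair (x : P) (y : P) := by
  have := hV
  refine ⟨fun e => hx (Subtype.ext e), fun e => hy (Subtype.ext e),
    fun e => hxy (Subtype.ext e), ?_, ?_, ?_⟩
  · exact congrArg Subtype.val (IsKleinFour.mul_self x)
  · exact congrArg Subtype.val (IsKleinFour.mul_self y)
  · exact congrArg Subtype.val (mul_comm_of_exponent_two hV.exponent_two x y)

theorem kpair_map {Q : Type v} [Group Q] (φ : Q →* P) (hφ : Function.Injective φ) (a b : Q)
    (h : KPair a b) : KPair (φ a) (φ b) := by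
  obtain ⟨ha, hb, hne, haa, hbb, hab⟩ := h
  refine ⟨fun e => ha (hφ (by rw [e, map_one])), fun e => hb (hφ (by rw [e, map_one])),
    fun e => hne (hφ e), ?_, ?_, ?_⟩
  · rw [← map_mul, haa, map_one]
  · rw [← map_mul, hbb, map_one]
  · rw [← map_mul, hab, map_mul]

/-- If only the elements of `V` centralise a pair of generators, the normaliser of a Klein
four-group `V` has order at most `24`. -/
theorem card_normalizer_le_of_centralizer [Finite P] (V : Subgroup P) (hV : IsKleinFour V)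
    (hC : ∀ a b : P, KPair a b → ∀ g : P, g * a = a * g → g * b = b * g →
      g = 1 ∨ g = a ∨ g = b ∨ g = a * b) :
    Nat.card (Subgroup.normalizer (V : Set P)) ≤ 24 := by
  classical
  have hcard : Nat.card V = 4 := hV.card_four
  have h6 := card_pairs_of_card_four hcard
  have hne : Nonempty {p : V × V // p.1 ≠ 1 ∧ p.2 ≠ 1 ∧ p.1 ≠ p.2} := by
    by_contra hcon
    rw [not_nonempty_iff] at hcon
    rw [Nat.card_of_isEmpty] at h6
    omega
  obtain ⟨⟨⟨a, b⟩, ha, hb, hab⟩⟩ := hne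
  have hk := kpair_of_mem V hV a b ha hb hab
  have hmem : ∀ (g : Subgroup.normalizer (V : Set P)) (x : V), g.1 * x.1 * g.1⁻¹ ∈ V :=
    fun g x => (Subgroup.mem_set_normalizer_iff.mp g.2 x.1).mp x.2
  let f : Subgroup.normalizer (V : Set P) → {p : V × V // p.1 ≠ 1 ∧ p.2 ≠ 1 ∧ p.1 ≠ p.2} :=
    fun g => ⟨(⟨g.1 * a.1 * g.1⁻¹, hmem g a⟩, ⟨g.1 * b.1 * g.1⁻¹, hmem g b⟩), by
      refine ⟨fun e => ?_, fun e => ?_, fun e => ?_⟩
      · apply ha
        apply Subtype.ext
        have e' : g.1 * a.1 * g.1⁻¹ = 1 := congrArg Subtype.val e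
        have : a.1 = g.1⁻¹ * (g.1 * a.1 * g.1⁻¹) * g.1 := by group
        rw [this, e']
        simp
      · apply hb
        apply Subtype.ext
        have e' : g.1 * b.1 * g.1⁻¹ = 1 := congrArg Subtype.val e
        have : b.1 = g.1⁻¹ * (g.1 * b.1 * g.1⁻¹) * g.1 := by group
        rw [this, e']
        simp
      · apply hab
        apply Subtype.ext
        have e' : g.1 * a.1 * g.1⁻¹ = g.1 * b.1 * g.1⁻¹ := congrArg Subtype.val e
        exact mul_left_cancel (mul_right_cancel e')⟩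
  have hτ : ∀ y : {p : V × V // p.1 ≠ 1 ∧ p.2 ≠ 1 ∧ p.1 ≠ p.2},
      ∃ t : Subgroup.normalizer (V : Set P), (∃ g, f g = y) → f t = y := by
    intro y
    by_cases h : ∃ g, f g = y
    · obtain ⟨g, hg⟩ := h
      exact ⟨g, fun _ => hg⟩
    · exact ⟨1, fun h' => (h h').elim⟩
  choose τ hτ' using hτ
  have hfτ : ∀ g, f (τ (f g)) = f g := fun g => hτ' (f g) ⟨g, rfl⟩
  have hcV : ∀ g : Subgroup.normalizer (V : Set P), (τ (f g)).1⁻¹ * g.1 ∈ V := by
    intro g
    have e := hfτ g
    have e1 : (τ (f g)).1 * a.1 * (τ (f g)).1⁻¹ = g.1 * a.1 * g.1⁻¹ :=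
      congrArg (fun y : {p : V × V // p.1 ≠ 1 ∧ p.2 ≠ 1 ∧ p.1 ≠ p.2} => (y.1.1 : P)) e
    have e2 : (τ (f g)).1 * b.1 * (τ (f g)).1⁻¹ = g.1 * b.1 * g.1⁻¹ :=
      congrArg (fun y : {p : V × V // p.1 ≠ 1 ∧ p.2 ≠ 1 ∧ p.1 ≠ p.2} => (y.1.2 : P)) e
    generalize (τ (f g)).1 = t at e1 e2 ⊢
    have c1 : t⁻¹ * g.1 * a.1 = a.1 * (t⁻¹ * g.1) := by
      calc t⁻¹ * g.1 * a.1 = t⁻¹ * (g.1 * a.1 * g.1⁻¹) * g.1 := by group
        _ = t⁻¹ * (t * a.1 * t⁻¹) * g.1 := by rw [e1]
        _ = a.1 * (t⁻¹ * g.1) := by group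
    have c2 : t⁻¹ * g.1 * b.1 = b.1 * (t⁻¹ * g.1) := by
      calc t⁻¹ * g.1 * b.1 = t⁻¹ * (g.1 * b.1 * g.1⁻¹) * g.1 := by group
        _ = t⁻¹ * (t * b.1 * t⁻¹) * g.1 := by rw [e2]
        _ = b.1 * (t⁻¹ * g.1) := by group
    rcases hC a.1 b.1 hk (t⁻¹ * g.1) c1 c2 with h | h | h | h <;> rw [h]
    · exact V.one_mem
    · exact a.2
    · exact b.2
    · exact V.mul_mem a.2 b.2
  let F : Subgroup.normalizer (V : Set P) →
      {p : V × V // p.1 ≠ 1 ∧ p.2 ≠ 1 ∧ p.1 ≠ p.2} × V :=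
    fun g => (f g, ⟨(τ (f g)).1⁻¹ * g.1, hcV g⟩)
  have hF : Function.Injective F := by
    intro g g' e
    have e1 : f g = f g' := congrArg Prod.fst e
    have e2 : (τ (f g)).1⁻¹ * g.1 = (τ (f g')).1⁻¹ * g'.1 :=
      congrArg (fun y : {p : V × V // p.1 ≠ 1 ∧ p.2 ≠ 1 ∧ p.1 ≠ p.2} × V => (y.2 : P)) e
    rw [e1] at e2
    exact Subtype.ext (mul_left_cancel e2)
  have hfin : Finite V := Nat.finite_of_card_ne_zero (by rw [hcard]; norm_num)
  have := Nat.card_le_card_of_injective F hF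
  rw [Nat.card_prod, h6, hcard] at this
  exact this

end general

section sl2

variable {F : Type u} [Field F]

/-- An element commuting with `A` (of trace zero) and with an element inverting `A` is scalar. -/
theorem pr_eq_one_of_commute (h2 : (2 : F) ≠ 0) (A B M : SL2 F) (hA : tr2 A = 0)
    (hAB : A.1 * B.1 = -(B.1 * A.1)) (h1 : M.1 * A.1 = A.1 * M.1) (h3 : M.1 * B.1 = B.1 * M.1) :
    pr M = 1 := by
  have hns := nonScalar_of_tr2_eq_zero h2 A hA
  have hmem : M ∈ Subgroup.centralizer ({A} : Set (SL2 F)) := by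
    rw [mem_centralizer_singleton]
    exact h1
  obtain ⟨x, y, hxy, hdet⟩ := exists_coords A M hns hmem
  rw [hxy] at h3
  have h4 : (y * 2) • (A.1 * B.1) = 0 := by
    have h5 : (x • (1 : Matrix (Fin 2) (Fin 2) F) + y • A.1) * B.1 = x • B.1 + y • (A.1 * B.1) := by
      rw [add_mul, smul_mul_assoc, one_mul, smul_mul_assoc]
    have hBA : B.1 * A.1 = -(A.1 * B.1) := by rw [hAB, neg_neg]
    have h6 : B.1 * (x • (1 : Matrix (Fin 2) (Fin 2) F) + y • A.1) =
        x • B.1 + -(y • (A.1 * B.1)) := by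
      rw [mul_add, mul_smul_comm, mul_one, mul_smul_comm, hBA, smul_neg]
    rw [h5, h6] at h3
    have h7 : y • (A.1 * B.1) = -(y • (A.1 * B.1)) := add_left_cancel h3
    rw [mul_two, add_smul]
    nth_rewrite 2 [h7]
    rw [add_neg_cancel]
  have hAB0 : A.1 * B.1 ≠ 0 := by
    intro h0
    have hd : (A * B).1.det = 1 := (A * B).2
    rw [Matrix.SpecialLinearGroup.coe_mul, h0] at hd
    simp at hd
  have hy : y = 0 := by
    rcases smul_eq_zero.mp h4 with h | h
    · exact (mul_eq_zero.mp h).resolve_right h2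
    · exact (hAB0 h).elim
  rw [PSL2Tri.pr_eq_one_iff]
  refine ⟨x, ?_, ?_⟩
  · rw [hy] at hdet
    linear_combination hdet
  · rw [hxy, hy, zero_smul, add_zero]

theorem comm_aux1 {R : Type*} [Ring R] (g a b : R) (h1 : a * g = g * a) (h2 : b * g = -(g * b))
    (h3 : a * b = -(b * a)) : (g * a) * a = a * (g * a) ∧ (g * a) * b = b * (g * a) := by
  have h3' : b * a = -(a * b) := by rw [h3, neg_neg]
  constructor
  · rw [← mul_assoc a g a, h1]
  · rw [← mul_assoc b g a, h2, neg_mul, mul_assoc g b a, h3', mul_neg, neg_neg, mul_assoc]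

theorem comm_aux2 {R : Type*} [Ring R] (g a b : R) (h1 : a * g = -(g * a)) (h2 : b * g = g * b)
    (h3 : a * b = -(b * a)) : (g * b) * a = a * (g * b) ∧ (g * b) * b = b * (g * b) := by
  constructor
  · rw [← mul_assoc a g b, h1, neg_mul, mul_assoc g a b, h3, mul_neg, neg_neg, mul_assoc]
  · rw [← mul_assoc b g b, h2]

theorem comm_aux3 {R : Type*} [Ring R] (g a b : R) (h1 : a * g = -(g * a)) (h2 : b * g = -(g * b))
    (h3 : a * b = -(b * a)) :
    (g * (a * b)) * a = a * (g * (a * b)) ∧ (g * (a * b)) * b = b * (g * (a * b)) := by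
  have h3' : b * a = -(a * b) := by rw [h3, neg_neg]
  constructor
  · rw [← mul_assoc a g (a * b), h1, neg_mul, mul_assoc g (a * b) a, mul_assoc a b a, h3',
      mul_neg, mul_neg, mul_assoc g a (a * b)]
  · rw [← mul_assoc b g (a * b), h2, neg_mul, mul_assoc g b (a * b), ← mul_assoc b a b, h3',
      neg_mul, mul_neg, neg_neg, mul_assoc g (a * b) b]

/-- In `PSL₂(F)`, characteristic not two, only the four elements of the four-group centralise
a pair of distinct commuting involutions. -/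
theorem centralizer_kpair (h2 : (2 : F) ≠ 0) (a b : PSL2 F) (h : KPair a b) (g : PSL2 F)
    (hga : g * a = a * g) (hgb : g * b = b * g) : g = 1 ∨ g = a ∨ g = b ∨ g = a * b := by
  obtain ⟨A, rfl⟩ := pr_surjective a
  obtain ⟨B, rfl⟩ := pr_surjective b
  obtain ⟨G, rfl⟩ := pr_surjective g
  obtain ⟨hA, hinv⟩ := (kpair_iff h2 A B).mpr h
  obtain ⟨-, -, -, haa, hbb, hab⟩ := h
  have hAB : A.1 * B.1 = -(B.1 * A.1) := by
    have h3 : B * A = A⁻¹ * B := by
      unfold Inverts at hinv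
      rw [← hinv, inv_mul_cancel_right]
    have h4 := congrArg Subtype.val h3
    rw [Matrix.SpecialLinearGroup.coe_mul, Matrix.SpecialLinearGroup.coe_mul,
      coe_inv_of_tr2 A hA, neg_mul] at h4
    rw [h4, neg_neg]
  rw [← map_mul, ← map_mul, pr_eq_iff] at hga hgb
  obtain ⟨s, hs, hAs⟩ := hga
  obtain ⟨t, ht, hBt⟩ := hgb
  rw [Matrix.SpecialLinearGroup.coe_mul, Matrix.SpecialLinearGroup.coe_mul] at hAs hBt
  have hsq : ∀ r : F, r * r = 1 → r = 1 ∨ r = -1 := by
    intro r hr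
    have h3 : (r - 1) * (r + 1) = 0 := by linear_combination hr
    rcases mul_eq_zero.mp h3 with h | h
    · left; linear_combination h
    · right; linear_combination h
  have hia : (pr A)⁻¹ = pr A := inv_eq_of_mul_eq_one_right haa
  have hib : (pr B)⁻¹ = pr B := inv_eq_of_mul_eq_one_right hbb
  rcases hsq s hs with rfl | rfl <;> rcases hsq t ht with rfl | rfl
  · left
    exact pr_eq_one_of_commute h2 A B G hA hAB (by rw [hAs, one_smul]) (by rw [hBt, one_smul])
  · right; left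
    rw [one_smul] at hAs
    rw [neg_smul, one_smul] at hBt
    obtain ⟨c1, c2⟩ := comm_aux1 G.1 A.1 B.1 hAs hBt hAB
    have h5 := pr_eq_one_of_commute h2 A B (G * A) hA hAB
      (by rw [Matrix.SpecialLinearGroup.coe_mul]; exact c1)
      (by rw [Matrix.SpecialLinearGroup.coe_mul]; exact c2)
    rw [map_mul] at h5
    rw [eq_inv_of_mul_eq_one_left h5, hia]
  · right; right; left
    rw [neg_smul, one_smul] at hAs
    rw [one_smul] at hBt
    obtain ⟨c1, c2⟩ := comm_aux2 G.1 A.1 B.1 hAs hBt hAB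
    have h5 := pr_eq_one_of_commute h2 A B (G * B) hA hAB
      (by rw [Matrix.SpecialLinearGroup.coe_mul]; exact c1)
      (by rw [Matrix.SpecialLinearGroup.coe_mul]; exact c2)
    rw [map_mul] at h5
    rw [eq_inv_of_mul_eq_one_left h5, hib]
  · right; right; right
    rw [neg_smul, one_smul] at hAs hBt
    obtain ⟨c1, c2⟩ := comm_aux3 G.1 A.1 B.1 hAs hBt hAB
    have h5 := pr_eq_one_of_commute h2 A B (G * (A * B)) hA hAB
      (by rw [Matrix.SpecialLinearGroup.coe_mul, Matrix.SpecialLinearGroup.coe_mul]; exact c1)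
      (by rw [Matrix.SpecialLinearGroup.coe_mul, Matrix.SpecialLinearGroup.coe_mul]; exact c2)
    rw [map_mul, map_mul] at h5
    rw [eq_inv_of_mul_eq_one_left h5, _root_.mul_inv_rev, hia, hib, hab]

/-- Two double transpositions of `S₄`. -/
def kA : Equiv.Perm (Fin 4) := Equiv.swap 0 1 * Equiv.swap 2 3

/-- Two double transpositions of `S₄`. -/
def kB : Equiv.Perm (Fin 4) := Equiv.swap 0 2 * Equiv.swap 1 3

theorem kAB_kpair : KPair kA kB := by
  unfold KPair kA kB
  decide

theorem kAB_normal : ∀ σ z : Equiv.Perm (Fin 4), (z = 1 ∨ z = kA ∨ z = kB ∨ z = kA * kB) →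
    (σ * z * σ⁻¹ = 1 ∨ σ * z * σ⁻¹ = kA ∨ σ * z * σ⁻¹ = kB ∨ σ * z * σ⁻¹ = kA * kB) := by
  unfold kA kB
  decide

variable [Fintype F]

/-- For `q² ≡ 1 (mod 16)` some Klein four-subgroup of `PSL₂(q)` is normalised by an `S₄`. -/
theorem exists_klein_normalizer (hq : Fintype.card F ^ 2 % 16 = 1) :
    ∃ V : Subgroup (PSL2 F), IsKleinFour V ∧
      24 ≤ Nat.card (Subgroup.normalizer (V : Set (PSL2 F))) := by
  obtain ⟨H, ⟨e⟩⟩ := PSL2Sub.exists_S4 hq
  let φ : Equiv.Perm (Fin 4) →* PSL2 F := H.subtype.comp e.symm.toMonoidHom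
  have hφ : Function.Injective φ := fun x y h => e.symm.injective (Subtype.ext h)
  have hk := kpair_map φ hφ kA kB kAB_kpair
  refine ⟨kGroup (φ kA) (φ kB) hk, kGroup_isKleinFour _ _ _, ?_⟩
  have key : ∀ g ∈ H, ∀ x ∈ kGroup (φ kA) (φ kB) hk, g * x * g⁻¹ ∈ kGroup (φ kA) (φ kB) hk := by
    intro g hg x hx
    have hgφ : g = φ (e ⟨g, hg⟩) := by simp [φ]
    have hx' : ∃ z, (z = 1 ∨ z = kA ∨ z = kB ∨ z = kA * kB) ∧ x = φ z := by
      rcases hx with rfl | rfl | rfl | rfl
      · exact ⟨1, Or.inl rfl, (map_one φ).symm⟩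
      · exact ⟨kA, Or.inr (Or.inl rfl), rfl⟩
      · exact ⟨kB, Or.inr (Or.inr (Or.inl rfl)), rfl⟩
      · exact ⟨kA * kB, Or.inr (Or.inr (Or.inr rfl)), (map_mul φ _ _).symm⟩
    obtain ⟨z, hz, rfl⟩ := hx'
    rw [hgφ, ← map_inv, ← map_mul, ← map_mul]
    rcases kAB_normal (e ⟨g, hg⟩) z hz with h | h | h | h <;> rw [h]
    · rw [map_one]; exact Subgroup.one_mem _
    · exact Or.inr (Or.inl rfl)
    · exact Or.inr (Or.inr (Or.inl rfl))
    · rw [map_mul]; exact Or.inr (Or.inr (Or.inr rfl))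
  have hle : H ≤ Subgroup.normalizer
      ((kGroup (φ kA) (φ kB) hk : Subgroup (PSL2 F)) : Set (PSL2 F)) := by
    intro g hg
    rw [Subgroup.mem_set_normalizer_iff]
    intro x
    constructor
    · exact key g hg x
    · intro hx
      have h3 := key g⁻¹ (H.inv_mem hg) _ hx
      rw [inv_inv] at h3
      have e2 : g⁻¹ * (g * x * g⁻¹) * g = x := by group
      rwa [e2] at h3
  have hH : Nat.card H = 24 := by rw [Nat.card_congr e.toEquiv, PresSmall.s4_card]
  rw [← hH]
  exact Subgroup.card_le_of_le hle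

theorem not_eight_dvd (h2 : (2 : F) ≠ 0)
    (h8 : Fintype.card F % 8 = 3 ∨ Fintype.card F % 8 = 5) : ¬ 8 ∣ Nat.card (PSL2 F) := by
  intro hdvd
  have hc := Cfsg.Agent.Helper5.card_PSL2_mul (F := F)
  rw [Cfsg.Agent.Helper5.card_center_SL2 h2] at hc
  have hodd : Fintype.card F % 2 = 1 := by omega
  have h16 : 16 ∣ Fintype.card F * (Fintype.card F ^ 2 - 1) := by
    rw [← hc]
    obtain ⟨k, hk⟩ := hdvd
    exact ⟨k, by rw [hk]; ring⟩
  have hcop : Nat.Coprime 16 (Fintype.card F) := by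
    have h2c : Nat.Coprime 2 (Fintype.card F) := Nat.coprime_two_left.2 (Nat.odd_iff.2 hodd)
    exact Nat.Coprime.pow_left 4 h2c
  have h16' : 16 ∣ Fintype.card F ^ 2 - 1 := hcop.dvd_of_dvd_mul_left h16
  have hpos : 1 ≤ Fintype.card F ^ 2 := Nat.one_le_pow _ _ (by omega)
  have h1 : Fintype.card F ^ 2 % 16 = 1 := by omega
  have h3 : Fintype.card F % 16 = 3 ∨ Fintype.card F % 16 = 5 ∨ Fintype.card F % 16 = 11 ∨
      Fintype.card F % 16 = 13 := by omega
  rw [Nat.pow_mod] at h1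
  rcases h3 with h | h | h | h <;> rw [h] at h1 <;> norm_num at h1

/-- Klein four-subgroups of `PSL₂(q)`: one class for `q ≡ ±3 (mod 8)`, two for
`q ≡ ±1 (mod 8)`. -/
theorem klein_classes (hodd : Odd (Fintype.card F)) :
    ((Fintype.card F % 8 = 3 ∨ Fintype.card F % 8 = 5) →
      ∀ V W : Subgroup (PSL2 F), IsKleinFour V → IsKleinFour W →
        ∃ g : PSL2 F, W = V.map (MulAut.conj g).toMonoidHom) ∧
    ((Fintype.card F % 8 = 1 ∨ Fintype.card F % 8 = 7) →
      ∃ V₁ V₂ : Subgroup (PSL2 F), IsKleinFour V₁ ∧ IsKleinFour V₂ ∧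
        (¬ ∃ g : PSL2 F, V₂ = V₁.map (MulAut.conj g).toMonoidHom) ∧
        ∀ W : Subgroup (PSL2 F), IsKleinFour W →
          (∃ g : PSL2 F, W = V₁.map (MulAut.conj g).toMonoidHom) ∨
          (∃ g : PSL2 F, W = V₂.map (MulAut.conj g).toMonoidHom)) := by
  have h2 := two_ne_zero_of_odd hodd
  have hN : ∀ V : Subgroup (PSL2 F), IsKleinFour V →
      Nat.card (Subgroup.normalizer (V : Set (PSL2 F))) ≤ 24 := fun V hV =>
    card_normalizer_le_of_centralizer V hV (fun a b h g => centralizer_kpair h2 a b h g)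
  have hKS : 12 * ({V : Subgroup (PSL2 F) | IsKleinFour V} : Set (Subgroup (PSL2 F))).ncard =
      Nat.card (PSL2 F) := by
    rw [← Nat.card_coe_set_eq]
    exact twelve_mul_card_klein hodd
  have hsub : ∀ V : Subgroup (PSL2 F), IsKleinFour V →
      cls V ⊆ {V : Subgroup (PSL2 F) | IsKleinFour V} := fun V hV W hW =>
    cls_isKleinFour V hV W hW
  have hpos : 0 < Nat.card (PSL2 F) := Nat.card_pos
  constructor
  · intro h8 V W hV hW
    by_contra hcon
    have hW' : W ∉ cls V := hcon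
    have d := cls_disjoint V W hW'
    have c1 := cls_card V
    have c2 := cls_card W
    have hu := Set.ncard_union_eq d
    have hle := Set.ncard_le_ncard (Set.union_subset (hsub V hV) (hsub W hW))
    have hnd := not_eight_dvd h2 h8
    have b1 : Nat.card (Subgroup.normalizer (V : Set (PSL2 F))) ≤ 23 := by
      have h3 := hN V hV
      have h4 : Nat.card (Subgroup.normalizer (V : Set (PSL2 F))) ≠ 24 := by
        intro h5
        apply hnd
        have h6 := Subgroup.card_subgroup_dvd_card (Subgroup.normalizer (V : Set (PSL2 F)))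
        rw [h5] at h6
        exact Dvd.dvd.trans (by norm_num) h6
      omega
    have b2 : Nat.card (Subgroup.normalizer (W : Set (PSL2 F))) ≤ 23 := by
      have h3 := hN W hW
      have h4 : Nat.card (Subgroup.normalizer (W : Set (PSL2 F))) ≠ 24 := by
        intro h5
        apply hnd
        have h6 := Subgroup.card_subgroup_dvd_card (Subgroup.normalizer (W : Set (PSL2 F)))
        rw [h5] at h6
        exact Dvd.dvd.trans (by norm_num) h6
      omega
    have m1 := Nat.mul_le_mul_left (cls V).ncard b1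
    have m2 := Nat.mul_le_mul_left (cls W).ncard b2
    rw [c1] at m1
    rw [c2] at m2
    rw [hu] at hle
    omega
  · intro h8
    have hq : Fintype.card F ^ 2 % 16 = 1 := by
      have h3 : Fintype.card F % 16 = 1 ∨ Fintype.card F % 16 = 7 ∨ Fintype.card F % 16 = 9 ∨
          Fintype.card F % 16 = 15 := by omega
      rw [Nat.pow_mod]
      rcases h3 with h | h | h | h <;> rw [h]
    obtain ⟨V₁, hV₁, h24⟩ := exists_klein_normalizer hq
    have n1 : Nat.card (Subgroup.normalizer (V₁ : Set (PSL2 F))) = 24 :=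
      le_antisymm (hN V₁ hV₁) h24
    have c1 := cls_card V₁
    rw [n1] at c1
    have hlt : (cls V₁).ncard <
        ({V : Subgroup (PSL2 F) | IsKleinFour V} : Set (Subgroup (PSL2 F))).ncard := by omega
    obtain ⟨V₂, hV₂, hV₂'⟩ := Set.exists_mem_notMem_of_ncard_lt_ncard hlt
    refine ⟨V₁, V₂, hV₁, hV₂, hV₂', ?_⟩
    intro W hW
    by_contra hcon
    push Not at hcon
    obtain ⟨hW1, hW2⟩ := hcon
    have hW1' : W ∉ cls V₁ := fun ⟨g, hg⟩ => hW1 g hg
    have hW2' : W ∉ cls V₂ := fun ⟨g, hg⟩ => hW2 g hg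
    have d12 := cls_disjoint V₁ V₂ hV₂'
    have d1W := cls_disjoint V₁ W hW1'
    have d2W := cls_disjoint V₂ W hW2'
    have hu1 := Set.ncard_union_eq d12
    have hu2 := Set.ncard_union_eq (Set.disjoint_union_left.mpr ⟨d1W, d2W⟩)
    have hle := Set.ncard_le_ncard
      (Set.union_subset (Set.union_subset (hsub V₁ hV₁) (hsub V₂ hV₂)) (hsub W hW))
    have c2 := cls_card V₂
    have c3 := cls_card W
    have m2 := Nat.mul_le_mul_left (cls V₂).ncard (hN V₂ hV₂)
    have m3 := Nat.mul_le_mul_left (cls W).ncard (hN W hW)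
    rw [c2] at m2
    rw [c3] at m3
    rw [hu2, hu1] at hle
    omega

end sl2

end Cfsg.Agent.Helper40.PSL2Klein
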