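import Mathlib
import Cfsg.Agent.Helper40.PGLNovA
import Cfsg.Agent.Helper5.PMaxG
import Cfsg.Agent.Helper57.PGL2a

set_option autoImplicit false

/-!
# Maximal subgroups of `PGL₂(q)` meet `PSL₂(q)` maximally, away from the novelties

Glue between the list of maximal subgroups of `PGL₂(q)` and that of `PSL₂(q)`.
-/

namespace Cfsg.Agent.Helper40.PGLNov

open Cfsg.Agent.Helper5

/-! ### small permutation-group facts -/

theorem s4_cycles : ∃ c d : Equiv.Perm (Fin 4), (c ^ 2) ^ 2 = c ∧ (d ^ 2) ^ 2 = d ∧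
    c * d ≠ d * c :=
  ⟨Equiv.swap 0 1 * Equiv.swap 1 2, Equiv.swap 0 1 * Equiv.swap 1 3, by decide, by decide,
    by decide⟩

set_option maxRecDepth 100000 in
theorem a4_seven : ∀ t c : alternatingGroup (Fin 4), t ^ 2 = 1 → t ≠ 1 → c ^ 3 = 1 → c ≠ 1 →
    [1, t, c, c ^ 2, c * t * c⁻¹, c⁻¹ * t * c, t * c].Nodup := by decide

/-- a group of order six does not embed in `A₄`. -/
theorem no_six_in_a4 {A : Type*} [Group A] (f : A →* alternatingGroup (Fin 4))
    (hf : Function.Injective f) (h6 : Nat.card A = 6) : False := by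
  have : Finite A := Nat.finite_of_card_ne_zero (by omega)
  let _ : Fintype A := Fintype.ofFinite A
  have : Fact (Nat.Prime 2) := ⟨Nat.prime_two⟩
  have : Fact (Nat.Prime 3) := ⟨Nat.prime_three⟩
  obtain ⟨t, ht⟩ := exists_prime_orderOf_dvd_card' (G := A) 2 (by rw [h6]; norm_num)
  obtain ⟨c, hc⟩ := exists_prime_orderOf_dvd_card' (G := A) 3 (by rw [h6]; norm_num)
  have ht2 : t ^ 2 = 1 := by rw [← ht]; exact pow_orderOf_eq_one t
  have ht1 : t ≠ 1 := by
    intro h; rw [h, orderOf_one] at ht; omega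
  have hc3 : c ^ 3 = 1 := by rw [← hc]; exact pow_orderOf_eq_one c
  have hc1 : c ≠ 1 := by
    intro h; rw [h, orderOf_one] at hc; omega
  have hnd := a4_seven (f t) (f c) (by rw [← map_pow, ht2, map_one])
    (fun h => ht1 (hf (by rw [h, map_one]))) (by rw [← map_pow, hc3, map_one])
    (fun h => hc1 (hf (by rw [h, map_one])))
  have hnd' : ([1, t, c, c ^ 2, c * t * c⁻¹, c⁻¹ * t * c, t * c].map f).Nodup := by
    simpa only [List.map_cons, List.map_nil, map_one, map_mul, map_pow, map_inv] using hnd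
  have h7 := (List.Nodup.of_map f hnd').length_le_card
  rw [← Nat.card_eq_fintype_card, h6] at h7
  simp at h7

/-! ### the two profiles -/

/-- what is known about `M ∩ L` for a maximal subgroup `M` of `PGL₂(q)`. -/
def PProf (q p : ℕ) (A : Type*) [Group A] : Prop :=
  2 * Nat.card A = q * (q - 1) ∨
  (q ≠ 5 ∧ Nat.card A = q - 1 ∧ ∃ x : A, orderOf x = (q - 1) / 2) ∨
  (Nat.card A = q + 1 ∧ ∃ x : A, orderOf x = (q + 1) / 2) ∨
  (q.Prime ∧ (q % 8 = 3 ∨ q % 8 = 5) ∧ Nat.card A = 12 ∧ ¬ SqCommLaw A) ∨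
  (∃ r α : ℕ, r.Prime ∧ Odd r ∧ 1 ≤ α ∧ q = (p ^ α) ^ r ∧
    2 * Nat.card A = p ^ α * ((p ^ α) ^ 2 - 1))

/-- what is known about a maximal subgroup of `PSL₂(q)`. -/
def TProf (q p : ℕ) (B : Type*) [Group B] : Prop :=
  2 * Nat.card B = q * (q - 1) ∨
  (Nat.card B = q - 1 ∧ SqCommLaw B) ∨
  (Nat.card B = q + 1 ∧ SqCommLaw B) ∨
  (∃ q₁ : ℕ, q = q₁ ^ 2 ∧ Nat.card B = q₁ * (q₁ ^ 2 - 1) ∧ ∀ y : B, orderOf y ≤ q₁ + 1) ∨
  (∃ r' β : ℕ, r'.Prime ∧ Odd r' ∧ q = (p ^ β) ^ r' ∧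
    2 * Nat.card B = p ^ β * ((p ^ β) ^ 2 - 1) ∧ ∀ y : B, orderOf y ≤ p ^ β + 1) ∨
  ((q % 10 = 1 ∨ q % 10 = 9) ∧ (q = p ∨ q = p ^ 2) ∧ Nat.card B = 60 ∧
    ∀ y : B, orderOf y ≤ 5) ∨
  (q = p ∧ (p % 8 = 3 ∨ p % 8 = 5) ∧ Nonempty (B ≃* alternatingGroup (Fin 4))) ∨
  (q = p ∧ (p % 8 = 1 ∨ p % 8 = 7) ∧ Nat.card B = 24 ∧ ∀ y : B, orderOf y ≤ 4)


/-! ### no embedding of a `PProf` group into a larger `TProf` group -/

theorem no_embed {A B : Type*} [Group A] [Group B] (q p : ℕ) (hp : p.Prime) (hodd : Odd q)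
    (h5 : 5 ≤ q) (h7 : q ≠ 7) (h9 : q ≠ 9) (h11 : q ≠ 11)
    (h40 : q.Prime → q % 40 ∉ ({11, 19, 21, 29} : Finset ℕ))
    (f : A →* B) (hf : Function.Injective f) (hlt : Nat.card A < Nat.card B)
    (hA : PProf q p A) (hB : TProf q p B) : False := by
  have hfinB : Finite B := Nat.finite_of_card_ne_zero (by omega)
  have hdvd : Nat.card A ∣ Nat.card B := Subgroup.card_dvd_of_injective f hf
  have hord : ∀ x : A, orderOf (f x) = orderOf x := fun x => orderOf_injective f hf x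
  rcases hA with hA | ⟨hq5, hA, x, hx⟩ | ⟨hA, x, hx⟩ | ⟨hqp, hq8, hA, hS⟩ |
    ⟨r, α, hr, hro, hα, hq, hA⟩
  · -- Borel type
    rcases hB with hB | ⟨hB, -⟩ | ⟨hB, -⟩ | ⟨q₁, hq1, hB, -⟩ | ⟨r', β, hr', hro', hq', hB, -⟩ |
      ⟨h10, -, hB, -⟩ | ⟨hqp', h8, ⟨e⟩⟩ | ⟨hqp', h8, hB, -⟩
    · omega
    · exact PGLNovA.p1_q2 q _ h5 hA (by omega)
    · exact PGLNovA.p1_q3 q _ h5 hA (by omega)
    · exact PGLNovA.p1_q4 q q₁ _ h5 hq1 hA (by omega)
    · have hr3 : 3 ≤ r' := by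
        have := hr'.two_le
        obtain ⟨k, hk⟩ := hro'
        omega
      exact PGLNovA.p1_q5 q (p ^ β) r' _ _ h5 hr3 hq' hA hB hlt
    · exact PGLNovA.p1_q6 q _ h5 h10 hA (by omega) (by rw [← hB]; exact hdvd)
    · have hB : Nat.card B = 12 := by rw [Nat.card_congr e.toEquiv, card_alt_fin_four]
      exact PGLNovA.p1_q7 q _ h5 (by rw [hqp']; exact h8) hA (by omega) (by rw [← hB]; exact hdvd)
    · exact PGLNovA.p1_q8 q _ h5 h7 (by rw [hqp']; exact h8) hA (by omega)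
  · -- split torus type
    rcases hB with hB | ⟨hB, -⟩ | ⟨hB, -⟩ | ⟨q₁, hq1, hB, ho⟩ | ⟨r', β, hr', hro', hq', hB, ho⟩ |
      ⟨h10, -, hB, ho⟩ | ⟨hqp', h8, ⟨e⟩⟩ | ⟨hqp', h8, hB, ho⟩
    · exact PGLNovA.p2_q1 q _ h5 hodd hB (by rw [← hA]; exact hdvd)
    · omega
    · exact PGLNovA.p2_q3 q h5 (by rw [← hA, ← hB]; exact hdvd)
    · exact PGLNovA.p2_q4 q q₁ h5 hodd h9 hq1 (by rw [← hx, ← hord]; exact ho _)
    · have hr3 : 3 ≤ r' := by
        have := hr'.two_le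
        obtain ⟨k, hk⟩ := hro'
        omega
      exact PGLNovA.p2_q5 q (p ^ β) r' h5 hodd hr3 hq' (by rw [← hx, ← hord]; exact ho _)
    · exact PGLNovA.p2_q6 q h5 h9 h11 h10 (by rw [← hx, ← hord]; exact ho _)
    · refine PGLNovA.p2_q7 q h5 hq5 (by rw [hqp']; exact h8) ?_
      rw [← hx, ← hord, ← MulEquiv.orderOf_eq e]
      rcases PMax.a4_pow_fact (e (f x)) with h | h
      · exact (Nat.le_of_dvd (by norm_num) (orderOf_dvd_of_pow_eq_one h)).trans (by norm_num)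
      · exact Nat.le_of_dvd (by norm_num) (orderOf_dvd_of_pow_eq_one h)
    · exact PGLNovA.p2_q8 q h5 h7 h9 (by rw [hqp']; exact h8) (by rw [← hx, ← hord]; exact ho _)
  · -- nonsplit torus type
    rcases hB with hB | ⟨hB, -⟩ | ⟨hB, -⟩ | ⟨q₁, hq1, hB, ho⟩ | ⟨r', β, hr', hro', hq', hB, ho⟩ |
      ⟨h10, -, hB, ho⟩ | ⟨hqp', h8, ⟨e⟩⟩ | ⟨hqp', h8, hB, ho⟩
    · exact PGLNovA.p3_q1 q _ h5 hB (by rw [← hA]; exact hdvd)
    · omega
    · omega
    · exact PGLNovA.p3_q4 q q₁ _ h5 hq1 hB (by rw [← hA]; exact hdvd)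
    · have hr3 : 3 ≤ r' := by
        have := hr'.two_le
        obtain ⟨k, hk⟩ := hro'
        omega
      exact PGLNovA.p3_q5 q (p ^ β) r' _ h5 hr3 hq' hB (by omega)
    · exact PGLNovA.p3_q6 q h5 h9 h10 (by rw [← hx, ← hord]; exact ho _)
    · have hq5 : q = 5 := by
        refine PGLNovA.p3_q7 q h5 hodd ?_
        rw [← hx, ← hord, ← MulEquiv.orderOf_eq e]
        rcases PMax.a4_pow_fact (e (f x)) with h | h
        · exact (Nat.le_of_dvd (by norm_num) (orderOf_dvd_of_pow_eq_one h)).trans (by norm_num)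
        · exact Nat.le_of_dvd (by norm_num) (orderOf_dvd_of_pow_eq_one h)
      exact no_six_in_a4 (e.toMonoidHom.comp f) (e.injective.comp hf) (by omega)
    · exact PGLNovA.p3_q8 q h5 h7 (by rw [hqp']; exact h8) (by rw [← hx, ← hord]; exact ho _)
  · -- `S₄` type
    rcases hB with hB | ⟨hB, hS'⟩ | ⟨hB, hS'⟩ | ⟨q₁, hq1, hB, ho⟩ |
      ⟨r', β, hr', hro', hq', hB, ho⟩ | ⟨h10, -, hB, ho⟩ | ⟨hqp', h8, ⟨e⟩⟩ | ⟨hqp', h8, hB, ho⟩
    · exact PGLNovA.p4_q1 q _ hq8 hB (by rw [← hA]; exact hdvd)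
    · exact hS (hS'.of_injective f hf)
    · exact hS (hS'.of_injective f hf)
    · exact PGLNovA.not_prime_pow q q₁ 2 le_rfl hq1 hqp
    · exact PGLNovA.not_prime_pow q (p ^ β) r' hr'.two_le hq' hqp
    · exact h40 hqp (PGLNovA.p4_q6 q hq8 h10)
    · have hB : Nat.card B = 12 := by rw [Nat.card_congr e.toEquiv, card_alt_fin_four]
      omega
    · omega
  · -- subfield type
    have hr3 : 3 ≤ r := by
      have := hr.two_le
      obtain ⟨k, hk⟩ := hro
      omega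
    have hqpow : q = p ^ (α * r) := by rw [hq, pow_mul]
    rcases hB with hB | ⟨hB, -⟩ | ⟨hB, -⟩ | ⟨q₁, hq1, hB, -⟩ | ⟨r', β, hr', hro', hq', hB, -⟩ |
      ⟨-, hqp', -, -⟩ | ⟨hqp', -, -⟩ | ⟨hqp', -, -, -⟩
    · exact PGLNovA.p5_q1 q (p ^ α) r _ _ h5 hro hq hA hB hdvd
    · exact PGLNovA.p5_q2 q (p ^ α) r _ _ h5 hodd (by omega) hq hA hB hdvd
    · exact PGLNovA.p5_q3 q (p ^ α) r _ _ h5 hodd (by omega) hq hA hB hdvd
    · exact PGLNovA.p5_q4 q (p ^ α) q₁ r _ _ h5 hodd hro hq hq1 hA hB hdvd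
    · have hαβ : α * r = β * r' := by
        apply Nat.pow_right_injective hp.two_le
        show p ^ (α * r) = p ^ (β * r')
        rw [pow_mul, pow_mul, ← hq, ← hq']
      exact PGLNovA.p5_q5 p α β r r' _ _ hp hr hr' hα hαβ hA hB hdvd hlt
    · rcases hqp' with h | h
      · exact PGLNovA.pow_exp_one p α r hp (by omega) hα (by rw [← hqpow]; exact h)
      · exact PGLNovA.pow_exp_two p α r hp hr3 hα (by rw [← hqpow]; exact h)
    · exact PGLNovA.pow_exp_one p α r hp (by omega) hα (by rw [← hqpow]; exact hqp')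
    · exact PGLNovA.pow_exp_one p α r hp (by omega) hα (by rw [← hqpow]; exact hqp')

/-! ### the profile of `M ∩ L` -/

section inter

variable {G : Type*} [Group G]

theorem dihedral_inter (L M : Subgroup G) (hL : L.index = 2) (n : ℕ) (hn : Even n)
    (hn0 : n ≠ 0) (e : M ≃* DihedralGroup n)
    (h2 : 2 * Nat.card ↥(M ⊓ L) = Nat.card M) :
    Nat.card ↥(M ⊓ L) = n ∧ ∃ x : ↥(M ⊓ L), orderOf x = n / 2 := by
  have hM : Nat.card M = 2 * n := by rw [Nat.card_congr e.toEquiv, DihedralGroup.nat_card]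
  refine ⟨by omega, ?_⟩
  have hρ : orderOf (e.symm (DihedralGroup.r 1)) = n := by
    rw [MulEquiv.orderOf_eq, DihedralGroup.orderOf_r_one]
  refine ⟨⟨((e.symm (DihedralGroup.r 1) : M) : G) ^ 2,
    ⟨M.pow_mem (e.symm (DihedralGroup.r 1)).2 2, Subgroup.sq_mem_of_index_two hL _⟩⟩, ?_⟩
  rw [← Subgroup.orderOf_coe]
  show orderOf (((e.symm (DihedralGroup.r 1) : M) : G) ^ 2) = n / 2
  rw [orderOf_pow' _ (by norm_num), Subgroup.orderOf_coe, hρ]
  obtain ⟨k, rfl⟩ := hn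
  have : Nat.gcd (k + k) 2 = 2 := Nat.gcd_eq_right ⟨k, by ring⟩
  rw [this]

theorem s4_inter (L M : Subgroup G) (hL : L.index = 2) (e : M ≃* Equiv.Perm (Fin 4))
    (h2 : 2 * Nat.card ↥(M ⊓ L) = Nat.card M) :
    Nat.card ↥(M ⊓ L) = 12 ∧ ¬ SqCommLaw ↥(M ⊓ L) := by
  have hM : Nat.card M = 24 := by rw [Nat.card_congr e.toEquiv, card_perm_fin_four]
  refine ⟨by omega, fun hS => ?_⟩
  obtain ⟨c, d, hc, hd, hcd⟩ := s4_cycles
  have h := hS ⟨((e.symm c : M) : G) ^ 2, ⟨M.pow_mem (e.symm c).2 2,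
      Subgroup.sq_mem_of_index_two hL _⟩⟩
    ⟨((e.symm d : M) : G) ^ 2, ⟨M.pow_mem (e.symm d).2 2, Subgroup.sq_mem_of_index_two hL _⟩⟩
  have h' : (((e.symm c) ^ 2) ^ 2 * ((e.symm d) ^ 2) ^ 2 : M) =
      ((e.symm d) ^ 2) ^ 2 * ((e.symm c) ^ 2) ^ 2 := by
    have hG := congrArg (Subgroup.subtype (M ⊓ L)) h
    simp only [map_mul, map_pow, Subgroup.subtype_apply] at hG
    apply Subtype.ext
    simp only [Subgroup.coe_mul, Subgroup.coe_pow]
    exact hG
  have h'' := congrArg e h'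
  simp only [map_mul, map_pow, MulEquiv.apply_symm_apply] at h''
  rw [hc, hd] at h''
  exact hcd h''


theorem two_mul_card_inter (L M : Subgroup G) (hL : L.index = 2) (hM : IsCoatom M)
    (hML : ¬ L ≤ M) : 2 * Nat.card ↥(M ⊓ L) = Nat.card M := by
  have hN : L.Normal := Subgroup.normal_of_index_eq_two hL
  have hsup : M ⊔ L = ⊤ := by
    by_contra hne
    have hlt : M < M ⊔ L :=
      lt_of_le_of_ne le_sup_left (fun h => hML (by rw [h]; exact le_sup_right))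
    exact hne (hM.2 _ hlt)
  have h1 : L.relIndex M = 2 := by
    rw [← Subgroup.relIndex_sup_right M L, hsup, Subgroup.relIndex_top_right, hL]
  have h2 := Subgroup.card_mul_index (L.subgroupOf M)
  have h3 : Nat.card ↥(L.subgroupOf M) = Nat.card ↥(M ⊓ L) := by
    rw [← Subgroup.inf_subgroupOf_left L M]
    exact Nat.card_congr (Subgroup.subgroupOfEquivOfLe inf_le_left).toEquiv
  rw [show (L.subgroupOf M).index = 2 from h1, h3] at h2
  omega

theorem prime_base_eq (p p₀ k m : ℕ) (hp : p.Prime) (hp0 : p₀.Prime) (hk : 1 ≤ k)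
    (h : p ^ k = p₀ ^ m) : p = p₀ := by
  have h1 : p ∣ p₀ ^ m := by
    rw [← h]; exact dvd_pow_self p (by omega)
  exact (Nat.prime_dvd_prime_iff_eq hp hp0).1 (hp.dvd_of_dvd_pow h1)

theorem pprof_of_types {F : Type*} [Field F] [Fintype F] (p : ℕ) [Fact p.Prime] [CharP F p]
    (L M : Subgroup G) (hL : L.index = 2) (h2 : 2 * Nat.card ↥(M ⊓ L) = Nat.card M)
    (hodd : Odd (Fintype.card F)) (h5 : 5 ≤ Fintype.card F)
    (h : Nat.card M = Fintype.card F * (Fintype.card F - 1) ∨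
    (Fintype.card F ≠ 5 ∧ Nonempty (M ≃* DihedralGroup (Fintype.card F - 1))) ∨
    Nonempty (M ≃* DihedralGroup (Fintype.card F + 1)) ∨
    ((Fintype.card F).Prime ∧ (Fintype.card F % 8 = 3 ∨ Fintype.card F % 8 = 5) ∧
      Nonempty (M ≃* Equiv.Perm (Fin 4))) ∨
    (∃ (F₀ : Type) (_ : Field F₀) (_ : Fintype F₀) (r : ℕ), r.Prime ∧ Odd r ∧
      Fintype.card F = Fintype.card F₀ ^ r ∧
        Nonempty (M ≃* Matrix.ProjGenLinGroup (Fin 2) F₀))) :
    PProf (Fintype.card F) p ↥(M ⊓ L) := by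
  rcases h with h | ⟨hq5, ⟨e⟩⟩ | ⟨⟨e⟩⟩ | ⟨hqp, h8, ⟨e⟩⟩ | ⟨F₀, _, _, r, hr, hro, hq, ⟨e⟩⟩
  · left; omega
  · right; left
    obtain ⟨hc, x, hx⟩ := dihedral_inter L M hL (Fintype.card F - 1)
      (by obtain ⟨k, hk⟩ := hodd; exact ⟨k, by omega⟩) (by omega) e h2
    exact ⟨hq5, hc, x, hx⟩
  · right; right; left
    exact dihedral_inter L M hL (Fintype.card F + 1)
      (by obtain ⟨k, hk⟩ := hodd; exact ⟨k + 1, by omega⟩) (by omega) e h2
  · right; right; right; left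
    exact ⟨hqp, h8, s4_inter L M hL e h2⟩
  · right; right; right; right
    obtain ⟨p₀, hp₀⟩ := CharP.exists F₀
    obtain ⟨n₀, hp₀', hn₀⟩ := FiniteField.card F₀ p₀
    obtain ⟨n, hp', hn⟩ := FiniteField.card F p
    have hpp : p = p₀ := prime_base_eq p p₀ n (n₀ * r) hp' hp₀' n.pos
      (by rw [← hn, hq, hn₀, pow_mul])
    subst hpp
    refine ⟨r, n₀, hr, hro, n₀.pos, by rw [hq, hn₀], ?_⟩
    rw [h2, Nat.card_congr e.toEquiv, card_PGL2_eq, hn₀]

end inter

/-! ### the profile of a maximal subgroup of `PSL₂(q)` -/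

theorem tprof_of_types {F : Type*} [Field F] [Fintype F] (p : ℕ) [Fact p.Prime] [CharP F p]
    (hodd : Odd (Fintype.card F)) {B : Type*} [Group B]
    (h : 2 * Nat.card B = Fintype.card F * (Fintype.card F - 1) ∨
    (13 ≤ Fintype.card F ∧ (∃ k : ℕ, 2 * k = Fintype.card F - 1 ∧
      Nonempty (B ≃* DihedralGroup k))) ∨
    (Fintype.card F ≠ 7 ∧ Fintype.card F ≠ 9 ∧ (∃ k : ℕ, 2 * k = Fintype.card F + 1 ∧
      Nonempty (B ≃* DihedralGroup k))) ∨
    (∃ (F₀ : Type) (_ : Field F₀) (_ : Fintype F₀), Fintype.card F = Fintype.card F₀ ^ 2 ∧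
        Nonempty (B ≃* Matrix.ProjGenLinGroup (Fin 2) F₀)) ∨
    (∃ (F₀ : Type) (_ : Field F₀) (_ : Fintype F₀) (r : ℕ), r.Prime ∧ Odd r ∧
      Fintype.card F = Fintype.card F₀ ^ r ∧
        Nonempty (B ≃* Matrix.ProjectiveSpecialLinearGroup (Fin 2) F₀)) ∨
    ((Fintype.card F % 10 = 1 ∨ Fintype.card F % 10 = 9) ∧
        (Fintype.card F = p ∨ (Fintype.card F = p ^ 2 ∧ (p % 10 = 3 ∨ p % 10 = 7))) ∧
        Nonempty (B ≃* alternatingGroup (Fin 5))) ∨
    (Fintype.card F = p ∧ (p % 8 = 3 ∨ p % 8 = 5) ∧ ¬ (p % 10 = 1 ∨ p % 10 = 9) ∧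
        Nonempty (B ≃* alternatingGroup (Fin 4))) ∨
    (Fintype.card F = p ∧ (p % 8 = 1 ∨ p % 8 = 7) ∧ Nonempty (B ≃* Equiv.Perm (Fin 4)))) :
    TProf (Fintype.card F) p B := by
  rcases h with h | ⟨-, k, hk, ⟨e⟩⟩ | ⟨-, -, k, hk, ⟨e⟩⟩ | ⟨F₀, _, _, hq, ⟨e⟩⟩ |
    ⟨F₀, _, _, r, hr, hro, hq, ⟨e⟩⟩ | ⟨h10, hqp, ⟨e⟩⟩ | ⟨hqp, h8, -, ⟨e⟩⟩ | ⟨hqp, h8, ⟨e⟩⟩
  · left; exact h
  · right; left
    exact ⟨by rw [Nat.card_congr e.toEquiv, DihedralGroup.nat_card]; omega,
      (dihedral_sqComm k).of_injective e.toMonoidHom e.injective⟩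
  · right; right; left
    exact ⟨by rw [Nat.card_congr e.toEquiv, DihedralGroup.nat_card]; omega,
      (dihedral_sqComm k).of_injective e.toMonoidHom e.injective⟩
  · right; right; right; left
    refine ⟨Fintype.card F₀, hq, by rw [Nat.card_congr e.toEquiv, card_PGL2_eq], fun y => ?_⟩
    obtain ⟨p₀, hp₀⟩ := CharP.exists F₀
    have hp₀' : Fact p₀.Prime := ⟨CharP.char_is_prime F₀ p₀⟩
    have hcard : 2 ≤ Fintype.card F₀ := Fintype.one_lt_card
    have hple : p₀ ≤ Fintype.card F₀ := by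
      obtain ⟨n, -, hn⟩ := FiniteField.card F₀ p₀
      rw [hn]; exact Nat.le_self_pow n.ne_zero p₀
    rw [← MulEquiv.orderOf_eq e y]
    rcases Cfsg.Agent.Helper57.pgl_orderOf_dvd p₀ (e y) with h | h | h
    · exact (Nat.le_of_dvd (by omega) h).trans (by omega)
    · exact Nat.le_of_dvd (by omega) h
    · exact (Nat.le_of_dvd hp₀'.out.pos h).trans (by omega)
  · right; right; right; right; left
    obtain ⟨p₀, hp₀⟩ := CharP.exists F₀
    obtain ⟨n₀, hp₀', hn₀⟩ := FiniteField.card F₀ p₀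
    obtain ⟨n, hp', hn⟩ := FiniteField.card F p
    have hpp : p = p₀ := prime_base_eq p p₀ n (n₀ * r) hp' hp₀' n.pos
      (by rw [← hn, hq, hn₀, pow_mul])
    subst hpp
    have hodd₀ : Odd (Fintype.card F₀) := by
      rw [hq] at hodd
      exact (Nat.odd_pow_iff hr.ne_zero).1 hodd
    have h2 : (2 : F₀) ≠ 0 := two_ne_zero_of_odd hodd₀
    have hcard : 3 ≤ Fintype.card F₀ := by
      have : 2 ≤ Fintype.card F₀ := Fintype.one_lt_card
      obtain ⟨k, hk⟩ := hodd₀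
      omega
    have hple : p ≤ Fintype.card F₀ := by
      rw [hn₀]; exact Nat.le_self_pow n₀.ne_zero p
    refine ⟨r, n₀, hr, hro, by rw [hq, hn₀], ?_, fun y => ?_⟩
    · rw [Nat.card_congr e.toEquiv, two_mul_card_PSL2 h2, hn₀]
    · rw [← hn₀, ← MulEquiv.orderOf_eq e y]
      rcases Cfsg.Agent.Helper57.psl_orderOf_dvd p (Nat.odd_iff.1 hodd₀) (e y) with h | h | h
      · exact (Nat.le_of_dvd (by omega) h).trans (by omega)
      · exact (Nat.le_of_dvd (by omega) h).trans (by omega)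
      · exact (Nat.le_of_dvd hp'.pos h).trans (by omega)
  · right; right; right; right; right; left
    refine ⟨h10, ?_, by rw [Nat.card_congr e.toEquiv, card_alt_fin_five], fun y => ?_⟩
    · rcases hqp with h | h
      · exact Or.inl h
      · exact Or.inr h.1
    · rw [← MulEquiv.orderOf_eq e y]
      rcases Cfsg.Agent.Helper41.Dk.a5_pow_fact (e y) with h | h | h
      · exact (Nat.le_of_dvd (by norm_num) (orderOf_dvd_of_pow_eq_one h)).trans (by norm_num)
      · exact (Nat.le_of_dvd (by norm_num) (orderOf_dvd_of_pow_eq_one h)).trans (by norm_num)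
      · exact Nat.le_of_dvd (by norm_num) (orderOf_dvd_of_pow_eq_one h)
  · right; right; right; right; right; right; left
    exact ⟨hqp, h8, ⟨e⟩⟩
  · right; right; right; right; right; right; right
    refine ⟨hqp, h8, by rw [Nat.card_congr e.toEquiv, card_perm_fin_four], fun y => ?_⟩
    rw [← MulEquiv.orderOf_eq e y]
    rcases Cfsg.Agent.Helper41.Dk.s4_pow_fact (e y) with h | h
    · exact (Nat.le_of_dvd (by norm_num) (orderOf_dvd_of_pow_eq_one h)).trans (by norm_num)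
    · exact Nat.le_of_dvd (by norm_num) (orderOf_dvd_of_pow_eq_one h)

/-! ### the image of `SL₂` in `PGL₂` -/

theorem LL_eq {F : Type*} [Field F] : (Matrix.ProjGenLinGroup.mk.comp Matrix.SpecialLinearGroup.toGL).range =
    (Matrix.ProjectiveSpecialLinearGroup.toPGL (n := Fin 2) (R := F)).range := by
  ext x
  constructor
  · rintro ⟨g, rfl⟩
    exact ⟨QuotientGroup.mk g, rfl⟩
  · rintro ⟨y, rfl⟩
    induction y using QuotientGroup.induction_on with
    | H g => exact ⟨g, rfl⟩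

theorem card_LL {F : Type*} [Field F] : Nat.card ↥(Matrix.ProjGenLinGroup.mk.comp
      (Matrix.SpecialLinearGroup.toGL (n := Fin 2) (R := F))).range =
    Nat.card (Matrix.ProjectiveSpecialLinearGroup (Fin 2) F) := by
  rw [LL_eq]
  exact (Nat.card_congr (MonoidHom.ofInjective
    Matrix.ProjectiveSpecialLinearGroup.toPGL_injective).toEquiv).symm

section pgl

variable {F : Type*} [Field F] [Fintype F]

theorem index_LL (hodd : Odd (Fintype.card F)) :
    (Matrix.ProjGenLinGroup.mk.comp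
      (Matrix.SpecialLinearGroup.toGL (n := Fin 2) (R := F))).range.index = 2 := by
  have h2 : (2 : F) ≠ 0 := two_ne_zero_of_odd hodd
  have h1 := two_mul_card_PSL2 h2
  have h3 := card_PGL2_eq (F := F)
  have h4 := Subgroup.card_mul_index (Matrix.ProjGenLinGroup.mk.comp
      (Matrix.SpecialLinearGroup.toGL (n := Fin 2) (R := F))).range
  rw [card_LL] at h4
  have hpos : 0 < Nat.card (Matrix.ProjectiveSpecialLinearGroup (Fin 2) F) := Nat.card_pos
  have h5 : Nat.card (Matrix.ProjectiveSpecialLinearGroup (Fin 2) F) *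
      (Matrix.ProjGenLinGroup.mk.comp
      (Matrix.SpecialLinearGroup.toGL (n := Fin 2) (R := F))).range.index =
      Nat.card (Matrix.ProjectiveSpecialLinearGroup (Fin 2) F) * 2 := by omega
  exact Nat.eq_of_mul_eq_mul_left hpos h5

theorem LL_eq_top_of_even (heven : Even (Fintype.card F)) :
    (Matrix.ProjGenLinGroup.mk.comp
      (Matrix.SpecialLinearGroup.toGL (n := Fin 2) (R := F))).range = ⊤ := by
  rw [LL_eq, MonoidHom.range_eq_top]
  apply Matrix.ProjectiveSpecialLinearGroup.toPGL_surj_of_roots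
  intro r
  obtain ⟨k, hk⟩ := heven
  refine ⟨r ^ k, ?_⟩
  rw [Fintype.card_fin, ← pow_mul, show k * 2 = Fintype.card F by omega]
  apply Units.ext
  rw [Units.val_pow_eq_pow_val, FiniteField.pow_card]

end pgl

theorem coatom_of_top {G : Type*} [Group G] (M L : Subgroup G) (hL : L = ⊤) (hM : IsCoatom M) :
    IsCoatom ((M ⊓ L).subgroupOf L) := by
  subst hL
  have h := (OrderIso.isCoatom_iff (MulEquiv.comapSubgroup (Subgroup.topEquiv (G := G))) M).2 hM
  have heq : (M ⊓ ⊤).subgroupOf ⊤ = MulEquiv.comapSubgroup (Subgroup.topEquiv (G := G)) M := by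
    rw [inf_top_eq]; rfl
  rw [heq]; exact h


section glue

variable {F : Type*} [Field F] [Fintype F]

/-- The glue: from the two lists of maximal subgroups, a maximal subgroup of `PGL₂(q)`
(`q` odd, away from the novelties) meets the image of `SL₂(q)` in a maximal subgroup. -/
theorem glue (p : ℕ) [Fact p.Prime] [CharP F p]
    (hodd : Odd (Fintype.card F)) (h5 : 5 ≤ Fintype.card F) (h7 : Fintype.card F ≠ 7)
    (h9 : Fintype.card F ≠ 9) (h11 : Fintype.card F ≠ 11)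
    (h40 : (Fintype.card F).Prime → Fintype.card F % 40 ∉ ({11, 19, 21, 29} : Finset ℕ))
    (M : Subgroup (Matrix.ProjGenLinGroup (Fin 2) F)) (hM : IsCoatom M)
    (hML : ¬ (Matrix.ProjGenLinGroup.mk.comp Matrix.SpecialLinearGroup.toGL).range ≤ M)
    (h91 : Nat.card M = Fintype.card F * (Fintype.card F - 1) ∨
      (Fintype.card F ≠ 5 ∧ Nonempty (M ≃* DihedralGroup (Fintype.card F - 1))) ∨
      Nonempty (M ≃* DihedralGroup (Fintype.card F + 1)) ∨
      ((Fintype.card F).Prime ∧ (Fintype.card F % 8 = 3 ∨ Fintype.card F % 8 = 5) ∧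
        Nonempty (M ≃* Equiv.Perm (Fin 4))) ∨
      (∃ (F₀ : Type) (_ : Field F₀) (_ : Fintype F₀) (r : ℕ), r.Prime ∧ Odd r ∧
        Fintype.card F = Fintype.card F₀ ^ r ∧
          Nonempty (M ≃* Matrix.ProjGenLinGroup (Fin 2) F₀)))
    (h92 : ∀ T : Subgroup (Matrix.ProjectiveSpecialLinearGroup (Fin 2) F), IsCoatom T →
      (2 * Nat.card T = Fintype.card F * (Fintype.card F - 1) ∨
      (13 ≤ Fintype.card F ∧ (∃ k : ℕ, 2 * k = Fintype.card F - 1 ∧
        Nonempty (T ≃* DihedralGroup k))) ∨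
      (Fintype.card F ≠ 7 ∧ Fintype.card F ≠ 9 ∧ (∃ k : ℕ, 2 * k = Fintype.card F + 1 ∧
        Nonempty (T ≃* DihedralGroup k))) ∨
      (∃ (F₀ : Type) (_ : Field F₀) (_ : Fintype F₀), Fintype.card F = Fintype.card F₀ ^ 2 ∧
          Nonempty (T ≃* Matrix.ProjGenLinGroup (Fin 2) F₀)) ∨
      (∃ (F₀ : Type) (_ : Field F₀) (_ : Fintype F₀) (r : ℕ), r.Prime ∧ Odd r ∧
        Fintype.card F = Fintype.card F₀ ^ r ∧
          Nonempty (T ≃* Matrix.ProjectiveSpecialLinearGroup (Fin 2) F₀)) ∨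
      ((Fintype.card F % 10 = 1 ∨ Fintype.card F % 10 = 9) ∧
          (Fintype.card F = p ∨ (Fintype.card F = p ^ 2 ∧ (p % 10 = 3 ∨ p % 10 = 7))) ∧
          Nonempty (T ≃* alternatingGroup (Fin 5))) ∨
      (Fintype.card F = p ∧ (p % 8 = 3 ∨ p % 8 = 5) ∧ ¬ (p % 10 = 1 ∨ p % 10 = 9) ∧
          Nonempty (T ≃* alternatingGroup (Fin 4))) ∨
      (Fintype.card F = p ∧ (p % 8 = 1 ∨ p % 8 = 7) ∧ Nonempty (T ≃* Equiv.Perm (Fin 4))))) :
    IsCoatom ((M ⊓ (Matrix.ProjGenLinGroup.mk.comp Matrix.SpecialLinearGroup.toGL).range).subgroupOf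
      (Matrix.ProjGenLinGroup.mk.comp Matrix.SpecialLinearGroup.toGL).range) := by
  have hfinG : Finite (Matrix.ProjGenLinGroup (Fin 2) F) := by
    apply Nat.finite_of_card_ne_zero
    rw [card_PGL2_eq]
    have h25 : 25 ≤ Fintype.card F ^ 2 := by nlinarith
    exact Nat.mul_ne_zero (by omega) (by omega)
  have hL := index_LL hodd
  have h2 := two_mul_card_inter _ M hL hM hML
  have hA := pprof_of_types p _ M hL h2 hodd h5 h91
  by_contra hnot
  have hne : (M ⊓ (Matrix.ProjGenLinGroup.mk.comp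
      Matrix.SpecialLinearGroup.toGL).range).subgroupOf
      (Matrix.ProjGenLinGroup.mk.comp Matrix.SpecialLinearGroup.toGL).range ≠ ⊤ := by
    intro h
    rw [Subgroup.subgroupOf_eq_top] at h
    exact hML (h.trans inf_le_left)
  rcases eq_top_or_exists_le_coatom ((M ⊓ (Matrix.ProjGenLinGroup.mk.comp
      Matrix.SpecialLinearGroup.toGL).range).subgroupOf
      (Matrix.ProjGenLinGroup.mk.comp Matrix.SpecialLinearGroup.toGL).range) with
    h | ⟨T', hT', hle⟩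
  · exact hne h
  have hlt : (M ⊓ (Matrix.ProjGenLinGroup.mk.comp
      Matrix.SpecialLinearGroup.toGL).range).subgroupOf
      (Matrix.ProjGenLinGroup.mk.comp Matrix.SpecialLinearGroup.toGL).range < T' :=
    lt_of_le_of_ne hle (fun h => hnot (h ▸ hT'))
  let eL : Matrix.ProjectiveSpecialLinearGroup (Fin 2) F ≃*
      ↥(Matrix.ProjGenLinGroup.mk.comp
        (Matrix.SpecialLinearGroup.toGL (n := Fin 2) (R := F))).range :=
    (MonoidHom.ofInjective Matrix.ProjectiveSpecialLinearGroup.toPGL_injective).trans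
      (MulEquiv.subgroupCongr LL_eq.symm)
  have hT'' : IsCoatom (MulEquiv.mapSubgroup eL.symm T') :=
    (OrderIso.isCoatom_iff (MulEquiv.mapSubgroup eL.symm) T').2 hT'
  have hB := tprof_of_types p hodd (h92 _ hT'')
  have hcard : Nat.card ↥(M ⊓ (Matrix.ProjGenLinGroup.mk.comp
      Matrix.SpecialLinearGroup.toGL).range) < Nat.card ↥(MulEquiv.mapSubgroup eL.symm T') := by
    have h1 := card_lt_of_subgroup_lt hlt
    rw [Nat.card_congr (Subgroup.subgroupOfEquivOfLe (inf_le_right : M ⊓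
      (Matrix.ProjGenLinGroup.mk.comp Matrix.SpecialLinearGroup.toGL).range ≤ _)).toEquiv,
      Nat.card_congr (MulEquiv.subgroupMap eL.symm T').toEquiv] at h1
    exact h1
  exact no_embed (Fintype.card F) p Fact.out hodd h5 h7 h9 h11 h40
    ((MulEquiv.subgroupMap eL.symm T').toMonoidHom.comp ((Subgroup.inclusion hle).comp
      (Subgroup.subgroupOfEquivOfLe (inf_le_right : M ⊓
      (Matrix.ProjGenLinGroup.mk.comp Matrix.SpecialLinearGroup.toGL).range ≤ _)).symm.toMonoidHom))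
    ((MulEquiv.subgroupMap eL.symm T').injective.comp ((Subgroup.inclusion_injective hle).comp
      (Subgroup.subgroupOfEquivOfLe _).symm.injective)) hcard hA hB

/-- the even case: the image of `SL₂` is everything. -/
theorem even_case (heven : Even (Fintype.card F))
    (M : Subgroup (Matrix.ProjGenLinGroup (Fin 2) F)) (hM : IsCoatom M) :
    IsCoatom ((M ⊓ (Matrix.ProjGenLinGroup.mk.comp Matrix.SpecialLinearGroup.toGL).range).subgroupOf
      (Matrix.ProjGenLinGroup.mk.comp Matrix.SpecialLinearGroup.toGL).range) :=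
  coatom_of_top M _ (LL_eq_top_of_even heven) hM

end glue

end Cfsg.Agent.Helper40.PGLNov
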