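import Mathlib
import Cfsg.Agent.Helper40.SL2EvenMax

/-!
# Solubilizers in `SL₂(q)`, `q = 2^p`, `p` prime (helper40)

For `x ∈ SL₂(q)` the set of `y` with `⟨x, y⟩` solvable is described explicitly (via the list of
maximal subgroups) and counted: `3 q (q - 1)` for an involution, `2 q (q - 1)` for a non-trivial
element of a split torus, `2 (q + 1)` for a non-trivial element of a non-split torus.
-/

set_option autoImplicit false
set_option linter.unusedSimpArgs false
set_option linter.unusedSectionVars false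

namespace Cfsg.Agent.Helper40.SolEven

open Matrix Cfsg.Agent.Helper44 Cfsg.Agent.Helper40 Cfsg.Agent.Helper40.SL2Max
open Cfsg.Agent.Helper40.SL2Even Cfsg.Agent.Helper42.SL2
open Cfsg.Agent.Helper40.PresSmall Cfsg.Agent.Helper89

universe u

section grp

variable {G : Type*} [Group G]

/-- A group with an abelian normal subgroup containing all commutators is solvable. -/
theorem metab_solvable (N : Subgroup G) [N.Normal] (hN : ∀ a ∈ N, ∀ b ∈ N, a * b = b * a)
    (hq : ∀ a b : G, a * b * a⁻¹ * b⁻¹ ∈ N) : Group.IsSolvable G := by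
  have h1 : Group.IsSolvable N :=
    Group.isSolvable_of_comm (fun a b => Subtype.ext (hN a.1 a.2 b.1 b.2))
  have h2 : Group.IsSolvable (G ⧸ N) := by
    apply Group.isSolvable_of_comm
    intro a b
    obtain ⟨x, rfl⟩ := QuotientGroup.mk_surjective a
    obtain ⟨y, rfl⟩ := QuotientGroup.mk_surjective b
    rw [← QuotientGroup.mk_mul, ← QuotientGroup.mk_mul]
    apply QuotientGroup.eq.mpr
    have h := hq y⁻¹ x⁻¹
    rw [inv_inv, inv_inv] at h
    have e : (x * y)⁻¹ * (y * x) = y⁻¹ * x⁻¹ * y * x := by group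
    rw [e]
    exact h
  exact Group.isSolvable_of_ker_le_range N.subtype (QuotientGroup.mk' N) (by simp)

theorem sol_of_le (H K : Subgroup G) (h : H ≤ K) (hK : Group.IsSolvable K) : Group.IsSolvable H :=
  Group.isSolvable_of_isSolvable_injective (Subgroup.inclusion_injective h)

theorem sol_of_equiv {H : Type*} [Group H] (e : G ≃* H) (hH : Group.IsSolvable H) :
    Group.IsSolvable G :=
  Group.isSolvable_of_isSolvable_injective (f := e.toMonoidHom) e.injective

theorem sol_comap (K : Subgroup G) (c : G ≃* G) (hK : Group.IsSolvable K) :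
    Group.IsSolvable (K.comap c.toMonoidHom) := by
  apply Group.isSolvable_of_isSolvable_injective (f := c.toMonoidHom.subgroupComap K)
  intro a b hab
  have h1 : c a.1 = c b.1 := congrArg Subtype.val hab
  exact Subtype.ext (c.injective h1)

/-- Conjugating `z` by a commutator of two elements of `Nx z` fixes `z`. -/
theorem comm_mem_cent (z a b : G) (ha : a ∈ Nx z) (hb : b ∈ Nx z) :
    (a * b * a⁻¹ * b⁻¹) * z * (a * b * a⁻¹ * b⁻¹)⁻¹ = z := by
  have key : ∀ g : G, g ∈ Nx z →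
      (g * z * g⁻¹ = z ∧ g * z⁻¹ * g⁻¹ = z⁻¹ ∧ g⁻¹ * z * g = z ∧ g⁻¹ * z⁻¹ * g = z⁻¹) ∨
      (g * z * g⁻¹ = z⁻¹ ∧ g * z⁻¹ * g⁻¹ = z ∧ g⁻¹ * z * g = z⁻¹ ∧ g⁻¹ * z⁻¹ * g = z) := by
    intro g hg
    have e1 : g * z⁻¹ * g⁻¹ = (g * z * g⁻¹)⁻¹ := by group
    rcases hg with h | h
    · left
      have h3 : g⁻¹ * z * g = z := by
        calc g⁻¹ * z * g = g⁻¹ * (g * z * g⁻¹) * g := by rw [h]
          _ = z := by group
      have h4 : g⁻¹ * z⁻¹ * g = z⁻¹ := by
        calc g⁻¹ * z⁻¹ * g = (g⁻¹ * z * g)⁻¹ := by group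
          _ = z⁻¹ := by rw [h3]
      exact ⟨h, by rw [e1, h], h3, h4⟩
    · right
      have h3 : g⁻¹ * z⁻¹ * g = z := by
        calc g⁻¹ * z⁻¹ * g = g⁻¹ * (g * z * g⁻¹) * g := by rw [h]
          _ = z := by group
      have h4 : g⁻¹ * z * g = z⁻¹ := by
        calc g⁻¹ * z * g = (g⁻¹ * z⁻¹ * g)⁻¹ := by group
          _ = z⁻¹ := by rw [h3]
      exact ⟨h, by rw [e1, h, inv_inv], h4, h3⟩
  have e : (a * b * a⁻¹ * b⁻¹) * z * (a * b * a⁻¹ * b⁻¹)⁻¹ =
      a * (b * (a⁻¹ * (b⁻¹ * z * b) * a) * b⁻¹) * a⁻¹ := by group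
  rw [e]
  rcases key a ha with ⟨a1, a2, a3, a4⟩ | ⟨a1, a2, a3, a4⟩ <;>
    rcases key b hb with ⟨b1, b2, b3, b4⟩ | ⟨b1, b2, b3, b4⟩
  · rw [b3, a3, b1, a1]
  · rw [b3, a4, b2, a1]
  · rw [b3, a3, b2, a2]
  · rw [b3, a4, b1, a2]

/-- `Nx z` is solvable when the centraliser of `z` is abelian. -/
theorem nx_solvable_of_comm (z : G)
    (hc : ∀ a ∈ Subgroup.centralizer ({z} : Set G), ∀ b ∈ Subgroup.centralizer ({z} : Set G),
      a * b = b * a) : Group.IsSolvable (Nx z) := by
  have hnorm : ((Subgroup.centralizer ({z} : Set G)).subgroupOf (Nx z)).Normal := by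
    constructor
    intro n hn g
    rw [Subgroup.mem_subgroupOf] at hn ⊢
    rw [mem_cent_iff] at hn ⊢
    have hn' : n.1 * z⁻¹ * n.1⁻¹ = z⁻¹ := by
      calc n.1 * z⁻¹ * n.1⁻¹ = (n.1 * z * n.1⁻¹)⁻¹ := by group
        _ = z⁻¹ := by rw [hn]
    have e : ((g * n * g⁻¹ : Nx z) : G) * z * ((g * n * g⁻¹ : Nx z) : G)⁻¹ =
        g.1 * (n.1 * (g.1⁻¹ * z * g.1) * n.1⁻¹) * g.1⁻¹ := by
      simp only [Subgroup.coe_mul, Subgroup.coe_inv]
      group
    rw [e]
    rcases g.2 with h | h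
    · have h3 : g.1⁻¹ * z * g.1 = z := by
        calc g.1⁻¹ * z * g.1 = g.1⁻¹ * (g.1 * z * g.1⁻¹) * g.1 := by rw [h]
          _ = z := by group
      rw [h3, hn, h]
    · have h3 : g.1⁻¹ * z⁻¹ * g.1 = z := by
        calc g.1⁻¹ * z⁻¹ * g.1 = g.1⁻¹ * (g.1 * z * g.1⁻¹) * g.1 := by rw [h]
          _ = z := by group
      have h4 : g.1⁻¹ * z * g.1 = z⁻¹ := by
        calc g.1⁻¹ * z * g.1 = (g.1⁻¹ * z⁻¹ * g.1)⁻¹ := by group
          _ = z⁻¹ := by rw [h3]
      have h5 : g.1 * z⁻¹ * g.1⁻¹ = z := by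
        calc g.1 * z⁻¹ * g.1⁻¹ = (g.1 * z * g.1⁻¹)⁻¹ := by group
          _ = z := by rw [h, inv_inv]
      rw [h4, hn', h5]
  apply metab_solvable ((Subgroup.centralizer ({z} : Set G)).subgroupOf (Nx z))
  · intro a ha b hb
    rw [Subgroup.mem_subgroupOf] at ha hb
    exact Subtype.ext (hc a.1 ha b.1 hb)
  · intro a b
    rw [Subgroup.mem_subgroupOf, mem_cent_iff]
    have := comm_mem_cent z a.1 b.1 a.2 b.2
    simpa only [Subgroup.coe_mul, Subgroup.coe_inv] using this

/-- The solubilizer count is invariant under isomorphisms. -/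
theorem sol_card_equiv {H : Type*} [Group H] (e : G ≃* H) (x : G) :
    Nat.card {y : G // Group.IsSolvable (Subgroup.closure ({x, y} : Set G))} =
      Nat.card {y : H // Group.IsSolvable (Subgroup.closure ({e x, y} : Set H))} := by
  apply Nat.card_congr
  apply e.toEquiv.subtypeEquiv
  intro y
  have hmap : Subgroup.closure ({e x, e y} : Set H) =
      (Subgroup.closure ({x, y} : Set G)).map e.toMonoidHom := by
    rw [MonoidHom.map_closure]
    congr 1
    ext t
    simp only [Set.mem_insert_iff, Set.mem_singleton_iff, Set.mem_image, MulEquiv.coe_toMonoidHom]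
    constructor
    · rintro (rfl | rfl)
      · exact ⟨x, Or.inl rfl, rfl⟩
      · exact ⟨y, Or.inr rfl, rfl⟩
    · rintro ⟨s, rfl | rfl, rfl⟩
      · left; rfl
      · right; rfl
  show Group.IsSolvable (Subgroup.closure ({x, y} : Set G)) ↔
    Group.IsSolvable (Subgroup.closure ({e x, e y} : Set H))
  rw [hmap]
  constructor
  · intro h
    exact sol_of_equiv (e.subgroupMap (Subgroup.closure ({x, y} : Set G))).symm h
  · intro h
    exact sol_of_equiv (e.subgroupMap (Subgroup.closure ({x, y} : Set G))) h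

theorem card_or {α : Type*} [Finite α] (P Q : α → Prop) (h : ∀ a, P a → ¬ Q a) :
    Nat.card {a // P a ∨ Q a} = Nat.card {a // P a} + Nat.card {a // Q a} := by
  classical
  have := Fintype.ofFinite α
  rw [Nat.card_eq_fintype_card, Nat.card_eq_fintype_card, Nat.card_eq_fintype_card]
  exact Fintype.card_subtype_or_disjoint P Q (fun R hRP hRQ a hRa => h a (hRP a hRa) (hRQ a hRa))

end grp

section sl2

variable {F : Type u} [Field F]

theorem bor_solvable : Group.IsSolvable (Cfsg.Agent.Helper41.Dk.Bor (F := F)) := by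
  classical
  obtain ⟨χ, hχ⟩ : ∃ χ : (Cfsg.Agent.Helper41.Dk.Bor (F := F)) →* Fˣ,
      ∀ g, (χ g : F) = g.1.1 0 0 :=
    ⟨{ toFun := fun g => Units.mk0 (g.1.1 0 0) (Cfsg.Agent.Helper41.Dk.bor_ne_zero g.1 g.2)
       map_one' := by apply Units.ext; simp
       map_mul' := fun a b => by
         apply Units.ext
         simp only [Units.val_mk0, Units.val_mul, Subgroup.coe_mul]
         rw [mul00, show b.1.1 1 0 = 0 from b.2, mul_zero, add_zero] }, fun g => rfl⟩
  have hk : ∀ a b : χ.ker, a * b = b * a := by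
    have key : ∀ a : χ.ker, a.1.1.1 0 0 = 1 ∧ a.1.1.1 1 0 = 0 ∧ a.1.1.1 1 1 = 1 := by
      intro a
      have h1 : a.1.1.1 0 0 = 1 := by
        have h := a.2
        rw [MonoidHom.mem_ker] at h
        rw [← hχ, h]; rfl
      have h3 : a.1.1.1 1 0 = 0 := a.1.2
      have hd := det1 a.1.1
      rw [h1, h3] at hd
      exact ⟨h1, h3, by linear_combination hd⟩
    intro a b
    obtain ⟨a1, a2, a3⟩ := key a
    obtain ⟨b1, b2, b3⟩ := key b
    apply Subtype.ext
    apply Subtype.ext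
    apply sl_ext <;> simp only [Subgroup.coe_mul, mul00, mul01, mul10, mul11, a1, a2, a3, b1, b2,
      b3] <;> ring
  have h1 : Group.IsSolvable χ.ker := Group.isSolvable_of_comm hk
  exact Group.isSolvable_of_ker_le_range χ.ker.subtype χ (by simp)

/-- A subgroup of `SL₂(F)` fixing a line is solvable. -/
theorem solvable_of_fix (H : Subgroup (SL2 F)) (v : Fin 2 → F) (hv : v ≠ 0)
    (hfix : ∀ g ∈ H, ∃ c : F, g.1 *ᵥ v = c • v) : Group.IsSolvable H := by
  obtain ⟨Q0, hQ0⟩ := Cfsg.Agent.Helper41.Dk.exists_conj_borel v hv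
  have h1 := sol_comap (Cfsg.Agent.Helper41.Dk.Bor (F := F)) (MulAut.conj Q0⁻¹) bor_solvable
  apply sol_of_le H _ _ h1
  intro g hg
  rw [Subgroup.mem_comap]
  have := hQ0 g (hfix g hg)
  simpa [MulAut.conj_apply] using this

theorem nx_solvable (z : SL2 F) (hz : NonScalar z.1) : Group.IsSolvable (Nx z) :=
  nx_solvable_of_comm z (fun a ha b hb => centralizer_comm z hz a b ha hb)

theorem sl2_not_solvable [Fintype F] (h2 : (2 : F) = 0) (h4 : 4 ≤ Fintype.card F) :
    ¬ Group.IsSolvable (SL2 F) := by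
  classical
  intro hs
  obtain ⟨a, ha0, ha1⟩ : ∃ a : F, a ≠ 0 ∧ a ^ 2 ≠ 1 := by
    by_contra hcon
    push Not at hcon
    have hsub : (Finset.univ : Finset F) ⊆ {0, 1} := by
      intro a _
      by_cases ha : a = 0
      · simp [ha]
      · have h1 := hcon a ha
        have : a = 1 := eq_one_of_sq h2 a (by rw [← sq]; exact h1)
        simp [this]
    have := Finset.card_le_card hsub
    rw [Finset.card_univ] at this
    have h5 : ({0, 1} : Finset F).card ≤ 2 := Finset.card_le_two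
    omega
  have hc := Matrix.SL2.commutator_eq_top ha0 ha1
  have hnt : Nontrivial (SL2 F) := ⟨⟨u 1, 1, by
    intro h
    have := congrArg (fun g : SL2 F => g.1 0 1) h
    simp [u] at this⟩⟩
  have hlt := Group.IsSolvable.commutator_lt_top_of_nontrivial (G := SL2 F)
  rw [hc] at hlt
  exact lt_irrefl _ hlt

/-- **Maximal subgroups of `SL₂(q)`, `q ≥ 4` even**, structural form: a maximal subgroup fixes a
line, or normalises a torus, or is a subfield subgroup `SL₂(q₀)`, `q = q₀^r`, `r` prime,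
`q₀ ≠ 2`. -/
theorem coatom_struct [Fintype F] (h2 : (2 : F) = 0) (h4 : 4 ≤ Fintype.card F)
    (Mt : Subgroup (SL2 F)) (hM : IsCoatom Mt) :
    (∃ v : Fin 2 → F, v ≠ 0 ∧ ∀ g ∈ Mt, ∃ c : F, g.1 *ᵥ v = c • v) ∨
    (∃ x ∈ Mt, x.1 0 0 + x.1 1 1 ≠ 0 ∧ ∀ g ∈ Mt, g * x * g⁻¹ = x ∨ g * x * g⁻¹ = x⁻¹) ∨
    (∃ (F₀ : Type) (_ : Field F₀) (_ : Fintype F₀) (r : ℕ), r.Prime ∧ Fintype.card F₀ ≠ 2 ∧
        Fintype.card F = Fintype.card F₀ ^ r ∧ Nonempty (Mt ≃* PSL2 F₀)) := by
  classical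
  have hchar : CharP F 2 := CharTwo.of_one_ne_zero_of_two_eq_zero one_ne_zero h2
  have hcen : Subgroup.center (SL2 F) = ⊥ := Cfsg.Agent.Helper5.center_SL2_eq_bot h2
  have hSub : ∀ (c : SL2 F ≃* SL2 F) (K0 : Subfield F), K0 ≠ ⊤ →
      (∀ g ∈ Mt, c g ∈ Cfsg.Agent.Helper41.Dk.SK K0) →
      ((∃ v : Fin 2 → F, v ≠ 0 ∧ ∀ g ∈ Mt, ∃ c : F, g.1 *ᵥ v = c • v) ∨
      (∃ x ∈ Mt, x.1 0 0 + x.1 1 1 ≠ 0 ∧ ∀ g ∈ Mt, g * x * g⁻¹ = x ∨ g * x * g⁻¹ = x⁻¹) ∨
      (∃ (F₀ : Type) (_ : Field F₀) (_ : Fintype F₀) (r : ℕ), r.Prime ∧ Fintype.card F₀ ≠ 2 ∧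
        Fintype.card F = Fintype.card F₀ ^ r ∧ Nonempty (Mt ≃* PSL2 F₀))) := by
    intro c K0 hK0 hc
    rcases subfield_case h4 Mt hM c K0 hK0 hc with h | h
    · right; left; exact h
    · right; right; exact h
  have hZbot : (Subgroup.center (SL2 F)).subgroupOf Mt = ⊥ := by
    rw [hcen]; exact Subgroup.bot_subgroupOf Mt
  obtain ⟨eZ⟩ : Nonempty (Mt ⧸ (Subgroup.center (SL2 F)).subgroupOf Mt ≃* Mt) :=
    ⟨(QuotientGroup.quotientMulEquivOfEq hZbot).trans QuotientGroup.quotientBot⟩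
  rcases Cfsg.Agent.Helper41.Dk.dickson_subgroup 2 Mt (by rw [hcen]; exact bot_le) with
    hB | hT' | ⟨-, ⟨e⟩⟩ | ⟨-, ⟨e⟩⟩ | ⟨-, ⟨e⟩⟩ | ⟨Q, hQ, K0, hS⟩
  · obtain ⟨v, hv, hfix⟩ := hB
    left
    exact ⟨v, hv, fun g hg => hfix ⟨g, hg⟩⟩
  · obtain ⟨x, -, ht, hx⟩ := hT'
    right; left
    refine ⟨x.1, x.2, ?_, ?_⟩
    · intro h
      apply ht
      rw [Cfsg.Agent.Helper41.Dk.tr_eq]
      show (x.1.1 0 0 + x.1.1 1 1) ^ 2 = 4
      rw [h]
      linear_combination (-2 : F) * h2
    · intro g hg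
      rcases hx ⟨g, hg⟩ with h | h
      · left; exact congrArg Subtype.val h
      · right; exact congrArg Subtype.val h
  · obtain ⟨f⟩ : Nonempty (alternatingGroup (Fin 4) ≃* Mt) := ⟨(eZ.symm.trans e).symm⟩
    have k1 : (f a4a).1 * (f a4a).1 = 1 := by
      rw [← Subgroup.coe_mul, ← map_mul, PSL2Sub.a4_f1, map_one]; rfl
    have k2 : (f a4a).1 ≠ 1 := by
      intro h
      apply PSL2Sub.a4_f2
      apply f.injective
      rw [map_one]
      exact Subtype.ext h
    have k3 : (f (a4b * a4a * a4b⁻¹)).1 * (f (a4b * a4a * a4b⁻¹)).1 = 1 := by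
      rw [← Subgroup.coe_mul, ← map_mul, a4_inv2, map_one]; rfl
    have k4 : (f a4a).1 * (f (a4b * a4a * a4b⁻¹)).1 = (f (a4b * a4a * a4b⁻¹)).1 * (f a4a).1 := by
      rw [← Subgroup.coe_mul, ← Subgroup.coe_mul, ← map_mul, ← map_mul, PSL2Sub.a4_f4]
    have k5 : ∀ g ∈ Mt, g * (f a4a).1 * g⁻¹ = (f a4a).1 ∨
        g * (f a4a).1 * g⁻¹ = (f (a4b * a4a * a4b⁻¹)).1 ∨
        g * (f a4a).1 * g⁻¹ = (f a4a).1 * (f (a4b * a4a * a4b⁻¹)).1 := by
      intro g hg
      have h := a4_conj (f.symm ⟨g, hg⟩)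
      have key : ∀ z : alternatingGroup (Fin 4),
          f.symm ⟨g, hg⟩ * a4a * (f.symm ⟨g, hg⟩)⁻¹ = z → g * (f a4a).1 * g⁻¹ = (f z).1 := by
        intro z h1
        rw [← h1, map_mul, map_mul, map_inv, f.apply_symm_apply]
        rfl
      rcases h with h | h | h
      · left; exact key _ h
      · right; left; exact key _ h
      · right; right
        rw [key _ h, map_mul]; rfl
    obtain ⟨v, hv, hfix⟩ := fix_of_klein h2 Mt (f a4a).1 (f (a4b * a4a * a4b⁻¹)).1 k1 k2 k3 k4 k5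
    left
    exact ⟨v, hv, hfix⟩
  · exfalso
    have hinj := PSL2Sub.pr_injective_of_two h2
    exact PSL2Sub.no_S4_of_two h2 (Mt.map pr)
      ((Mt.equivMapOfInjective pr hinj).symm.trans (eZ.symm.trans e))
  · obtain ⟨f⟩ : Nonempty (alternatingGroup (Fin 5) ≃* Mt) := ⟨(eZ.symm.trans e).symm⟩
    have k1 : (f a5a).1 * (f a5a).1 = 1 := by
      rw [← Subgroup.coe_mul, ← map_mul, a5_r1, map_one]; rfl
    have k2 : (f a5a).1 ≠ 1 := by
      intro h
      apply a5_r2
      apply f.injective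
      rw [map_one]
      exact Subtype.ext h
    have k3 : (f a5b).1 * (f a5b).1 = ((f a5b).1)⁻¹ := by
      rw [← Subgroup.coe_mul, ← map_mul, a5_r3, map_inv]; rfl
    have k4 : (f a5b).1 ≠ 1 := by
      intro h
      apply a5_r4
      apply f.injective
      rw [map_one]
      exact Subtype.ext h
    have hxy : (f a5a).1 * (f a5b).1 = (f (a5a * a5b)).1 := by rw [map_mul]; rfl
    have k5 : ((f a5a).1 * (f a5b).1) * ((f a5a).1 * (f a5b).1) * ((f a5a).1 * (f a5b).1) =
        ((f a5a).1 * (f a5b).1)⁻¹ * ((f a5a).1 * (f a5b).1)⁻¹ := by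
      rw [hxy, ← Subgroup.coe_mul, ← Subgroup.coe_mul, ← map_mul, ← map_mul, a5_r5, map_mul,
        map_inv]
      rfl
    have k6 : (f a5a).1 * (f a5b).1 ≠ 1 := by
      rw [hxy]
      intro h
      apply a5_r6
      apply f.injective
      rw [map_one]
      exact Subtype.ext h
    obtain ⟨g, hgX, hgY⟩ := a5_conj h2 (f a5a).1 (f a5b).1 k1 k2 k3 k4 k5 k6
    apply hSub (MulAut.conj g) (Kfix F 2)
    · intro htop
      have h1 : ∀ x : F, x ^ 4 = x := fun x => by
        have : x ∈ Kfix F 2 := by rw [htop]; trivial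
        exact mem_Kfix_two.mp this
      have h5 := card_le_of_forall_pow 4 (by norm_num) h1
      have h6 : Fintype.card F = 4 := by omega
      apply hM.1
      apply Subgroup.eq_top_of_card_eq
      rw [Nat.card_congr f.symm.toEquiv, a5_card, Cfsg.Agent.Helper42.SL2.card_SL2, h6]
      norm_num
    · intro m hm
      have h1 : ∀ z : alternatingGroup (Fin 5),
          ((MulAut.conj g).toMonoidHom.comp (Mt.subtype.comp f.toMonoidHom)) z ∈
            Cfsg.Agent.Helper41.Dk.SK (Kfix F 2) := by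
        apply a5_gen
        · intro i j
          exact mem_Kfix_two.mpr (hgX i j)
        · intro i j
          exact mem_Kfix_two.mpr (hgY i j)
      have h3 := h1 (f.symm ⟨m, hm⟩)
      simpa using h3
  · rcases hS with h1 | ⟨lam, hlam, hlam2, -⟩
    · have hcinj := Cfsg.Agent.Helper41.conjGL_injective Q hQ
      obtain ⟨c, hcdef⟩ : ∃ c : SL2 F ≃* SL2 F, ∀ g, c g = Cfsg.Agent.Helper41.conjGL Q hQ g :=
        ⟨MulEquiv.ofBijective (Cfsg.Agent.Helper41.conjGL Q hQ)
          ⟨hcinj, Finite.injective_iff_surjective.mp hcinj⟩, fun g => rfl⟩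
      apply hSub c K0
      · rintro rfl
        apply hM.1
        apply Cfsg.Agent.Helper41.Dk.eq_top_of_range_top Mt Q hQ
        intro g
        rw [h1]
        intro i j
        trivial
      · intro g hg
        rw [hcdef]
        exact (h1 _).mp ⟨⟨g, hg⟩, rfl⟩
    · exact absurd (Cfsg.Agent.Helper41.Dk.mem_of_sq_mem_char_two h2 K0 lam hlam2) hlam

/-- If `⟨x, y⟩` is solvable in `SL₂(2^p)`, `p` prime, then `x, y` fix a common line or lie in
the normaliser of a common torus. -/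
theorem sol_cases [Fintype F] (h2 : (2 : F) = 0) (p : ℕ) (hp : p.Prime)
    (hF : Fintype.card F = 2 ^ p) (x y : SL2 F)
    (hs : Group.IsSolvable (Subgroup.closure ({x, y} : Set (SL2 F)))) :
    (∃ v : Fin 2 → F, v ≠ 0 ∧ (∃ c : F, x.1 *ᵥ v = c • v) ∧ (∃ c : F, y.1 *ᵥ v = c • v)) ∨
    (∃ z : SL2 F, z.1 0 0 + z.1 1 1 ≠ 0 ∧ x ∈ Nx z ∧ y ∈ Nx z) := by
  classical
  have h4 : 4 ≤ Fintype.card F := by
    rw [hF]
    calc 4 = 2 ^ 2 := by norm_num
      _ ≤ 2 ^ p := Nat.pow_le_pow_right (by norm_num) hp.two_le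
  have hne : Subgroup.closure ({x, y} : Set (SL2 F)) ≠ ⊤ := by
    intro htop
    apply sl2_not_solvable h2 h4
    rw [htop] at hs
    exact sol_of_equiv Subgroup.topEquiv.symm hs
  obtain ⟨M, hM, hle⟩ := (eq_top_or_exists_le_coatom _).resolve_left hne
  have hxM : x ∈ M := hle (Subgroup.subset_closure (by simp))
  have hyM : y ∈ M := hle (Subgroup.subset_closure (by simp))
  rcases coatom_struct h2 h4 M hM with ⟨v, hv, hfix⟩ | ⟨z, -, hz, hN⟩ |
    ⟨F₀, i1, i2, r, hr, hF0, hcard, -⟩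
  · left
    exact ⟨v, hv, hfix x hxM, hfix y hyM⟩
  · right
    exact ⟨z, hz, hN x hxM, hN y hyM⟩
  · exfalso
    rw [hF] at hcard
    have hdvd : Fintype.card F₀ ∣ 2 ^ p := by
      rw [hcard]
      exact dvd_pow_self _ hr.pos.ne'
    obtain ⟨j, hj, hj2⟩ := (Nat.dvd_prime_pow Nat.prime_two).1 hdvd
    rw [hj2, ← pow_mul] at hcard
    have hjr : p = j * r := Nat.pow_right_injective (le_refl 2) hcard
    have hrp : r ∣ p := Dvd.intro_left _ hjr.symm
    have hrp' : r = p := (Nat.prime_dvd_prime_iff_eq hr hp).mp hrp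
    have hj1 : j = 1 := by
      rw [hrp'] at hjr
      have hp0 := hp.pos
      nlinarith
    apply hF0
    rw [hj2, hj1, pow_one]

end sl2

section count

variable {F : Type u} [Field F] [Fintype F]

/-- The elements of `SL₂(F)` with non-zero lower left entry and lower right entry prescribed by
the first column. -/
theorem card_graph (f : F → F → F) :
    Nat.card {y : SL2 F // y.1 1 0 ≠ 0 ∧ y.1 1 1 = f (y.1 0 0) (y.1 1 0)} =
      Fintype.card F * (Fintype.card F - 1) := by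
  classical
  have e : Nat.card {y : SL2 F // y.1 1 0 ≠ 0 ∧ y.1 1 1 = f (y.1 0 0) (y.1 1 0)} =
      Nat.card (F × Fˣ) := by
    apply Nat.card_congr
    refine Equiv.ofBijective
      (fun y => ((y.1.1 0 0, Units.mk0 (y.1.1 1 0) y.2.1) : F × Fˣ)) ⟨?_, ?_⟩
    · intro a b hab
      have h1 : a.1.1 0 0 = b.1.1 0 0 := congrArg (fun t : F × Fˣ => t.1) hab
      have h3 : a.1.1 1 0 = b.1.1 1 0 := congrArg (fun t : F × Fˣ => (t.2 : F)) hab
      have h4 : a.1.1 1 1 = b.1.1 1 1 := by rw [a.2.2, b.2.2, h1, h3]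
      have ha := det1 a.1
      have hb := det1 b.1
      have h5 : (a.1.1 0 1 - b.1.1 0 1) * a.1.1 1 0 = 0 := by
        linear_combination (-1 : F) * ha + hb + a.1.1 1 1 * h1 + b.1.1 0 0 * h4 - b.1.1 0 1 * h3
      have h6 : a.1.1 0 1 = b.1.1 0 1 :=
        sub_eq_zero.mp ((mul_eq_zero.mp h5).resolve_right a.2.1)
      apply Subtype.ext
      exact sl_ext _ _ h1 h6 h3 h4
    · rintro ⟨a, c⟩
      refine ⟨⟨mk a ((a * f a c - 1) / c) c (f a c) (by
        rw [div_mul_cancel₀ _ c.ne_zero]; ring), ⟨?_, ?_⟩⟩, ?_⟩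
      · rw [mk10]; exact c.ne_zero
      · rw [mk11, mk00, mk10]
      · exact Prod.ext rfl (Units.ext rfl)
  rw [e, Nat.card_prod, Nat.card_units, Nat.card_eq_fintype_card]

theorem sq_one_of_tr (h2 : (2 : F) = 0) (g : SL2 F) (h : g.1 0 0 + g.1 1 1 = 0) : g * g = 1 := by
  apply Subtype.ext
  rw [Matrix.SpecialLinearGroup.coe_mul, sl2_sq]
  have h0 : tr2 g = 0 := h
  rw [h0, zero_smul, zero_sub]
  apply mat_ext <;> simp
  · linear_combination (-1 : F) * h2
  · linear_combination (-1 : F) * h2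

theorem tr_of_sq_one (h2 : (2 : F) = 0) (g : SL2 F) (h : g * g = 1) : g.1 0 0 + g.1 1 1 = 0 := by
  rw [diag_of_involution h2 g h]
  linear_combination g.1 0 0 * h2

/-- If `x` (not an involution) and `y` normalise a common torus `C(z)`, then `y` normalises
`C(x)`. -/
theorem nx_trans (h2 : (2 : F) = 0) (x z y : SL2 F) (hx : x.1 0 0 + x.1 1 1 ≠ 0)
    (hz : z.1 0 0 + z.1 1 1 ≠ 0) (hxz : x ∈ Nx z) (hyz : y ∈ Nx z) : y ∈ Nx x := by
  have hzns := nonScalar_of_tr h2 z hz
  have hxns := nonScalar_of_tr h2 x hx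
  rcases hxz with h | h
  · have hxc : x ∈ Subgroup.centralizer ({z} : Set (SL2 F)) := mem_cent_iff.mpr h
    rcases hyz with h' | h'
    · left
      have heq := centralizer_eq_of_mem z x hzns hxc hxns
      have hy : y ∈ Subgroup.centralizer ({x} : Set (SL2 F)) := by
        rw [heq]; exact mem_cent_iff.mpr h'
      exact mem_cent_iff.mp hy
    · right
      exact inverts_conj y z x hzns h' hxc
  · exfalso
    have h5 := inverts_sq x z hzns h
    have hxx : x * x = 1 := by
      apply Subtype.ext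
      rw [Matrix.SpecialLinearGroup.coe_mul, h5]
      apply mat_ext <;> simp
      · linear_combination (-1 : F) * h2
      · linear_combination (-1 : F) * h2
    exact hx (tr_of_sq_one h2 x hxx)

/-- Lower triangular matrices. -/
def Low (F : Type u) [Field F] : Subgroup (SL2 F) where
  carrier := {g | g.1 0 1 = 0}
  mul_mem' := fun {a b} ha hb => by
    show (a * b).1 0 1 = 0
    rw [mul01, show a.1 0 1 = 0 from ha, show b.1 0 1 = 0 from hb]; ring
  one_mem' := by
    show (1 : SL2 F).1 0 1 = 0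
    exact one01
  inv_mem' := fun {a} ha => by
    show (a⁻¹).1 0 1 = 0
    rw [inv01, show a.1 0 1 = 0 from ha, neg_zero]

theorem low_solvable : Group.IsSolvable (Low F) := by
  apply solvable_of_fix (Low F) ![0, 1]
  · intro h
    have := congrFun h 1
    simp at this
  · intro g hg
    refine ⟨g.1 1 1, ?_⟩
    have h01 : g.1 0 1 = 0 := hg
    ext i
    fin_cases i <;> simp [Matrix.mulVec, dotProduct, Fin.sum_univ_two, h01]

theorem sol_u_iff (h2 : (2 : F) = 0) (p : ℕ) (hp : p.Prime) (hF : Fintype.card F = 2 ^ p)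
    (y : SL2 F) :
    Group.IsSolvable (Subgroup.closure ({u 1, y} : Set (SL2 F))) ↔
      (y.1 1 0 = 0 ∨ ((y.1 1 0 ≠ 0 ∧ y.1 1 1 = y.1 0 0) ∨
        (y.1 1 0 ≠ 0 ∧ y.1 1 1 = y.1 0 0 + y.1 1 0))) := by
  have hxx : u (1 : F) * u 1 = 1 := u_mul_self h2 1
  have hxi : (u (1 : F))⁻¹ = u 1 := inv_eq_of_mul_eq_one_right hxx
  constructor
  · intro hs
    by_cases hc : y.1 1 0 = 0
    · left; exact hc
    right
    rcases sol_cases h2 p hp hF (u 1) y hs with ⟨v, hv, ⟨c, hxc⟩, ⟨c', hyc⟩⟩ | ⟨z, hz, hxz, hyz⟩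
    · exfalso
      apply hc
      have e0 := congrFun hxc 0
      have e1 := congrFun hxc 1
      have f1 := congrFun hyc 1
      simp [Matrix.mulVec, dotProduct, Fin.sum_univ_two, u] at e0 e1
      simp only [Matrix.mulVec, dotProduct, Fin.sum_univ_two, Pi.smul_apply, smul_eq_mul] at f1
      have hv1 : v 1 = 0 := by
        by_contra h1
        have hc1 : c = 1 := by
          have h3 : (c - 1) * v 1 = 0 := by linear_combination -e1
          exact sub_eq_zero.mp ((mul_eq_zero.mp h3).resolve_right h1)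
        rw [hc1] at e0
        apply h1
        linear_combination e0
      have hv0 : v 0 ≠ 0 := by
        intro h0
        apply hv
        ext i
        fin_cases i
        · exact h0
        · exact hv1
      rw [hv1] at f1
      have h3 : y.1 1 0 * v 0 = 0 := by linear_combination f1
      exact (mul_eq_zero.mp h3).resolve_right hv0
    · have hzns := nonScalar_of_tr h2 z hz
      rcases hxz with hx | hx
      · exfalso
        have h6 : u 1 * z = z * u 1 := by
          calc u 1 * z = u 1 * z * (u 1)⁻¹ * u 1 := by group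
            _ = z * u 1 := by rw [hx]
        have e00 := congrArg (fun g : SL2 F => g.1 0 0) h6
        have e01 := congrArg (fun g : SL2 F => g.1 0 1) h6
        simp only [mul00, mul01, u, mk00, mk01, mk10, mk11] at e00 e01
        apply hz
        linear_combination e01 + z.1 0 0 * h2
      · rcases hyz with hy | hy
        · right
          refine ⟨hc, ?_⟩
          have hyc : y ∈ Subgroup.centralizer ({z} : Set (SL2 F)) := mem_cent_iff.mpr hy
          have h5 := inverts_conj (u 1) z y hzns hx hyc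
          have h6 : u 1 * y = y⁻¹ * u 1 := by
            calc u 1 * y = u 1 * y * (u 1)⁻¹ * u 1 := by group
              _ = y⁻¹ * u 1 := by rw [h5]
          have e := congrArg (fun g : SL2 F => g.1 1 1) h6
          simp only [mul11, inv10, inv11, u, mk00, mk01, mk10, mk11] at e
          linear_combination e - y.1 1 0 * h2
        · left
          refine ⟨hc, ?_⟩
          have h5 := inverts_sq y z hzns hy
          have hyy : y * y = 1 := by
            apply Subtype.ext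
            rw [Matrix.SpecialLinearGroup.coe_mul, h5]
            apply mat_ext <;> simp
            · linear_combination (-1 : F) * h2
            · linear_combination (-1 : F) * h2
          exact diag_of_involution h2 y hyy
  · rintro (hc | ⟨hc, hd⟩ | ⟨hc, hd⟩)
    · apply sol_of_le _ (Cfsg.Agent.Helper41.Dk.Bor (F := F)) _ bor_solvable
      rw [Subgroup.closure_le]
      rintro t (rfl | rfl)
      · show (u (1 : F)).1 1 0 = 0
        rfl
      · exact hc
    · have hyy : y * y = 1 := by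
        apply sq_one_of_tr h2
        rw [hd]
        linear_combination y.1 0 0 * h2
      have hyi : y⁻¹ = y := inv_eq_of_mul_eq_one_right hyy
      have htr : (u 1 * y).1 0 0 + (u 1 * y).1 1 1 ≠ 0 := by
        simp only [mul00, mul11, u, mk00, mk01, mk10, mk11]
        intro h
        apply hc
        rw [hd] at h
        linear_combination h - y.1 0 0 * h2
      have hx : u 1 * (u 1 * y) * (u 1)⁻¹ = (u 1 * y)⁻¹ := by
        rw [_root_.mul_inv_rev, hxi, hyi, ← mul_assoc, hxx, one_mul]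
      have hy : y * (u 1 * y) * y⁻¹ = (u 1 * y)⁻¹ := by
        rw [_root_.mul_inv_rev, hxi, hyi, mul_assoc, mul_assoc, hyy, mul_one]
      apply sol_of_le _ (Nx (u 1 * y)) _ (nx_solvable _ (nonScalar_of_tr h2 _ htr))
      rw [Subgroup.closure_le]
      rintro t (rfl | rfl)
      · exact Or.inr hx
      · exact Or.inr hy
    · have htr : y.1 0 0 + y.1 1 1 ≠ 0 := by
        intro h
        apply hc
        rw [hd] at h
        linear_combination h - y.1 0 0 * h2
      have hzz : (u 1 * y) * (u 1 * y) = 1 := by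
        apply sq_one_of_tr h2
        simp only [mul00, mul11, u, mk00, mk01, mk10, mk11]
        rw [hd]
        linear_combination (y.1 0 0 + y.1 1 0) * h2
      have hx : u 1 * y * (u 1)⁻¹ = y⁻¹ := by
        rw [hxi]
        apply eq_inv_of_mul_eq_one_left
        rw [mul_assoc, mul_assoc, ← mul_assoc (u 1) y]
        rw [← mul_assoc] at hzz ⊢
        rw [mul_assoc (u 1 * y) (u 1) y]
        rw [mul_assoc] at hzz
        exact hzz
      apply sol_of_le _ (Nx y) _ (nx_solvable _ (nonScalar_of_tr h2 _ htr))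
      rw [Subgroup.closure_le]
      rintro t (rfl | rfl)
      · exact Or.inr hx
      · left; group

theorem sol_dg_iff (h2 : (2 : F) = 0) (p : ℕ) (hp : p.Prime) (hF : Fintype.card F = 2 ^ p)
    (a : F) (ha : a ≠ 0) (ha1 : a ≠ a⁻¹) (y : SL2 F) :
    Group.IsSolvable (Subgroup.closure ({dg a ha, y} : Set (SL2 F))) ↔
      (y.1 1 0 = 0 ∨ (y.1 1 0 ≠ 0 ∧ y.1 1 1 = (y.1 0 0)⁻¹)) := by
  have hdet := det1 y
  have hns : NonScalar (dg a ha).1 := fun h => ha1 h.2.2
  have htrx : (dg a ha).1 0 0 + (dg a ha).1 1 1 ≠ 0 := by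
    show a + a⁻¹ ≠ 0
    intro h
    apply ha1
    linear_combination h - a⁻¹ * h2
  constructor
  · intro hs
    by_cases hc : y.1 1 0 = 0
    · left; exact hc
    right
    refine ⟨hc, ?_⟩
    rcases sol_cases h2 p hp hF (dg a ha) y hs with ⟨v, hv, ⟨c, hxc⟩, ⟨c', hyc⟩⟩ |
      ⟨z, hz, hxz, hyz⟩
    · have e0 := congrFun hxc 0
      have e1 := congrFun hxc 1
      have f0 := congrFun hyc 0
      have f1 := congrFun hyc 1
      simp [Matrix.mulVec, dotProduct, Fin.sum_univ_two, dg] at e0 e1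
      simp only [Matrix.mulVec, dotProduct, Fin.sum_univ_two, Pi.smul_apply, smul_eq_mul] at f0 f1
      by_cases hv0 : v 0 = 0
      · have hv1 : v 1 ≠ 0 := by
          intro h1
          apply hv
          ext i
          fin_cases i
          · exact hv0
          · exact h1
        rw [hv0] at f0
        have h3 : y.1 0 1 * v 1 = 0 := by linear_combination f0
        have h01 : y.1 0 1 = 0 := (mul_eq_zero.mp h3).resolve_right hv1
        rw [h01] at hdet
        exact eq_inv_of_mul_eq_one_right (by linear_combination hdet)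
      · exfalso
        by_cases hv1 : v 1 = 0
        · rw [hv1] at f1
          have h3 : y.1 1 0 * v 0 = 0 := by linear_combination f1
          exact hc ((mul_eq_zero.mp h3).resolve_right hv0)
        · apply ha1
          rcases e0 with h | h
          · rcases e1 with h' | h'
            · exact h.trans h'.symm
            · exact absurd h' hv1
          · exact absurd h hv0
    · have hy := nx_trans h2 (dg a ha) z y htrx hz hxz hyz
      rcases hy with h | h
      · exfalso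
        have h6 : y * dg a ha = dg a ha * y := by
          calc y * dg a ha = y * dg a ha * y⁻¹ * y := by group
            _ = dg a ha * y := by rw [h]
        have e := congrArg (fun g : SL2 F => g.1 1 0) h6
        simp only [mul10, dg, mk00, mk01, mk10, mk11] at e
        have h3 : y.1 1 0 * (a - a⁻¹) = 0 := by linear_combination e
        rcases mul_eq_zero.mp h3 with h4 | h4
        · exact hc h4
        · exact ha1 (sub_eq_zero.mp h4)
      · have h6 : y * dg a ha = (dg a ha)⁻¹ * y := by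
          calc y * dg a ha = y * dg a ha * y⁻¹ * y := by group
            _ = (dg a ha)⁻¹ * y := by rw [h]
        have e00 := congrArg (fun g : SL2 F => g.1 0 0) h6
        have e11 := congrArg (fun g : SL2 F => g.1 1 1) h6
        simp only [mul00, mul11, inv00, inv01, inv10, inv11, dg, mk00, mk01, mk10, mk11] at e00 e11
        have h3 : y.1 0 0 * (a - a⁻¹) = 0 := by linear_combination e00
        have h4 : y.1 1 1 * (a - a⁻¹) = 0 := by linear_combination (-1 : F) * e11
        have hne : a - a⁻¹ ≠ 0 := fun h => ha1 (sub_eq_zero.mp h)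
        rw [(mul_eq_zero.mp h3).resolve_right hne, (mul_eq_zero.mp h4).resolve_right hne, _root_.inv_zero]
  · rintro (hc | ⟨hc, hd⟩)
    · apply sol_of_le _ (Cfsg.Agent.Helper41.Dk.Bor (F := F)) _ bor_solvable
      rw [Subgroup.closure_le]
      rintro t (rfl | rfl)
      · show (dg a ha).1 1 0 = 0
        rfl
      · exact hc
    · by_cases h0 : y.1 0 0 = 0
      · have h11 : y.1 1 1 = 0 := by rw [hd, h0, _root_.inv_zero]
        rw [h0, h11] at hdet
        have hy : y * dg a ha * y⁻¹ = (dg a ha)⁻¹ := by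
          apply sl_ext <;>
            simp only [mul00, mul01, mul10, mul11, inv00, inv01, inv10, inv11, dg, mk00, mk01,
              mk10, mk11, h0, h11] <;>
            first | ring1 | linear_combination a⁻¹ * hdet | linear_combination a * hdet
        apply sol_of_le _ (Nx (dg a ha)) _ (nx_solvable _ hns)
        rw [Subgroup.closure_le]
        rintro t (rfl | rfl)
        · left; group
        · exact Or.inr hy
      · have h01 : y.1 0 1 = 0 := by
          have h3 : y.1 0 0 * y.1 1 1 = 1 := by rw [hd]; exact mul_inv_cancel₀ h0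
          have h4 : y.1 0 1 * y.1 1 0 = 0 := by linear_combination h3 - hdet
          exact (mul_eq_zero.mp h4).resolve_right hc
        apply sol_of_le _ (Low F) _ low_solvable
        rw [Subgroup.closure_le]
        rintro t (rfl | rfl)
        · show (dg a ha).1 0 1 = 0
          rfl
        · exact h01

theorem sol_ns_iff (h2 : (2 : F) = 0) (p : ℕ) (hp : p.Prime) (hF : Fintype.card F = 2 ^ p)
    (x : SL2 F) (htr : x.1 0 0 + x.1 1 1 ≠ 0)
    (hno : ∀ m : F, m ^ 2 + (x.1 0 0 + x.1 1 1) * m + 1 ≠ 0) (y : SL2 F) :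
    Group.IsSolvable (Subgroup.closure ({x, y} : Set (SL2 F))) ↔ y ∈ Nx x := by
  constructor
  · intro hs
    rcases sol_cases h2 p hp hF x y hs with ⟨v, hv, ⟨c, hxc⟩, -⟩ | ⟨z, hz, hxz, hyz⟩
    · exfalso
      have e0 := congrFun hxc 0
      have e1 := congrFun hxc 1
      simp only [Matrix.mulVec, dotProduct, Fin.sum_univ_two, Pi.smul_apply, smul_eq_mul] at e0 e1
      have hdet := det1 x
      have hd0 : ((x.1 0 0 - c) * (x.1 1 1 - c) - x.1 0 1 * x.1 1 0) * v 0 = 0 := by
        linear_combination (x.1 1 1 - c) * e0 - x.1 0 1 * e1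
      have hd1 : ((x.1 0 0 - c) * (x.1 1 1 - c) - x.1 0 1 * x.1 1 0) * v 1 = 0 := by
        linear_combination (x.1 0 0 - c) * e1 - x.1 1 0 * e0
      have hD : (x.1 0 0 - c) * (x.1 1 1 - c) - x.1 0 1 * x.1 1 0 = 0 := by
        by_contra hne
        apply hv
        ext i
        fin_cases i
        · exact (mul_eq_zero.mp hd0).resolve_left hne
        · exact (mul_eq_zero.mp hd1).resolve_left hne
      apply hno c
      linear_combination hD - hdet + (x.1 0 0 + x.1 1 1) * c * h2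
    · exact nx_trans h2 x z y htr hz hxz hyz
  · intro hy
    apply sol_of_le _ (Nx x) _ (nx_solvable _ (nonScalar_of_tr h2 _ htr))
    rw [Subgroup.closure_le]
    rintro t (rfl | rfl)
    · left; group
    · exact hy

theorem card_quadric_add (h2 : (2 : F) = 0) (τ : F) (hτ : τ ≠ 0) :
    Nat.card {v : F × F // v.1 ^ 2 + τ * v.1 * v.2 + v.2 ^ 2 = 1} +
      Nat.card {m : F // m ^ 2 + τ * m + 1 = 0} = Fintype.card F + 1 := by
  classical
  rw [Nat.card_congr (quadEquiv h2 τ hτ)]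
  have h1 : Nat.card (Option {m : F // m ^ 2 + τ * m + 1 ≠ 0}) =
      Nat.card {m : F // m ^ 2 + τ * m + 1 ≠ 0} + 1 := by
    rw [Nat.card_eq_fintype_card, Nat.card_eq_fintype_card, Fintype.card_option]
  have h3 : Nat.card {m : F // m ^ 2 + τ * m + 1 ≠ 0} =
      Fintype.card F - Nat.card {m : F // m ^ 2 + τ * m + 1 = 0} := by
    rw [Nat.card_eq_fintype_card, Nat.card_eq_fintype_card]
    exact Fintype.card_subtype_compl _
  have h4 : Nat.card {m : F // m ^ 2 + τ * m + 1 = 0} ≤ Fintype.card F := by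
    rw [Nat.card_eq_fintype_card]
    exact Fintype.card_subtype_le _
  rw [h1, h3]
  omega

theorem two_pow_split (p : ℕ) (hp : p.Prime) : ∃ k : ℕ, 1 ≤ k ∧ 2 ^ p = 2 * k := by
  obtain ⟨j, rfl⟩ : ∃ j, p = j + 1 := ⟨p - 1, by have := hp.pos; omega⟩
  exact ⟨2 ^ j, Nat.one_le_two_pow, by rw [pow_succ]; ring⟩

/-- An element of order dividing both `2` and an odd number is trivial. -/
theorem order_aux (d k : ℕ) (hk : 1 ≤ k) (h1 : d ∣ 2) (h2 : d ∣ 2 * k - 1 ∨ d ∣ 2 * k + 1) :
    d = 1 := by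
  rcases (Nat.dvd_prime Nat.prime_two).mp h1 with h | h
  · exact h
  · exfalso
    subst h
    rcases h2 with ⟨j, hj⟩ | ⟨j, hj⟩ <;> omega

theorem tr_ne_of_order (h2 : (2 : F) = 0) (k : ℕ) (hk : 1 ≤ k) (x : SL2 F) (hx1 : x ≠ 1)
    (hord : orderOf x ∣ 2 * k - 1 ∨ orderOf x ∣ 2 * k + 1) : x.1 0 0 + x.1 1 1 ≠ 0 := by
  intro h
  have hxx := sq_one_of_tr h2 x h
  have h3 : orderOf x ∣ 2 := orderOf_dvd_of_pow_eq_one (by rw [sq]; exact hxx)
  exact hx1 (orderOf_eq_one_iff.mp (order_aux _ k hk h3 hord))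

theorem order_dvd_quadric (h2 : (2 : F) = 0) (x : SL2 F) (htr : x.1 0 0 + x.1 1 1 ≠ 0) :
    orderOf x ∣ Nat.card {v : F × F // v.1 ^ 2 + (x.1 0 0 + x.1 1 1) * v.1 * v.2 + v.2 ^ 2 = 1} := by
  rw [← Cfsg.Agent.Helper42.SL2.card_centralizer x (nonScalar_of_tr h2 x htr)]
  have hx : x ∈ Subgroup.centralizer ({x} : Set (SL2 F)) := by
    rw [mem_cent_iff]; group
  have h := orderOf_dvd_natCard (⟨x, hx⟩ : Subgroup.centralizer ({x} : Set (SL2 F)))
  rwa [Subgroup.orderOf_mk] at h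

theorem exists_root_of_order (h2 : (2 : F) = 0) (p : ℕ) (hp : p.Prime)
    (hF : Fintype.card F = 2 ^ p) (x : SL2 F) (hx1 : x ≠ 1) (hord : orderOf x ∣ 2 ^ p - 1) :
    x.1 0 0 + x.1 1 1 ≠ 0 ∧ ∃ m : F, m ^ 2 + (x.1 0 0 + x.1 1 1) * m + 1 = 0 := by
  obtain ⟨k, hk, hk2⟩ := two_pow_split p hp
  rw [hk2] at hord
  have htr := tr_ne_of_order h2 k hk x hx1 (Or.inl hord)
  refine ⟨htr, ?_⟩
  by_contra hno
  push Not at hno
  have hq := card_quadric_add h2 _ htr
  have hdvd := order_dvd_quadric h2 x htr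
  have h0 : Nat.card {m : F // m ^ 2 + (x.1 0 0 + x.1 1 1) * m + 1 = 0} = 0 := by
    have : IsEmpty {m : F // m ^ 2 + (x.1 0 0 + x.1 1 1) * m + 1 = 0} := ⟨fun m => hno m.1 m.2⟩
    exact Nat.card_of_isEmpty
  rw [h0, hF, hk2, add_zero] at hq
  rw [hq] at hdvd
  have h3 : orderOf x ∣ 2 := by
    have := Nat.dvd_sub hdvd hord
    have e : 2 * k + 1 - (2 * k - 1) = 2 := by omega
    rwa [e] at this
  exact hx1 (orderOf_eq_one_iff.mp (order_aux _ k hk h3 (Or.inl hord)))

theorem no_root_of_order (h2 : (2 : F) = 0) (p : ℕ) (hp : p.Prime)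
    (hF : Fintype.card F = 2 ^ p) (x : SL2 F) (hx1 : x ≠ 1) (hord : orderOf x ∣ 2 ^ p + 1) :
    x.1 0 0 + x.1 1 1 ≠ 0 ∧ ∀ m : F, m ^ 2 + (x.1 0 0 + x.1 1 1) * m + 1 ≠ 0 := by
  obtain ⟨k, hk, hk2⟩ := two_pow_split p hp
  rw [hk2] at hord
  have htr := tr_ne_of_order h2 k hk x hx1 (Or.inr hord)
  refine ⟨htr, ?_⟩
  intro m hm
  have hq := card_quadric_add h2 _ htr
  have hdvd := order_dvd_quadric h2 x htr
  have h0 : Nat.card {m : F // m ^ 2 + (x.1 0 0 + x.1 1 1) * m + 1 = 0} = 2 := by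
    rcases card_roots h2 _ htr with h | h
    · exfalso
      have : Nonempty {m : F // m ^ 2 + (x.1 0 0 + x.1 1 1) * m + 1 = 0} := ⟨⟨m, hm⟩⟩
      have := Nat.card_pos (α := {m : F // m ^ 2 + (x.1 0 0 + x.1 1 1) * m + 1 = 0})
      omega
    · exact h
  rw [h0, hF, hk2] at hq
  have hq' : Nat.card {v : F × F // v.1 ^ 2 + (x.1 0 0 + x.1 1 1) * v.1 * v.2 + v.2 ^ 2 = 1} =
      2 * k - 1 := by omega
  rw [hq'] at hdvd
  have h3 : orderOf x ∣ 2 := by
    have := Nat.dvd_sub hord hdvd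
    have e : 2 * k + 1 - (2 * k - 1) = 2 := by omega
    rwa [e] at this
  exact hx1 (orderOf_eq_one_iff.mp (order_aux _ k hk h3 (Or.inr hord)))

/-- A non-involution of `SL₂(F)` (characteristic two) with an eigenvalue in `F` is
diagonalisable. -/
theorem exists_conj_dg (h2 : (2 : F) = 0) (x : SL2 F) (htr : x.1 0 0 + x.1 1 1 ≠ 0) (m : F)
    (hm : m ^ 2 + (x.1 0 0 + x.1 1 1) * m + 1 = 0) :
    ∃ (g : SL2 F) (a : F) (ha : a ≠ 0), a ≠ a⁻¹ ∧ g * x * g⁻¹ = dg a ha := by
  have hdet := det1 x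
  obtain ⟨v, hv, hxv⟩ : ∃ v : Fin 2 → F, v ≠ 0 ∧ x.1 *ᵥ v = m • v := by
    by_cases hb : x.1 0 1 = 0 ∧ m = x.1 0 0
    · refine ⟨![m - x.1 1 1, x.1 1 0], ?_, ?_⟩
      · intro h
        have h0 := congrFun h 0
        simp at h0
        apply htr
        rw [hb.2] at h0
        linear_combination h0 + x.1 1 1 * h2
      · ext i
        fin_cases i
        · simp [Matrix.mulVec, dotProduct, Fin.sum_univ_two]
          linear_combination (-1 : F) * hdet + (-1 : F) * hm + (x.1 0 0 + x.1 1 1) * m * h2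
        · simp [Matrix.mulVec, dotProduct, Fin.sum_univ_two]
          ring
    · refine ⟨![x.1 0 1, m - x.1 0 0], ?_, ?_⟩
      · intro h
        apply hb
        have h0 := congrFun h 0
        have h1 := congrFun h 1
        simp at h0 h1
        exact ⟨h0, sub_eq_zero.mp h1⟩
      · ext i
        fin_cases i
        · simp [Matrix.mulVec, dotProduct, Fin.sum_univ_two]
          ring
        · simp [Matrix.mulVec, dotProduct, Fin.sum_univ_two]
          linear_combination (-1 : F) * hdet + (-1 : F) * hm + (x.1 0 0 + x.1 1 1) * m * h2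
  obtain ⟨Q0, hQ0⟩ := Cfsg.Agent.Helper41.Dk.exists_conj_borel v hv
  have h10 : (Q0⁻¹ * x * Q0).1 1 0 = 0 := hQ0 x ⟨m, hxv⟩
  obtain ⟨x1, hx1def⟩ : ∃ x1 : SL2 F, x1 = Q0⁻¹ * x * Q0 := ⟨_, rfl⟩
  rw [← hx1def] at h10
  have htr1 : x1.1 0 0 + x1.1 1 1 = x.1 0 0 + x.1 1 1 := by
    have h : Matrix.trace x1.1 = Matrix.trace x.1 := by
      rw [hx1def, Matrix.SpecialLinearGroup.coe_mul, Matrix.SpecialLinearGroup.coe_mul,
        Matrix.trace_mul_comm, ← Matrix.mul_assoc, ← Matrix.SpecialLinearGroup.coe_mul,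
        mul_inv_cancel, Matrix.SpecialLinearGroup.coe_one, Matrix.one_mul]
    rw [Matrix.trace_fin_two, Matrix.trace_fin_two] at h
    exact h
  have hd1 := det1 x1
  rw [h10, mul_zero, sub_zero] at hd1
  have ha : x1.1 0 0 ≠ 0 := by
    intro h
    rw [h, zero_mul] at hd1
    exact zero_ne_one hd1
  have h11 : x1.1 1 1 = (x1.1 0 0)⁻¹ := eq_inv_of_mul_eq_one_right hd1
  have hsum : x1.1 0 0 + (x1.1 0 0)⁻¹ ≠ 0 := by
    rw [← h11, htr1]; exact htr
  have ha1 : x1.1 0 0 ≠ (x1.1 0 0)⁻¹ := by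
    intro h
    apply hsum
    rw [← h]
    linear_combination x1.1 0 0 * h2
  obtain ⟨s, hs⟩ : ∃ s : F, s * (x1.1 0 0 + (x1.1 0 0)⁻¹) = x1.1 0 1 :=
    ⟨x1.1 0 1 / (x1.1 0 0 + (x1.1 0 0)⁻¹), div_mul_cancel₀ _ hsum⟩
  refine ⟨u s * Q0⁻¹, x1.1 0 0, ha, ha1, ?_⟩
  have e : u s * Q0⁻¹ * x * (u s * Q0⁻¹)⁻¹ = u s * x1 * (u s)⁻¹ := by
    rw [hx1def]; group
  rw [e]
  apply sl_ext <;>
    simp only [mul00, mul01, mul10, mul11, inv00, inv01, inv10, inv11, u, dg, mk00, mk01, mk10,
      mk11, h10, h11] <;>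
    first | ring1 | linear_combination (-1 : F) * hs + s * (x1.1 0 0)⁻¹ * h2

theorem count_u (h2 : (2 : F) = 0) (p : ℕ) (hp : p.Prime) (hF : Fintype.card F = 2 ^ p) :
    Nat.card {y : SL2 F // Group.IsSolvable (Subgroup.closure ({u 1, y} : Set (SL2 F)))} =
      3 * 2 ^ p * (2 ^ p - 1) := by
  rw [Nat.card_congr (Equiv.subtypeEquivRight (fun y => sol_u_iff h2 p hp hF y))]
  rw [card_or, card_or]
  · have h1 : Nat.card {y : SL2 F // y.1 1 0 = 0} = Fintype.card F * (Fintype.card F - 1) :=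
      Cfsg.Agent.Helper41.Dk.card_Bor (F := F)
    rw [h1, card_graph (fun a _ => a), card_graph (fun a c => a + c), hF]
    ring
  · rintro y ⟨hc, hd⟩ ⟨-, hd'⟩
    apply hc
    linear_combination hd - hd'
  · rintro y hc (⟨hc', -⟩ | ⟨hc', -⟩) <;> exact hc' hc

theorem count_dg (h2 : (2 : F) = 0) (p : ℕ) (hp : p.Prime) (hF : Fintype.card F = 2 ^ p)
    (a : F) (ha : a ≠ 0) (ha1 : a ≠ a⁻¹) :
    Nat.card {y : SL2 F // Group.IsSolvable (Subgroup.closure ({dg a ha, y} : Set (SL2 F)))} =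
      2 * 2 ^ p * (2 ^ p - 1) := by
  rw [Nat.card_congr (Equiv.subtypeEquivRight (fun y => sol_dg_iff h2 p hp hF a ha ha1 y))]
  rw [card_or]
  · have h1 : Nat.card {y : SL2 F // y.1 1 0 = 0} = Fintype.card F * (Fintype.card F - 1) :=
      Cfsg.Agent.Helper41.Dk.card_Bor (F := F)
    rw [h1, card_graph (fun a _ => a⁻¹), hF]
    ring
  · rintro y hc ⟨hc', -⟩
    exact hc' hc

theorem count_ns (h2 : (2 : F) = 0) (p : ℕ) (hp : p.Prime) (hF : Fintype.card F = 2 ^ p)
    (x : SL2 F) (htr : x.1 0 0 + x.1 1 1 ≠ 0)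
    (hno : ∀ m : F, m ^ 2 + (x.1 0 0 + x.1 1 1) * m + 1 ≠ 0) :
    Nat.card {y : SL2 F // Group.IsSolvable (Subgroup.closure ({x, y} : Set (SL2 F)))} =
      2 * (2 ^ p + 1) := by
  rw [Nat.card_congr (Equiv.subtypeEquivRight (fun y => sol_ns_iff h2 p hp hF x htr hno y))]
  obtain ⟨t, ht⟩ := exists_inverter h2 x
  have h1 : Nat.card {y : SL2 F // y ∈ Nx x} = Nat.card (Nx x) := rfl
  rw [h1, card_Nx x t (ne_inv_of_tr h2 x htr) ht,
    Cfsg.Agent.Helper42.SL2.card_centralizer x (nonScalar_of_tr h2 x htr)]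
  have hq := card_quadric_add h2 _ htr
  have h0 : Nat.card {m : F // m ^ 2 + (x.1 0 0 + x.1 1 1) * m + 1 = 0} = 0 := by
    have : IsEmpty {m : F // m ^ 2 + (x.1 0 0 + x.1 1 1) * m + 1 = 0} := ⟨fun m => hno m.1 m.2⟩
    exact Nat.card_of_isEmpty
  rw [h0, add_zero, hF] at hq
  rw [hq]

/-- **Solubilizer sizes in `SL₂(2^p)`**, `p` prime. -/
theorem sol_count (h2 : (2 : F) = 0) (p : ℕ) (hp : p.Prime) (hF : Fintype.card F = 2 ^ p)
    (x : SL2 F) :
    (orderOf x = 2 →
      Nat.card {y : SL2 F // Group.IsSolvable (Subgroup.closure ({x, y} : Set (SL2 F)))} =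
        3 * 2 ^ p * (2 ^ p - 1)) ∧
    (x ≠ 1 → orderOf x ∣ 2 ^ p - 1 →
      Nat.card {y : SL2 F // Group.IsSolvable (Subgroup.closure ({x, y} : Set (SL2 F)))} =
        2 * 2 ^ p * (2 ^ p - 1)) ∧
    (x ≠ 1 → orderOf x ∣ 2 ^ p + 1 →
      Nat.card {y : SL2 F // Group.IsSolvable (Subgroup.closure ({x, y} : Set (SL2 F)))} =
        2 * (2 ^ p + 1)) := by
  refine ⟨?_, ?_, ?_⟩
  · intro ho
    have hxx : x * x = 1 := by
      have := pow_orderOf_eq_one x
      rw [ho, sq] at this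
      exact this
    have hx1 : x ≠ 1 := by
      rintro rfl
      rw [orderOf_one] at ho
      omega
    obtain ⟨g, hg⟩ := inv_conj_u h2 x hxx hx1
    have h := sol_card_equiv (MulAut.conj g) x
    rw [MulAut.conj_apply, hg] at h
    rw [h]
    exact count_u h2 p hp hF
  · intro hx1 hord
    obtain ⟨htr, m, hm⟩ := exists_root_of_order h2 p hp hF x hx1 hord
    obtain ⟨g, a, ha, ha1, hg⟩ := exists_conj_dg h2 x htr m hm
    have h := sol_card_equiv (MulAut.conj g) x
    rw [MulAut.conj_apply, hg] at h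
    rw [h]
    exact count_dg h2 p hp hF a ha ha1
  · intro hx1 hord
    obtain ⟨htr, hno⟩ := no_root_of_order h2 p hp hF x hx1 hord
    exact count_ns h2 p hp hF x htr hno

end count

end Cfsg.Agent.Helper40.SolEven
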